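import Cfsg.Agent.Wb.BW

/-! Blocks: outer elements centralising `Se ε` are graph automorphisms. -/

set_option autoImplicit false
set_option linter.unusedSectionVars false

namespace CF.Wb

open Matrix Subgroup CF.BG Module

variable {F : Type} [Field F] [Fintype F] {n : ℕ} {T : Ty F} {G : Type*} [Group G] [Finite G]

namespace Bk

variable {v φ x : V n F} {z : F} {e : G} {m : Md T n G} {ε : R n F}

theorem tv_nil (t : T.Tv v φ) : IsNilpotent (vecMulVec v φ) := ⟨2, (pow_two _).trans t.sq⟩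

theorem tv_smul (t : T.Tv v φ) (h : z ≠ 0) (b : T.u → T.bar z = z) : T.Tv v (z • φ) :=
  ⟨t.1, smul_ne_zero h t.2.1, by rw [smul_dotProduct, t.2.2.1, smul_zero], fun u => by
    obtain ⟨γ, h1, h2⟩ := t.2.2.2 u
    exact ⟨z * γ, by rw [map_mul, b u, h1, mul_neg], by rw [h2, smul_smul]⟩⟩

theorem inv_tv (t : T.Tv v φ) {μ : R n F} :
    (1 + μ) * (1 + vecMulVec v φ) = 1 ↔ μ = -vecMulVec v φ := by
  have e : (1 + vecMulVec v φ) * (1 - vecMulVec v φ) = 1 := by
    rw [mul_sub, mul_one, add_mul, one_mul, t.sq, add_zero, add_sub_cancel_right]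
  refine ⟨fun h => ?_, fun h => ?_⟩
  · have := congrArg (· * (1 - vecMulVec v φ)) h
    simp only [mul_assoc, e, mul_one, one_mul] at this
    rw [← neg_add_cancel_left 1 μ, this, sub_eq_add_neg, neg_add_cancel_left]
  · rw [h, ← sub_eq_add_neg]
    exact mul_eq_one_comm.1 e

theorem two_ne {p : ℕ} (hr : p ≠ T.r) (h : p = 2) : (2 : F) ≠ 0 := fun e => by
  have := T.char
  exact hr (h.trans ((Nat.prime_dvd_prime_iff_eq T.pr Nat.prime_two).1
    ((CharP.cast_eq_zero_iff F T.r 2).1 (by exact_mod_cast e))).symm)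

theorem p_two {p : ℕ} (hp : p.Prime) (he : e ^ p = 1) (hM : e ∉ m.M) (h : e * e ∈ m.M) : p = 2 := by_contra fun n => by
  obtain ⟨k, rfl⟩ := hp.odd_of_ne_two n
  rw [pow_succ, pow_mul, pow_two] at he
  exact hM (eq_inv_of_mul_eq_one_right he ▸ inv_mem (pow_mem h k))

theorem sc_of {B : GL (Fin n) F} (h : ∀ a, cn B a = a) : Sc (B : R n F) := cn_eq_one.1 (Equiv.ext h)

theorem vv_cn (B : GL (Fin n) F) (v φ : V n F) :
    cn B (vecMulVec v φ) = vecMulVec ((B : R n F) *ᵥ v) (φ ᵥ* ((B⁻¹ : GL (Fin n) F) : R n F)) := by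
  rw [cn_apply, mul_vecMulVec, vecMulVec_mul]

theorem gl_ne (B : GL (Fin n) F) (h : v ≠ 0) : (B : R n F) *ᵥ v ≠ 0 := fun e => h (by
  rw [← one_mulVec v, ← B.inv_mul, ← mulVec_mulVec, e, mulVec_zero])

/-- the conclusion -/
def Gr (m : Md T n G) (e : G) : Prop :=
  ∃ Y : AddSubgroup (V n F), Submodule.span F (Y : Set (V n F)) = ⊤ ∧ ∀ v ∈ Y, v ≠ 0 →
    ∃ φ, T.Tv v φ ∧ ((m.Lin e ∧ m.ρ e (vecMulVec v φ) = vecMulVec v φ) ∨
      (m.Du e ∧ m.ρ e (vecMulVec v φ) = -vecMulVec v φ))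

theorem grL {p : ℕ} (hp : p.Prime) (hr : p ≠ T.r) (he : e ^ p = 1) (hM : e ∉ m.M) (hu : ¬ T.u) (d : m.Du e)
    (t : T.Tv v φ) (h : ∀ z : F, z ≠ 0 → m.ρ e (vecMulVec v (z • φ)) = -vecMulVec v (z • φ)) : Gr m e := by
  obtain ⟨B, σ, hB⟩ := m.ex_du d
  have h1 := h 1 one_ne_zero
  rw [one_smul] at h1
  have hs (z : F) (a : R n F) : m.ρ e (z • a) = σ z • m.ρ e a := by
    rw [hB, hB, Matrix.map_smul' _ _ _ (map_mul σ), transpose_smul, cn_apply, cn_apply, mul_smul_comm, smul_mul_assoc]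
  have hσ (z : F) : σ z = z := by
    rcases eq_or_ne z 0 with rfl | k
    · exact map_zero σ
    · have := h z k
      rw [vecMulVec_smul, hs, h1, smul_neg, neg_inj] at this
      exact smul_inj t.ne this
  replace hB (a : R n F) : m.ρ e a = cn B aᵀ := by
    rw [hB]; congr; ext i j; exact hσ _
  have p2 : p = 2 := p_two hp he hM (m.mem_M_of (fun a b => by simp only [map_mul, Equiv.Perm.mul_apply, d _ _])
    fun z => by rw [map_mul, Equiv.Perm.mul_apply, hs, hs, m.one, m.one, hσ, hσ])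
  have ee : e * e = 1 := by rw [← pow_two, ← p2, he]
  let C : GL (Fin n) F := ⟨(B : R n F)ᵀ, ((B⁻¹ : GL (Fin n) F) : R n F)ᵀ, by rw [← transpose_mul, B.inv_mul, transpose_one],
    by rw [← transpose_mul, B.mul_inv, transpose_one]⟩
  obtain ⟨κ, hκ⟩ := sc_of (B := B * C⁻¹) fun a => by
    have : m.ρ e (m.ρ e a) = a := by rw [← Equiv.Perm.mul_apply, ← map_mul, ee, map_one, Equiv.Perm.one_apply]
    rw [hB, hB, cn_apply B aᵀ, transpose_mul, transpose_mul, transpose_transpose, ← mul_assoc] at this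
    rw [map_mul, Equiv.Perm.mul_apply]
    exact this
  rw [Units.val_mul, Units.mul_inv_eq_iff_eq_mul, smul_mul_assoc, one_mul] at hκ
  have hκ' : (B : R n F) = κ • (B : R n F)ᵀ := hκ
  have k1 : κ = -1 := by
    rw [hB, transpose_vecMulVec, cn_apply, Units.mul_inv_eq_iff_eq_mul, neg_mul, vecMulVec_mul, mul_vecMulVec,
      ← mulVec_transpose] at h1
    have x0 : (B : R n F)ᵀ *ᵥ φ ≠ 0 := gl_ne C t.2.1
    conv_lhs at h1 => rw [hκ', smul_mulVec]
    generalize (B : R n F)ᵀ *ᵥ φ = x at h1 x0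
    obtain ⟨i, hi⟩ := Function.ne_iff.1 t.1
    obtain ⟨j, hj⟩ := Function.ne_iff.1 x0
    have q (a b) : κ * x a * v b = -(v a * x b) := congrFun (congrFun h1 a) b
    by_cases c : x i = 0
    · have := q i j
      rw [c, mul_zero, zero_mul, eq_comm, neg_eq_zero, mul_eq_zero] at this
      exact (this.elim hi hj).elim
    · exact mul_right_cancel₀ (mul_ne_zero c hi) (by linear_combination q i i)
  rw [k1, neg_one_smul] at hκ'
  refine ⟨⊤, by simp, fun y _ y0 => ⟨((B⁻¹ : GL (Fin n) F) : R n F) *ᵥ y, ⟨y0, gl_ne _ y0, ?_, fun u => (hu u).elim⟩, .inr ⟨d, ?_⟩⟩⟩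
  all_goals
    obtain ⟨x, rfl⟩ : ∃ x, y = (B : R n F) *ᵥ x := ⟨((B⁻¹ : GL (Fin n) F) : R n F) *ᵥ y, by
      rw [mulVec_mulVec, B.mul_inv, one_mulVec]⟩
    rw [mulVec_mulVec, B.inv_mul, one_mulVec]
  · refine mul_left_cancel₀ (two_ne hr p2) ?_
    have : x ⬝ᵥ (B : R n F) *ᵥ x = -(x ⬝ᵥ (B : R n F) *ᵥ x) := by
      conv_lhs => rw [hκ', neg_mulVec, dotProduct_neg, mulVec_transpose, dotProduct_comm, ← dotProduct_mulVec]
    linear_combination this
  · rw [hB, transpose_vecMulVec, vv_cn, ← vecMulVec_neg]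
    congr 1
    conv_lhs => rw [hκ', neg_mulVec, mulVec_transpose, neg_vecMul, vecMul_vecMul, B.mul_inv, vecMul_one]

theorem bv_mul (u : T.u) {A : GL (Fin n) F} (hA : A ∈ T.Γ n) (x : V n F) :
    T.bv x ᵥ* ((A⁻¹ : GL (Fin n) F) : R n F) = T.bv ((A : R n F) *ᵥ x) := by
  rw [← Ty.st_inv u hA, Ty.st, vecMul_transpose]
  ext i
  simp [Ty.bv, mulVec, dotProduct]

theorem bv_bv (u : T.u) (x : V n F) : T.bv (T.bv x) = x := funext fun _ => Ty.bar_bar u _

theorem bv_add (x y : V n F) : T.bv (x + y) = T.bv x + T.bv y := funext fun _ => map_add _ _ _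

theorem bv_neg (x : V n F) : T.bv (-x) = -T.bv x := funext fun _ => map_neg _ _

theorem bv_smul (z : F) (x : V n F) : T.bv (z • x) = T.bar z • T.bv x := funext fun _ => map_mul _ _ _

theorem bv_ne (h : x ≠ 0) : T.bv x ≠ 0 := fun e => h (funext fun i => T.bar.injective ((congrFun e i).trans (map_zero _).symm))

theorem grU {p : ℕ} (hp : p.Prime) (hr : p ≠ T.r) (he : e ^ p = 1) (hM : e ∉ m.M) (u : T.u) (l : m.Lin e)
    (t : T.Tv v φ) (h : ∀ z : F, z ≠ 0 → T.bar z = z → m.ρ e (vecMulVec v (z • φ)) = vecMulVec v (z • φ)) : Gr m e := by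
  obtain ⟨A, hA, σ, hB⟩ := m.ex_lin l
  have h1 := h 1 one_ne_zero (map_one _)
  rw [one_smul] at h1
  have hs (z : F) (a : R n F) : m.ρ e (z • a) = σ z • m.ρ e a := by
    rw [hB, hB, Matrix.map_smul' _ _ _ (map_mul σ), cn_apply, cn_apply, mul_smul_comm, smul_mul_assoc]
  obtain rfl | rfl := Ty.aut_fix u σ fun z b => by
    rcases eq_or_ne z 0 with rfl | k
    · exact map_zero σ
    · have := h z k b
      rw [vecMulVec_smul, hs, h1] at this
      exact smul_inj t.ne this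
  · exact (hM (m.mem_M_of l fun z => by rw [hs, m.one]; rfl)).elim
  have p2 : p = 2 := p_two hp he hM (m.mem_M_of (fun a b => by simp only [map_mul, Equiv.Perm.mul_apply, l _ _])
    fun z => by rw [map_mul, Equiv.Perm.mul_apply, hs, hs, m.one, m.one, Ty.bar_bar u])
  have ee : e * e = 1 := by rw [← pow_two, ← p2, he]
  obtain ⟨τ, hτ⟩ : ∃ τ : V n F → V n F, ∀ x, τ x = (A : R n F) *ᵥ T.bv x := ⟨_, fun _ => rfl⟩
  have vv (x y : V n F) : m.ρ e (vecMulVec x (T.bv y)) = vecMulVec (τ x) (T.bv (τ y)) := by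
    rw [hB, hτ, hτ, ← bv_mul u hA, ← vv_cn]
    congr 1
    ext i j
    simp [vecMulVec_apply, Ty.bv]
  have τs (z : F) (x : V n F) : τ (z • x) = T.bar z • τ x := by rw [hτ, hτ, bv_smul, mulVec_smul]
  have τa (x y : V n F) : τ (x + y) = τ x + τ y := by rw [hτ, hτ, hτ, bv_add, mulVec_add]
  have τn (x : V n F) : τ (-x) = -τ x := by rw [hτ, hτ, bv_neg, mulVec_neg]
  have τh (x : V n F) : T.h (τ x) (τ x) = T.h x x := by
    rw [hτ, Ty.h_Γ u hA, Ty.h, bv_bv u, dotProduct_comm]; rfl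
  obtain ⟨γ, hγ, rfl⟩ := t.2.2.2 u
  have γ0 : γ ≠ 0 := fun e => t.2.1 (by rw [e, zero_smul])
  rw [vecMulVec_smul, hs, vv, hγ, neg_smul, ← smul_neg] at h1
  replace h1 := smul_right_injective _ γ0 h1
  obtain ⟨j, hj⟩ := Function.ne_iff.1 (bv_ne (T := T) t.1)
  obtain ⟨c, hc⟩ : ∃ c : F, v = c • τ v := ⟨-(T.bv (τ v) j) / T.bv v j, funext fun i => by
    have : -(τ v i * T.bv (τ v) j) = v i * T.bv v j := congrFun (congrFun h1 i) j
    have hj : T.bv v j ≠ 0 := hj
    rw [Pi.smul_apply, smul_eq_mul]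
    field_simp
    linear_combination -this⟩
  have c0 : c ≠ 0 := fun e => t.1 (by rw [hc, e, zero_smul])
  obtain ⟨y, hy⟩ : ∃ y : F, τ v = y • v := ⟨c⁻¹, by conv_rhs => rw [hc, inv_smul_smul₀ c0]⟩
  have vn : vecMulVec v (T.bv v) ≠ 0 := fun e => t.ne (by rw [vecMulVec_smul, e, smul_zero])
  have yy : y * T.bar y = -1 := smul_inj vn (by
    rw [hy, bv_smul, vecMulVec_smul, smul_vecMulVec, smul_smul, neg_eq_iff_eq_neg] at h1
    rw [mul_comm, h1, neg_one_smul])
  have tt (x : V n F) : τ (τ x) = -x := by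
    have k (a : R n F) : m.ρ e (m.ρ e a) = a := by rw [← Equiv.Perm.mul_apply, ← map_mul, ee, map_one, Equiv.Perm.one_apply]
    have := k (vecMulVec x (T.bv v))
    rw [vv, vv, hy, τs, hy, smul_smul, mul_comm, yy, neg_one_smul, bv_neg, vecMulVec_neg] at this
    refine funext fun i => mul_right_cancel₀ hj ?_
    have : -(τ (τ x) i * T.bv v j) = x i * T.bv v j := congrFun (congrFun this i) j
    rw [Pi.neg_apply]
    linear_combination -this
  let Y : AddSubgroup (V n F) :=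
    { carrier := {x | τ x = y • x}
      zero_mem' := by simpa using τs 0 0
      add_mem' := fun {a b} (p : τ a = _) (q : τ b = _) => show τ _ = _ by rw [τa, p, q, smul_add]
      neg_mem' := fun {a} (p : τ a = _) => show τ _ = _ by rw [τn, p, smul_neg] }
  refine ⟨Y, eq_top_iff.2 fun x _ => ?_, fun x (p : τ x = _) x0 => ⟨γ • T.bv x, Ty.tv_of u x0 ?_ γ0 hγ, .inl ⟨l, ?_⟩⟩⟩
  · have k (a : F) : a • x - (T.bar y * T.bar a) • τ x ∈ Submodule.span F (Y : Set (V n F)) :=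
      Submodule.subset_span (show τ _ = _ by
        rw [sub_eq_add_neg, τa, τn, τs, τs, tt, map_mul, Ty.bar_bar u, Ty.bar_bar u, smul_add, smul_neg, smul_neg, neg_neg,
          smul_smul, smul_smul, ← mul_assoc, yy, neg_one_mul, neg_smul, neg_neg, add_comm])
    obtain ⟨a, ha⟩ := Ty.ex_nb u
    have := sub_mem (k a) (Submodule.smul_mem _ (T.bar a) (k 1))
    rw [map_one, mul_one, one_smul, smul_sub, smul_smul, mul_comm (T.bar a), sub_sub_sub_cancel_right, ← sub_smul] at this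
    exact (Submodule.smul_mem_iff _ (sub_ne_zero.2 ha.symm)).1 this
  · have := τh x
    rw [p, Ty.h_smul_left, Ty.h_smul_right, ← mul_assoc, yy] at this
    exact mul_left_cancel₀ (two_ne hr p2) (by linear_combination -this)
  · rw [vecMulVec_smul, hs, vv, p, bv_smul, vecMulVec_smul, smul_vecMulVec, smul_smul, smul_smul, mul_assoc,
      mul_comm _ y, yy, hγ, mul_neg_one, neg_neg]

end Bk

open Bk

theorem Md.gr (m : Md T n G) {e : G} {p : ℕ} (hp : p.Prime) (hr : p ≠ T.r) (he : e ^ p = 1)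
    (hM : e ∉ m.M) {ε : R n F} (hi : T.Id ε) (h2 : 2 ≤ ε.rank)
    (hc : ∀ k : G, ∀ s ∈ T.Se ε, m.ρ k = cn s → Commute e k) :
    ∃ Y : AddSubgroup (V n F), Submodule.span F (Y : Set (V n F)) = ⊤ ∧ ∀ v ∈ Y, v ≠ 0 →
      ∃ φ, T.Tv v φ ∧ ∀ (k : G) (A : GL (Fin n) F), (A : R n F) = 1 + vecMulVec v φ →
        m.ρ k = cn A → Commute e k := by
  obtain ⟨v, φ, t, s⟩ := Ty.ex_tv hi h2
  have k (z : F) (z0 : z ≠ 0) (b : T.u → T.bar z = z) :
      (m.Lin e ∧ m.ρ e (vecMulVec v (z • φ)) = vecMulVec v (z • φ)) ∨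
      (m.Du e ∧ m.ρ e (vecMulVec v (z • φ)) = -vecMulVec v (z • φ)) := by
    have t' := tv_smul t z0 b
    obtain ⟨A, hA, e⟩ := t'.se (ε := ε) ⟨s.1, by rw [smul_vecMul, s.2]⟩
    obtain ⟨k, hk⟩ := m.sur A hA.1
    exact ((m.comm_un (tv_nil t') e hk).1 (hc k A hA hk)).imp_right (And.imp_right (inv_tv t').1)
  have : Gr m e := by
    rcases m.lin_or e with l | ⟨d, u, -⟩
    · have k' (z z0 b) := ((k z z0 b).resolve_right fun x => m.not_lin_du l x.1).2
      by_cases u : T.u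
      · exact grU hp hr he hM u l t fun z z0 b => k' z z0 fun _ => b
      · obtain ⟨σ, hs⟩ := m.smul e
        refine (hM (m.mem_M_of l fun z => ?_)).elim
        rcases eq_or_ne z 0 with rfl | z0
        · rw [zero_smul, m.zero]
        · have h1 := k' 1 one_ne_zero fun x => (u x).elim
          have := k' z z0 fun x => (u x).elim
          rw [one_smul] at h1
          rw [vecMulVec_smul, hs, h1] at this
          rw [hs, m.one, smul_inj t.ne this]
    · exact grL hp hr he hM u d t fun z z0 => ((k z z0 fun x => (u x).elim).resolve_left fun x => m.not_lin_du x.1 d).2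
  obtain ⟨Y, h1, h⟩ := this
  refine ⟨Y, h1, fun x mx x0 => (h x mx x0).imp fun ψ q => ⟨q.1, fun k A e hk => (m.comm_un (tv_nil q.1) e hk).2 ?_⟩⟩
  exact q.2.imp_right (And.imp_right (inv_tv q.1).2)

end CF.Wb
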