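import Cfsg.Agent.Wb.BA
import Cfsg.Agent.Wb.GR

/-! Blocks: the stabiliser of a decomposition with large blocks is impossible. -/

set_option autoImplicit false
set_option linter.unusedSectionVars false

namespace CF.Wb

open Matrix Subgroup CF.BG Module

variable {F : Type} [Field F] [Fintype F] {n : ℕ} {T : Ty F} {G : Type*} [Group G] [Finite G]

namespace Bk

variable {a b ε δ : R n F} {s A : GL (Fin n) F} {v φ : V n F} {X : Set (R n F)}

theorem cn_st (u : T.u) (hs : s ∈ T.Γ n) (a : R n F) : T.st (cn s a) = cn s (T.st a) := by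
  rw [cn_apply, cn_apply, T.st_mul, T.st_mul, Ty.st_inv u hs, Ty.st_inv u (inv_mem hs), inv_inv, mul_assoc]

theorem cn_id (hs : s ∈ T.Γ n) (h : T.Id ε) : T.Id (cn s ε) :=
  ⟨by rw [cn_mm, h.1], fun u => by rw [cn_st u hs, h.2 u]⟩

theorem cn_rank (s : GL (Fin n) F) (a : R n F) : (cn s a).rank = a.rank := by
  have k (s : GL (Fin n) F) (a : R n F) : (cn s a).rank ≤ a.rank := by
    rw [cn_apply]
    exact (Matrix.rank_mul_le_left _ _).trans (Matrix.rank_mul_le_right _ _)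
  exact (k s a).antisymm (by simpa only [cn_inv] using k s⁻¹ (cn s a))

theorem cn_cm (h : ((s⁻¹ * A * s : GL (Fin n) F) : R n F) * ε = ε * (s⁻¹ * A * s : GL (Fin n) F)) :
    (A : R n F) * cn s ε = cn s ε * A := by
  have := cn_fix.2 h
  rw [map_mul, map_mul, Equiv.Perm.mul_apply, Equiv.Perm.mul_apply, map_inv, Equiv.Perm.inv_eq_iff_eq] at this
  exact cn_fix.1 this

theorem cn_cm' (h : (A : R n F) * cn s ε = cn s ε * A) :
    ((s⁻¹ * A * s : GL (Fin n) F) : R n F) * ε = ε * (s⁻¹ * A * s : GL (Fin n) F) :=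
  cn_fix.1 (by rw [map_mul, map_mul, Equiv.Perm.mul_apply, Equiv.Perm.mul_apply, cn_fix.2 h, cn_inv])

theorem Sy_map {D : Finset (R n F)} (h : T.Sy D) (hs : s ∈ T.Γ n) : T.Sy (D.map (cn s).toEmbedding) := by
  refine ⟨?_, ?_, ?_, ?_, by rw [Finset.card_map]; exact h.two, fun u => ?_⟩
  · simp only [Finset.forall_mem_map, Equiv.coe_toEmbedding]
    exact fun ε m => (cn_id hs (Sy_id h m)).1
  · simp only [Finset.forall_mem_map, Equiv.coe_toEmbedding]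
    exact fun ε m e => h.ne ε m ((cn s).injective (e.trans (cn_zero s).symm))
  · simp only [Finset.forall_mem_map, Equiv.coe_toEmbedding]
    exact fun ε m δ m' e => by rw [cn_mm, h.orth ε m δ m' fun x => e (x ▸ rfl), cn_zero]
  · simp only [Finset.sum_map, Equiv.coe_toEmbedding, cn_apply]
    rw [← Finset.sum_mul, ← Finset.mul_sum, h.sum, mul_one, s.mul_inv]
  · simp only [Finset.forall_mem_map, Equiv.coe_toEmbedding]
    exact fun ε m => (cn_id hs (Sy_id h m)).2 u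

theorem ex_nb (hi : ∀ ε ∈ X, ε * ε = ε) (ho : ∀ ε ∈ X, ∀ δ ∈ X, ε ≠ δ → ε * δ = 0)
    (h : ∀ ε ∈ X, ε ≠ 1) (h0 : ε ≠ 0) {Y : AddSubgroup (V n F)} (hY : Submodule.span F (Y : Set (V n F)) = ⊤) :
    ∃ v ∈ Y, v ≠ 0 ∧ ∀ ε ∈ X, ε *ᵥ v ≠ v := by
  have k {a : R n F} (i : a * a = a) (ne : a ≠ 1) : ∃ v ∈ Y, a *ᵥ v ≠ v := by
    by_contra! k
    have : ⊤ ≤ rg a := hY ▸ Submodule.span_le.2 fun x m => (mem_rg_id i).2 (k x m)
    exact ne (mx fun x => by rw [one_mulVec]; exact (mem_rg_id i).1 (this trivial))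
  by_contra! c
  obtain ⟨x, mx, x0⟩ := k (a := 0) (zero_mul _) fun e => h0 (by rw [← mul_one ε, ← e, mul_zero])
  rw [zero_mulVec] at x0
  obtain ⟨a, ma, ha⟩ := c x mx x0.symm
  obtain ⟨y, my, hy⟩ := k (hi a ma) (h a ma)
  obtain ⟨b, mb, hb⟩ := c y my fun e => hy (by rw [e, mulVec_zero])
  have ab : a *ᵥ y = 0 := by rw [← hb, mulVec_mulVec, ho a ma b mb fun e => hy (e ▸ hb), zero_mulVec]
  have e : a *ᵥ (x + y) = x := by rw [mulVec_add, ha, ab, add_zero]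
  obtain ⟨d, md, hd⟩ := c _ (add_mem mx my) fun z => x0 (by rw [← e, z, mulVec_zero])
  by_cases ad : a = d
  · rw [← ad, e, left_eq_add] at hd
    exact hy (by rw [hd, mulVec_zero])
  · exact x0 (by rw [← e, ← hd, mulVec_mulVec, ho a ma d md ad, zero_mulVec])

theorem lift_H (c : Cx T n G) (h : c.H = c.m.St X) (hs : s ∈ T.S n) (k : s ∈ PS X) : s ∈ c.m.lift c.H :=
  h ▸ c.m.lift_St hs k

theorem lift_le (c : Cx T n G) (h : c.H ≤ c.m.St X) {K : Subgroup G} (l : K ≤ c.H) : c.m.lift K ≤ PS X :=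
  (c.m.lift_mono (l.trans h)).trans (c.m.lift_St_le X)

/-- outer central elements -/
theorem outer (c : Cx T n G) (hp : c.p ≠ T.r) (hB : c.CB) (h : c.H = c.m.St X) (i : T.Id ε) (h2 : 2 ≤ ε.rank)
    (l : T.Se ε ≤ PS X) (hi : ∀ ε ∈ X, ε * ε = ε) (ho : ∀ ε ∈ X, ∀ δ ∈ X, ε ≠ δ → ε * δ = 0) (h1 : ∀ ε ∈ X, ε ≠ 1) :
    ∃ v φ, T.Tv v φ ∧ (∀ ε ∈ X, ε *ᵥ v ≠ v) ∧ ∃ A ∈ PS X, (A : R n F) = 1 + vecMulVec v φ := by
  obtain ⟨e, -, e1, e2, e3⟩ := c.tw.central c.m.comm_mem_M hB.1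
  obtain ⟨Y, hY, k⟩ := c.m.gr c.tw.pr hp e1 e2 i h2 fun k s m hk => (mem_centralizer_singleton_iff.1
    (e3 ▸ c.m.mem_of_lift (lift_H c h m.1 (l m)) hk) : Commute k e).symm
  obtain ⟨v, mv, v0, nb⟩ := ex_nb hi ho h1 (rank_pos (a := ε) (by omega)) hY
  obtain ⟨φ, t, k⟩ := k v mv v0
  obtain ⟨A, hA, e⟩ := t.un
  obtain ⟨g, hg⟩ := c.m.sur A hA
  exact ⟨v, φ, t, nb, A, lift_le c h.le le_rfl (c.m.mem_lift.2 ⟨hA.1, g,
    e3 ▸ mem_centralizer_singleton_iff.2 (k g A e hg).symm, hg⟩), e⟩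

end Bk

open Bk

theorem Cx.q_blk (c : Cx T n G) (hp : c.p ≠ T.r) {D : Finset (R n F)} {k : ℕ} (h : c.Eq D k)
    (h2 : 2 ≤ k) : ∀ A ∈ c.m.lift c.Q, ∀ ε ∈ D, (A : R n F) * ε = ε * A := by
  refine fun A hA ε me => cn_fix.1 (by_contra fun ne => ?_)
  have me' : cn A ε ∈ D := (mem_PS.1 (lift_le c h.le c.tw.Qn.1 hA) ε).2 me
  obtain ⟨v, φ, t, s⟩ := Ty.ex_tv (Sy_id h.sy me) (h.rk ε me ▸ h2)
  obtain ⟨B, hB, e⟩ := t.se s
  have m := mul_mem hA (c.m.lift_conj c.tw.Qn.2 (lift_H c h.eq hB.1 (h.sy.Se_le me hB)) (inv_mem hA))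
  have o1 : cn A (vecMulVec v φ) * vecMulVec v φ = 0 := by
    have : cn A ε * vecMulVec v φ = 0 := by rw [← sup_l s, ← mul_assoc, h.sy.orth _ me' _ me ne, zero_mul]
    calc _ = cn A (vecMulVec v φ * ε) * vecMulVec v φ := by rw [sup_r s]
      _ = 0 := by rw [← cn_mm, mul_assoc, this, mul_zero]
  have o0 : ε * cn A (vecMulVec v φ) = 0 := by
    rw [← sup_l s, ← cn_mm, ← mul_assoc, h.sy.orth _ me _ me' (Ne.symm ne), zero_mul]
  have o2 : vecMulVec v φ * cn A (vecMulVec v φ) = 0 := by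
    conv_lhs => rw [← sup_r s, mul_assoc, sup_r s, o0, mul_zero]
  have ei : ((B⁻¹ : GL (Fin n) F) : R n F) = 1 + -vecMulVec v φ :=
    Units.inv_eq_of_mul_eq_one_left (by rw [e]; exact (inv_tv t).2 rfl)
  have ev : ((A * (B * A⁻¹ * B⁻¹) : GL (Fin n) F) : R n F) = 1 + (cn A (vecMulVec v φ) - vecMulVec v φ) := by
    rw [← mul_assoc, ← mul_assoc, Units.val_mul, Units.val_mul, Units.val_mul, ei, e, mul_add (A : R n F), add_mul, mul_one,
      A.mul_inv, ← cn_apply, add_mul, mul_add (cn A _), mul_neg, o1, one_mul, mul_one]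
    abel
  obtain ⟨j, hj⟩ := c.m.lift_pow c.tw.Qp m
  rw [ev] at hj
  have := T.pow_sc c.tw.pr hp (by rw [mul_sub, sub_mul, sub_mul, cn_mm, t.sq, cn_zero, o1, o2]; simp) hj
  rw [sub_eq_zero.1 this, sup_l s] at o0
  exact t.ne o0

theorem Cx.blkA (c : Cx T n G) (hp : c.p ≠ T.r) {D : Finset (R n F)} {k : ℕ} (h : c.Eq D k)
    (h2 : 2 ≤ k) (hx : ¬ (T.u ∧ T.q = 2 ∧ k = 2)) (hA : c.CA) : False := by
  obtain ⟨s, hs, hg⟩ := c.g0
  have e := Ty.ba h.sy (Sy_map h.sy hs.1) h.rk (Finset.forall_mem_map.2 fun ε m => (cn_rank s ε).trans (h.rk ε m)) h2 hx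
    (E := c.m.lift c.P) inf_le_left (fun a m => c.q_blk hp h h2 a (c.m.lift_mono c.tw.h1.le m))
    (fun a m => Finset.forall_mem_map.2 fun ε me => cn_cm (c.q_blk hp h h2 _ (c.nb1 hs hg m) ε me))
    (fun t mt k a m => c.m.lift_conj c.tw.h1.nrm.2 (lift_H c h.eq mt k) m)
    (fun t mt k a m => lift_le c h.le le_rfl (c.nb2 hs hg m (lift_H c h.eq (mul_mem (mul_mem (inv_mem hs) mt) hs)
      (mem_stb_of fun ε me => by
        obtain ⟨δ, md, e⟩ := Finset.mem_map.1 ((mem_PS.1 k _).2 (Finset.mem_map_of_mem (cn s).toEmbedding me))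
        rw [map_mul, map_mul, Equiv.Perm.mul_apply, Equiv.Perm.mul_apply]
        exact (show cn s⁻¹ (cn t (cn s ε)) = δ from e ▸ cn_inv s δ) ▸ md))))
    fun t mt k => lift_le c h.le le_rfl (c.mem_of_cen hA c.PM inf_le_right mt ((c.m.lift_inf_M c.P).symm ▸ k))
  exact c.ne_img h.eq hg (mem_stb_of fun ε me => show cn s ε ∈ D from e ▸ Finset.mem_map_of_mem (cn s).toEmbedding me)

theorem Cx.twA (c : Cx T n G) {ε : R n F} (h : c.Tw ε) (hA : c.CA) : False := by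
  obtain ⟨s, hs, hg⟩ := c.g0
  have k {K : Subgroup G} (l : K ≤ c.H) {A : GL (Fin n) F} (m : A ∈ c.m.lift K) : (A : R n F) * ε = ε * A :=
    (mem_PS_tw h.rk).1 (lift_le c h.le l m)
  have e := Ty.ba2 c.m.ok h.id (cn_id hs.1 h.id) h.ne h.rk (cn_rank s ε) (E := c.m.lift c.P) inf_le_left
    (c.m.ex_nsc.1 hA) (fun a m => k c.tw.h1.nrm.1 m) (fun a m => cn_cm (k c.tw.Qn.1 (c.nb1 hs hg m)))
    (fun t mt q a m => c.m.lift_conj c.tw.h1.nrm.2 (lift_H c h.eq mt ((mem_PS_tw h.rk).2 q)) m)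
    fun t mt q a m => k le_rfl (c.nb2 hs hg m (lift_H c h.eq (mul_mem (mul_mem (inv_mem hs) mt) hs)
      ((mem_PS_tw h.rk).2 (cn_cm' q))))
  exact c.ne_img h.eq hg ((mem_PS_tw h.rk).2 (cn_fix.1 e.symm))

theorem Cx.blkB (c : Cx T n G) (hp : c.p ≠ T.r) {D : Finset (R n F)} {k : ℕ} (h : c.Eq D k)
    (h2 : 2 ≤ k) (hB : c.CB) : False := by
  obtain ⟨ε, me⟩ := Finset.card_pos.1 (two_pos.trans_le h.sy.two)
  obtain ⟨v, φ, t, nb, A, hA, e⟩ := outer c hp hB h.eq (Sy_id h.sy me) (h.rk ε me ▸ h2) (h.sy.Se_le me) h.sy.id h.sy.orth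
    fun ε me e => by
      obtain ⟨δ, md, ne⟩ := Finset.exists_mem_ne h.sy.two ε
      exact h.sy.ne δ md (by rw [← h.sy.orth δ md ε me ne, e, mul_one])
  refine t.2.1 ?_
  rw [← vecMul_one φ, ← h.sy.sum, vecMul_sum]
  exact Finset.sum_eq_zero fun ε me => (tv_fix h.sy.id h.sy.orth e hA me (h.rk ε me ▸ h2)).resolve_left (nb ε me)

theorem Cx.twB (c : Cx T n G) (hp : c.p ≠ T.r) {ε : R n F} (h : c.Tw ε) (hB : c.CB) : False := by
  have e0 : ε ≠ 0 := rank_pos (by have := h.two; omega)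
  have o1 : ε * (1 - ε) = 0 := by rw [mul_sub, h.id.1, mul_one, sub_self]
  have o2 : (1 - ε) * ε = 0 := by rw [sub_mul, h.id.1, one_mul, sub_self]
  have hi : ∀ δ ∈ ({ε, 1 - ε} : Set (R n F)), δ * δ = δ := by
    rintro _ (rfl | rfl)
    exacts [h.id.1, h.id.compl.1]
  have ho : ∀ δ ∈ ({ε, 1 - ε} : Set (R n F)), ∀ η ∈ ({ε, 1 - ε} : Set (R n F)), δ ≠ η → δ * η = 0 := by
    rintro _ (rfl | rfl) _ (rfl | rfl) ne
    exacts [(ne rfl).elim, o1, o2, (ne rfl).elim]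
  obtain ⟨v, φ, t, nb, A, hA, e⟩ := outer c hp hB h.eq h.id h.two (fun s m => (mem_PS_tw h.rk).2 (se_c m)) hi ho (by
    rintro _ (rfl | rfl)
    exacts [h.ne, fun e => e0 (sub_eq_self.1 e)])
  have k := (tv_fix hi ho e hA (.inl rfl) h.two).resolve_left (nb ε (.inl rfl))
  have := (mem_PS_tw h.rk).1 hA
  rw [e, add_mul, mul_add, one_mul, mul_one, add_right_inj, vecMulVec_mul, mul_vecMulVec, k, vecMulVec_zero, eq_comm,
    vecMulVec_eq_zero] at this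
  exact nb _ (.inr rfl) (by rw [sub_mulVec, one_mulVec, this.resolve_right t.2.1, sub_zero])

end CF.Wb
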