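import Cfsg.Agent.Wb.A
import Cfsg.Agent.BG.B8

/-! Abstract consequences of the Thompson-Wielandt data; numerics. -/

set_option autoImplicit false
set_option linter.unusedSectionVars false

namespace CF.Wb

open Matrix Subgroup CF.BG Module

variable {G : Type*} [Group G] [Finite G] {N H Q P P' : Subgroup G} {g : G} {p d : ℕ}

theorem TW.norm_eq (t : TW N H Q g p d P P') {K : Subgroup G} (h : K ≠ ⊥) (hK : K ⊴ H) :
    𝐍 K = H := by
  refine ((t.max.le_iff.1 hK.norm).resolve_left fun h1 => h ?_)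
  exact t.core K (normalizer_eq_top_iff.1 h1) hK.le

theorem TW.eq_of_le (t : TW N H Q g p d P P') {L : Subgroup G} (h : H ≤ L) (h' : ¬ N ≤ L) :
    H = L :=
  ((t.max.le_iff.1 h).resolve_left fun h1 => h' (h1 ▸ le_top)).symm

theorem TW.not_le_cj (t : TW N H Q g p d P P') {K : Subgroup G} (h : K ≠ ⊥) (hK : K ⊴ H) :
    ¬ K ≤ cj g K := fun h1 => t.gH (by
  rw [← t.norm_eq h hK, ← cj_eq_self]
  exact (eq_of_le_of_card_ge h1 (by simp)).symm)

theorem TW.cent1 (t : TW N H Q g p d P P') {e : G} (h1 : e ≠ 1) (he : e ∈ H)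
    (hc : ∀ h ∈ H, h * e = e * h) : 𝐂₁ e = H := by
  have h2 : H ≤ 𝐂₁ e := fun h hh => mem_cent1.2 (hc h hh)
  refine (t.max.le_iff.1 h2).resolve_left fun h3 => h1 ?_
  have : zpowers e = ⊥ := by
    refine t.core _ (normalizer_eq_top_iff.1 (top_le_iff.1 ?_)) (zpowers_le.2 he)
    rw [← h3, ← cent_zpowers]
    exact cent_le_norm _
  simpa using this

theorem TW.QN (t : TW N H Q g p d P P') (hN : N.Normal) : Q ⊓ N ≠ ⊥ := by
  intro h
  refine t.not_le_cj t.h1.ne t.h1.nrm fun e he => ?_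
  have h1 : g⁻¹ * e * g * e⁻¹ ∈ Q ⊓ N := by
    refine mem_inf.2 ⟨mul_mem (mem_cj.1 (t.h1.le1 he)) (inv_mem (t.h1.le he)), ?_⟩
    have := mul_mem (inv_mem t.gN) (hN.conj_mem _ t.gN e)
    simpa only [mul_assoc] using this
  rw [h, mem_bot, mul_inv_eq_one] at h1
  rw [mem_cj, h1]
  exact he

theorem TW.eq_one (t : TW N H Q g p d P P') {k : G} (hk : k ∈ Q)
    (ho : (orderOf k).Coprime p) : k = 1 := by
  obtain ⟨j, hj⟩ := t.Qp ⟨k, hk⟩
  have h1 : orderOf k ∣ p ^ j := orderOf_dvd_of_pow_eq_one (by simpa using congrArg Subtype.val hj)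
  exact orderOf_eq_one_iff.1 (Nat.eq_one_of_self_dvd_coprime h1 (ho.pow_right j))
where
  Nat.eq_one_of_self_dvd_coprime {a b : ℕ} (h : a ∣ b) (c : a.Coprime b) : a = 1 :=
    Nat.Coprime.eq_one_of_dvd c h

theorem TW.c2 (t : TW N H Q g p d P P') {L : Subgroup G} {k : G} (hk : k ∈ H)
    (ho : (orderOf k).Coprime p) (hL : ∀ a : G, a⁻¹ * k * a * k⁻¹ ∈ L)
    (h : ∀ a ∈ Q ⊓ L, Commute k a) : k = 1 := by
  refine t.eq_one (t.ch k hk fun a ha => ?_) ho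
  have hq : a⁻¹ * k * a * k⁻¹ ∈ Q := by
    have := mul_mem (inv_mem ha) (t.Qn.conj_mem hk ha)
    simpa only [mul_assoc] using this
  have hc := h _ (mem_inf.2 ⟨hq, hL a⟩)
  generalize hz : a⁻¹ * k * a * k⁻¹ = z at hq hc
  have h1 : k * a = a * z * k := by rw [← hz]; group
  have h2 : ∀ i : ℕ, k ^ i * a = a * z ^ i * k ^ i := by
    intro i
    induction i with
    | zero => simp
    | succ i ih =>
      rw [pow_succ', mul_assoc, ih, ← mul_assoc, ← mul_assoc, h1, mul_assoc (a * z),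
        (hc.pow_right i).eq, pow_succ' z]
      simp only [mul_assoc]
  have h3 := h2 (orderOf k)
  rw [pow_orderOf_eq_one, one_mul, mul_one, left_eq_mul] at h3
  have h4 : z = 1 := t.eq_one hq (Nat.Coprime.coprime_dvd_left (orderOf_dvd_of_pow_eq_one h3) ho)
  rw [h4, mul_one] at h1
  exact h1

theorem TW.meet (t : TW N H Q g p d P P') {K L : Subgroup G} (h : K ≠ ⊥) (hL : L ≤ Q)
    (hK : K ⊴ L) : K ⊓ 𝐂 L ≠ ⊥ := by
  have := Fact.mk t.pr
  exact Nil.inf_cent_ne_bot (t.Qp.to_le hL).isNilpotent hK h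

theorem TW.PZ (t : TW N H Q g p d P P') : P ⊓ 𝐂 Q ≠ ⊥ ∧ P ⊓ 𝐂 Q ⊴ H :=
  ⟨t.meet t.h1.ne le_rfl (t.h1.nrm.of_le t.h1.le t.Qn.le),
    inf_le_left.trans t.h1.nrm.le, norm_inf_cent t.h1.nrm.norm t.Qn.norm⟩

theorem TW.cen_P (t : TW N H Q g p d P P') {M : Subgroup G}
    (hM : ∀ a b : G, a * b * a⁻¹ * b⁻¹ ∈ M) (h : P ⊓ M = ⊥) {e : G} (he : e ∈ P) :
    ∀ k ∈ H, k * e = e * k := by
  intro k hk
  have : k * e * k⁻¹ * e⁻¹ ∈ P ⊓ M :=
    mem_inf.2 ⟨mul_mem (t.h1.nrm.conj_mem hk he) (inv_mem he), hM k e⟩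
  rwa [h, mem_bot, mul_inv_eq_one, mul_inv_eq_iff_eq_mul] at this

theorem TW.central (t : TW N H Q g p d P P') {M : Subgroup G}
    (hM : ∀ a b : G, a * b * a⁻¹ * b⁻¹ ∈ M) (h : P ⊓ M = ⊥) :
    ∃ e ∈ P, e ^ p = 1 ∧ e ∉ M ∧ 𝐂₁ e = H := by
  have := Fact.mk t.pr
  have h1 : IsPGroup p P := t.Qp.to_le t.h1.le
  have h2 : Nontrivial P := (Subgroup.nontrivial_iff_ne_bot _).2 t.h1.ne
  obtain ⟨j, hj, h3⟩ := h1.nontrivial_iff_card.1 h2
  obtain ⟨e, he⟩ := exists_prime_orderOf_dvd_card' (G := P) p (h3 ▸ dvd_pow_self p hj.ne')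
  have h4 : (e : G) ≠ 1 := fun h4 => t.pr.one_lt.ne' (by
    rw [← he, show e = 1 from Subtype.ext h4, orderOf_one])
  refine ⟨e, e.2, by simpa [he] using congrArg Subtype.val (pow_orderOf_eq_one e), fun h5 => h4 ?_,
    t.cent1 h4 (t.h1.nrm.le e.2) (t.cen_P hM h e.2)⟩
  rw [← mem_bot, ← h]
  exact mem_inf.2 ⟨e.2, h5⟩

theorem TW.fin (t : TW N H Q g p d P P') (hN : N.Normal) {M : Subgroup G}
    (hM : ∀ a b : G, a * b * a⁻¹ * b⁻¹ ∈ M) (h : P ⊓ M = ⊥) (h' : P' ⊓ M = ⊥)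
    (tor : (∀ a ∈ P, a ^ p = 1) → ♯P ≤ 2 * p) (hx : ∀ z ∈ Q ⊓ N, z ^ p = 1)
    (hc : ∀ z ∈ Q ⊓ N, z ≠ 1 → ∀ k ∈ H, (orderOf k).Coprime p →
      (∀ h ∈ H, Commute k (h * z * h⁻¹)) → k = 1) : ♯H ≤ Bn d := by
  refine t.h1.sl (fun k hk hK => ?_) ((tor fun a ha => ?_).trans ?_)
  · obtain ⟨e, he, -, hm, hC⟩ := t.flip.central hM h'
    have h1 : g * e * g⁻¹ * e⁻¹ ∈ Q ⊓ N := by
      refine mem_inf.2 ⟨mul_mem (mem_cj_inv.1 (t.h2.le1 he)) (inv_mem (t.h2.le he)), ?_⟩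
      have := mul_mem t.gN (hN.conj_mem _ (inv_mem t.gN) e)
      simpa only [mul_assoc] using this
    have h2 : g * e * g⁻¹ * e⁻¹ ≠ 1 := fun h2 => t.gH (by
      rw [← hC, mem_cent1]
      rwa [mul_inv_eq_one, mul_inv_eq_iff_eq_mul] at h2)
    have h3 : orderOf k ≠ 0 := (orderOf_pos k).ne'
    refine ⟨(orderOf k).factorization p, hc _ h1 h2 _ (pow_mem hk _) ?_ fun y hy => ?_⟩
    · rw [orderOf_pow' _ (pow_ne_zero _ t.pr.ne_zero), Nat.gcd_eq_right (Nat.ordProj_dvd _ _)]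
      exact (Nat.coprime_ordCompl t.pr h3).symm
    · refine Commute.pow_left ?_ _
      have a1 : k * e = e * k := mem_cent1.1 (hC ▸ hk)
      have a2 : y * e = e * y := mem_cent1.1 (hC ▸ hy)
      have a3 := mem_cent1.1 (hC ▸ mem_cj.1 (hK y hy))
      have a4 : Commute k (y * g * e * (y * g)⁻¹) := by
        have := congrArg (fun x => y * g * x * (y * g)⁻¹) a3
        simp only [← mul_assoc, mul_inv_cancel, one_mul, mul_inv_cancel_right,
          _root_.mul_inv_rev] at this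
        simpa only [Commute, SemiconjBy, ← mul_assoc, _root_.mul_inv_rev] using this
      have a5 : y * (g * e * g⁻¹ * e⁻¹) * y⁻¹ = y * g * e * (y * g)⁻¹ * e⁻¹ := by
        have : e⁻¹ * y⁻¹ = y⁻¹ * e⁻¹ := by rw [← _root_.mul_inv_rev, a2, _root_.mul_inv_rev]
        simp only [mul_assoc, _root_.mul_inv_rev, this]
      rw [a5]
      exact a4.mul_right (Commute.inv_right a1)
  · by_contra h1
    have h2 : g⁻¹ * a * g * a⁻¹ ∈ Q ⊓ N := by
      refine mem_inf.2 ⟨mul_mem (mem_cj.1 (t.h1.le1 ha)) (inv_mem (t.h1.le ha)), ?_⟩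
      have := mul_mem (inv_mem t.gN) (hN.conj_mem _ t.gN a)
      simpa only [mul_assoc] using this
    have h3 : Commute (g⁻¹ * a * g) a := t.cen_P hM h ha _ (t.Qn.le (mem_cj.1 (t.h1.le1 ha)))
    have h4 := hx _ h2
    rw [h3.inv_right.mul_pow, inv_pow, mul_inv_eq_one] at h4
    have h5 : g⁻¹ * a ^ p * g = a ^ p := by
      refine Eq.trans ?_ h4
      simpa using (conj_pow (i := p) (a := g⁻¹) (b := a)).symm
    refine t.gH ?_
    rw [← t.cent1 h1 (t.h1.nrm.le (pow_mem ha _)) (t.cen_P hM h (pow_mem ha _)), mem_cent1]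
    rw [← h5]
    conv_rhs => rw [h5]
    simp only [← mul_assoc, mul_inv_cancel, one_mul]
  · have := t.pd
    have h1 : ∀ j, 1 ≤ j → 2 * j ≤ 2 ^ j := fun j hj => by
      obtain ⟨i, rfl⟩ := Nat.exists_eq_add_of_le' hj
      have := @Nat.lt_two_pow_self i
      rw [pow_succ]
      omega
    have := h1 d (by have := t.d4; omega)
    omega

theorem rix_ne (A B : Subgroup G) : A.relIndex B ≠ 0 := Subgroup.index_ne_zero_of_finite

theorem TW.cyc (t : TW N H Q g p d P P') (hN : N.Normal) {C : Subgroup G} (h : C ≤ N)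
    (hc : IsCyclic C) (hn : C ⊴ H) {k : ℕ} (hi : C.relIndex (H ⊓ N) ≤ k) : ♯C ≤ d * k := by
  have h1 : C ⊓ cj g C = ⊥ := by
    by_contra h1
    refine t.not_le_cj h1 (Cyc.normalIn hc inf_le_left hn) ?_
    rw [le_cj_iff]
    exact (Cyc.eq_of_card hc (cj_le_iff.2 (by simpa using inf_le_right)) inf_le_left (by simp)).le
  have h2 : (cj g H).relIndex C ≤ d := by
    rw [← t.h1.idx]
    exact relIndex_le_of_le_right hn.le (rix_ne _ _)
  have h3 : ♯(cj g H ⊓ C) ≤ k := by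
    have a1 : cj g H ⊓ C ≤ cj g (H ⊓ N) := fun x hx => mem_cj.2
      (mem_inf.2 ⟨mem_cj.1 hx.1, by simpa using hN.conj_mem _ (h hx.2) g⁻¹⟩)
    have a2 := relIndex_le_of_le_right (H := cj g C) a1 (rix_ne _ _)
    rw [relIndex_cj, ← inf_relIndex_right, inf_left_comm, inf_comm (cj g C), h1, inf_bot_eq] at a2
    refine le_trans (le_of_eq ?_) (a2.trans hi)
    have := CF.Solv.card_inf_mul_relIndex ⊥ (cj g H ⊓ C)
    simpa using this.symm
  rw [← CF.Solv.card_inf_mul_relIndex (cj g H) C, mul_comm]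
  exact Nat.mul_le_mul h2 h3

theorem Bn_ge24 {d : ℕ} (hd : 5 ≤ d) : 24 ^ d ≤ Bn d := by
  have h1 : 24 ≤ (d - 1).factorial := Nat.factorial_le (m := 4) (by omega)
  exact (Nat.pow_le_pow_left h1 d).trans (Nat.le_mul_of_pos_left _ (Nat.factorial_pos d))

theorem Bn_ge {d : ℕ} (hd : 4 ≤ d) : 31104 ≤ Bn d := by
  rcases hd.eq_or_lt with rfl | hd
  · decide
  · exact le_trans (by norm_num) ((Nat.pow_le_pow_right (n := 24) (by norm_num) hd).trans (Bn_ge24 hd))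

theorem num_a (K : ℕ) (h : 10 ≤ K) : (K - 6) * (K + 2) ^ 2 + 1 < 2 ^ K := by
  induction K, h using Nat.le_induction with
  | base => norm_num
  | succ K h ih =>
    obtain ⟨j, rfl⟩ := Nat.exists_eq_add_of_le' h
    rw [pow_succ 2]
    have e1 : j + 10 - 6 = j + 4 := by omega
    have e2 : j + 10 + 1 - 6 = j + 5 := by omega
    rw [e1] at ih
    rw [e2]
    nlinarith [Nat.zero_le (j ^ 3), Nat.zero_le (j ^ 2)]

theorem num_b (d : ℕ) (h : 5 ≤ d) : 6 * (d + 5) * (d + 7) ^ 2 * d ≤ 24 ^ d := by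
  induction d, h using Nat.le_induction with
  | base => norm_num
  | succ d h ih =>
    rw [pow_succ 24]
    refine le_trans ?_ (Nat.mul_le_mul_right 24 ih)
    obtain ⟨j, rfl⟩ := Nat.exists_eq_add_of_le' h
    nlinarith [Nat.zero_le (j ^ 4), Nat.zero_le (j ^ 3), Nat.zero_le (j ^ 2)]

theorem num {f k d : ℕ} (hf : 1 ≤ f) (hk : 2 ≤ k) (hd : 4 ≤ d)
    (h : 2 ^ (f * max 1 (k - 2)) ≤ d * k ^ 2 + 1) : 2 * f * k ^ 3 * d ≤ Bn d := by
  have a0 : 1 ≤ max 1 (k - 2) := le_max_left _ _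
  have a1 : k ≤ max 1 (k - 2) + 2 := by omega
  have a2 : k ≤ 3 * max 1 (k - 2) := by omega
  generalize max 1 (k - 2) = u at h a0 a1 a2
  have a3 : k ≤ f * u + 2 := a1.trans (by nlinarith)
  have a4 : f * k ≤ 3 * (f * u) := by nlinarith
  generalize f * u = K at h a3 a4
  have a5 : K ≤ d + 5 := by
    by_contra a5
    have b1 := num_a K (by omega)
    have b2 : d * k ^ 2 ≤ (K - 6) * (K + 2) ^ 2 :=
      Nat.mul_le_mul (by omega) (Nat.pow_le_pow_left a3 2)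
    omega
  have a6 : 2 * f * k ^ 3 * d ≤ 6 * (d + 5) * (d + 7) ^ 2 * d := by
    refine Nat.mul_le_mul_right d ?_
    have b1 : k ^ 2 ≤ (d + 7) ^ 2 := Nat.pow_le_pow_left (by omega) 2
    have b2 : f * k ≤ 3 * (d + 5) := by omega
    calc 2 * f * k ^ 3 = 2 * (f * k) * k ^ 2 := by ring
      _ ≤ 2 * (3 * (d + 5)) * (d + 7) ^ 2 := Nat.mul_le_mul (Nat.mul_le_mul_left 2 b2) b1
      _ = _ := by ring
  refine a6.trans ?_
  rcases hd.eq_or_lt with rfl | hd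
  · decide
  · exact (num_b d hd).trans (Bn_ge24 hd)

end CF.Wb
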