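import Cfsg.Agent.Wb.O
import Cfsg.Agent.Wb.AB

/-! The Thompson-Wielandt data in matrix terms. -/

set_option autoImplicit false
set_option linter.unusedSectionVars false

namespace CF.Wb

open Matrix Subgroup CF.BG Module

variable {F : Type} [Field F] [Fintype F] {n : ℕ} {T : Ty F} {G : Type*} [Group G] [Finite G]

theorem Cx.g0 (c : Cx T n G) : ∃ s ∈ T.S n, c.m.ρ c.g = cn s := c.m.mem_N.1 c.tw.gN

theorem Cx.st_eq (c : Cx T n G) {X : Set (R n F)} (h : c.H ≤ c.m.St X)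
    (h' : ∃ s ∈ T.S n, s ∉ PS X) : c.H = c.m.St X := by
  refine c.tw.eq_of_le h fun h1 => ?_
  obtain ⟨s, hs, h2⟩ := h'
  obtain ⟨k, hk⟩ := c.m.sur s hs
  have h3 := c.m.mem_St.1 (h1 (c.m.mem_N.2 ⟨s, hs, hk⟩))
  rw [hk] at h3
  exact h2 (mem_PS.2 h3)

theorem Cx.mem_of_norm (c : Cx T n G) {K : Subgroup G} (h : K ≠ ⊥) (hK : K ⊴ c.H) (hM : K ≤ c.m.M)
    {s : GL (Fin n) F} (hs : s ∈ T.S n) (h' : ∀ A ∈ c.m.lift K, s * A * s⁻¹ ∈ c.m.lift K) :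
    s ∈ c.m.lift c.H := by
  obtain ⟨k, hk⟩ := c.m.sur s hs
  refine c.m.mem_lift.2 ⟨hs.1, k, ?_, hk⟩
  rw [← c.tw.norm_eq h hK]
  refine mem_norm_of_cj_le fun x hx => ?_
  obtain ⟨A, hA, h1⟩ := c.m.mem_M.1 (hM (mem_cj.1 hx))
  refine c.m.mem_of_lift (h' A (c.m.mem_lift.2 ⟨hA, _, mem_cj.1 hx, h1⟩)) ?_
  rw [map_mul, map_mul, map_inv, ← h1, ← hk, ← map_inv, ← map_mul, ← map_mul]
  congr 1
  group

theorem Cx.mem_of_cen (c : Cx T n G) {K : Subgroup G} (h : K ≠ ⊥) (hK : K ⊴ c.H) (hM : K ≤ c.m.M)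
    {s : GL (Fin n) F} (hs : s ∈ T.S n) (h' : ∀ A ∈ c.m.lift K, s * A = A * s) :
    s ∈ c.m.lift c.H :=
  c.mem_of_norm h hK hM hs fun A hA => by rwa [h' A hA, mul_inv_cancel_right]

theorem Cx.PM (c : Cx T n G) : c.P ⊓ c.m.M ⊴ c.H :=
  ⟨inf_le_left.trans c.tw.h1.nrm.le, norm_inf c.tw.h1.nrm.norm (by
    have := c.m.M_normal
    exact le_normalizer_of_normal)⟩

theorem Cx.nb1 (c : Cx T n G) {s A : GL (Fin n) F} (hs : s ∈ T.S n) (hg : c.m.ρ c.g = cn s)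
    (hA : A ∈ c.m.lift c.P) : s⁻¹ * A * s ∈ c.m.lift c.Q :=
  (c.m.lift_cj hs.1 hg).1 (c.m.lift_mono c.tw.h1.le1 hA)

theorem Cx.nb2 (c : Cx T n G) {s A t : GL (Fin n) F} (hs : s ∈ T.S n) (hg : c.m.ρ c.g = cn s)
    (hA : A ∈ c.m.lift c.P) (ht : s⁻¹ * t * s ∈ c.m.lift c.H) : t * A * t⁻¹ ∈ c.m.lift c.H := by
  obtain ⟨h1, k, hk, h2⟩ := c.m.mem_lift.1 (inv_mem ht)
  have h3 : t⁻¹ ∈ T.Γ n := by
    have h0 : s ∈ T.Γ n := hs.1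
    have := mul_mem (mul_mem h0 h1) (inv_mem h0)
    simpa [mul_assoc] using this
  have h4 : c.m.ρ (c.g * k * c.g⁻¹) = cn t⁻¹ := by
    rw [map_mul, map_mul, map_inv, hg, h2, ← map_inv, ← map_mul, ← map_mul]
    congr 1
    group
  simpa using (c.m.lift_cj h3 h4).1 (c.m.lift_mono (c.tw.h1.le2 k hk) hA)

theorem Cx.ne_img (c : Cx T n G) {X : Set (R n F)} (h : c.H = c.m.St X) {s : GL (Fin n) F}
    (hg : c.m.ρ c.g = cn s) : s ∉ PS X := fun h1 => c.tw.gH (by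
  rw [h, c.m.mem_St, hg]
  exact mem_PS.1 h1)

theorem Cx.cyc (c : Cx T n G) {C : Subgroup G} (h : C ≤ c.m.N) (hc : IsCyclic C) (hn : C ⊴ c.H)
    (hi : C.relIndex (c.H ⊓ c.m.N) ≤ n) (hl : T.q ^ max 1 (n - 2) ≤ ♯C * n + 1) : c.Bd := by
  have h1 := c.tw.cyc c.m.N_normal h hc hn hi
  have h2 : ♯(c.H ⊓ c.m.N) ≤ c.d * n * n := by
    rw [← card_mul_relIndex (le_inf hn.le h)]
    exact Nat.mul_le_mul h1 hi
  refine (c.m.card_le_N c.H).trans (le_trans ?_ (num (k := n) T.f1 c.m.ok.n2 c.tw.d4 ?_))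
  · refine (Nat.mul_le_mul_left _ h2).trans (le_of_eq ?_)
    ring
  · rw [pow_mul]
    refine (Nat.pow_le_pow_left T.pow_le_q _).trans (hl.trans ?_)
    have := Nat.mul_le_mul_right n h1
    rw [pow_two, ← mul_assoc]
    omega

end CF.Wb
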