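import Cfsg.Agent.Wb.B0

/-! The Weil element: an isometry inducing a symplectic transvection. -/

set_option autoImplicit false
set_option linter.unusedSectionVars false

namespace CF.Wb

open Matrix Subgroup CF.BG Module

variable {F : Type} [Field F] [Fintype F] {n : ℕ} {T : Ty F} {G : Type*} [Group G] [Finite G]

namespace DW

section fc

variable {K : Type} [Field K] [Fintype K] [DecidableEq K] (χ : AddChar K F) (w : AddChar K (R n F))

/-- spectral projection -/
noncomputable def pr (i : K) : R n F := (Fintype.card K : F)⁻¹ • ∑ k, χ (-(i * k)) • w k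

/-- functional calculus -/
noncomputable def fc (f : K → F) : R n F := ∑ i, f i • pr χ w i

theorem w_pr (l i : K) : w l * pr χ w i = χ (i * l) • pr χ w i := by
  unfold pr
  rw [mul_smul_comm, smul_comm (χ (i * l)), Finset.mul_sum, Finset.smul_sum (r := χ (i * l))]
  congr 1
  refine Fintype.sum_equiv (Equiv.addLeft l) _ _ fun k => ?_
  rw [Equiv.coe_addLeft, mul_smul_comm, smul_smul, ← χ.map_add_eq_mul, w.map_add_eq_mul]
  congr 2
  ring

variable {χ}

theorem pr_pr (hχ : χ.IsPrimitive) (hK : (Fintype.card K : F) ≠ 0) (i j : K) :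
    pr χ w i * pr χ w j = if j = i then pr χ w j else 0 := by
  have h1 : ∑ k, χ (-(i * k)) * χ (j * k) = ∑ k, χ (k * (j - i)) :=
    Finset.sum_congr rfl fun k _ => by rw [← χ.map_add_eq_mul]; congr 1; ring
  conv_lhs => rw [pr, smul_mul_assoc, Finset.sum_mul]
  simp only [smul_mul_assoc, w_pr, smul_smul]
  rw [← Finset.sum_smul, smul_smul, h1, AddChar.sum_mulShift _ hχ]
  by_cases h : j = i
  · simp [h, hK]
  · simp [h, sub_eq_zero]

theorem fc_one (hχ : χ.IsPrimitive) (hK : (Fintype.card K : F) ≠ 0) : fc χ w (fun _ => 1) = 1 := by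
  have h1 : ∀ k : K, ∑ i, χ (-(i * k)) = if k = 0 then (Fintype.card K : F) else 0 := fun k => by
    have := AddChar.sum_mulShift (-k) hχ
    simpa using this
  simp only [fc, pr, one_smul]
  rw [← Finset.smul_sum, Finset.sum_comm]
  simp only [← Finset.sum_smul, h1, ite_smul, zero_smul, Finset.sum_ite_eq', Finset.mem_univ,
    if_true, smul_smul, inv_mul_cancel₀ hK, one_smul, w.map_zero_eq_one]

theorem fc_mul (hχ : χ.IsPrimitive) (hK : (Fintype.card K : F) ≠ 0) (f g : K → F) :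
    fc χ w f * fc χ w g = fc χ w fun i => f i * g i := by
  unfold fc
  rw [Finset.sum_mul]
  refine Finset.sum_congr rfl fun i _ => ?_
  rw [Finset.mul_sum]
  simp only [smul_mul_assoc, mul_smul_comm, pr_pr w hχ hK, smul_ite, smul_zero,
    Finset.sum_ite_eq', Finset.mem_univ, if_true, smul_smul, mul_comm]

theorem w_fc (l : K) (f : K → F) : w l * fc χ w f = fc χ w fun i => χ (i * l) * f i := by
  unfold fc
  rw [Finset.mul_sum]
  refine Finset.sum_congr rfl fun i _ => ?_
  rw [mul_smul_comm, w_pr, smul_smul, mul_comm]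

theorem fc_smul (z : F) (f : K → F) : z • fc χ w f = fc χ w fun i => z * f i := by
  unfold fc
  rw [Finset.smul_sum]
  exact Finset.sum_congr rfl fun i _ => smul_smul _ _ _

theorem fc_A {A : R n F} {j : K} (h : ∀ k, w k * A = χ (j * k) • (A * w k)) (f : K → F) :
    fc χ w f * A = A * fc χ w fun i => f (j + i) := by
  unfold fc
  rw [Finset.mul_sum, Finset.sum_mul]
  symm
  refine Fintype.sum_equiv (Equiv.addLeft j) _ _ fun i => ?_
  rw [Equiv.coe_addLeft, mul_smul_comm, smul_mul_assoc, pr, pr, mul_smul_comm, smul_mul_assoc,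
    Finset.mul_sum, Finset.sum_mul]
  congr 2
  refine Finset.sum_congr rfl fun k _ => ?_
  rw [mul_smul_comm, smul_mul_assoc, h, smul_smul, ← χ.map_add_eq_mul]
  congr 2
  ring

theorem st_sum (T : Ty F) {ι : Type} (s : Finset ι) (f : ι → R n F) :
    T.st (∑ i ∈ s, f i) = ∑ i ∈ s, T.st (f i) := by
  classical
  induction s using Finset.induction_on with
  | empty => simp [Ty.st]
  | insert a s h ih => rw [Finset.sum_insert h, Finset.sum_insert h, T.st_add, ih]

theorem st_fc (T : Ty F) (h1 : ∀ k, T.bar (χ k) = χ (-k)) (h2 : ∀ k, T.st (w k) = w (-k))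
    (f : K → F) : T.st (fc χ w f) = fc χ w fun i => T.bar (f i) := by
  unfold fc
  rw [st_sum]
  refine Finset.sum_congr rfl fun i _ => ?_
  rw [T.st_smul, pr, T.st_smul, map_inv₀, map_natCast, st_sum]
  congr 2
  refine Fintype.sum_equiv (Equiv.neg K) _ _ fun k => ?_
  rw [T.st_smul, h1, h2, Equiv.neg_apply, mul_neg]

end fc

theorem cast_ne {p : ℕ} (hp : p.Prime) (hr : p ≠ T.r) : (p : F) ≠ 0 := by
  have := T.char
  rw [Ne, CharP.cast_eq_zero_iff F T.r, Nat.prime_dvd_prime_iff_eq T.pr hp]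
  exact fun h => hr h.symm

theorem odd {p : ℕ} (hp : p.Prime) (hr : p ≠ T.r) (h2 : p ≠ 2) {W : GL (Fin n) F}
    (hW : W ∈ T.Γ n) (hWp : (W : R n F) ^ p = 1) {ζ : Fˣ} (hz : ζ ∈ T.Z)
    (hζ : IsPrimitiveRoot ζ p) : ∃ τ ∈ T.Γ n, ∀ (A : GL (Fin n) F) (j : ℕ),
      (W : R n F) * A = (ζ : F) ^ j • ((A : R n F) * W) → cn (τ * A * τ⁻¹) = cn (A * W ^ j) := by
  have := Fact.mk hp
  have hζ' : IsPrimitiveRoot (ζ : F) p := IsPrimitiveRoot.coe_units_iff.2 hζ
  let χ : AddChar (ZMod p) F := AddChar.zmodChar p hζ'.pow_eq_one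
  have hχ : χ.IsPrimitive := AddChar.zmodChar_primitive_of_primitive_root p hζ'
  let w : AddChar (ZMod p) (R n F) :=
    { toFun := fun a => (W : R n F) ^ a.val
      map_zero_eq_one' := by simp only [ZMod.val_zero, pow_zero]
      map_add_eq_mul' := fun x y => by
        simp only [ZMod.val_add, ← pow_eq_pow_mod _ hWp, ← pow_add] }
  have hw : ∀ a : ℕ, w a = (W : R n F) ^ a := fun a => by
    rw [pow_eq_pow_mod a hWp, ← ZMod.val_natCast]; rfl
  have hK : (Fintype.card (ZMod p) : F) ≠ 0 := by rw [ZMod.card]; exact cast_ne hp hr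
  have h20 : (2 : ZMod p) ≠ 0 := fun h => h2 ((Nat.prime_dvd_prime_iff_eq hp Nat.prime_two).1
    ((ZMod.natCast_eq_zero_iff 2 p).1 (by exact_mod_cast h)))
  have inv : ∀ c : ZMod p → ZMod p,
      fc χ w (fun i => χ (-c i)) * fc χ w (fun i => χ (c i)) = 1 := fun c => by
    rw [fc_mul w hχ hK, ← fc_one w hχ hK]
    simp only [← χ.map_add_eq_mul, neg_add_cancel, χ.map_zero_eq_one]
  let τ : GL (Fin n) F := ⟨fc χ w fun i => χ (i ^ 2 / 2), fc χ w fun i => χ (-(i ^ 2 / 2)), by
    simpa using inv fun i => -(i ^ 2 / 2), inv _⟩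
  refine ⟨τ, fun hu => ?_, fun A j h => ?_⟩
  · have b1 : ∀ k, T.bar (χ k) = χ (-k) := fun k => by
      refine eq_of_sub_eq_zero (mul_right_cancel₀ (b := χ k)
        (pow_ne_zero _ ζ.ne_zero) ?_)
      rw [sub_mul, ← χ.map_add_eq_mul, neg_add_cancel, χ.map_zero_eq_one, zero_mul, sub_eq_zero]
      change T.bar ((ζ : F) ^ k.val) * (ζ : F) ^ k.val = 1
      rw [map_pow, ← mul_pow, hz hu, one_pow]
    have b2 : ∀ k, T.st (w k) = w (-k) := fun k => by
      have e1 : T.st (w k) * w k = 1 := by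
        have := pow_mem hW k.val hu
        rwa [Units.val_pow_eq_pow_val] at this
      rw [← mul_one (T.st (w k)), ← w.map_zero_eq_one, ← add_neg_cancel k, w.map_add_eq_mul,
        ← mul_assoc, e1, one_mul]
    change T.st (fc χ w _) * fc χ w _ = 1
    rw [st_fc w T b1 b2]
    simp only [b1]
    exact inv _
  · have h1 : ∀ k : ℕ, (W : R n F) ^ k * A = ((ζ : F) ^ j) ^ k • ((A : R n F) * W ^ k) := by
      intro k
      induction k with
      | zero => simp
      | succ k ih =>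
        rw [pow_succ, mul_assoc, h, mul_smul_comm, ← mul_assoc, ih, smul_mul_assoc, smul_smul,
          mul_assoc, ← pow_succ, ← pow_succ']
    have h3 : ∀ k, w k * A = χ (j * k) • ((A : R n F) * w k) := fun k => by
      rw [← ZMod.natCast_zmod_val k, hw, h1, ← Nat.cast_mul, AddChar.zmodChar_apply', pow_mul]
    have h4 : (τ : R n F) * A = χ ((j : ZMod p) ^ 2 / 2) • ((A : R n F) * W ^ j * τ) := by
      change fc χ w _ * _ = _ • (_ * fc χ w _)
      rw [fc_A w h3, mul_assoc, ← hw, w_fc, ← mul_smul_comm, fc_smul]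
      congr 2
      funext i
      rw [← χ.map_add_eq_mul, ← χ.map_add_eq_mul]
      congr 1
      field_simp
      ring
    refine cn_eq.2 ⟨ζ ^ ((j : ZMod p) ^ 2 / 2).val, ?_⟩
    rw [Units.val_mul, Units.val_mul, h4, smul_mul_assoc, mul_assoc, τ.mul_inv, mul_one,
      Units.val_mul, Units.val_pow_eq_pow_val, Units.val_pow_eq_pow_val]
    rfl

theorem two (hr : 2 ≠ T.r) {W : GL (Fin n) F} (hW : W ∈ T.Γ n) (hWp : (W : R n F) ^ 2 = -1) :
    ∃ τ ∈ T.Γ n, ∀ (A : GL (Fin n) F) (j : ℕ),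
      (W : R n F) * A = (-1 : F) ^ j • ((A : R n F) * W) → cn (τ * A * τ⁻¹) = cn (A * W ^ j) := by
  have h2 : (2 : F) ≠ 0 := by exact_mod_cast cast_ne Nat.prime_two hr
  obtain ⟨c, c0, hc⟩ : ∃ c : F, c ≠ 0 ∧ (T.u → c * T.bar c = 2⁻¹) := by
    by_cases hu : T.u
    · obtain ⟨c, hc⟩ := T.ex_norm hu (b := 2⁻¹) (by rw [map_inv₀, map_ofNat])
      exact ⟨c, by rintro rfl; exact inv_ne_zero h2 (by simpa using hc.symm), fun _ => hc⟩
    · exact ⟨1, one_ne_zero, fun h => (hu h).elim⟩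
  have e0 : (W : R n F) * W = -1 := by rw [← hWp, sq]
  have e1 : (1 + (W : R n F)) * (1 - W) = (2 : F) • 1 := by
    rw [add_mul, mul_sub, mul_sub, e0, two_smul]; noncomm_ring
  have e2 : (1 - (W : R n F)) * (1 + W) = (2 : F) • 1 := by
    rw [sub_mul, mul_add, mul_add, e0, two_smul]; noncomm_ring
  let τ : GL (Fin n) F := ⟨c • (1 + W), (2 * c)⁻¹ • (1 - W), by
    rw [smul_mul_assoc, mul_smul_comm, e1, smul_smul, smul_smul, show c * (2 * c)⁻¹ * 2 = 1 by
      field_simp, one_smul], by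
    rw [smul_mul_assoc, mul_smul_comm, e2, smul_smul, smul_smul, show (2 * c)⁻¹ * c * 2 = 1 by
      field_simp, one_smul]⟩
  refine ⟨τ, fun hu => ?_, fun A j h => ?_⟩
  · have e3 : T.st (W : R n F) = -W := by
      have := hW hu
      rw [← mul_one (T.st (W : R n F)), ← neg_neg (1 : R n F), ← e0, mul_neg, ← mul_assoc, this,
        one_mul]
    change T.st (c • (1 + (W : R n F))) * (c • (1 + (W : R n F))) = 1
    rw [T.st_smul, T.st_add, T.st_one, e3, ← sub_eq_add_neg, smul_mul_assoc, mul_smul_comm, e2,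
      smul_smul, smul_smul, mul_comm (T.bar c), hc hu, inv_mul_cancel₀ h2, one_smul]
  · have key : ∀ (B : R n F) (z : Fˣ), (τ : R n F) * A = (z : F) • (B * τ) →
        ((τ * A * τ⁻¹ : GL (Fin n) F) : R n F) = (z : F) • B := fun B z hB => by
      rw [Units.val_mul, Units.val_mul, hB, smul_mul_assoc, mul_assoc, τ.mul_inv, mul_one]
    have e4 : ∀ a : ℕ, (W : R n F) ^ (2 * a) = (-1 : F) ^ a • 1 := fun a => by
      rw [pow_mul, hWp, ← neg_one_smul F (1 : R n F), smul_pow, one_pow]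
    have e5 : ∀ a : ℕ, (-1 : F) ^ a * (-1) ^ a = 1 := fun a => by
      rw [← mul_pow, neg_mul_neg, one_mul, one_pow]
    obtain ⟨a, rfl | rfl⟩ := Nat.even_or_odd' j
    · refine cn_eq.2 ⟨(-1) ^ a, key _ _ ?_⟩
      rw [pow_mul, neg_one_sq, one_pow, one_smul] at h
      change c • (1 + (W : R n F)) * A = _ • (_ * c • (1 + (W : R n F)))
      simp only [Units.val_mul, Units.val_pow_eq_pow_val, e4, Units.val_neg, Units.val_one,
        smul_mul_assoc, mul_smul_comm, mul_one, smul_smul, add_mul, one_mul, h, mul_add]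
      rw [← smul_add, smul_smul, mul_right_comm, e5, one_mul]
    · refine cn_eq.2 ⟨-(-1) ^ a, key _ _ ?_⟩
      rw [pow_succ, pow_mul, neg_one_sq, one_pow, one_mul, neg_one_smul] at h
      change c • (1 + (W : R n F)) * A = _ • (_ * c • (1 + (W : R n F)))
      simp only [Units.val_mul, Units.val_pow_eq_pow_val, pow_succ, e4, Units.val_neg,
        Units.val_one, smul_mul_assoc, mul_smul_comm, mul_one, smul_smul, add_mul, one_mul, h,
        mul_add, mul_assoc, e0, smul_add, mul_neg, smul_neg, neg_smul, neg_mul]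
      rw [mul_left_comm, e5, mul_one]
      abel

end DW

theorem Ty.weil0 {p : ℕ} (hp : p.Prime) (hr : p ≠ T.r) {W : GL (Fin n) F} (hW : W ∈ T.Γ n)
    (hWp : (W : R n F) ^ p = if p = 2 then -1 else 1) {ζ : Fˣ} (hz : ζ ∈ T.Z)
    (hζ : IsPrimitiveRoot ζ p) : ∃ τ ∈ T.Γ n, ∀ (A : GL (Fin n) F) (j : ℕ),
      (W : R n F) * A = (ζ : F) ^ j • ((A : R n F) * W) → cn (τ * A * τ⁻¹) = cn (A * W ^ j) := by
  by_cases h2 : p = 2
  · subst h2
    rw [(IsPrimitiveRoot.coe_units_iff.2 hζ).eq_neg_one_of_two_right]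
    exact DW.two hr hW (by simpa using hWp)
  · exact DW.odd hp hr h2 hW (by simpa [h2] using hWp) hz hζ

end CF.Wb
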