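import Cfsg.Agent.Wb.D0
import Cfsg.Agent.Wb.DW
import Cfsg.Agent.Wb.CX

/-! Wielandt bound: commutators of Weil transvections exclude an orthogonal decomposition. -/

set_option autoImplicit false
set_option linter.unusedSectionVars false

namespace CF.Wb

open Matrix Subgroup CF.BG Module

variable {F : Type} [Field F] [Fintype F] {n : ℕ} {T : Ty F} {G : Type*} [Group G] [Finite G]

theorem Cx.NA.tv {c : Cx T n G} (h : c.NA) (hp : c.p ≠ T.r) {ζ : Fˣ} (hz : ζ ∈ T.Z)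
    (hζ : IsPrimitiveRoot ζ c.p) {w : G} (hw : w ∈ c.D) (g : c.m.Gd c.p w) :
    ∃ τ ∈ T.Γ n, τ ∈ 𝐍 (c.m.lift c.D) ∧ ∀ a ∈ c.D, ∀ j : ℕ, c.m.om w a = (ζ : F) ^ j →
      cn τ * c.m.ρ a * (cn τ)⁻¹ = c.m.ρ (a * w ^ j) := by
  obtain ⟨W, hW, e, hWp⟩ := g
  obtain ⟨τ, hτ, k⟩ := Ty.weil0 c.tw.pr hp hW hWp hz hζ
  have key : ∀ a ∈ c.D, ∀ j : ℕ, c.m.om w a = (ζ : F) ^ j →
      cn τ * c.m.ρ a * (cn τ)⁻¹ = c.m.ρ (a * w ^ j) := fun a ha j hj => by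
    obtain ⟨A, hA, ea⟩ := c.m.mem_M.1 ha.2
    rw [ea, ← map_inv, ← map_mul, ← map_mul, k A j (hj ▸ c.m.om_spec (h.comm w hw a ha) hW hA e ea),
      map_mul, map_mul, map_pow, map_pow, e, ea]
  refine ⟨τ, hτ, mem_normalizer_fintype fun A hA => ?_, key⟩
  obtain ⟨hA', a, ha, ea⟩ := c.m.mem_lift.1 hA
  have : NeZero c.p := ⟨c.tw.pr.ne_zero⟩
  obtain ⟨j, -, hj⟩ := (IsPrimitiveRoot.coe_units_iff.2 hζ).eq_pow_of_pow_eq_one (ξ := c.m.om w a)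
    (by rw [← c.m.om_pow_right hw.2 ha.2 (h.comm w hw a ha), h.pow a ha, c.m.om_one_right])
  exact c.m.mem_lift.2 ⟨mul_mem (mul_mem hτ hA') (inv_mem hτ), _, mul_mem ha (pow_mem hw j), by
    rw [← key a ha j hj.symm, ea, map_mul, map_mul, map_inv]⟩

theorem Cx.NA.weil {c : Cx T n G} (h : c.NA) (hp : c.p ≠ T.r) {E Y : Subgroup G} (hE : E ⊴ c.H)
    (hD : E ≤ c.D) (hY : Y ≤ c.D) (ho : ∀ a ∈ Y, ∀ b ∈ E, c.m.om a b = 1) (hi : E ⊓ Y = ⊥)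
    {u y e : G} (hu : u ∈ Y) (hy : y ∈ Y) (he : e ∈ E) (h1 : e ≠ 1) (g1 : c.m.Gd c.p u)
    (g2 : c.m.Gd c.p (e * y)) (hn : c.m.om u y ≠ 1) : False := by
  have : Fact c.p.Prime := ⟨c.tw.pr⟩
  have mul {a b d : G} (ha : a ∈ c.D) (hb : b ∈ c.D) (hd : d ∈ c.D) :
      c.m.om a (b * d) = c.m.om a b * c.m.om a d :=
    c.m.om_mul_right ha.2 hb.2 hd.2 (h.comm _ ha _ hb) (h.comm _ ha _ hd)
  have pw {a b : G} (ha : a ∈ c.D) (hb : b ∈ c.D) (k : ℕ) : c.m.om a (b ^ k) = c.m.om a b ^ k :=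
    c.m.om_pow_right ha.2 hb.2 (h.comm _ ha _ hb) k
  have hud := hY hu
  have hyd := hY hy
  have hed := hD he
  have hw := mul_mem hed hyd
  obtain ⟨ζ, hz, e0⟩ := c.m.om_mem u y
  have zp : (ζ : F) ^ c.p = 1 := by rw [e0, ← pw hud hyd, h.pow y hyd, c.m.om_one_right]
  have z1 : IsPrimitiveRoot (ζ : F) c.p := orderOf_eq_prime zp (e0 ▸ hn) ▸ IsPrimitiveRoot.orderOf _
  have hζ := IsPrimitiveRoot.coe_units_iff.1 z1
  obtain ⟨τ, hτ, nτ, kτ⟩ := h.tv hp hz hζ hw g2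
  obtain ⟨σ, hσ, nσ, kσ⟩ := h.tv hp hz hζ hud g1
  have hs := Ty.comm_S hτ hσ
  obtain ⟨-, k, hk, ek⟩ := c.m.mem_lift.1 (c.mem_of_norm c.D_ne c.D_nrm inf_le_right hs fun A hA =>
    (mem_normalizer_iff.1 (mul_mem (mul_mem (mul_mem nτ nσ) (inv_mem nτ)) (inv_mem nσ)) A).1 hA)
  obtain ⟨b, hb, nb⟩ := h.nd hE hD he h1
  have hbd := hD hb
  obtain ⟨j, -, hj⟩ := z1.eq_pow_of_pow_eq_one (ξ := c.m.om e b)
    (by rw [← pw hed hbd, h.pow b hbd, c.m.om_one_right])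
  obtain ⟨i, hij⟩ : ∃ i, i + j = c.p * j := ⟨(c.p - 1) * j, by
    rw [← Nat.succ_mul, Nat.succ_eq_add_one, Nat.sub_add_cancel c.tw.pr.pos]⟩
  have uw : c.m.om u (e * y) = ζ := by rw [mul hud hed hyd, ho u hu e he, one_mul, e0]
  have wu : c.m.om (e * y) u ^ i = (ζ : F) ^ j := by
    have := c.m.om_swap (h.comm _ hw _ hud)
    rw [uw] at this
    rw [← mul_left_inj' (pow_ne_zero i ζ.ne_zero), ← mul_pow, this, one_pow, ← pow_add, add_comm, hij, pow_mul,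
      zp, one_pow]
  have wb : c.m.om (e * y) b = (ζ : F) ^ j := by
    rw [c.m.om_mul_left hed.2 hyd.2 hbd.2 (h.comm _ hed _ hbd) (h.comm _ hyd _ hbd), ho y hy b hb, mul_one, hj]
  generalize hw' : e * y = w at *
  have hx := mul_mem hbd (pow_mem hw i)
  have wx : c.m.om w (b * w ^ i) = (ζ : F) ^ j := by
    rw [mul hw hbd (pow_mem hw i), pw hw hw, c.m.om_self, one_pow, mul_one, wb]
  have w1 : w ^ i * w ^ j = 1 := by rw [← pow_add, hij, pow_mul, h.pow w hw, one_pow]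
  have s1 := kτ _ hx j wx
  rw [mul_assoc b, w1, mul_one] at s1
  have s2 := kσ _ hbd 0 (by rw [ho u hu b hb, pow_zero])
  rw [pow_zero, mul_one] at s2
  have s3 := kσ _ hx i (by rw [mul hud hbd (pow_mem hw i), pw hud hw, ho u hu b hb, one_mul, uw])
  have s4 := kτ _ (mul_mem hx (pow_mem hud i)) (j + j) (by
    rw [mul hw hx (pow_mem hud i), pw hw hud, wx, wu, pow_add])
  have s5 : k * b * k⁻¹ = b * w ^ i * u ^ i * w ^ (j + j) := c.m.inj (by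
    rw [← s4, ← s3, map_mul, map_mul, map_inv, ek]
    conv_lhs => rw [← s2, ← s1]
    simp only [map_mul, map_inv]
    group)
  have s6 : b * w ^ i * u ^ i * w ^ (j + j) = b * e ^ j * (y ^ j * u ^ i) := by
    rw [mul_assoc, ((h.comm _ hud _ hw).pow_pow _ _).eq, pow_add, mul_assoc b, ← mul_assoc (w ^ i),
      ← mul_assoc (w ^ i), w1, one_mul, ← hw', (h.comm _ hed _ hyd).mul_pow, mul_assoc, mul_assoc]
  have s7 : y ^ j * u ^ i ∈ E ⊓ Y := ⟨(mul_mem_cancel_left (mul_mem hb (pow_mem he j))).1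
    (s6 ▸ s5 ▸ hE.conj_mem hk hb), mul_mem (pow_mem hy j) (pow_mem hu i)⟩
  rw [hi, mem_bot] at s7
  have := mul hud (pow_mem hyd j) (pow_mem hud i)
  rw [s7, c.m.om_one_right, pw hud hud, c.m.om_self, one_pow, mul_one, pw hud hyd, ← e0, hj] at this
  exact nb this.symm

end CF.Wb
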