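import Cfsg.Agent.Wb.DA
import Cfsg.Agent.Wb.DK

/-! Wielandt bound: the end of the symplectic type case. -/

set_option autoImplicit false
set_option linter.unusedSectionVars false

namespace CF.Wb

open Matrix Subgroup CF.BG Module

variable {F : Type} [Field F] [Fintype F] {n : ℕ} {T : Ty F} {G : Type*} [Group G] [Finite G]

theorem Cx.NA.ex_gd {c : Cx T n G} (h : c.NA) (h2 : c.p = 2) (hi : ¬ ∃ i ∈ T.Z, (i : F) ^ 2 = -1)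
    {E : Subgroup G} (hE : E ⊴ c.H) (hD : E ≤ c.D) (e0 : E ≠ ⊥) : ∃ a ∈ E, a ≠ 1 ∧ c.m.Gd 2 a := by
  obtain ⟨⟨a, ha⟩, a1⟩ := ne_bot_iff_exists_ne_one.1 e0
  obtain ⟨b, hb, o⟩ := h.nd hE hD ha fun e => a1 (Subtype.ext e)
  have k := h.quad h2 hi (hD ha) (hD hb)
  have z := h.quad h2 hi (one_mem _) (one_mem _)
  have z : ¬ c.m.Gd 2 1 := by simpa [c.m.om_self] using z
  have u {x : G} (hx : x ∈ E) (g : c.m.Gd 2 x) : ∃ a ∈ E, a ≠ 1 ∧ c.m.Gd 2 a :=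
    ⟨x, hx, by rintro rfl; exact z g, g⟩
  by_cases ga : c.m.Gd 2 a
  · exact u ha ga
  by_cases gb : c.m.Gd 2 b
  · exact u hb gb
  exact u (mul_mem ha hb) (k.2 (iff_of_true (iff_of_false ga gb) o))

theorem Cx.NA.all_gd {c : Cx T n G} (h : c.NA) (hp : c.p ≠ T.r) (h2 : c.p = 2)
    (hi : ¬ ∃ i ∈ T.Z, (i : F) ^ 2 = -1) {E Y : Subgroup G} (hE : E ⊴ c.H) (hD : E ≤ c.D) (hY : Y ⊴ c.H)
    (hD' : Y ≤ c.D) (e0 : E ≠ ⊥) (y0 : Y ≠ ⊥) (ho : ∀ a ∈ Y, ∀ b ∈ E, c.m.om a b = 1) (i : E ⊓ Y = ⊥) :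
    ∀ a ∈ E, a ≠ 1 → c.m.Gd 2 a := fun a ha a1 => by
  by_contra ga
  obtain ⟨u, hu, u1, gu⟩ := h.ex_gd h2 hi hY hD' y0
  obtain ⟨y, hy, o⟩ := h.nd hY hD' hu u1
  obtain ⟨b, hb, b1, gb⟩ := h.ex_gd h2 hi hE hD e0
  have k {e : G} (he : e ∈ E) (e1 : e ≠ 1) : c.m.Gd 2 e ↔ c.m.Gd 2 y := by
    by_contra z
    refine h.weil hp hE hD hD' ho i hu hy he e1 (h2 ▸ gu) (h2 ▸ (h.quad h2 hi (hD he) (hD' hy)).2
      (iff_of_false z (not_not.2 ?_))) o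
    simpa [ho y hy e he] using c.m.om_swap (h.comm _ (hD he) _ (hD' hy))
  exact ga ((k ha a1).2 ((k hb b1).1 gb))

theorem Cx.NA.dmin {c : Cx T n G} (h : c.NA) (hp : c.p ≠ T.r) {E : Subgroup G} (e0 : E ≠ ⊥)
    (hE : E ⊴ c.H) (hD : E ≤ c.D) : E = c.D ∨ c.Bd := by
  obtain ⟨Y, hY, hD', ho, i, hs⟩ := h.perp hE hD
  by_cases y0 : Y = ⊥
  · refine .inl (hD.antisymm fun a ha => ?_)
    obtain ⟨e, he, y, hy, rfl⟩ := hs a ha
    rwa [mem_bot.1 (y0.le hy), mul_one]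
  by_cases h2 : c.p ≠ 2 ∨ ∃ i ∈ T.Z, (i : F) ^ 2 = -1
  · obtain ⟨⟨e, he⟩, e1⟩ := ne_bot_iff_exists_ne_one.1 e0
    obtain ⟨⟨u, hu⟩, u1⟩ := ne_bot_iff_exists_ne_one.1 y0
    obtain ⟨y, hy, o⟩ := h.nd hY hD' hu fun z => u1 (Subtype.ext z)
    exact (h.weil hp hE hD hD' ho i hu hy he (fun z => e1 (Subtype.ext z)) (h.good h2 _ (hD' hu))
      (h.good h2 _ (mul_mem (hD he) (hD' hy))) o).elim
  obtain ⟨h2, hi⟩ := not_or.1 h2
  rw [not_not] at h2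
  exact .inr (h.aniso h2 hi hE hD hY hD' e0 y0 ho hs (h.all_gd hp h2 hi hE hD hY hD' e0 y0 ho i)
    (h.all_gd hp h2 hi hY hD' hE hD y0 e0 (fun a ha b hb => by
      simpa [ho b hb a ha] using c.m.om_swap (h.comm _ (hD ha) _ (hD' hb))) (inf_comm E Y ▸ i)))

theorem Cx.NA.dend {c : Cx T n G} (h : c.NA) (hp : c.p ≠ T.r) (hc : c.CA ∨ c.CB) : c.Bd := by
  by_contra k
  rcases hc with hc | hc
  · have e := (h.dmin hp hc c.PM (inf_le_inf_right _ c.tw.h1.le)).resolve_right k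
    refine c.tw.not_le_cj c.D_ne c.D_nrm fun a ha => mem_cj.2 ⟨mem_cj.1 (c.tw.h1.le1 (e.ge ha).1), ?_⟩
    exact c.m.M_normal.conj_mem' _ ha.2 _
  refine k (c.tw.fin c.m.N_normal c.m.comm_mem_M hc.1 hc.2 (c.m.card_tor c.tw.pr hc.1)
    (fun z hz => h.pow z ⟨hz.1, c.m.N_le_M hz.2⟩) fun z hz z1 x hx o cm => ?_)
  let E : Subgroup G :=
    { carrier := {a | a ∈ c.D ∧ ∀ g ∈ c.H, Commute x (g * a * g⁻¹)}
      one_mem' := ⟨one_mem _, by simp⟩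
      mul_mem' := fun a b => ⟨mul_mem a.1 b.1, fun g hg => by
        simpa only [conj_mul] using (a.2 g hg).mul_right (b.2 g hg)⟩
      inv_mem' := fun a => ⟨inv_mem a.1, fun g hg => by simpa only [conj_inv] using (a.2 g hg).inv_right⟩ }
  have hD : E ≤ c.D := fun _ a => a.1
  have e := (h.dmin hp (E := E) (ne_bot_iff_exists_ne_one.2 ⟨⟨z, ⟨hz.1, c.m.N_le_M hz.2⟩, cm⟩,
    fun e => z1 (congrArg Subtype.val e)⟩) ⟨hD.trans c.D_nrm.1, fun g hg => mem_normalizer_fintype fun a ha =>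
      ⟨c.D_nrm.conj_mem hg ha.1, fun u hu => by
        simpa only [mul_assoc, _root_.mul_inv_rev] using ha.2 _ (mul_mem hu hg)⟩⟩ hD).resolve_right k
  exact c.tw.c2 hx o (fun a => by simpa using c.m.comm_mem_M a⁻¹ x) fun a ha => by
    simpa using (e.ge ha).2 1 (one_mem _)

end CF.Wb
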