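import Cfsg.Agent.Wb.NP

/-! Reduction to the standard frame. -/

set_option autoImplicit false
set_option linter.unusedSectionVars false

namespace CF.Wb

open Matrix Subgroup CF.BG Module

variable {F : Type} [Field F] [Fintype F] {n : ℕ} {T : Ty F} {G : Type*} [Group G] [Finite G]

theorem Ty.Id.rank1 {ε : R n F} (h : T.Id ε) (hr : ε.rank = 1) :
    ∃ v φ : V n F, ε = vecMulVec v φ ∧ φ ⬝ᵥ v = 1 ∧ (T.u → φ = T.bv v) := by
  rw [← finrank_rg] at hr
  have h0 : rg ε ≠ ⊥ := fun h0 => by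
    rw [h0, finrank_bot] at hr
    exact zero_ne_one hr
  obtain ⟨v, hv, h1, h2⟩ : ∃ v ∈ rg ε, v ≠ 0 ∧ (T.u → T.h v v = 1) := by
    by_cases hu : T.u
    · obtain ⟨v, hv, h1⟩ := Ty.ex_val hu (X := rg ε) (fun h1 => h0 (by
        rw [← h.nd hu, inf_eq_left.2 h1])) (map_one _) one_ne_zero
      exact ⟨v, hv, fun h2 => by simp [h2, Ty.h] at h1, fun _ => h1⟩
    · obtain ⟨v, hv, h1⟩ := (Submodule.ne_bot_iff _).1 h0
      exact ⟨v, hv, h1, fun h => absurd h hu⟩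
  have h3 := (finrank_eq_one_iff_of_nonzero' (⟨v, hv⟩ : rg ε) (by simpa using h1)).1 hr
  choose c hc using fun j => h3 ⟨ε *ᵥ Pi.single j 1, mem_rg.2 ⟨_, rfl⟩⟩
  have h4 : ε = vecMulVec v c := by
    ext i j
    have := congrFun (congrArg Subtype.val (hc j)) i
    simpa [vecMulVec_apply, mul_comm] using this.symm
  have h5 : ∀ x, ε *ᵥ x = (c ⬝ᵥ x) • v := fun x => by
    rw [h4, vecMulVec_mulVec]
    ext i
    simp [mul_comm]
  have h6 := (mem_rg_id h.1).1 hv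
  refine ⟨v, c, h4, smul_left_injective F h1 (by simpa [h5] using h6), fun hu => ?_⟩
  refine dotProduct_eq _ _ fun x => ?_
  have h7 := Ty.h_mulVec hu ε x v
  rwa [h.2 hu, h6, h5, T.h_smul_left, h2 hu, mul_one, ← T.bv_dot] at h7

theorem Ty.Sy.frame {D : Finset (R n F)} (h : T.Sy D) (hk : ∀ ε ∈ D, ε.rank = 1) :
    ∃ C ∈ T.Γ n, (D : Set (R n F)) = cn C '' fr n F := by
  classical
  choose v φ h1 h2 h3 using fun ε : D => Ty.Id.rank1 (T := T) ⟨h.id ε ε.2, fun hu => h.st hu ε ε.2⟩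
    (hk ε ε.2)
  have a1 : (Matrix.of fun i ε => v ε i) * (Matrix.of φ) = 1 := by
    rw [← h.sum, ← Finset.sum_coe_sort]
    ext i j
    rw [mul_apply, Matrix.sum_apply]
    exact Finset.sum_congr rfl fun ε _ => by rw [h1 ε]; rfl
  have a2 : (Matrix.of φ) * (Matrix.of fun i ε => v ε i) = 1 := by
    ext ε δ
    change φ ε ⬝ᵥ v δ = _
    by_cases he : ε = δ
    · rw [he, h2, one_apply_eq]
    · have := congrArg (fun a => φ ε ⬝ᵥ a *ᵥ v δ) (h.orth ε ε.2 δ δ.2 fun h => he (Subtype.ext h))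
      rw [h1, h1] at this
      simpa [← mulVec_mulVec, vecMulVec_mulVec, h2, one_apply_ne he] using this
  obtain ⟨e⟩ := Fintype.card_eq.1 (square_of_invertible _ _ a1 a2)
  let C : GL (Fin n) F := ⟨(Matrix.of fun i ε => v ε i).submatrix _root_.id e,
    (Matrix.of φ).submatrix e _root_.id,
    by rw [submatrix_mul_equiv, a1, submatrix_id_id],
    by rw [← Equiv.coe_refl, submatrix_mul_equiv, a2, submatrix_one_equiv]⟩
  have a3 : ∀ i, cn C (Matrix.single i i 1) = e i := fun i => by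
    rw [cn_apply, h1]
    ext a b
    simp [C, mul_apply, Matrix.single, vecMulVec_apply, ite_and]
  refine ⟨C, fun hu => ?_, Set.ext fun a => ⟨fun ha => ⟨_, ⟨e.symm ⟨a, ha⟩, rfl⟩, ?_⟩, ?_⟩⟩
  · refine Eq.trans (congrArg (· * _) ?_) C.inv_mul
    ext i j
    simp [C, Ty.st, h3 _ hu, Ty.bv]
  · rw [a3, e.apply_symm_apply]
  · rintro ⟨_, ⟨i, rfl⟩, rfl⟩
    rw [a3]
    exact (e i).2

theorem Cx.std (c : Cx T n G) {D : Finset (R n F)} (h : c.Eq D 1) :
    ∃ m : Md T n G, m.N = c.m.N ∧ m.M = c.m.M ∧ c.H = m.St (fr n F) := by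
  obtain ⟨C, hC, h1⟩ := h.sy.frame h.rk
  obtain ⟨m, h2, h3, h4⟩ := c.m.conj hC
  refine ⟨m, h2, h3, h.eq.trans (Subgroup.ext fun g => ?_)⟩
  have h5 : ∀ a, a ∈ (D : Set (R n F)) ↔ (cn C)⁻¹ a ∈ fr n F := fun a => by
    rw [h1, Equiv.image_eq_preimage_symm]
    rfl
  rw [c.m.mem_St, m.mem_St, h4, (cn C).surjective.forall]
  simp [h5]

end CF.Wb
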