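import Cfsg.Agent.Wb.F1
import Cfsg.Agent.Wb.CX

/-! Stabilisers of frames in dimension two. -/

set_option autoImplicit false
set_option linter.unusedSectionVars false

namespace CF.Wb

open Matrix Subgroup CF.BG Module

variable {F : Type} [Field F] [Fintype F] {n : ℕ} {T : Ty F} {G : Type*} [Group G] [Finite G]

/-- the action of the stabiliser of the frame on the frame -/
noncomputable def Md.psi (m : Md T n G) : m.St (fr n F) →* Equiv.Perm (Fin n) :=
  MonoidHom.mk' (fun g => (ex_Pm (show m.ρ g ∈ stb _ from g.2)).choose) fun a b =>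
    (ex_Pm (show m.ρ (a * b : m.St _) ∈ stb _ from (a * b).2)).choose_spec.uniq (by
      rw [coe_mul, map_mul]
      exact (ex_Pm (show m.ρ a ∈ stb _ from a.2)).choose_spec.mul (ex_Pm (show m.ρ b ∈ stb _ from b.2)).choose_spec)

theorem Md.psi_spec (m : Md T n G) (g : m.St (fr n F)) : Pm (m.ρ g) (m.psi g) :=
  (ex_Pm (show m.ρ g ∈ stb _ from g.2)).choose_spec

theorem Cx.fr2 (c : Cx T n G) (hF : c.H = c.m.St (fr n F)) (h2 : n = 2) : c.Bd := by
  subst h2
  have hu : ¬ T.u := fun hu => absurd (c.m.ok.n3 hu) (by decide)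
  have ms (z : Fˣ) : dg ![z, z⁻¹] ∈ T.S 2 := T.dg_mem_S.2 ⟨fun _ => (absurd · hu), by simp⟩
  choose k hk using fun z => c.m.sur _ (ms z)
  let φ : Fˣ →* G := MonoidHom.mk' k fun a b => c.m.inj (by
    rw [map_mul, hk, hk, hk, ← map_mul, ← dg_mul]; congr 2; ext i; fin_cases i <;> simp [mul_comm])
  have mc {g t} (s : dg t ∈ T.S 2) (e : c.m.ρ g = cn (dg t)) : g ∈ φ.range := ⟨t 0, c.m.inj (by
    have := (T.dg_mem_S.1 s).2
    rw [e]
    refine (hk _).trans ?_
    congr 2; funext i; fin_cases i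
    · rfl
    · exact (eq_inv_of_mul_eq_one_right (by simpa using this)).symm)⟩
  have le : φ.range ≤ c.H := by
    rintro _ ⟨z, rfl⟩
    exact hF ▸ (hk z ▸ Pm_dg _ : Pm (c.m.ρ (k z)) 1).mem
  refine c.cyc (C := φ.range) (by rintro _ ⟨z, rfl⟩; exact c.m.mem_N.2 ⟨_, ms z, hk z⟩)
    (isCyclic_of_surjective _ φ.rangeRestrict_surjective) ⟨le, le_norm_iff.2 ?_⟩ ?_ ?_
  · rintro h m _ ⟨z, rfl⟩
    obtain ⟨B, e, -, b, -⟩ := c.m.th h (dg ![z, z⁻¹])
    have p := c.m.psi_spec ⟨h, hF ▸ m⟩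
    have := (p.mul (Pm_dg ![z, z⁻¹])).mul p.inv
    rw [mul_one, mul_inv_cancel, e] at this
    obtain ⟨t, rfl⟩ := this.dg
    exact mc (b (ms z)) (by rw [map_mul, map_mul, map_inv, ← e, ← hk]; rfl)
  · let ψ := c.m.psi.comp (inclusion (show c.H ⊓ c.m.N ≤ _ from inf_le_left.trans hF.le))
    have : ψ.ker ≤ φ.range.subgroupOf _ := fun g m => by
      obtain ⟨s, hs, e⟩ := c.m.mem_N.1 g.2.2
      have := c.m.psi_spec (inclusion (show c.H ⊓ c.m.N ≤ _ from inf_le_left.trans hF.le) g)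
      rw [show c.m.psi _ = 1 from m, coe_inclusion, e] at this
      obtain ⟨t, rfl⟩ := this.dg
      exact mc hs e
    refine (index_antitone this).trans ?_
    rw [index_ker]
    exact (card_le_card_group _).trans (by simp [Fintype.card_perm])
  · have h1 := φ.ker.index_mul_card
    have h2 : ♯φ.ker ≤ 2 := (card_le_of_le (K := rootsOfUnity 2 F) fun z m => by
      have := dg_sc.1 (cn_eq_one.1 ((hk z).symm.trans ((congrArg c.m.ρ m).trans (map_one _)))) 0 1
      simpa [pow_two, mul_eq_one_iff_eq_inv] using this).trans (card_rootsOfUnity F 2)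
    have h3 : Nat.card Fˣ + 1 = T.q := by
      rw [Nat.card_units, Nat.card_eq_fintype_card, T.cL hu]
      exact Nat.sub_add_cancel (Nat.pow_pos T.pr.pos)
    rw [index_ker] at h1
    rw [← h3, ← h1, show max 1 (2 - 2) = 1 from rfl, pow_one]
    exact Nat.succ_le_succ (Nat.mul_le_mul_left _ h2)

end CF.Wb
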