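import Cfsg.Agent.Wb.F2

/-! Frames, case `P ⊓ M ≠ ⊥`. -/

set_option autoImplicit false
set_option linter.unusedSectionVars false

namespace CF.Wb

open Matrix Subgroup CF.BG Module

variable {F : Type} [Field F] [Fintype F] {n : ℕ} {T : Ty F} {G : Type*} [Group G] [Finite G]

/-- multiplicative difference operator -/
def dlt (π : Equiv.Perm (Fin n)) (t : Fin n → Fˣ) : Fin n → Fˣ := fun i => t i * (t (π⁻¹ i))⁻¹

theorem Pm.comm {a : GL (Fin n) F} {π : Equiv.Perm (Fin n)} (h : Pm (cn a) π) (t : Fin n → Fˣ) :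
    Wb.dg t * a * (Wb.dg t)⁻¹ * a⁻¹ = Wb.dg (dlt π t) := by
  rw [← dg_inv, mul_assoc (Wb.dg t), mul_assoc (Wb.dg t), h.conj, ← dg_mul]
  rfl

theorem dg_comm (s t : Fin n → Fˣ) : dg s * dg t = dg t * dg s := by
  rw [← dg_mul, mul_comm, dg_mul]

theorem Cx.fr_perm (c : Cx T n G) (hF : c.H = c.m.St (fr n F)) {K : Subgroup G} (hK : K ⊴ c.H)
    (π : Equiv.Perm (Fin n)) (hπ : π.IsThreeCycle) (t : Fin n → Fˣ) (ht : dg t ∈ c.m.lift K) :
    dg (fun i => t (π i)) ∈ c.m.lift K := by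
  have := c.m.lift_conj hK.norm (c.fr_mem hF (T.pm_mem_S hπ.inv.sign) (Pm_pm _)) ht
  rwa [(Pm_pm _).conj, inv_inv] at this

theorem Cx.fr_small (c : Cx T n G) (hF : c.H = c.m.St (fr n F)) (h3 : 3 ≤ n) {a : GL (Fin n) F}
    (ha : a ∈ c.m.lift c.Q) {π : Equiv.Perm (Fin n)} (h : Pm (cn a) π) (h1 : π ≠ 1)
    (hd : ∀ t : Fin n → Fˣ, dg t ∈ c.m.lift c.H → dlt π (dlt π (dlt π t)) = 1) : c.Bd := by
  have h4 : n ≤ 4 := by
    by_contra h4
    obtain ⟨t, rfl⟩ := c.fq hF (by omega) a ha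
    exact h1 (h.uniq (Pm_dg t))
  exact c.fb hF h4 (Ty.dl h3 h4 h1 (δ := dlt π) (fun _ _ => rfl) fun t h5 h6 =>
    hd t (c.fr_mem hF (Ty.dg_mem_S.2 ⟨h5, h6⟩) (Pm_dg t)))

theorem Cx.frA (c : Cx T n G) (hF : c.H = c.m.St (fr n F)) (h3 : 3 ≤ n) (hA : c.CA) : c.Bd := by
  obtain ⟨s, hs, hg⟩ := c.g0
  have hPH := c.m.lift_mono c.tw.h1.nrm.le
  have hQH := c.m.lift_mono c.tw.Qn.le
  by_cases h1 : ∃ t : Fin n → Fˣ, dg t ∈ c.m.lift c.P ∧ ∃ i j, t i ≠ t j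
  · have h2 := sep h3 (E := {t | dg t ∈ c.m.lift c.P}) (c.fr_perm hF c.tw.h1.nrm) h1
    by_cases h4 : ∀ t : Fin n → Fˣ, dg t ∈ c.m.lift c.P → Pm (cn (s⁻¹ * dg t * s)) 1
    · refine (c.ne_img hF hg (mem_comap.2 (mem_stb_of ?_))).elim
      rintro _ ⟨i, rfl⟩
      refine mem_fr_of (diag_of_sep h2 fun t ht => ?_) ?_ ?_
      · have h5 := h4 t ht i
        rw [map_mul, map_mul, map_inv, Equiv.Perm.mul_apply, Equiv.Perm.mul_apply,
          Equiv.Perm.inv_eq_iff_eq, cn_apply (dg t)] at h5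
        have := congrArg (· * ((dg t : GL (Fin n) F) : R n F)) h5
        simpa [mul_assoc] using this.symm
      · simp [cn_apply, mul_assoc, ← mul_assoc (Matrix.single i i (1 : F))]
      · rw [← hg, c.m.rank]
        classical
        beta_reduce
        rw [← diagonal_single, rank_diagonal, Fintype.card_eq_one_iff]
        exact ⟨⟨i, by simp⟩, fun j => Subtype.ext (by
          by_contra h5
          exact j.2 (Pi.single_eq_of_ne h5 _))⟩
    · push Not at h4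
      obtain ⟨t, ht, h4⟩ := h4
      have h5 := c.nb1 hs hg ht
      obtain ⟨π, hπ⟩ := c.fr_pm hF (hQH h5)
      refine c.fr_small hF h3 h5 hπ (fun h => h4 (h ▸ hπ)) fun u hu => ?_
      have h6 := mul_mem (c.nb2 (t := s * dg u * s⁻¹) hs hg ht (by simpa [mul_assoc] using hu))
        (inv_mem (hPH ht))
      have h7 : ∀ x : GL (Fin n) F, s * x * s⁻¹ * dg t * (s * x * s⁻¹)⁻¹ * (dg t)⁻¹ =
          s * (x * (s⁻¹ * dg t * s) * x⁻¹ * (s⁻¹ * dg t * s)⁻¹) * s⁻¹ := fun x => by group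
      rw [h7, hπ.comm] at h6
      obtain ⟨τ, hτ⟩ := c.fr_pm hF h6
      have h8 := h7 (dg (dlt π u))
      rw [hτ.conj, hπ.comm, ← dg_inv, ← dg_mul] at h8
      have h9 := h7 (dg (dlt π (dlt π u)))
      rw [← h8, hπ.comm, dg_comm, mul_inv_cancel_right, mul_inv_cancel, eq_comm,
        mul_inv_eq_one, mul_eq_left, ← dg_one] at h9
      exact dg_inj h9
  · push Not at h1
    obtain ⟨a, ha, h2⟩ := c.m.ex_nsc.1 hA
    obtain ⟨π, hπ⟩ := c.fr_pm hF (hPH ha)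
    refine c.fr_small hF h3 (c.m.lift_mono c.tw.h1.le ha) hπ (fun h => h2 ?_) fun u hu => ?_
    · obtain ⟨t, rfl⟩ := (h ▸ hπ).dg
      exact dg_sc.2 (h1 t ha)
    · have h4 := mul_mem (c.m.lift_conj c.tw.h1.nrm.norm hu ha) (inv_mem ha)
      rw [hπ.comm] at h4
      have h5 : dlt π (dlt π u) = 1 := funext fun i => mul_inv_eq_one.2 (h1 _ h4 _ _)
      rw [h5]
      exact funext fun i => by simp [dlt]

end CF.Wb
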