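import Cfsg.Agent.Wb.F2

/-! Frames, case `P ⊓ M = P' ⊓ M = ⊥`. -/

set_option autoImplicit false
set_option linter.unusedSectionVars false

namespace CF.Wb

open Matrix Subgroup CF.BG Module

variable {F : Type} [Field F] [Fintype F] {n : ℕ} {T : Ty F} {G : Type*} [Group G] [Finite G]

theorem Md.Du.pow_odd {m : Md T n G} {g : G} (h : m.Du g) (j : ℕ) : m.Du (g ^ (2 * j + 1)) := by
  induction j with
  | zero => simpa using h
  | succ j ih =>
    intro a b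
    rw [show 2 * (j + 1) + 1 = 2 * j + 1 + 1 + 1 by ring, pow_succ, pow_succ _ (2 * j + 1)]
    simp only [map_mul, Equiv.Perm.mul_apply]
    rw [h, h, ih]

theorem Md.lin_of_odd (m : Md T n G) {g : G} {k : ℕ} (hk : Odd k) (h : g ^ k = 1) : m.Lin g := by
  refine (m.lin_or g).resolve_right fun h1 => ?_
  obtain ⟨j, rfl⟩ := hk
  have := h1.1.pow_odd j
  rw [h] at this
  exact m.not_lin_du (fun a b => by simp) this

theorem Md.mem_M_of_Z (m : Md T n G) {g : G} (h : m.Lin g) {σ : F ≃+* F}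
    (hs : ∀ (z : F) (a : R n F), m.ρ g (z • a) = σ z • m.ρ g a) (h' : ∀ z ∈ T.Z, σ (z : F) = z) :
    g ∈ m.M := m.mem_M_of h fun z => by rw [hs, m.one, Ty.aut_Z σ h']; rfl

theorem Md.cen_dg (m : Md T n G) {e k : G} {π : Equiv.Perm (Fin n)} (h : Pm (m.ρ e) π)
    {σ : F ≃+* F} (hs : ∀ (z : F) (a : R n F), m.ρ e (z • a) = σ z • m.ρ e a) {t : Fin n → Fˣ}
    (hk : m.ρ k = cn (dg t)) (hc : k * e = e * k) : ∃ z : Fˣ,
    (m.Lin e → ∀ i, σ (t (π⁻¹ i) : F) = z * t i) ∧ (m.Du e → ∀ i, σ (t (π⁻¹ i) : F) * (z * t i) = 1) := by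
  obtain ⟨B, h1, -, -, h2, h3⟩ := m.th e (dg t)
  rw [← hk, ← map_mul, ← hc, map_mul, mul_inv_cancel_right, hk, eq_comm, cn_eq] at h1
  obtain ⟨z, hz⟩ := h1
  refine ⟨z, fun hl i => ?_, fun hl i => ?_⟩
  · have := (h2 hl).symm.trans hz
    rw [m.rho_dg h hs] at this
    simpa [dg_val] using congrFun (congrFun this i) i
  · have := B.inv_mul
    rw [h3 hl, hz, m.rho_dg h hs] at this
    simpa [dg_val] using congrFun (congrFun this i) i

theorem perm3 : ∀ π : Equiv.Perm (Fin 3), π ≠ 1 → π * (Equiv.swap 0 1 * Equiv.swap 0 2) =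
    Equiv.swap 0 1 * Equiv.swap 0 2 * π →
    ∃ a b c : Fin 3, a ≠ b ∧ c ≠ a ∧ c ≠ b ∧ π⁻¹ a = c ∧ π⁻¹ b = a ∧ π⁻¹ c = b := by
  decide +kernel

theorem sq_of_inv (h2 : (2 : F) ≠ 0) (σ : F ≃+* F) (h : ∀ z : F, z ≠ 0 → σ z * z = 1) {z : F}
    (hz : z ≠ 0) : z = 1 ∨ z = -1 := by
  have h3 := h 2 h2
  rw [map_ofNat] at h3
  refine or_iff_not_imp_right.2 fun h1 => ?_
  have h4 := h (z + 1) fun h4 => h1 (eq_neg_of_add_eq_zero_left h4)
  have h5 := h z hz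
  rw [map_add, map_one] at h4
  have : (z - 1) ^ 2 = 0 := by linear_combination z * h4 - (z + 1) * h5 - z * h3
  exact sub_eq_zero.1 (pow_eq_zero_iff two_ne_zero |>.1 this)

theorem Cx.fr3 (c : Cx T n G) (hF : c.H = c.m.St (fr n F)) (h5 : 5 ≤ n) (hB : c.CB) (hp : c.p = 2)
    (hz : ∀ z : Fˣ, (z : F) = 1 ∨ (z : F) = -1) : c.Bd := by
  have h1 : ∀ z : Fˣ, z * z = 1 := fun z => Units.ext (by
    rcases hz z with h | h <;> simp [h])
  have h2 : ∀ (k : G) (t : Fin n → Fˣ), c.m.ρ k = cn (dg t) → k ^ 2 = 1 := fun k t h => c.m.inj (by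
    rw [pow_two, map_mul, h, ← map_mul, ← dg_mul, show t * t = 1 from funext fun i => h1 _, dg_one,
      map_one, map_one])
  have h3 : ∀ z ∈ c.Q ⊓ c.m.N, ∃ t, c.m.ρ z = cn (dg t) := fun z h => by
    obtain ⟨A, hA, h4⟩ := c.m.mem_N.1 h.2
    obtain ⟨t, rfl⟩ := c.fq hF h5 A (c.m.mem_lift.2 ⟨hA.1, z, h.1, h4⟩)
    exact ⟨t, h4⟩
  refine c.tw.fin c.m.N_normal c.m.comm_mem_M hB.1 hB.2 (c.m.card_tor c.tw.pr hB.1)
    (fun z h => (h3 z h).elim fun t ht => hp ▸ h2 z t ht) fun z h h0 k _ ho hc => ?_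
  rw [hp] at ho
  obtain ⟨σ, hs⟩ := c.m.smul k
  obtain ⟨K, -, hK⟩ := c.m.mem_M.1 (c.m.mem_M_of_Z (c.m.lin_of_odd (Nat.coprime_two_right.1 ho)
    (pow_orderOf_eq_one k)) hs fun y _ => by rcases hz y with h | h <;> simp [h])
  obtain ⟨t, ht⟩ := h3 z h
  have h4 := sep (by omega) (E := {u : Fin n → Fˣ | ∃ y ∈ c.H, c.m.ρ (y * z * y⁻¹) = cn (dg u)})
    (by
      rintro π hπ u ⟨y, hy, h4⟩
      obtain ⟨-, w, hw, h6⟩ := c.m.mem_lift.1 (c.fr_mem hF (T.pm_mem_S hπ.inv.sign) (Pm_pm _))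
      refine ⟨w * y, mul_mem hw hy, ?_⟩
      have := (Pm_pm (F := F) π⁻¹).conj u
      rw [inv_inv] at this
      rw [← this, map_mul cn, map_mul cn, map_inv cn, ← h6, ← h4, ← map_inv, ← map_mul, ← map_mul]
      congr 1
      group)
    ⟨t, ⟨1, one_mem _, by simpa using ht⟩, by
      by_contra! h4
      exact h0 (c.m.inj (by rw [ht, cn_eq_one.2 (dg_sc.2 h4), map_one]))⟩
  obtain ⟨u, hu⟩ := dg_of_diag (A := K * K) (diag_of_sep h4 (by
    rintro u ⟨y, hy, h6⟩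
    obtain ⟨ζ, h7⟩ := (c.m.comm_iff hK h6).1 (hc y hy)
    rw [Units.val_mul, mul_assoc, h7, mul_smul_comm, ← mul_assoc, h7, smul_mul_assoc, smul_smul,
      ← Units.val_mul, h1, mul_assoc]
    simp))
  have h6 := h2 (k * k) u (by rw [map_mul, hK, ← map_mul, hu])
  rw [← pow_two, ← pow_mul, ← orderOf_dvd_iff_pow_eq_one] at h6
  exact orderOf_eq_one_iff.1 ((ho.mul_right ho).eq_one_of_dvd h6)

theorem Cx.frB (c : Cx T n G) (hp : c.p ≠ T.r) (hF : c.H = c.m.St (fr n F)) (h3 : 3 ≤ n)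
    (hB : c.CB) : c.Bd := by
  obtain ⟨e, he, h1, h2, h4⟩ := c.tw.central c.m.comm_mem_M hB.1
  have h5 : e ∈ c.m.St (fr n F) := hF ▸ c.tw.h1.nrm.le he
  obtain ⟨π, hπ⟩ := ex_Pm (mem_comap.1 h5)
  obtain ⟨σ, hs⟩ := c.m.smul e
  have h6 : ∀ τ : Equiv.Perm (Fin n), τ.IsThreeCycle → Commute π τ := fun τ hτ => by
    obtain ⟨-, w, hw, h6⟩ := c.m.mem_lift.1 (c.fr_mem hF (T.pm_mem_S hτ.sign) (Pm_pm _))
    have a1 := hπ.mul (Pm_pm τ)
    have a2 := (Pm_pm τ).mul hπ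
    rw [← h6, ← map_mul] at a1 a2
    rw [mem_cent1.1 (h4 ▸ hw)] at a2
    exact a1.uniq a2
  have h7 : ∀ z ∈ T.Z, ∀ a b : Fin n, ∃ y : Fˣ,
      (c.m.Lin e → ∀ i, σ (z ^ dfv a b (π⁻¹ i) : Fˣ) = y * (z ^ dfv a b i : Fˣ)) ∧
      (c.m.Du e → ∀ i, σ (z ^ dfv a b (π⁻¹ i) : Fˣ) * (y * (z ^ dfv a b i : Fˣ)) = 1) := by
    intro z hz a b
    obtain ⟨-, w, hw, h7⟩ := c.m.mem_lift.1 (c.fr_mem hF (Ty.dg_mem_S.2
      ⟨fun i => zpow_mem hz (dfv a b i), prod_dfv z a b⟩) (Pm_dg _))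
    exact c.m.cen_dg hπ hs h7 (mem_cent1.1 (h4 ▸ hw))
  by_cases h8 : π = 1
  · subst h8
    have h9 : ∀ z ∈ T.Z, (c.m.Lin e → σ (z : F) = z) ∧ (c.m.Du e → σ (z : F) * z = 1) := by
      intro z hz
      obtain ⟨y, a1, a2⟩ := h7 z hz ⟨0, by omega⟩ ⟨1, by omega⟩
      refine ⟨fun hl => ?_, fun hl => ?_⟩
      · have b1 := a1 hl ⟨0, by omega⟩
        have b2 := a1 hl ⟨2, by omega⟩
        simp [dfv] at b1 b2
        simpa [← b2] using b1
      · have b1 := a2 hl ⟨0, by omega⟩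
        have b2 := a2 hl ⟨2, by omega⟩
        simp [dfv] at b1 b2
        simpa [b2] using b1
    rcases c.m.lin_or e with hl | ⟨hl, hu, -⟩
    · exact (h2 (c.m.mem_M_of_Z hl hs fun z hz => (h9 z hz).1 hl)).elim
    · have a1 : c.p = 2 := (c.tw.pr.eq_two_or_odd').resolve_right fun h =>
        c.m.not_lin_du (c.m.lin_of_odd h h1) hl
      have a2 : (2 : F) ≠ 0 := fun h => by
        have := T.char
        exact hp (a1.trans ((Nat.prime_dvd_prime_iff_eq T.pr Nat.prime_two).1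
          ((CharP.cast_eq_zero_iff F T.r 2).1 (by exact_mod_cast h))).symm)
      have a3 : ∀ z : Fˣ, (z : F) = 1 ∨ (z : F) = -1 := fun z => sq_of_inv a2 σ (fun y hy =>
        (h9 (Units.mk0 y hy) fun h => absurd h hu).2 hl) z.ne_zero
      rcases Nat.lt_or_ge 4 n with h | h
      · exact c.fr3 hF h hB a1 a3
      · refine c.fb hF h ((Ty.card_Z_le two_pos fun z _ => Units.ext ?_).trans (by norm_num))
        rcases a3 z with h | h <;> simp [h]
  · obtain rfl : n = 3 := by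
      by_contra h9
      exact h8 (perm_cen (by omega) h6)
    obtain ⟨a, b, d, a1, a2, a3, a4, a5, a6⟩ := perm3 π h8 (h6 _
      (Equiv.Perm.isThreeCycle_swap_mul_swap_same (by decide) (by decide) (by decide)))
    refine c.fb hF (by norm_num) ((Ty.card_Z_le three_pos fun z hz => Units.ext ?_).trans (by norm_num))
    obtain ⟨y, b1, b2⟩ := h7 z hz a b
    have hz0 := z.ne_zero
    have hz1 : σ z ≠ 0 := by simp
    rcases c.m.lin_or e with hl | ⟨hl, -⟩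
    · have c1 := b1 hl a
      have c2 := b1 hl b
      have c3 := b1 hl d
      rw [a4] at c1
      rw [a5] at c2
      rw [a6] at c3
      simp [dfv, a1, a1.symm, a2, a3] at c1 c2 c3
      field_simp at c2 c3
      rw [Units.val_pow_eq_pow_val, Units.val_one]
      linear_combination (z : F) ^ 3 * c3 - (σ z * z ^ 2 + 1) * c1 + z * c2
    · have c1 := b2 hl a
      have c2 := b2 hl b
      have c3 := b2 hl d
      rw [a4] at c1
      rw [a5] at c2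
      rw [a6] at c3
      simp [dfv, a1, a1.symm, a2, a3] at c1 c2 c3
      field_simp at c2 c3
      rw [Units.val_pow_eq_pow_val, Units.val_one]
      linear_combination (-(z : F) ^ 2) * c2 - z ^ 2 * y * c3 + (y * z + 1) * c1

end CF.Wb
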