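import Cfsg.Agent.Wb.HV
import Cfsg.Agent.Geom.FinForms

/-! A square-zero element centralising a field of matrices. -/

set_option autoImplicit false
set_option linter.unusedSectionVars false

namespace CF.Wb

open Matrix Subgroup CF.BG Module

variable {F : Type} [Field F] [Fintype F] {n : ℕ} {T : Ty F} {G : Type*} [Group G] [Finite G]

theorem FL1.mat {K : Subalgebra F (R n F)} (φ : V n F →ₗ[K] K) {v : V n F} (h : φ v = 0)
    (h0 : ∃ w, φ w • v ≠ 0) :
    ∃ ν : R n F, (∀ x, ν *ᵥ x = φ x • v) ∧ ν ≠ 0 ∧ ν * ν = 0 ∧ ∀ a ∈ K, ν * a = a * ν := by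
  obtain ⟨w, hw⟩ := h0
  have e : ∀ x, LinearMap.toMatrix' ((φ.smulRight v).restrictScalars F) *ᵥ x = φ x • v := fun x => by
    rw [← Matrix.toLin'_apply, Matrix.toLin'_toMatrix']; rfl
  generalize LinearMap.toMatrix' ((φ.smulRight v).restrictScalars F) = ν at e
  refine ⟨ν, e, fun z => hw (by rw [← e, z, zero_mulVec]), ext_iff_mulVec.2 fun x => ?_, fun a m => ext_iff_mulVec.2 fun x => ?_⟩
  · rw [← mulVec_mulVec, e, e, map_smul, h, smul_zero, zero_smul, zero_mulVec]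
  · rw [← mulVec_mulVec, ← mulVec_mulVec, e, e]
    change φ ((⟨a, m⟩ : K) • x) • v = (⟨a, m⟩ : K) • φ x • v
    rw [map_smul, smul_assoc]

theorem FL1.herm {F K W : Type*} [Field F] [Field K] [Finite K] [Algebra F K] [AddCommGroup W] [Module K W] [Module F W]
    [IsScalarTower F K W] [FiniteDimensional K W] (bar : F → F) (σ : K →+* K) (ss : ∀ a, σ (σ a) = a)
    (ne : σ ≠ RingHom.id K) (l : K →ₗ[F] F) (l1 : l 1 = 1) (ls : ∀ a, l (σ a) = bar (l a)) (h : W → W → F)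
    (ha : ∀ a b c, h (a + b) c = h a c + h b c) (hz : ∀ (z : F) a b, h (z • a) b = z * h a b)
    (hs : ∀ x y, h y x = bar (h x y)) (hm : ∀ (a : K) x y, h (a • x) y = h x (σ a • y))
    (nd : ∀ w, (∀ v, h v w = 0) → w = 0) (h2 : 2 ≤ finrank K W) {γ : K} (γ0 : γ ≠ 0) (hγ : σ γ = -γ) :
    ∃ (φ : W →ₗ[K] K) (u : W), φ u = 0 ∧ (∃ w, φ w • u ≠ 0) ∧ ∀ x y, h (φ x • u) y + h x (φ y • u) = 0 := by
  have : FiniteDimensional F K := Module.Finite.of_finite
  let L : K →ₗ[F] Dual F K := (LinearMap.mul F K).compr₂ l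
  have iL : Function.Injective L := (injective_iff_map_eq_zero _).2 fun b z => by
    by_contra n
    have : l (b * b⁻¹) = 0 := LinearMap.congr_fun z b⁻¹
    rw [mul_inv_cancel₀ n, l1] at this
    exact one_ne_zero this
  have ex : ∀ x y : W, ∃ b : K, ∀ k : K, l (b * k) = h (k • x) y := fun x y =>
    let ⟨b, r⟩ := (LinearMap.injective_iff_surjective_of_finrank_eq_finrank Subspace.dual_finrank_eq.symm).1 iL
      ⟨⟨fun k => h (k • x) y, fun a b => by rw [add_smul, ha]⟩, fun a b => by simp only [smul_assoc, hz]; rfl⟩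
    ⟨b, LinearMap.congr_fun r⟩
  choose H hH using ex
  have uq : ∀ {b b' : K}, (∀ k, l (b * k) = l (b' * k)) → b = b' := fun r => iL (LinearMap.ext r)
  have sy : ∀ x y, σ (H x y) = H y x := fun x y => uq fun k => by
    rw [hH, hm, hs, ← hH, ← ls, map_mul σ, ss]
  have sm : ∀ (a : K) x y, H (a • x) y = a * H x y := fun a x y => uq fun k => by
    rw [hH, mul_comm a, mul_assoc, hH, mul_comm a, mul_smul]
  have ad : ∀ x x' y, H (x + x') y = H x y + H x' y := fun x x' y => uq fun k => by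
    rw [hH, add_mul, map_add, hH, hH, smul_add, ha]
  let B : W →ₛₗ[σ] W →ₗ[K] K := LinearMap.mk₂'ₛₗ σ (RingHom.id K) (fun y x => H x y)
    (fun a b x => by rw [← sy, ad, map_add, sy, sy]) (fun a b x => by rw [← sy, sm, map_mul, sy]; rfl)
    (fun y a b => ad a b y) fun a y x => sm a x y
  obtain ⟨u, u0, hu0⟩ := CF.Geom.exists_isotropic_of_two_le ne ss (B := B) ⟨fun x y => sy y x⟩ h2
  obtain ⟨x, hx⟩ : ∃ x, B u x ≠ 0 := by
    by_contra! z
    exact u0 (nd _ fun x => by rw [← one_smul K x, ← hH, show H x u = 0 from z x, zero_mul, map_zero])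
  refine ⟨γ • B u, u, by simp [hu0], ⟨x, smul_ne_zero (by simpa using ⟨γ0, hx⟩) u0⟩, fun x y => ?_⟩
  rw [hs (_ • u) x, ← hH, ← hH, ← ls, ← map_add]
  change l (H u y * (γ * H x u) + σ (H u x * (γ * H y u))) = 0
  rw [map_mul σ, map_mul σ, sy, sy, hγ, ← map_zero l]
  congr 1
  ring

/-- the adjoint map on a commutative subalgebra -/
def FL1.sg (T : Ty F) {K : Subalgebra F (R n F)} (c : ∀ a b : K, a * b = b * a) (hs : ∀ a ∈ K, T.st a ∈ K) : K →+* K where
  toFun a := ⟨_, hs a a.2⟩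
  map_one' := Subtype.ext T.st_one
  map_zero' := Subtype.ext (by simp [Ty.st])
  map_add' a b := Subtype.ext (T.st_add _ _)
  map_mul' a b := (Subtype.ext (T.st_mul _ _)).trans (c ⟨_, hs b b.2⟩ ⟨_, hs a a.2⟩)

theorem FL1.sg_al (T : Ty F) {K : Subalgebra F (R n F)} (c : ∀ a b : K, a * b = b * a) (hs : ∀ a ∈ K, T.st a ∈ K) (z : F) :
    FL1.sg T c hs (algebraMap F K z) = algebraMap F K (T.bar z) := Subtype.ext (by
  change T.st (algebraMap F (R n F) z) = algebraMap F (R n F) _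
  rw [Algebra.algebraMap_eq_smul_one, Algebra.algebraMap_eq_smul_one, T.st_smul, T.st_one])

theorem Ty.fl1 (T : Ty F) {K : Subalgebra F (R n F)} (hK : IsField K)
    (hs : T.u → ∀ a ∈ K, T.st a ∈ K) (h : ∃ v : V n F, v ≠ 0 ∧ ∃ w, ∀ a ∈ K, a *ᵥ v ≠ w) :
    ∃ ν : R n F, ν ≠ 0 ∧ ν * ν = 0 ∧ (∀ a ∈ K, ν * a = a * ν) ∧ (T.u → T.st ν = -ν) := by
  let := hK.toField
  obtain ⟨v, v0, w, hw⟩ := h
  have nw : w ∉ K ∙ v := fun m => let ⟨a, r⟩ := Submodule.mem_span_singleton.1 m; hw a a.2 r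
  by_cases hu : T.u
  swap
  · obtain ⟨φ, h1, h2⟩ := Submodule.exists_le_ker_of_notMem nw
    obtain ⟨ν, -, a, b, c⟩ := FL1.mat φ (h2 (Submodule.mem_span_singleton_self v)) ⟨w, smul_ne_zero h1 v0⟩
    exact ⟨ν, a, b, c, fun z => (hu z).elim⟩
  obtain ⟨i, -⟩ := Function.ne_iff.1 v0
  obtain ⟨γ, γ0, hγ⟩ := Ty.ex_skew hu
  obtain ⟨a, ha⟩ := Ty.ex_nb hu
  have al := FL1.sg_al T hK.mul_comm (hs hu)
  have : Finite K := Subtype.finite
  have : FiniteDimensional K (V n F) := Module.Finite.of_finite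
  obtain ⟨φ, u, h1, h2, h3⟩ := FL1.herm T.bar (FL1.sg T hK.mul_comm (hs hu)) (fun a => Subtype.ext (Ty.st_st hu _))
    (fun z => ha ((algebraMap F K).injective (by rw [← al, z]; rfl)))
    (Matrix.entryLinearMap F F i i ∘ₗ K.val.toLinearMap) (by simp) (fun _ => rfl) (T.h (n := n)) T.h_add_left
    T.h_smul_left (fun x y => Ty.h_symm hu x y) (fun a x y => Ty.h_mulVec hu a.1 x y) (fun _ => T.h_nd) (by
      have := Submodule.finrank_lt (s := K ∙ v) fun z => nw (z ▸ trivial)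
      rwa [finrank_span_singleton v0] at this) (γ := algebraMap F K γ) ((map_ne_zero _).2 γ0) (by rw [al, hγ, map_neg])
  obtain ⟨ν, e, b, c, d⟩ := FL1.mat φ h1 h2
  refine ⟨ν, b, c, d, fun _ => ext_iff_mulVec.2 fun y => ?_⟩
  rw [neg_mulVec, ← add_eq_zero_iff_eq_neg]
  refine T.h_nd fun x => ?_
  rw [T.h_add_right, ← Ty.h_mulVec hu, e, e, h3]

end CF.Wb
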