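import Cfsg.Agent.Wb.X2
import Cfsg.Agent.Wb.FL1

/-! Field extension subgroups that are not Singer normalisers. -/

set_option autoImplicit false
set_option linter.unusedSectionVars false

namespace CF.Wb

open Matrix Subgroup CF.BG Module

variable {F : Type} [Field F] [Fintype F] {n : ℕ} {T : Ty F} {G : Type*} [Group G] [Finite G]

theorem Cx.fld (c : Cx T n G) (hp : c.p ≠ T.r) {K : Subalgebra F (R n F)} (hK : c.m.Fld c.H K)
    (h : ∃ v : V n F, v ≠ 0 ∧ ∃ w, ∀ a ∈ K, a *ᵥ v ≠ w) : False := by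
  obtain ⟨ν, n0, n2, nc, ns⟩ := T.fl1 hK.fld hK.st h
  obtain ⟨l, lK, ls, lt⟩ : ∃ l ∈ K, ¬ Sc l ∧ (T.u → T.st l = l) := by
    obtain ⟨a, aK, ha⟩ := hK.ne
    by_cases hu : T.u
    · obtain ⟨z, hz⟩ := Ty.ex_nb hu
      have k : ∀ a ∈ K, Sc (a + T.st a) ∨ ∃ l ∈ K, ¬ Sc l ∧ (T.u → T.st l = l) := fun a m => or_iff_not_imp_left.2 fun s =>
        ⟨_, add_mem m (hK.st hu a m), s, fun _ => by rw [T.st_add, Ty.st_st hu, add_comm]⟩
      obtain ⟨x, hx⟩ | e := k a aK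
      · obtain ⟨y, hy⟩ | e := k (z • a) (K.smul_mem aK z)
        · refine (ha ⟨(z - T.bar z)⁻¹ * (y - T.bar z * x), ?_⟩).elim
          rw [mul_smul, eq_inv_smul_iff₀ (sub_ne_zero.2 hz.symm), sub_smul y, mul_smul, ← hx, ← hy, T.st_smul]
          module
        · exact e
      · exact e
    · exact ⟨a, aK, ha, fun z => (hu z).elim⟩
  have cm : ∀ a ∈ K, ∀ b ∈ K, a * b = b * a := fun a m b k => congrArg Subtype.val (hK.fld.mul_comm ⟨a, m⟩ ⟨b, k⟩)
  refine c.x3 hp n0 n2 ns (nc l lK) lt (fun i j k => ?_) fun s m r => hK.cen s m fun a k => ?_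
  · have m : (i : F) • 1 + (j : F) • l ∈ K := add_mem (K.smul_mem K.one_mem _) (K.smul_mem lK _)
    obtain ⟨b, hb⟩ := hK.fld.mul_inv_cancel (a := ⟨_, m⟩) fun z => by
      replace z : (i : F) • (1 : R n F) + (j : F) • l = 0 := congrArg Subtype.val z
      by_cases j0 : (j : F) = 0
      · rw [j0, zero_smul, add_zero, smul_eq_zero] at z
        exact k ⟨z.resolve_right fun o => ls ⟨0, by rw [← mul_one l, o]; simp⟩, j0⟩
      · exact ls ⟨(j : F)⁻¹ * -i, by rw [mul_smul, eq_inv_smul_iff₀ j0, neg_smul, eq_neg_of_add_eq_zero_right z]⟩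
    exact IsUnit.of_mul_eq_one _ (congrArg Subtype.val hb)
  · rcases r with r | r <;> rw [r, add_mul, mul_add, one_mul, mul_one]
    · rw [nc a k]
    · rw [mul_assoc, nc a k, ← mul_assoc, cm l lK a k, mul_assoc]

end CF.Wb
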