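import Cfsg.Agent.Wb.B0
import Cfsg.Agent.S2690

/-! Wielandt bound: automorphisms of the projective special linear group are allowed maps. -/

set_option autoImplicit false
set_option linter.unusedSectionVars false

namespace CF.Wb

open Matrix Subgroup CF.BG Module HV UN B0

variable {F : Type} [Field F] [Fintype F] {n : ℕ} {T : Ty F} {G : Type*} [Group G] [Finite G]

namespace I1

open Matrix.SpecialLinearGroup

theorem psi (hu : ¬ T.u) : ∃ ψ : ProjectiveSpecialLinearGroup (Fin n) F ≃* (T.S n).map cn,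
    ∀ s : SpecialLinearGroup (Fin n) F, (ψ (QuotientGroup.mk s) : Equiv.Perm (R n F)) = cn (toGL s) := by
  let θ : SpecialLinearGroup (Fin n) F →* (T.S n).map cn := (cn.comp toGL).codRestrict _ fun s =>
    mem_map_of_mem _ (T.mem_S.2 ⟨mem_Γ hu _, s.2⟩)
  have h1 : Function.Surjective θ := fun ⟨_, A, hA, e⟩ =>
    ⟨⟨A, (T.mem_S.1 hA).2⟩, Subtype.ext (e ▸ congrArg cn (Units.ext rfl))⟩
  have h2 : center _ = θ.ker := Subgroup.ext fun s => by
    rw [MonoidHom.mem_ker, Subtype.ext_iff, Matrix.SpecialLinearGroup.mem_center_iff]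
    change _ ↔ cn (toGL s) = 1
    rw [cn_eq_one]
    refine ⟨fun ⟨r, _, h⟩ => ⟨r, h.symm.trans (smul_one_eq_diagonal r).symm⟩, fun ⟨r, h⟩ => ⟨r, ?_,
      ((show s.1 = _ from h).trans (smul_one_eq_diagonal r)).symm⟩⟩
    have := s.2
    rwa [show s.1 = _ from h, det_smul, Matrix.det_one, mul_one] at this
  exact ⟨(QuotientGroup.quotientMulEquivOfEq h2).trans
    (QuotientGroup.quotientKerEquivOfSurjective θ h1), fun _ => rfl⟩

/-- `δ` is induced by an allowed map -/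
def Gd (T : Ty F) (δ : MulAut (ProjectiveSpecialLinearGroup (Fin n) F)) : Prop :=
  ∃ α : Equiv.Perm (R n F), T.Al α ∧ ∀ s : SpecialLinearGroup (Fin n) F,
    ∃ t : SpecialLinearGroup (Fin n) F, δ (QuotientGroup.mk s) = QuotientGroup.mk t ∧
      cn (toGL t) * α = α * cn (toGL s)

theorem Gd.mul {δ φ : MulAut (ProjectiveSpecialLinearGroup (Fin n) F)} (h : Gd T δ) (h' : Gd T φ) :
    Gd T (δ * φ) := by
  obtain ⟨α, h1, h2⟩ := h
  obtain ⟨β, h3, h4⟩ := h'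
  refine ⟨_, h1.mul h3, fun s => ?_⟩
  obtain ⟨t, h5, h6⟩ := h4 s
  obtain ⟨w, h7, h8⟩ := h2 t
  exact ⟨w, by rw [MulAut.mul_apply, h5, h7], by rw [← mul_assoc, h8, mul_assoc, h6, mul_assoc]⟩

theorem gd_in (hu : ¬ T.u) {δ : MulAut (ProjectiveSpecialLinearGroup (Fin n) F)}
    (h : Cfsg.IsInnerDiagonalAutPSL δ) : Gd T δ := by
  obtain ⟨g, h⟩ := h
  refine ⟨_, Ty.Al.cn (mem_Γ hu g), fun s => ⟨⟨_, (det_units_conj g s.1).trans s.2⟩, h s _ rfl, ?_⟩⟩
  rw [← map_mul, ← map_mul]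
  exact congrArg cn (Units.ext (Units.inv_mul_cancel_right _ g))

theorem gd_fl {δ : MulAut (ProjectiveSpecialLinearGroup (Fin n) F)} {σ : F ≃+* F}
    (h : Cfsg.IsStdFieldAutPSL σ δ) : Gd T δ :=
  ⟨σ.mapMatrix.toEquiv, ⟨1, one_mem _, σ, .inl fun a => by rw [map_one]; rfl⟩, fun s =>
    ⟨SpecialLinearGroup.map (σ : F →+* F) s, h s _ rfl, by
      rw [show toGL (SpecialLinearGroup.map (σ : F →+* F) s) = gm σ (toGL s) from Units.ext rfl]
      exact Equiv.ext fun a => (map_cn σ (toGL s) a).symm⟩⟩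

theorem gd_tr (hu : ¬ T.u) (h2 : 2 ≤ n) {δ : MulAut (ProjectiveSpecialLinearGroup (Fin n) F)}
    (h : Cfsg.IsInverseTransposeAutPSL δ) : Gd T δ := by
  rcases h2.eq_or_lt with rfl | h3
  · refine gd_in hu ⟨⟨!![0, 1; -1, 0], !![0, -1; 1, 0], by simp [one_fin_two],
      by simp [one_fin_two]⟩, fun s t e => h s t ?_⟩
    rw [e, Matrix.SpecialLinearGroup.coe_inv, adjugate_fin_two]
    ext i j
    fin_cases i <;> fin_cases j <;> simp [Matrix.mul_apply, vecMul, dotProduct, Fin.sum_univ_two]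
  · refine ⟨(transposeAddEquiv _ _ F).toEquiv, ⟨1, one_mem _, RingEquiv.refl F,
      .inr ⟨hu, h3, fun a => by rw [map_one]; rfl⟩⟩, fun s => ?_⟩
    let t : SpecialLinearGroup (Fin n) F := ⟨_, (det_transpose _).trans s⁻¹.2⟩
    refine ⟨t, h s _ rfl, ?_⟩
    rw [show toGL t = it (toGL s) from Units.ext (congrArg (fun A : GL (Fin n) F => A.1ᵀ)
      (map_inv toGL s))]
    exact Equiv.ext fun a => (tr_cn (toGL s) a).symm

end I1

open I1

theorem autL (hu : ¬ T.u) (h2 : 2 ≤ n) (h4 : n = 2 → 4 ≤ Fintype.card F) :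
    Nonempty (Matrix.ProjectiveSpecialLinearGroup (Fin n) F ≃* (T.S n).map cn) ∧
    ∀ β : MulAut ((T.S n).map cn), ∃ α : Equiv.Perm (R n F), T.Al α ∧
      ∀ x : (T.S n).map cn, (β x : Equiv.Perm (R n F)) = α * (x : Equiv.Perm (R n F)) * α⁻¹ := by
  obtain ⟨ψ, hψ⟩ := psi (n := n) hu
  refine ⟨⟨ψ⟩, fun β => ?_⟩
  have := Fact.mk T.pr
  obtain ⟨δ, φ, γ, σ, h5, h6, h7, e⟩ :=
    Cfsg.Agent.S2690.result (T.cL hu) T.f1 h2 h4 (MulAut.congr ψ.symm β)
  obtain ⟨α, h8, h9⟩ : Gd T (MulAut.congr ψ.symm β) := by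
    rw [e]
    rcases h7 with rfl | h7
    · rw [mul_one]
      exact (gd_in hu h5).mul (gd_fl h6)
    · exact ((gd_in hu h5).mul (gd_fl h6)).mul (gd_tr hu h2 h7)
  refine ⟨α, h8, fun x => ?_⟩
  obtain ⟨y, rfl⟩ := ψ.surjective x
  obtain ⟨s, rfl⟩ := QuotientGroup.mk_surjective y
  obtain ⟨t, h10, h11⟩ := h9 s
  rw [hψ, ← h11, mul_inv_cancel_right, ← hψ, ← h10]
  simp

end CF.Wb
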