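import Cfsg.Agent.Wb.UN

/-! Irreducibility of the groups generated by supported transvections. -/

set_option autoImplicit false
set_option linter.unusedSectionVars false

namespace CF.Wb

open Matrix Subgroup CF.BG Module HV UN

variable {F : Type} [Field F] [Fintype F] {n : ℕ} {T : Ty F} {G : Type*} [Group G] [Finite G]

namespace IR

/-- a supported transvection moving `x` in the direction `v` (linear case) -/
theorem tvL (hu : ¬ T.u) {ε : R n F} (he : T.Id ε) {x v : V n F} (hx : x ∈ rg ε) (hv : v ∈ rg ε)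
    (h0 : v ≠ 0) (h : x ∉ F ∙ v) : ∃ φ, T.Tv v φ ∧ Sup ε v φ ∧ φ ⬝ᵥ x = 1 := by
  obtain ⟨φ, h1, h2⟩ := ex_fun h
  have e : ∀ y ∈ rg ε, (φ ᵥ* ε) ⬝ᵥ y = φ ⬝ᵥ y := fun y hy => by
    rw [← dotProduct_mulVec, (mem_rg_id he.1).1 hy]
  refine ⟨φ ᵥ* ε, ⟨h0, fun h3 => ?_, ?_, fun h => absurd h hu⟩,
    ⟨(mem_rg_id he.1).1 hv, by rw [vecMul_vecMul, he.1]⟩, by rw [e x hx, h1]⟩
  · have := e x hx
    rw [h3, h1, zero_dotProduct] at this
    exact zero_ne_one this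
  · rw [e v hv, h2 v (Submodule.mem_span_singleton_self v)]

theorem tv_vec {A : GL (Fin n) F} {v φ : V n F} (h : (A : R n F) = 1 + vecMulVec v φ) (x : V n F) :
    (A : R n F) *ᵥ x = x + (φ ⬝ᵥ x) • v := by rw [h, add_mulVec, one_mulVec, vv_mulVec]

theorem id_one (T : Ty F) : T.Id (1 : R n F) := ⟨one_mul _, fun _ => T.st_one⟩

theorem rg_one : rg (1 : R n F) = ⊤ := eq_top_iff.2 fun v _ => mem_rg.2 ⟨v, one_mulVec v⟩

end IR

open IR

theorem Ty.irrS {ε : R n F} (he : T.Id ε) {U : Submodule F (V n F)} (hU : U ≤ rg ε)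
    (h : ∀ v φ, T.Tv v φ → Sup ε v φ → ∀ x ∈ U, (φ ⬝ᵥ x) • v ∈ U) : U = ⊥ ∨ U = rg ε := by
  by_cases hu : T.u
  · have := T.hi hu (X := rg ε) (U := U) (by rw [he.nd hu]; exact bot_le) hU fun v hv h1 => ?_
    · rwa [he.nd hu] at this
    by_cases h0 : v = 0
    · exact .inl (h0 ▸ zero_mem U)
    obtain ⟨γ, g0, g1⟩ := T.ex_skew hu
    have t := Ty.tv_of hu h0 h1 g0 g1
    refine or_iff_not_imp_left.2 fun hv' => Ty.mem_perp.2 fun x hx => (h_swap hu).1 ?_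
    by_contra hne
    have := h _ _ t (t.sup hu he ((mem_rg_id he.1).1 hv)) x hx
    rw [smul_dotProduct, T.bv_dot, smul_eq_mul] at this
    exact hv' ((U.smul_mem_iff (mul_ne_zero g0 hne)).1 this)
  · refine or_iff_not_imp_left.2 fun h0 => le_antisymm hU fun v hv => ?_
    obtain ⟨x, hx, x0⟩ := (Submodule.ne_bot_iff U).1 h0
    by_contra hv'
    obtain ⟨φ, t, s, e⟩ := tvL hu he (hU hx) hv (fun e => hv' (e ▸ zero_mem U)) fun hm => by
      obtain ⟨c, rfl⟩ := Submodule.mem_span_singleton.1 hm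
      exact hv' ((U.smul_mem_iff (left_ne_zero_of_smul x0)).1 hx)
    exact hv' (by simpa [e] using h v φ t s x hx)

theorem Ty.irrSe {ε : R n F} (he : T.Id ε) {U : Submodule F (V n F)} (hU : U ≤ rg ε)
    (h : ∀ s ∈ T.Se ε, mp (s : R n F) U ≤ U) : U = ⊥ ∨ U = rg ε := by
  refine Ty.irrS he hU fun v φ t s x hx => ?_
  obtain ⟨A, hA, e⟩ := t.se s
  have := mp_le.1 (h A hA) x hx
  rw [tv_vec e] at this
  simpa using sub_mem this hx

theorem Ty.S_irr (T : Ty F) {U : Submodule F (V n F)} (h1 : U ≠ ⊥) (h2 : U ≠ ⊤) :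
    ∃ s ∈ T.S n, mp (s : R n F) U ≠ U := by
  by_contra! h
  rcases Ty.irrSe (id_one T) (U := U) (by rw [rg_one]; exact le_top) fun s hs => (h s hs.1).le with e | e
  · exact h1 e
  · exact h2 (e.trans rg_one)

theorem Ty.cen {ε : R n F} (he : T.Id ε) (h2 : 2 ≤ ε.rank) {a : R n F}
    (h : ∀ v φ, T.Tv v φ → Sup ε v φ → a * vecMulVec v φ = vecMulVec v φ * a) : ScOn a ε := by
  obtain ⟨v, φ, t, s⟩ := Ty.ex_tv he h2
  have key : ∀ v φ, T.Tv v φ → Sup ε v φ → ∀ x, (φ ⬝ᵥ x) • a *ᵥ v = (φ ⬝ᵥ a *ᵥ x) • v :=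
    fun v φ t s x => by
      rw [← mulVec_smul, ← vv_mulVec, ← vv_mulVec, mulVec_mulVec, mulVec_mulVec, h v φ t s]
  obtain ⟨z, hz⟩ : ∃ z : F, a *ᵥ v = z • v := by
    obtain ⟨i, hi⟩ := Function.ne_iff.1 t.2.1
    have h3 := key v φ t s (Pi.single i 1)
    rw [dotProduct_single, mul_one] at h3
    exact ⟨(φ i)⁻¹ * _, by rw [mul_smul, ← h3, inv_smul_smul₀ hi]⟩
  have mem : ∀ x, x ∈ rg ε ⊓ kr (a - z • 1) ↔ x ∈ rg ε ∧ a *ᵥ x = z • x := fun x => by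
    rw [Submodule.mem_inf, mem_kr, sub_mulVec, smul_mulVec, one_mulVec, sub_eq_zero]
  rcases Ty.irrS he (U := rg ε ⊓ kr (a - z • 1)) inf_le_left (fun w ψ t s x hx => by
    refine (mem _).2 ⟨Submodule.smul_mem _ _ ((mem_rg_id he.1).2 s.1), ?_⟩
    rw [mulVec_smul, key w ψ t s, ((mem x).1 hx).2, dotProduct_smul, smul_smul, smul_eq_mul])
    with e | e
  · have := (mem v).2 ⟨(mem_rg_id he.1).2 s.1, hz⟩
    rw [e] at this
    exact absurd this t.1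
  · refine ⟨z, Matrix.ext_iff_mulVec.2 fun x => ?_⟩
    rw [← mulVec_mulVec, smul_mulVec]
    exact ((mem _).1 (e.ge (mem_rg.2 ⟨x, rfl⟩))).2

end CF.Wb
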