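import Cfsg.Agent.Wb.B0
import Cfsg.Agent.Wb.IR1
import Cfsg.Agent.S2692

/-! The automorphisms of the unitary groups in the matrix model. -/

set_option autoImplicit false
set_option linter.unusedSectionVars false

namespace CF.Wb

open Matrix Subgroup CF.BG Module

variable {F : Type} [Field F] [Fintype F] {n : ℕ} {T : Ty F} {G : Type*} [Group G] [Finite G]

theorem I2.mem_iff (hu : T.u) {A : GL (Fin n) F} : A ∈ T.Γ n ↔ ∀ u v,
    Cfsg.hermForm n F T.q ((A : R n F) *ᵥ u) ((A : R n F) *ᵥ v) = Cfsg.hermForm n F T.q u v := by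
  have e (u v : V n F) : Cfsg.hermForm n F T.q u v = T.h u v := Finset.sum_congr rfl fun i _ => by
    rw [Ty.bv, T.bU hu]; rfl
  simp only [e]
  refine ⟨T.h_Γ hu, fun h _ => Matrix.toLin'.injective (LinearMap.ext fun v => sub_eq_zero.1 (T.h_nd fun u => ?_))⟩
  rw [HV.h_sub_right, toLin'_apply, toLin'_apply, one_mulVec, ← mulVec_mulVec, ← T.h_mulVec hu, h, sub_self]

theorem autU (hu : T.u) (ok : T.Ok n) :
    Nonempty (Cfsg.PSU n F T.q ≃* (T.S n).map cn) ∧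
    ∀ β : MulAut ((T.S n).map cn), ∃ α : Equiv.Perm (R n F), T.Al α ∧
      ∀ x : (T.S n).map cn, (β x : Equiv.Perm (R n F)) = α * (x : Equiv.Perm (R n F)) * α⁻¹ := by
  let j : Cfsg.SU n F T.q →* GL (Fin n) F := SpecialLinearGroup.toGL.comp (Subgroup.subtype _)
  have jm s : j s ∈ T.S n := T.mem_S.2 ⟨(I2.mem_iff hu).2 s.2, s.1.2⟩
  have js s (k : s ∈ T.S n) : ∃ x, j x = s :=
    ⟨⟨⟨s, (T.mem_S.1 k).2⟩, (I2.mem_iff hu).1 k.1⟩, Units.ext rfl⟩
  have ji : Function.Injective j := fun a b k => Subtype.ext (Subtype.ext (congrArg Units.val k))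
  let χ : Cfsg.SU n F T.q →* (T.S n).map cn := (cn.comp j).codRestrict _ fun s => ⟨_, jm s, rfl⟩
  have su : Function.Surjective χ := by
    rintro ⟨_, s, k, rfl⟩
    obtain ⟨x, rfl⟩ := js s k
    exact ⟨x, rfl⟩
  have ker : center _ = χ.ker := Subgroup.ext fun s => by
    rw [MonoidHom.mem_ker, Subtype.ext_iff]
    refine Iff.trans ⟨fun k => ?_, fun ⟨z, k⟩ => mem_center_iff.2 fun x => ji (Units.ext ?_)⟩ (cn_eq_one (A := j s)).symm
    · obtain ⟨z, e⟩ := T.cen (IR.id_one T) (by simpa using ok.n2) (a := j s) fun v φ t _ => by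
        obtain ⟨A, m, e⟩ := t.un
        obtain ⟨x, rfl⟩ := js A m
        have := congrArg (fun y => ((j y : GL (Fin n) F) : R n F)) (mem_center_iff.1 k x)
        simpa [e, mul_add, add_mul, eq_comm] using this
      exact ⟨z, by simpa using e⟩
    · simp [k]
  let ψ : Cfsg.PSU n F T.q ≃* (T.S n).map cn :=
    (QuotientGroup.quotientMulEquivOfEq ker).trans (QuotientGroup.quotientKerEquivOfSurjective χ su)
  refine ⟨⟨ψ⟩, fun β => ?_⟩
  have := Fact.mk T.pr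
  obtain ⟨δ, φ, σ, ⟨g, hg, h1⟩, h2, e⟩ := Cfsg.Agent.S2692.result (q := T.q) rfl T.f1 (T.cU hu) (ok.n3 hu) (ok.ex hu)
    ((ψ.trans β).trans ψ.symm)
  have hg := (I2.mem_iff hu).2 hg
  refine ⟨cn g * σ.mapMatrix.toEquiv, ⟨g, hg, σ, .inl fun _ => rfl⟩, fun x => ?_⟩
  obtain ⟨s, rfl⟩ := su x
  have m : B0.gm σ (j s) ∈ T.S n := T.mem_S.2 ⟨B0.gm_mem σ (jm s).1, by
    rw [B0.gm_val]; exact (σ.map_det _).symm.trans (by rw [(T.mem_S.1 (jm s)).2, map_one])⟩
  obtain ⟨a, ha⟩ := js _ m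
  obtain ⟨b, hb⟩ := js _ (T.conj_S hg (jm a))
  have := DFunLike.congr_fun e (QuotientGroup.mk s)
  rw [MulAut.mul_apply, h2 s a (congrArg Units.val ha), h1 a b (congrArg Units.val hb)] at this
  rw [show β (χ s) = χ b from ψ.symm_apply_eq.1 this, eq_mul_inv_iff_mul_eq]
  refine Equiv.ext fun y => ?_
  show cn (j b) (cn g (y.map σ)) = cn g ((cn (j s) y).map σ)
  rw [B0.map_cn, hb, ha, ← Equiv.Perm.mul_apply, ← map_mul, inv_mul_cancel_right, map_mul, Equiv.Perm.mul_apply]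

end CF.Wb
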