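import Cfsg.Agent.Wb.I0
import Cfsg.Agent.Wb.I1
import Cfsg.Agent.Wb.I2

/-! Wielandt bound: the matrix model exists. -/

set_option autoImplicit false
set_option linter.unusedSectionVars false

namespace CF.Wb

open Matrix Subgroup CF.BG Module

variable {G : Type*} [Group G] [Finite G]

theorem model (N : Subgroup G) (hN : N.Normal) (hc : 𝐂 N = ⊥) (h : Cfsg.IsPSL N ∨ Cfsg.IsPSU N) :
    ∃ (F : Type) (_ : Field F) (_ : Fintype F) (T : Ty F) (n : ℕ) (m : Md T n G), m.N = N := by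
  rcases h with ⟨F, _, _, n, h2, h4, ⟨e⟩⟩ | ⟨F, _, _, n, q, hq, h3, h4, ⟨e⟩⟩
  · obtain ⟨k, hp, hk⟩ := FiniteField.card F (ringChar F)
    let T : Ty F := ⟨False, _, k, RingEquiv.refl F, hp, k.2, fun _ => hk, False.elim, False.elim⟩
    obtain ⟨⟨ψ⟩, hs⟩ := autL (T := T) id h2 h4
    exact ⟨F, _, _, T, n, build ⟨h2, False.elim, False.elim⟩ N hN hc (e.trans ψ) hs⟩
  · obtain ⟨k, hp, hk⟩ := FiniteField.card F (ringChar F)
    have := Fact.mk hp
    obtain ⟨f, -, rfl⟩ := (Nat.dvd_prime_pow hp).1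
      (show q ∣ ringChar F ^ (k : ℕ) from hk ▸ hq ▸ dvd_pow_self q two_ne_zero)
    let T : Ty F := ⟨True, _, f, iterateFrobeniusEquiv F (ringChar F) f, hp,
      Nat.pos_of_ne_zero fun c => Fintype.one_lt_card.ne' (hq.trans (by rw [c]; rfl)),
      fun c => (c trivial).elim, fun _ => hq, fun _ _ => rfl⟩
    have ok : T.Ok n := ⟨by omega, fun _ => h3, fun _ => h4⟩
    obtain ⟨⟨ψ⟩, hs⟩ := autU (T := T) trivial ok
    exact ⟨F, _, _, T, n, build ok N hN hc (e.trans ψ) hs⟩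

end CF.Wb
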