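import Cfsg.Agent.Wb.B1

/-! Wielandt bound: the action on subspaces. -/

set_option autoImplicit false
set_option linter.unusedSectionVars false

namespace CF.Wb

open Matrix Subgroup CF.BG Module

variable {F : Type} [Field F] [Fintype F] {n : ℕ} {T : Ty F} {G : Type*} [Group G] [Finite G]

open HV UN B0

namespace B2

theorem mp_mul (a b : R n F) (U : Submodule F (V n F)) : mp (a * b) U = mp a (mp b U) := by
  rw [mp, toLin'_mul, Submodule.map_comp]; rfl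

theorem mp_one (U : Submodule F (V n F)) : mp (1 : R n F) U = U := by
  rw [mp, toLin'_one, Submodule.map_id]

theorem mp_inv_mp (A : GL (Fin n) F) (U : Submodule F (V n F)) :
    mp ((A⁻¹ : GL (Fin n) F) : R n F) (mp (A : R n F) U) = U := by rw [← mp_mul, A.inv_mul, mp_one]

theorem mp_mp_inv (A : GL (Fin n) F) (U : Submodule F (V n F)) :
    mp (A : R n F) (mp ((A⁻¹ : GL (Fin n) F) : R n F) U) = U := mp_inv_mp A⁻¹ U

theorem mp_mono (a : R n F) {U W : Submodule F (V n F)} (h : U ≤ W) : mp a U ≤ mp a W :=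
  Submodule.map_mono h

theorem mp_le_mp (A : GL (Fin n) F) {U W : Submodule F (V n F)} :
    mp (A : R n F) U ≤ mp (A : R n F) W ↔ U ≤ W :=
  ⟨fun h => by simpa only [mp_inv_mp] using mp_mono ((A⁻¹ : GL (Fin n) F) : R n F) h, mp_mono _⟩

theorem mp_cn (A : GL (Fin n) F) (a : R n F) (U : Submodule F (V n F)) :
    mp (cn A a) (mp (A : R n F) U) = mp (A : R n F) (mp a U) := by
  rw [cn_apply, mp_mul, mp_mul, mp_inv_mp]

theorem mem_Nn {a : R n F} {A1 A2 : Submodule F (V n F)} :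
    a ∈ Nn A1 A2 ↔ mp a ⊤ ≤ A1 ∧ mp a A2 ≤ ⊥ :=
  and_congr (by rw [mp, Submodule.map_top]; rfl) Submodule.map_le_iff_le_comap.symm

theorem vv_mem_Nn {v φ : V n F} {A1 A2 : Submodule F (V n F)} (h1 : v ∈ A1)
    (h2 : ∀ w ∈ A2, φ ⬝ᵥ w = 0) : vecMulVec v φ ∈ Nn A1 A2 :=
  mem_Nn.2 ⟨mp_le.2 fun w _ => vv_mulVec v φ w ▸ A1.smul_mem _ h1,
    mp_le.2 fun w hw => by simp [vv_mulVec, h2 w hw]⟩

theorem Nn_le {A1 A2 B1 B2 : Submodule F (V n F)} (h1 : A1 ≠ ⊥) (h2 : A2 ≠ ⊤)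
    (h : Nn A1 A2 ⊆ Nn B1 B2) : A1 ≤ B1 ∧ B2 ≤ A2 := by
  have k : ∀ x ∉ A2, ∀ v ∈ A1, v ∈ B1 ∧ (x ∈ B2 → v = 0) := fun x hx v hv => by
    obtain ⟨φ, h3, h4⟩ := ex_fun hx
    have e : vecMulVec v φ *ᵥ x = v := by rw [vv_mulVec, h3, one_smul]
    have := h (vv_mem_Nn hv h4)
    exact ⟨this.1 (mem_rg.2 ⟨x, e⟩), fun c => e ▸ mem_kr.1 (this.2 c)⟩
  obtain ⟨x, -, hx⟩ := SetLike.exists_of_lt h2.lt_top
  obtain ⟨v, hv, h0⟩ := (Submodule.ne_bot_iff _).1 h1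
  exact ⟨fun v hv => (k x hx v hv).1, fun y hy => by_contra fun c => h0 ((k y c v hv).2 hy)⟩

/-- order isomorphisms compatible with a map of matrices -/
theorem img_lin {α : Equiv.Perm (R n F)} {Φ : Submodule F (V n F) ≃ Submodule F (V n F)}
    (h1 : ∀ U W, Φ U ≤ Φ W ↔ U ≤ W) (h2 : ∀ a U W, mp (α a) (Φ U) ≤ Φ W ↔ mp a U ≤ W)
    (A1 A2 : Submodule F (V n F)) : α '' Nn A1 A2 = Nn (Φ A1) (Φ A2) := by
  let e : Submodule F (V n F) ≃o Submodule F (V n F) := ⟨Φ, h1 _ _⟩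
  refine Set.ext (α.surjective.forall.2 fun a => ?_)
  rw [α.injective.mem_set_image, mem_Nn, mem_Nn, ← h2, ← h2 a A2, show Φ ⊤ = ⊤ from e.map_top,
    show Φ ⊥ = ⊥ from e.map_bot]

theorem img_du {α : Equiv.Perm (R n F)} {Φ : Submodule F (V n F) ≃ Submodule F (V n F)}
    (h1 : ∀ U W, Φ U ≤ Φ W ↔ W ≤ U) (h2 : ∀ a U W, mp (α a) (Φ W) ≤ Φ U ↔ mp a U ≤ W)
    (A1 A2 : Submodule F (V n F)) : α '' Nn A1 A2 = Nn (Φ A2) (Φ A1) := by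
  have e1 : Φ ⊤ = ⊥ := eq_bot_iff.2 (Φ.apply_symm_apply ⊥ ▸ (h1 _ _).2 le_top)
  have e2 : Φ ⊥ = ⊤ := eq_top_iff.2 (Φ.apply_symm_apply ⊤ ▸ (h1 _ _).2 bot_le)
  refine Set.ext (α.surjective.forall.2 fun a => ?_)
  rw [α.injective.mem_set_image, mem_Nn, mem_Nn, ← h2, ← h2 a A2, e1, e2, and_comm]

/-- an invertible matrix permutes the subspaces -/
def mpE (A : GL (Fin n) F) : Submodule F (V n F) ≃ Submodule F (V n F) :=
  ⟨mp (A : R n F), mp ((A⁻¹ : GL (Fin n) F) : R n F), mp_inv_mp A, mp_mp_inv A⟩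

/-- a field automorphism permutes the subspaces -/
def smE (σ : F ≃+* F) : Submodule F (V n F) ≃ Submodule F (V n F) :=
  ⟨sm σ, sm σ.symm, fun _ => Submodule.ext fun _ => comp_mem_sm,
    fun _ => Submodule.ext fun _ => comp_mem_sm (σ := σ.symm)⟩

theorem sm_le_iff {σ : F ≃+* F} {U W : Submodule F (V n F)} : sm σ U ≤ W ↔ ∀ v ∈ U, σ ∘ v ∈ W :=
  ⟨fun h _ hv => h (comp_mem_sm.2 hv), fun h v hv => comp_symm σ v ▸ h _ hv⟩

theorem sm_le_sm {σ : F ≃+* F} {U W : Submodule F (V n F)} : sm σ U ≤ sm σ W ↔ U ≤ W := by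
  simp only [sm_le_iff, comp_mem_sm]; rfl

theorem mp_sm (σ : F ≃+* F) (a : R n F) (U W : Submodule F (V n F)) :
    mp (a.map σ) (sm σ U) ≤ sm σ W ↔ mp a U ≤ W := by
  rw [mp, Submodule.map_le_iff_le_comap, sm_le_iff, mp_le]
  simp only [Submodule.mem_comap, toLin'_apply, map_mulVec, comp_mem_sm]

theorem an_anti {U W : Submodule F (V n F)} (h : U ≤ W) : an W ≤ an U :=
  fun _ hv => mem_an.2 fun w hw => mem_an.1 hv w (h hw)

theorem an_le_an {U W : Submodule F (V n F)} : an U ≤ an W ↔ W ≤ U :=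
  ⟨fun h => by simpa only [an_an] using an_anti h, an_anti⟩

theorem mp_an (a : R n F) (U W : Submodule F (V n F)) : mp aᵀ (an W) ≤ an U ↔ mp a U ≤ W := by
  conv_rhs => rw [← an_an W]
  simp only [mp_le, mem_an (U := U), mem_an (U := an W), mulVec_transpose, ← dotProduct_mulVec]
  exact ⟨fun h w hw φ hφ => (dotProduct_comm _ _).trans (h φ hφ w hw),
    fun h φ hφ w hw => (dotProduct_comm _ _).trans (h w hw φ hφ)⟩

end B2

open B2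

theorem Nn_img (s : GL (Fin n) F) (A1 A2 : Submodule F (V n F)) :
    cn s '' Nn A1 A2 = Nn (mp (s : R n F) A1) (mp (s : R n F) A2) :=
  img_lin (Φ := mpE s) (fun _ _ => mp_le_mp s) (fun a U W => mp_cn s a U ▸ mp_le_mp s) A1 A2

theorem Nn_inj {A1 A2 B1 B2 : Submodule F (V n F)} (h1 : A1 ≠ ⊥) (h2 : A2 ≠ ⊤)
    (h : Nn A1 A2 = Nn B1 B2) : A1 = B1 ∧ A2 = B2 := by
  have a := Nn_le h1 h2 h.le
  have b := Nn_le (ne_bot_of_le_ne_bot h1 a.1) (ne_top_of_le_ne_top h2 a.2) h.ge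
  exact ⟨a.1.antisymm b.1, b.2.antisymm a.2⟩

theorem mem_PS_Nn {A1 A2 : Submodule F (V n F)} (h1 : A1 ≠ ⊥) (h2 : A2 ≠ ⊤) {s : GL (Fin n) F} :
    s ∈ PS (Nn A1 A2) ↔ mp (s : R n F) A1 = A1 ∧ mp (s : R n F) A2 = A2 := by
  refine ⟨fun h => (Nn_inj h1 h2 ?_).imp Eq.symm Eq.symm, fun h => mem_stb_of fun a ha => ?_⟩
  · rw [← Nn_img]
    exact Set.ext ((cn s).surjective.forall.2 fun a => (h a).trans (cn s).injective.mem_set_image.symm)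
  · rw [← h.1, ← h.2, ← Nn_img]
    exact ⟨a, ha, rfl⟩

theorem Ty.Fl.mp {A1 A2 : Submodule F (V n F)} (h : T.Fl A1 A2) {s : GL (Fin n) F}
    (hs : s ∈ T.Γ n) : T.Fl (mp (s : R n F) A1) (mp (s : R n F) A2) :=
  ⟨fun c => h.ne (eq_bot_iff.2 ((mp_le_mp s).1 (c.le.trans bot_le))),
    fun c => h.ne' (eq_top_iff.2 ((mp_le_mp s).1 (le_top.trans c.ge))), mp_mono _ h.le,
    fun hu => by rw [T.perp_mp hu hs, h.pp hu]⟩

theorem Md.phi (m : Md T n G) (g : G) : ∃ Φ : Submodule F (V n F) ≃ Submodule F (V n F),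
    (m.Lin g ∧ (∀ U W, Φ U ≤ Φ W ↔ U ≤ W) ∧ (∀ U, finrank F (Φ U) = finrank F U) ∧
      (∀ a U W, mp (m.ρ g a) (Φ U) ≤ Φ W ↔ mp a U ≤ W) ∧
      ∀ A1 A2, m.ρ g '' Nn A1 A2 = Nn (Φ A1) (Φ A2)) ∨
    (m.Du g ∧ (∀ U W, Φ U ≤ Φ W ↔ W ≤ U) ∧ (∀ U, finrank F (Φ U) + finrank F U = n) ∧
      (∀ a U W, mp (m.ρ g a) (Φ W) ≤ Φ U ↔ mp a U ≤ W) ∧
      ∀ A1 A2, m.ρ g '' Nn A1 A2 = Nn (Φ A2) (Φ A1)) := by
  obtain ⟨A, -, σ, e | ⟨-, -, e⟩⟩ := m.al g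
  · let Φ := (smE (n := n) σ).trans (mpE A)
    have h1 : ∀ U W, Φ U ≤ Φ W ↔ U ≤ W := fun _ _ => (mp_le_mp A).trans sm_le_sm
    have h2 : ∀ a U W, mp (m.ρ g a) (Φ U) ≤ Φ W ↔ mp a U ≤ W := fun a U W => by
      rw [e, ← mp_sm σ a, ← mp_le_mp A (U := mp _ (sm _ _)), ← mp_cn]; rfl
    exact ⟨Φ, .inl ⟨lin_of m e, h1, fun U => (finrank_mp A _).trans (finrank_sm σ U), h2,
      img_lin h1 h2⟩⟩
  · let Φ := ((smE (n := n) σ).trans ⟨an, an, an_an, an_an⟩).trans (mpE A)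
    have h1 : ∀ U W, Φ U ≤ Φ W ↔ W ≤ U := fun _ _ => (mp_le_mp A).trans (an_le_an.trans sm_le_sm)
    have h2 : ∀ a U W, mp (m.ρ g a) (Φ W) ≤ Φ U ↔ mp a U ≤ W := fun a U W => by
      rw [e, ← mp_sm σ a, ← mp_an (a.map σ), ← mp_le_mp A (U := mp _ (an _)), ← mp_cn]; rfl
    refine ⟨Φ, .inr ⟨du_of m e, h1, fun U => ?_, h2, img_du h1 h2⟩⟩
    rw [← finrank_sm σ U, add_comm]
    exact (congrArg _ (finrank_mp A _)).trans (finrank_an _)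

end CF.Wb
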