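import Cfsg.Agent.Wb.PC
import Cfsg.Agent.Wb.B2

/-! The centraliser of the unipotent radical. -/

set_option autoImplicit false
set_option linter.unusedSectionVars false

namespace CF.Wb

open Matrix Subgroup CF.BG Module

variable {F : Type} [Field F] [Fintype F] {n : ℕ} {T : Ty F} {G : Type*} [Group G] [Finite G]

namespace PD

theorem eig {B : R n F} (h : IsNilpotent (B - 1)) {v : V n F} (v0 : v ≠ 0) {c : F} (e : B *ᵥ v = c • v) : c = 1 := by
  obtain ⟨k, h⟩ := h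
  have (i : ℕ) : (B - 1) ^ i *ᵥ v = (c - 1) ^ i • v := by
    induction i with
    | zero => simp
    | succ i ih => rw [pow_succ', ← mulVec_mulVec, ih, mulVec_smul, sub_mulVec, e, one_mulVec]; module
  have := this k
  rw [h, zero_mulVec, eq_comm, smul_eq_zero_iff_left v0] at this
  exact sub_eq_zero.1 (IsNilpotent.eq_zero ⟨k, this⟩)

theorem rad_of {A1 A2 : Submodule F (V n F)} {ν : R n F} (h1 : ∀ x, ν *ᵥ x ∈ A2) (h2 : ∀ x ∈ A2, ν *ᵥ x ∈ A1)
    (h3 : ∀ x ∈ A1, ν *ᵥ x = 0) : Rad A1 A2 ν :=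
  ⟨fun _ k => by obtain ⟨x, rfl⟩ := mem_rg.1 k; exact h1 x, mp_le.2 h2, fun x k => mem_kr.2 (h3 x k)⟩

theorem mem_of_fun {A : Submodule F (V n F)} {x : V n F} (h : ∀ φ : V n F, (∀ y ∈ A, φ ⬝ᵥ y = 0) → φ ⬝ᵥ x = 0) :
    x ∈ A := by_contra fun k => by
  obtain ⟨φ, f1, f2⟩ := ex_fun k
  exact one_ne_zero (f1.symm.trans (h φ f2))

end PD

open PD

theorem Md.cen_rad (m : Md T n G) {A1 A2 : Submodule F (V n F)} (h : T.Fl A1 A2) {e : G} {j : ℕ}
    (he : e ^ T.r ^ j = 1) (hc : ∀ k : G, ∀ s ∈ T.S n, m.ρ k = cn s →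
      Rad A1 A2 ((s : R n F) - 1) → Commute e k) :
    ∃ A ∈ T.S n, m.ρ e = cn A ∧ (A : R n F) - 1 ∈ Nn A1 A2 := by
  have F1 {ν} (u : T.Un ν) (z : IsNilpotent ν) (r : Rad A1 A2 ν) :
      (m.Lin e ∧ m.ρ e ν = ν) ∨ (m.Du e ∧ (1 + m.ρ e ν) * (1 + ν) = 1) := by
    obtain ⟨s, hs, k⟩ := u
    obtain ⟨g, hg⟩ := m.sur s hs
    exact (m.comm_un z k hg).1 (hc g s hs hg (by simpa [k] using r))
  have tail (k : e ∈ m.M) : ∃ B ∈ T.S n, m.ρ e = cn B ∧ IsNilpotent ((B : R n F) - 1) ∧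
      ∀ ν, m.ρ e ν = ν → ∀ x, ν *ᵥ (B : R n F) *ᵥ x = (B : R n F) *ᵥ ν *ᵥ x := by
    obtain ⟨A, hA, k⟩ := m.mem_M.1 k
    obtain ⟨B, hB, k1, k2⟩ := T.ex_unip hA (j := j) (by
      rw [← Units.val_pow_eq_pow_val, ← cn_eq_one, map_pow, ← k, ← map_pow, he, map_one])
    exact ⟨B, hB, k.trans k1.symm, k2, fun ν z x => by rw [← cn_mv, k1, ← k, z]⟩
  have nn {B : R n F} (k1 : ∀ x, B *ᵥ x - x ∈ A1) (k2 : ∀ x ∈ A2, B *ᵥ x = x) : B - 1 ∈ Nn A1 A2 :=
    ⟨fun _ k => by obtain ⟨x, rfl⟩ := mem_rg.1 k; simpa [sub_mulVec] using k1 x,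
      fun x k => mem_kr.2 (by simp [sub_mulVec, k2 x k])⟩
  obtain ⟨w, a, w0⟩ := A1.ne_bot_iff.1 h.ne
  by_cases hu : T.u
  · have p := h.pp hu
    have i1 {x y} (a : x ∈ A2) (b : y ∈ A1) : T.h x y = 0 := T.mem_perp.1 (p ▸ a) y b
    have li := (m.lin_or e).resolve_right fun z => z.2.1 hu
    have F2 {ν} u z r : m.ρ e ν = ν := ((F1 u z r).resolve_right fun z => m.not_lin_du li z.1).2
    have tv {w} (a : w ∈ A1) : ∃ γ : F, γ ≠ 0 ∧ ∃ ν, m.ρ e ν = ν ∧ ∀ x, ν *ᵥ x = (γ * T.h x w) • w := by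
      obtain ⟨γ, g0, ν, k, z, y⟩ := tvU hu (i1 (h.le a) a)
      exact ⟨γ, g0, ν, F2 k ⟨2, by rw [pow_two, z]⟩ (rad_of (fun x => y x ▸ A2.smul_mem _ (h.le a))
        (fun x _ => y x ▸ A1.smul_mem _ a) fun x b => by simp [y, i1 (h.le b) a]), y⟩
    have ei {u} (b : u ∈ A2) : ∃ c : F, ∃ ν, m.ρ e ν = ν ∧
        ∀ x, ν *ᵥ x = T.h x w • u - T.h x u • w - (c * T.h x w) • w := by
      obtain ⟨c, ν, k, z, y⟩ := eiU hu (i1 (h.le a) a) (i1 b a)
      exact ⟨c, ν, F2 k z (rad_of (fun x => y x ▸ sub_mem (sub_mem (A2.smul_mem _ b) (A2.smul_mem _ (h.le a)))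
        (A2.smul_mem _ (h.le a))) (fun x d => by simpa [y, i1 d a] using A1.smul_mem _ a) fun x d => by
          simp [y, i1 (h.le d) a, h0 hu (i1 b d)]), y⟩
    have ex {w : V n F} (w0 : w ≠ 0) : ∃ x, T.h x w = 1 := by
      obtain ⟨x, k⟩ := not_forall.1 (mt T.h_nd w0)
      exact ⟨(T.h x w)⁻¹ • x, by rw [T.h_smul_left, inv_mul_cancel₀ k]⟩
    obtain ⟨x, hx⟩ := ex w0
    obtain ⟨B, hB, k1, k2, k3⟩ := tail (by
      obtain ⟨A, hA, σ, k⟩ := m.ex_lin li
      let τ (x : V n F) : V n F := (A : R n F) *ᵥ (σ ∘ x)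
      have t1 {ν} (z : m.ρ e ν = ν) x : ν *ᵥ τ x = τ (ν *ᵥ x) := by
        conv_lhs => rw [← z, k, cn_mv]
        exact congrArg _ (funext fun i => (RingHom.map_mulVec (σ : F →+* F) ν x i).symm)
      have t2 (c : F) x : τ (c • x) = σ c • τ x := by
        rw [← mulVec_smul]; exact congrArg ((A : R n F) *ᵥ ·) (funext fun i => by simp)
      have t3 x y : τ (x - y) = τ x - τ y := by
        rw [← mulVec_sub]; exact congrArg ((A : R n F) *ᵥ ·) (funext fun i => by simp)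
      obtain ⟨γ, g0, ν, z, y⟩ := tv a
      have t4 := t1 z x
      rw [y, y, hx, mul_one, t2] at t4
      have t5 : T.h (τ x) w ≠ 0 := fun z => w0 (by
        rw [z, mul_zero, zero_smul, eq_comm, smul_eq_zero_iff_right (by simpa using g0)] at t4
        have := congrArg (((A⁻¹ : GL (Fin n) F) : R n F) *ᵥ ·) t4
        simp only [τ, inv_mv, mulVec_zero] at this
        exact funext fun i => by simpa using congrFun this i)
      have sw := Submodule.mem_span_singleton_self (R := F) w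
      have t6 : τ w ∈ F ∙ w := (Submodule.smul_mem_iff _ (by simpa using g0)).1 (t4 ▸ Submodule.smul_mem _ _ sw)
      obtain ⟨u, b, n⟩ : ∃ u ∈ A2, u ∉ F ∙ w := SetLike.not_le_iff_exists.1 fun k => by
        have h1 := Submodule.finrank_mono k
        have h2 := Submodule.finrank_mono h.le
        have h3 := T.finrank_perp A1
        have := m.ok.n3 hu
        rw [finrank_span_singleton w0] at h1
        rw [← p] at h3
        omega
      have t7 (z : F) : σ z • τ u - (T.h (τ x) w * z) • u ∈ F ∙ w := by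
        obtain ⟨c, ν, y1, y⟩ := ei (A2.smul_mem z b)
        have := t1 y1 x
        rw [y, y, t3, t3, t2, t2, t2, t2, hx, map_one, one_smul] at this
        rw [show σ z • τ u - (T.h (τ x) w * z) • u = (σ (T.h x (z • u)) + σ (c * 1)) • τ w -
          (T.h (τ x) (z • u) + c * T.h (τ x) w) • w by linear_combination (norm := module) -this]
        exact sub_mem (Submodule.smul_mem _ _ t6) (Submodule.smul_mem _ _ sw)
      have t8 (z : F) : σ z = z := by_contra fun y => n ((Submodule.smul_mem_iff _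
        (mul_ne_zero t5 (sub_ne_zero.2 y))).1 (by
          convert sub_mem (t7 z) (Submodule.smul_mem _ (σ z) (t7 1)) using 1
          rw [map_one]; module))
      exact m.mem_M.2 ⟨A, hA, Equiv.ext fun b => by rw [k]; congr 1; ext i j; simp [t8]⟩)
    have b1 : (B : R n F) *ᵥ w = w := by
      obtain ⟨γ, g0, ν, z, y⟩ := tv a
      have := k3 ν z x
      rw [y, y, hx, mul_one, mulVec_smul, mul_smul] at this
      have := (smul_right_injective _ g0 this).symm
      rw [this, eig k2 w0 this, one_smul]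
    have b2 u (b : u ∈ A2) : (B : R n F) *ᵥ u = u := by
      have t (z : F) : z • ((B : R n F) *ᵥ u - u) = T.bar z • (T.h x u - T.h ((B : R n F) *ᵥ x) u) • w := by
        obtain ⟨c, ν, y1, y⟩ := ei (A2.smul_mem z b)
        have := k3 ν y1 x
        have q := T.h_Γ hu hB.1 x w
        rw [b1] at q
        rw [y, y, q, hx, mulVec_sub, mulVec_sub, mulVec_smul, mulVec_smul, mulVec_smul, mulVec_smul, b1,
          T.h_smul_right, T.h_smul_right] at this
        linear_combination (norm := module) -this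
      obtain ⟨z, y⟩ := T.ex_nb hu
      have := t 1
      rw [map_one, one_smul, one_smul] at this
      exact sub_eq_zero.1 ((smul_eq_zero_iff_right (sub_ne_zero.2 y)).1 (by rw [sub_smul, t z, this, sub_self]))
    refine ⟨B, hB, k1, nn (fun y => ?_) b2⟩
    rw [← T.perp_perp hu A1, ← p, T.mem_perp, sub_eq_add_neg, ← neg_one_smul F y]
    intro u b
    rw [T.h_add_left, T.h_smul_left, ← T.h_Γ hu hB.1 y u, b2 u b]; simp
  have sq {v φ : V n F} (k : φ ⬝ᵥ v = 0) : vecMulVec v φ * vecMulVec v φ = 0 := by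
    rw [vecMulVec_mul_vecMulVec, k]; simp
  have F2 {v φ : V n F} (k : (v ∈ A1 ∧ ∀ y ∈ A1, φ ⬝ᵥ y = 0) ∨ (v ∈ A2 ∧ ∀ y ∈ A2, φ ⬝ᵥ y = 0)) :=
    have z := sq (k.elim (fun k => k.2 v k.1) fun k => k.2 v k.1)
    F1 (T.skew_un z (absurd · hu)) ⟨2, by rw [pow_two, z]⟩ (rad_of
      (fun x => by rw [vv]; exact A2.smul_mem _ (k.elim (h.le ·.1) (·.1)))
      (fun x b => by rw [vv]; exact k.elim (A1.smul_mem _ ·.1) fun k => by simp [k.2 x b])
      fun x b => by rw [vv, k.elim (·.2 x b) (·.2 x (h.le b)), zero_smul])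
  have li : m.Lin e := (m.lin_or e).resolve_right fun ⟨d, _, n3⟩ => by
    obtain ⟨Φ, k | ⟨-, -, k1, k2, -⟩⟩ := m.phi e
    · exact m.not_lin_du k.1 d
    have t0 : Φ ⊤ = ⊥ := Submodule.finrank_eq_zero.1 (by simpa using k1 ⊤)
    have t2 : finrank F A1 < n := by simpa using Submodule.finrank_lt (ne_top_of_le_ne_top h.ne' h.le)
    have t3 {v : V n F} (v0 : v ≠ 0) : finrank F (Φ (F ∙ v)) + 1 = n := finrank_span_singleton (K := F) v0 ▸ k1 _
    have t1 {v} (b : v ∈ A1) (v0 : v ≠ 0) : Φ (F ∙ v) = A1 :=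
      Submodule.eq_of_le_of_finrank_le (fun x c => mem_of_fun fun φ f => by
        have y := congrArg (· * (1 - vecMulVec v φ))
          ((F2 (.inl ⟨b, f⟩)).resolve_left fun z => m.not_lin_du z.1 d).2
        have y' := mp_le.1 ((k2 (vecMulVec v φ) ⊤ (F ∙ v)).2 (mp_le.2 fun y _ => by
          rw [vv]; exact Submodule.smul_mem _ _ (Submodule.mem_span_singleton_self v))) x c
        have q : (1 + vecMulVec v φ) * (1 - vecMulVec v φ) = 1 := by
          rw [mul_sub, add_mul _ _ (vecMulVec v φ), sq (f v b)]; simp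
        simp only [mul_assoc, q, one_mul, mul_one] at y
        rw [sub_eq_add_neg, add_right_inj] at y
        rw [t0, y, neg_mulVec, vv] at y'
        simpa [v0] using y') (by have := t3 v0; omega)
    have : A1 ≤ F ∙ w := fun v b => by
      by_cases v0 : v = 0
      · simp [v0]
      · exact Φ.injective ((t1 b v0).trans (t1 a w0).symm) ▸ Submodule.mem_span_singleton_self v
    have := Submodule.finrank_mono this
    have := t3 w0
    rw [t1 a w0, finrank_span_singleton w0] at *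
    omega
  have F3 {v φ : V n F} k : m.ρ e (vecMulVec v φ) = vecMulVec v φ :=
    ((F2 k).resolve_right fun z => m.not_lin_du li z.1).2
  obtain ⟨x, hx⟩ : ∃ x, x ∉ A2 := by simpa [Submodule.eq_top_iff'] using h.ne'
  obtain ⟨φ, f1, f2⟩ := ex_fun hx
  obtain ⟨B, hB, k1, k2, k3⟩ := tail (m.mem_M_of li fun z => by
    obtain ⟨σ, k⟩ := m.smul e
    have := k z (vecMulVec w φ)
    rw [← smul_vecMulVec, F3 (.inr ⟨A2.smul_mem _ (h.le a), f2⟩), F3 (.inr ⟨h.le a, f2⟩)] at this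
    have := congrArg (· *ᵥ x) this
    simp only [smul_mulVec, vv, f1, one_smul] at this
    rw [k, m.one, ← smul_left_injective F w0 this])
  have b2 u (b : u ∈ A2) : (B : R n F) *ᵥ u = u := by
    by_cases u0 : u = 0
    · simp [u0]
    have := k3 _ (F3 (.inr ⟨b, f2⟩)) x
    rw [vv, vv, f1, one_smul] at this
    rw [← this, eig k2 u0 this.symm, one_smul]
  refine ⟨B, hB, k1, nn (fun y => mem_of_fun fun ψ f => ?_) b2⟩
  have := k3 _ (F3 (.inl ⟨a, f⟩)) y
  rw [vv, vv, mulVec_smul, b2 w (h.le a)] at this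
  rw [dotProduct_sub, smul_left_injective F w0 this, sub_self]

end CF.Wb
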