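import Cfsg.Agent.Wb.PD

/-! Subspaces invariant under a normal set of nilpotent maps. -/

set_option autoImplicit false
set_option linter.unusedSectionVars false

namespace CF.Wb

open Matrix Subgroup CF.BG Module

variable {F : Type} [Field F] [Fintype F] {n : ℕ} {T : Ty F} {G : Type*} [Group G] [Finite G]

namespace PD

theorem inv_mv (s : GL (Fin n) F) (x : V n F) : ((s⁻¹ : GL (Fin n) F) : R n F) *ᵥ (s : R n F) *ᵥ x = x := by
  rw [mulVec_mulVec, s.inv_mul, one_mulVec]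

theorem mv_inv (s : GL (Fin n) F) (x : V n F) : (s : R n F) *ᵥ ((s⁻¹ : GL (Fin n) F) : R n F) *ᵥ x = x :=
  inv_mv s⁻¹ x

theorem mp_inv {s : GL (Fin n) F} {A : Submodule F (V n F)} (h : mp (s : R n F) A = A) :
    mp ((s⁻¹ : GL (Fin n) F) : R n F) A = A :=
  mp_eq fun x k => by
    obtain ⟨y, m, rfl⟩ := mem_mp.1 (h.ge k)
    rwa [inv_mv]

theorem cn_mv (s : GL (Fin n) F) (a : R n F) (x : V n F) : cn s a *ᵥ (s : R n F) *ᵥ x = (s : R n F) *ᵥ a *ᵥ x := by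
  rw [cn_apply, ← mulVec_mulVec, inv_mv, mulVec_mulVec]

theorem eq_zero {a : R n F} (h : ∀ x, a *ᵥ x = 0) : a = 0 := by
  ext i j; simpa using congrFun (h (Pi.single j 1)) i

end PD

open PD

theorem Ty.Fl.fix {A1 A2 : Submodule F (V n F)} (h : T.Fl A1 A2) {E : Set (R n F)}
    (hE : E ⊆ Nn A1 A2) (h0 : ∃ ν ∈ E, ν ≠ 0) (hi : ∀ s ∈ T.S n, Wb.mp (s : R n F) A1 = A1 →
      Wb.mp (s : R n F) A2 = A2 → ∀ ν ∈ E, cn s ν ∈ E) {B : Submodule F (V n F)}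
    (hB : ∀ ν ∈ E, Wb.mp ν B ≤ B) : B ≤ A2 ∨ A1 ≤ B := by
  refine or_iff_not_imp_left.2 fun k => ?_
  obtain ⟨v, m, z⟩ := SetLike.not_le_iff_exists.1 k
  obtain ⟨ν0, n1, n2⟩ := h0
  have r {ν} (e : ν ∈ E) x : ν *ᵥ x ∈ A1 := (hE e).1 (mem_rg.2 ⟨x, rfl⟩)
  have kr {ν} (e : ν ∈ E) {x} (a : x ∈ A2) : ν *ᵥ x = 0 := mem_kr.1 ((hE e).2 a)
  have bk s (hs : s ∈ T.S n) k1 k2 {ν} (e : ν ∈ E) : ∃ μ ∈ E, ∀ x, ν *ᵥ (s : R n F) *ᵥ x = (s : R n F) *ᵥ μ *ᵥ x :=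
    ⟨_, hi _ (inv_mem hs) (mp_inv k1) (mp_inv k2) ν e, fun x => by
      rw [← cn_mv, ← Equiv.Perm.mul_apply, ← map_mul, mul_inv_cancel, map_one, Equiv.Perm.one_apply]⟩
  have mv {s : GL (Fin n) F} {μ ν} (hs : s ∈ T.S n) (e : (s : R n F) = 1 + μ) (k1 : Wb.mp (s : R n F) A1 = A1)
      (k2 : Wb.mp (s : R n F) A2 = A2) (d : ν ∈ E) (a : μ *ᵥ v ∈ A2) : μ *ᵥ ν *ᵥ v ∈ B := by
    have d' := hi s hs k1 k2 ν d
    have := cn_mv s ν v
    rw [e, add_mulVec, add_mulVec, one_mulVec, one_mulVec, mulVec_add, kr d' a, add_zero] at this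
    exact (add_mem_cancel_left (mp_le.1 (hB ν d) v m)).1 (this ▸ mp_le.1 (hB _ d') v m)
  by_cases hu : T.u
  · have p := h.pp hu
    have i1 {x y} (a : x ∈ A2) (b : y ∈ A1) : T.h x y = 0 := T.mem_perp.1 (p ▸ a) y b
    have ex {v} (k : v ∉ A2) : ∃ w ∈ A1, T.h v w ≠ 0 := by simpa [p, Ty.mem_perp] using k
    have ei {w u} (a : w ∈ A1) (b : T.h u w = 0) : ∃ s ∈ T.S n, ∃ μ : R n F, ∃ c : F, (s : R n F) = 1 + μ ∧
        Wb.mp (s : R n F) A1 = A1 ∧ ∀ x, μ *ᵥ x = T.h x w • u - T.h x u • w - (c * T.h x w) • w := by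
      obtain ⟨c, ν, ⟨s, hs, e⟩, -, k⟩ := eiU hu (i1 (h.le a) a) b
      exact ⟨s, hs, ν, c, e, mp_un e fun x z => by rw [k, i1 (h.le z) a]; simpa using A1.smul_mem _ a, k⟩
    obtain ⟨ν, e, y⟩ : ∃ ν ∈ E, T.h (ν *ᵥ v) v ≠ 0 := by
      by_contra! y
      have tr {y w x} (q : ∀ ν ∈ E, T.h (ν *ᵥ y) y = 0) (a : w ∈ A1) (b : T.h y w ≠ 0) (c : T.h x w ≠ 0) ν
          (e : ν ∈ E) : T.h (ν *ᵥ x) x = 0 := by
        obtain ⟨s, hs, μ, d, e1, e2, e3⟩ := ei (u := (T.h x w)⁻¹ • x + -(T.h y w)⁻¹ • y) a (by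
          rw [T.h_add_left, T.h_smul_left, T.h_smul_left]; simp [b, c])
        obtain ⟨ν', e', k⟩ := bk s hs e2 (mp2 h hu hs e2) e
        obtain ⟨t, f⟩ : ∃ t : F, (s : R n F) *ᵥ y = (T.h y w * (T.h x w)⁻¹) • x + t • w :=
          ⟨-T.h y ((T.h x w)⁻¹ • x + -(T.h y w)⁻¹ • y) - d * T.h y w, by
            rw [e1, add_mulVec, one_mulVec, e3, smul_add, smul_smul, smul_smul, mul_neg, mul_inv_cancel₀ b]; module⟩
        have := T.h_Γ hu hs.1 (ν' *ᵥ y) y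
        rw [← k, f, q _ e', mulVec_add, kr e (A2.smul_mem _ (h.le a)), add_zero, T.h_add_right,
          i1 (h.le (r e _)) (A1.smul_mem _ a), add_zero, mulVec_smul, T.h_smul_left, T.h_smul_right] at this
        simpa [b, c] using this
      obtain ⟨w, a, b⟩ := ex z
      refine n2 (eq_zero fun x => T.h_nd fun u => PD.h0 hu (T.zero_diag hu ν0 (U := ⊤) (fun x _ => ?_) x trivial u trivial))
      by_cases c : x ∈ A2
      · simp [kr n1 c, Ty.h]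
      obtain ⟨w', a', b'⟩ := ex c
      by_cases d : T.h v w' = 0
      · by_cases d' : T.h x w = 0
        · exact tr (tr (x := v + x) y a b (by rwa [T.h_add_left, d', add_zero])) a'
            (by rwa [T.h_add_left, d, zero_add]) b' _ n1
        · exact tr y a b d' _ n1
      · exact tr y a' d b' _ n1
    have b0 := mp_le.1 (hB ν e) v m
    have t {w} (a : w ∈ A1) (b : T.h w v = 0) : w ∈ B := by
      by_cases c : ν *ᵥ v ∈ F ∙ w
      · exact of_span b0 (fun c => y (by simp [c, Ty.h])) c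
      obtain ⟨u, u1, u2⟩ := ex_h (T := T) c
      obtain ⟨s, hs, μ, d, e1, e2, e3⟩ := ei a (PD.h0 hu (u2 w (Submodule.mem_span_singleton_self w)))
      simpa [e3, i1 (h.le (r e v)) a, u1] using mv hs e1 e2 (mp2 h hu hs e2) e (by
        simpa [e3, PD.h0 hu b] using A2.smul_mem _ (h.le a))
    intro w a
    exact (add_mem_cancel_right (B.smul_mem (-(T.h w v / T.h (ν *ᵥ v) v)) b0)).1
      (t (add_mem a (A1.smul_mem _ (r e v))) (by rw [T.h_add_left, T.h_smul_left]; simp [y]))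
  obtain ⟨ν, e, y⟩ : ∃ ν ∈ E, ν *ᵥ v ≠ 0 := by
    by_contra! y
    have mk {x} : x ∈ ⨅ ν ∈ E, Wb.kr ν ↔ ∀ ν ∈ E, ν *ᵥ x = 0 := by simp [mem_kr]
    have := (h.inv (W := ⨅ ν ∈ E, Wb.kr ν) fun s hs k1 k2 => mp_le.2 fun x a => mk.2 fun ν e => by
      obtain ⟨μ, e', k⟩ := bk s hs k1 k2 e
      rw [k, mk.1 a μ e', mulVec_zero]).2.2 hu fun k => z (k (mk.2 y))
    exact n2 (eq_zero fun x => mk.1 (this ▸ trivial) _ n1)
  intro w a
  by_cases c : ν *ᵥ v ∈ F ∙ w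
  · exact of_span (mp_le.1 (hB ν e) v m) y c
  obtain ⟨φ, f1, f2⟩ := ex_fun c
  obtain ⟨s, hs, e1⟩ := T.skew_un (ν := vecMulVec w φ) (by
    rw [vecMulVec_mul_vecMulVec, f2 w (Submodule.mem_span_singleton_self w)]; simp) (absurd · hu)
  have t (A : Submodule F (V n F)) (k : w ∈ A) x : vecMulVec w φ *ᵥ x ∈ A := by rw [vv]; exact A.smul_mem _ k
  simpa only [vv, f1, one_smul] using mv hs e1 (mp_un e1 fun x _ => t _ a x) (mp_un e1 fun x _ => t _ (h.le a) x) e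
    (t _ (h.le a) v)

end CF.Wb
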