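import Cfsg.Agent.Wb.PA
import Cfsg.Agent.Wb.PB2
import Cfsg.Agent.Wb.PC

/-! The defining characteristic case does not occur. -/

set_option autoImplicit false
set_option linter.unusedSectionVars false

namespace CF.Wb

open Matrix Subgroup CF.BG Module B2

variable {F : Type} [Field F] [Fintype F] {n : ℕ} {T : Ty F} {G : Type*} [Group G] [Finite G]

theorem ne_bot_of_rk {U W : Submodule F (V n F)} (h : finrank F U = finrank F W) (hW : W ≠ ⊥) :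
    U ≠ ⊥ := fun e => hW (Submodule.finrank_eq_zero.1 (by rw [← h, e, finrank_bot]))

theorem ne_top_of_rk {U W : Submodule F (V n F)} (h : finrank F U = finrank F W) (hW : W ≠ ⊤) :
    U ≠ ⊤ := fun e => hW (Submodule.eq_top_of_finrank_eq (by rw [← h, e, finrank_top]))

/-- a flag fixed by `P` is incident with the flag of `H` -/
theorem Cx.inc (c : Cx T n G) (hp : c.p = T.r) {A1 A2 : Submodule F (V n F)} (h : T.Fl A1 A2)
    (hH : c.H = c.m.St (Nn A1 A2)) {C1 C2 : Submodule F (V n F)}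
    (d1 : finrank F C1 = finrank F A1) (d2 : finrank F C2 = finrank F A2)
    (hP : c.P ≤ c.m.St (Nn C1 C2)) : C1 ≤ A2 ∧ A1 ≤ C2 := by
  obtain ⟨z0, zn⟩ := c.tw.PZ
  let E : Set (R n F) := {ν | ν ∈ Nn A1 A2 ∧ ∃ A ∈ c.m.lift (c.P ⊓ 𝐂 c.Q), (A : R n F) = 1 + ν}
  have key : ∀ B : Submodule F (V n F), (∀ A ∈ c.m.lift (c.P ⊓ 𝐂 c.Q), mp (A : R n F) B = B) →
      B ≤ A2 ∨ A1 ≤ B := by
    intro B hB
    refine h.fix (E := E) (fun _ h => h.1) ?_ ?_ ?_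
    · obtain ⟨⟨e, he⟩, h1⟩ := (Subgroup.ne_bot_iff_exists_ne_one).1 z0
      obtain ⟨j, hj⟩ := c.tw.Qp ⟨e, c.tw.h1.le he.1⟩
      obtain ⟨A, hA, eA, hN⟩ := c.m.cen_rad h (e := e) (j := j)
        (by simpa [hp] using congrArg Subtype.val hj) fun k s hs hk hr =>
          (mem_cent.1 he.2 k (c.rad_le hp h hH hs hk hr)).symm
      refine ⟨_, ⟨hN, A, c.m.mem_lift.2 ⟨hA.1, e, he, eA⟩, by simp⟩, fun h0 => h1 ?_⟩
      obtain rfl : A = 1 := Units.ext (sub_eq_zero.1 h0)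
      exact Subtype.ext (c.m.inj (by simpa using eA))
    · rintro s hs e1 e2 ν ⟨h1, A, hA, e⟩
      have hs' := (mem_PS_Nn h.ne h.ne').2 ⟨e1, e2⟩
      refine ⟨(mem_PS.1 hs' ν).2 h1, _, c.m.lift_conj zn.norm (hH ▸ c.m.lift_St hs hs') hA, ?_⟩
      rw [Units.val_mul, Units.val_mul, e, cn_apply, mul_add, add_mul, mul_one, s.mul_inv]
    · rintro ν ⟨-, A, hA, e⟩
      refine mp_le.2 fun v hv => ?_
      have := mp_le.1 (hB A hA).le v hv
      rw [e, add_mulVec, one_mulVec] at this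
      simpa using sub_mem this hv
  have hs : ∀ A ∈ c.m.lift (c.P ⊓ 𝐂 c.Q), mp (A : R n F) C1 = C1 ∧ mp (A : R n F) C2 = C2 :=
    fun A hA => (mem_PS_Nn (ne_bot_of_rk d1 h.ne) (ne_top_of_rk d2 h.ne')).1
      (c.m.lift_St_le _ (c.m.lift_mono (inf_le_left.trans hP) hA))
  constructor
  · refine (key C1 fun A hA => (hs A hA).1).elim id fun h1 => ?_
    exact Submodule.eq_of_le_of_finrank_eq h1 d1.symm ▸ h.le
  · refine (key C2 fun A hA => (hs A hA).2).elim (fun h1 => ?_) id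
    exact Submodule.eq_of_le_of_finrank_eq h1 d2 ▸ h.le

/-- incidence of all translates under the stabiliser of `B1 ≤ B2` -/
theorem Ty.Fl.kl {A1 A2 B1 B2 C1 C2 : Submodule F (V n F)} (h : T.Fl B1 B2)
    (a1 : finrank F A1 = finrank F B1) (a2 : finrank F A2 = finrank F B2)
    (c1 : finrank F C1 = finrank F B1) (c2 : finrank F C2 = finrank F B2)
    (hs : ∀ s ∈ T.S n, Wb.mp (s : R n F) B1 = B1 → Wb.mp (s : R n F) B2 = B2 →
      Wb.mp (s : R n F) C1 ≤ A2 ∧ A1 ≤ Wb.mp (s : R n F) C2) :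
    (C1 = B1 ∨ A2 = B2) ∧ (C2 = B2 ∨ A1 = B1) := by
  let L : Subgroup (GL (Fin n) F) := T.S n ⊓ PS (Nn B1 B2)
  have mem : ∀ s, s ∈ L ↔ s ∈ T.S n ∧ Wb.mp (s : R n F) B1 = B1 ∧ Wb.mp (s : R n F) B2 = B2 :=
    fun s => and_congr Iff.rfl (mem_PS_Nn h.ne h.ne')
  have hs' : ∀ s ∈ L, Wb.mp (s : R n F) C1 ≤ A2 ∧ A1 ≤ Wb.mp (s : R n F) C2 := fun s h =>
    hs s ((mem s).1 h).1 ((mem s).1 h).2.1 ((mem s).1 h).2.2
  constructor
  · have i := h.inv (W := ⨆ s ∈ L, Wb.mp (s : R n F) C1) fun s h1 h2 h3 => by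
      rw [Wb.mp, Submodule.map_le_iff_le_comap]
      refine iSup₂_le fun t ht => ?_
      rw [← Submodule.map_le_iff_le_comap, ← Wb.mp, ← mp_mul, ← Units.val_mul]
      exact le_iSup₂ (f := fun (s : GL (Fin n) F) (_ : s ∈ L) => Wb.mp (s : R n F) C1) _
        (mul_mem ((mem s).2 ⟨h1, h2, h3⟩) ht)
    by_cases hW : (⨆ s ∈ L, Wb.mp (s : R n F) C1) ≤ B1
    · refine .inl (Submodule.eq_of_le_of_finrank_eq (le_trans ?_ hW) c1)
      simpa [mp_one] using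
        le_iSup₂ (f := fun (s : GL (Fin n) F) (_ : s ∈ L) => Wb.mp (s : R n F) C1) _ (one_mem L)
    · exact .inr (Submodule.eq_of_le_of_finrank_eq
        ((i.2.1 hW).trans (iSup₂_le fun s h => (hs' s h).1)) a2.symm).symm
  · have i := h.inv (W := ⨅ s ∈ L, Wb.mp (s : R n F) C2) fun s h1 h2 h3 => by
      refine le_iInf₂ fun t ht => ?_
      have := mp_mono (s : R n F)
        (iInf₂_le (f := fun (s : GL (Fin n) F) (_ : s ∈ L) => Wb.mp (s : R n F) C2) _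
          (mul_mem (inv_mem ((mem s).2 ⟨h1, h2, h3⟩)) ht))
      rwa [← mp_mul, ← Units.val_mul, mul_inv_cancel_left] at this
    by_cases hW : (⨅ s ∈ L, Wb.mp (s : R n F) C2) ≤ B1
    · exact .inr (Submodule.eq_of_le_of_finrank_eq
        (le_trans (le_iInf₂ fun s h => (hs' s h).2) hW) a1)
    · refine .inl (Submodule.eq_of_le_of_finrank_eq ((i.2.1 hW).trans ?_) c2.symm).symm
      simpa [mp_one] using
        iInf₂_le (f := fun (s : GL (Fin n) F) (_ : s ∈ L) => Wb.mp (s : R n F) C2) _ (one_mem L)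

theorem Cx.par (c : Cx T n G) (hp : c.p = T.r) : False := by
  obtain ⟨A1, A2, hf, hH, hc⟩ := c.flag hp
  obtain ⟨s0, h0, e0⟩ := c.g0
  have fB := hf.mp h0.1
  have hB : cj c.g c.H = c.m.St (Nn (mp (s0 : R n F) A1) (mp (s0 : R n F) A2)) := by
    rw [hH, c.m.cj_St, e0, Nn_img]
  have b1 := finrank_mp s0 A1
  have b2 := finrank_mp s0 A2
  have ne : ¬ (A1 = mp (s0 : R n F) A1 ∧ A2 = mp (s0 : R n F) A2) := fun h =>
    c.ne_img hH e0 ((mem_PS_Nn hf.ne hf.ne').2 ⟨h.1.symm, h.2.symm⟩)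
  have eB : A1 = A2 → mp (s0 : R n F) A1 = mp (s0 : R n F) A2 := fun h => by rw [h]
  generalize mp (s0 : R n F) A1 = B1 at *
  generalize mp (s0 : R n F) A2 = B2 at *
  have key : ∀ k ∈ cj c.g c.H, ∀ C1 C2, c.m.ρ k '' Nn A1 A2 = Nn C1 C2 →
      finrank F C1 = finrank F B1 → finrank F C2 = finrank F B2 →
      (C1 = B1 ∨ A2 = B2) ∧ (C2 = B2 ∨ A1 = B1) := by
    intro k hk C1 C2 e c1 c2
    refine fB.kl b1.symm b2.symm c1 c2 fun s hs e1 e2 => ?_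
    obtain ⟨k', ek⟩ := c.m.sur s hs
    have h1 : k' ∈ cj c.g c.H := by
      rw [hB]
      exact c.m.mem_of_lift (c.m.lift_St hs ((mem_PS_Nn fB.ne fB.ne').2 ⟨e1, e2⟩)) ek
    obtain ⟨h, hh, eh⟩ := mem_cj_iff.1 (mul_mem h1 hk)
    refine c.inc hp hf hH (by rw [finrank_mp, c1, b1]) (by rw [finrank_mp, c2, b2]) ?_
    have := c.tw.h1.le2 h hh
    rwa [eh, hH, c.m.cj_St, map_mul, Equiv.Perm.coe_mul, Set.image_comp, e, ek, Nn_img] at this
  have k1 := (key 1 (one_mem _) A1 A2 (by simp) b1.symm b2.symm).1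
  rcases hc with hu | he | ⟨h, hh, hd⟩
  · refine ne (k1.elim (fun e => ⟨e, by rw [hf.pp hu, fB.pp hu, e]⟩) fun e => ⟨?_, e⟩)
    rw [← Ty.perp_perp hu A1, ← hf.pp hu, e, fB.pp hu, Ty.perp_perp hu]
  · exact ne (k1.elim (fun e => ⟨e, by rw [← he, ← eB he, e]⟩) fun e => ⟨by rw [he, eB he, e], e⟩)
  · have l1 := c.m.lin_of_M (c.m.N_le_M c.tw.gN)
    have l2 := c.m.lin_of_M (c.m.N_le_M (inv_mem c.tw.gN))
    have hk : c.g * h * c.g⁻¹ ∈ cj c.g c.H := conj_mem_cj.2 hh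
    have dk : c.m.Du (c.g * h * c.g⁻¹) := fun a b => by
      simp only [map_mul, Equiv.Perm.coe_mul, Function.comp]
      rw [l2, hd, l1]
    obtain ⟨Φ, ⟨hl, -⟩ | ⟨-, -, h2, -, h3⟩⟩ := c.m.phi (c.g * h * c.g⁻¹)
    · exact c.m.not_lin_du hl dk
    have hi := (c.m.img_St (hB ▸ hk : _ ∈ c.m.St (Nn B1 B2))).symm
    rw [h3] at hi
    obtain ⟨e1, e2⟩ := Nn_inj fB.ne fB.ne' hi
    have d := h2 B2
    rw [← e1] at d
    have k2 := key _ hk _ _ (h3 A1 A2) (by have := h2 A2; omega) (by have := h2 A1; omega)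
    exact ne ⟨k2.2.elim (fun e => Φ.injective (e.trans e2)) id,
      k2.1.elim (fun e => Φ.injective (e.trans e1)) id⟩

end CF.Wb
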