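import Cfsg.Agent.Wb.BW

/-! Blocks: refining unitary planes over the field with four elements to a frame. -/

set_option autoImplicit false
set_option linter.unusedSectionVars false

namespace CF.Wb

open Matrix Subgroup CF.BG Module

variable {F : Type} [Field F] [Fintype F] {n : ℕ} {T : Ty F} {G : Type*} [Group G] [Finite G]

namespace Bk

variable {a b ε δ η : R n F} {x : V n F}

theorem st_r (u : T.u) (he : T.Id ε) (hd : T.Id δ) (h : ε * δ = δ) : δ * ε = δ := by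
  rw [← he.2 u, ← hd.2 u, ← T.st_mul, h]

theorem rk1 (r : δ.rank = 1) (m : x ∈ rg δ) (x0 : x ≠ 0) : rg δ = Submodule.span F {x} :=
  (Submodule.eq_of_le_of_finrank_le ((Submodule.span_singleton_le_iff_mem _ _).2 m)
    (by rw [finrank_rg, r, finrank_span_singleton x0])).symm

theorem iso0 (u : T.u) (hd : T.Id δ) (r : δ.rank = 1) (m : x ∈ rg δ) (h : T.h x x = 0) : x = 0 := by_contra fun x0 =>
  x0 ((Submodule.mem_bot F).1 (hd.nd u ▸ ⟨m, Ty.mem_perp.2 fun w k => by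
    obtain ⟨c, rfl⟩ := Submodule.mem_span_singleton.1 (rk1 r m x0 ▸ k)
    rw [Ty.h_smul_right, h, mul_zero]⟩))

theorem unit (u : T.u) (hd : T.Id δ) (h : δ ≠ 0) : ∃ x ∈ rg δ, T.h x x = 1 :=
  Ty.ex_val u (fun l => h (rg_bot.1 ((inf_eq_left.2 l).symm.trans (hd.nd u)))) (map_one _) one_ne_zero

theorem id_eq (u : T.u) (hd : T.Id δ) (he : T.Id η) (r : δ.rank = 1) (r' : η.rank = 1) (m : x ∈ rg δ) (m' : x ∈ rg η)
    (x0 : x ≠ 0) : δ = η :=
  have e := (rk1 r m x0).trans (rk1 r' m' x0).symm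
  (st_r u he hd ((rg_le he.1).1 e.le)).symm.trans ((rg_le hd.1).1 e.ge)

theorem id_sub (u : T.u) (he : T.Id ε) (hd : T.Id δ) (h : ε * δ = δ) : T.Id (ε - δ) :=
  ⟨by rw [mul_sub, sub_mul, sub_mul, he.1, hd.1, h, st_r u he hd h, sub_self, sub_zero],
    fun u => by rw [T.st_sub, he.2 u, hd.2 u]⟩

theorem orth_sub (u : T.u) (he : T.Id ε) (hd : T.Id δ) (h : ε * δ = δ) : δ * (ε - δ) = 0 := by
  rw [mul_sub, st_r u he hd h, hd.1, sub_self]

theorem rk_sub (u : T.u) (he : T.Id ε) (hd : T.Id δ) (h : ε * δ = δ) : δ.rank + (ε - δ).rank = ε.rank := by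
  have := Submodule.finrank_sup_add_finrank_inf_eq (rg δ) (rg (ε - δ))
  rw [show rg δ ⊓ rg (ε - δ) = ⊥ from eq_bot_iff.2 fun x m => by
      rw [Submodule.mem_bot, ← (mem_rg_id hd.1).1 m.1, ← (mem_rg_id (id_sub u he hd h).1).1 m.2, mulVec_mulVec,
        orth_sub u he hd h, zero_mulVec],
    show rg δ ⊔ rg (ε - δ) = rg ε from le_antisymm (sup_le ((rg_le he.1).2 h) ((rg_le he.1).2 (by rw [mul_sub, he.1, h])))
      fun x m => by
        obtain ⟨y, rfl⟩ := mem_rg.1 m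
        exact Submodule.mem_sup.2 ⟨_, mem_rg.2 ⟨y, rfl⟩, _, mem_rg.2 ⟨y, rfl⟩, by rw [← add_mulVec, add_sub_cancel]⟩,
    finrank_bot, finrank_rg, finrank_rg, finrank_rg] at this
  exact this.symm

theorem ex_pt (u : T.u) (he : T.Id ε) (h : ε ≠ 0) : ∃ δ, T.Id δ ∧ δ.rank = 1 ∧ ε * δ = δ := by
  obtain ⟨x, m, hx⟩ := unit u he h
  have i : vecMulVec x (T.bv x) * vecMulVec x (T.bv x) = vecMulVec x (T.bv x) := by
    rw [vecMulVec_mul_vecMulVec, T.bv_dot, hx, one_smul]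
  refine ⟨vecMulVec x (T.bv x), ⟨i, fun _ => ?_⟩, (rank_vecMulVec_le _ _).antisymm (Nat.pos_of_ne_zero fun e => ?_), ?_⟩
  · rw [T.st_vv]; congr 1; exact funext fun _ => Ty.bar_bar u _
  · rw [← finrank_rg, Submodule.finrank_eq_zero, rg_bot] at e
    have := congrArg (· *ᵥ x) e
    simp only [vecMulVec_mulVec, T.bv_dot, hx, zero_mulVec, MulOpposite.op_one, one_smul] at this
    rw [this, Ty.h, zero_dotProduct] at hx
    exact zero_ne_one hx
  · rw [mul_vecMulVec, (mem_rg_id he.1).1 m]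

theorem two_pt (u : T.u) (hq : T.q = 2) (he : T.Id ε) (r : ε.rank = 2) (hd : T.Id δ) (rd : δ.rank = 1) (h : ε * δ = δ)
    (hn : T.Id η) (rn : η.rank = 1) (h' : ε * η = η) : η = δ ∨ η = ε - δ := by
  have i := id_sub u he hd h
  have r2 : (ε - δ).rank = 1 := by have := rk_sub u he hd h; omega
  obtain ⟨x, m, hx⟩ := unit u hn (rank_pos (by omega))
  have x0 : x ≠ 0 := fun e => by
    rw [e, Ty.h, zero_dotProduct] at hx
    exact zero_ne_one hx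
  have e : δ *ᵥ x + (ε - δ) *ᵥ x = x := by
    rw [← add_mulVec, add_sub_cancel, ← (mem_rg_id hn.1).1 m, mulVec_mulVec, h']
  have o : T.h (δ *ᵥ x) ((ε - δ) *ᵥ x) = 0 := by
    rw [Ty.h_mulVec u, hd.2 u, mulVec_mulVec, orth_sub u he hd h, zero_mulVec]
    simp [Ty.h, show T.bv (0 : V n F) = 0 from funext fun _ => map_zero _]
  rw [← e, T.h_add_left, T.h_add_right, T.h_add_right, o, Ty.h_symm u (δ *ᵥ x) ((ε - δ) *ᵥ x), o, map_zero, add_zero, zero_add] at hx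
  rcases Ty.fix2 u hq (Ty.h_symm u (δ *ᵥ x) _).symm with k | k
  · rw [iso0 u hd rd (mem_rg.2 ⟨x, rfl⟩) k, zero_add] at e
    exact .inr (id_eq u hn i rn r2 m (mem_rg.2 ⟨x, e⟩) x0)
  · rw [k, add_eq_left] at hx
    rw [iso0 u i r2 (mem_rg.2 ⟨x, rfl⟩) hx, add_zero] at e
    exact .inl (id_eq u hn hd rn rd m (mem_rg.2 ⟨x, e⟩) x0)

end Bk

open Bk

theorem Cx.refine (c : Cx T n G) (hu : T.u) (hq : T.q = 2) {D : Finset (R n F)} (h : c.Eq D 2) :
    ∃ D', c.Eq D' 1 := by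
  classical
  let D' : Finset (R n F) := Finset.univ.filter fun δ => T.Id δ ∧ δ.rank = 1 ∧ ∃ ε ∈ D, ε * δ = δ
  have m {δ : R n F} : δ ∈ D' ↔ T.Id δ ∧ δ.rank = 1 ∧ ∃ ε ∈ D, ε * δ = δ := by simp [D']
  have k : ∀ ε ∈ D, ∃ δ ∈ D', ε - δ ∈ D' ∧ δ ≠ ε - δ ∧ ε * δ = δ := fun ε me => by
    have i := Sy_id h.sy me
    obtain ⟨δ, h1, h2, h3⟩ := ex_pt hu i (h.sy.ne ε me)
    refine ⟨δ, m.2 ⟨h1, h2, ε, me, h3⟩, m.2 ⟨id_sub hu i h1 h3, ?_, ε, me, by rw [mul_sub, i.1, h3]⟩, fun e => ?_, h3⟩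
    · have := rk_sub hu i h1 h3
      have := h.rk ε me
      omega
    · have := orth_sub hu i h1 h3
      rw [← e, h1.1] at this
      exact rank_pos (by omega) this
  refine ⟨D', ⟨fun δ x => (m.1 x).1.1, fun δ x => rank_pos (by have := (m.1 x).2.1; omega), fun δ x η y ne => ?_, ?_, ?_,
    fun u δ x => (m.1 x).1.2 u⟩, fun g hg => mem_stb_of fun δ x => ?_, fun δ x => (m.1 x).2.1⟩
  · obtain ⟨h1, h2, ε, me, h3⟩ := m.1 x
    obtain ⟨k1, k2, ε', me', k3⟩ := m.1 y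
    rcases eq_or_ne ε ε' with rfl | e
    · rw [(two_pt hu hq (Sy_id h.sy me) (h.rk ε me) h1 h2 h3 k1 k2 k3).resolve_left ne.symm]
      exact orth_sub hu (Sy_id h.sy me) h1 h3
    · rw [← st_r hu (Sy_id h.sy me) h1 h3, ← k3, mul_assoc, ← mul_assoc ε, h.sy.orth ε me ε' me' e, zero_mul, mul_zero]
  · rw [← one_mul (∑ _ ∈ _, _), ← h.sy.sum, Finset.sum_mul]
    refine Finset.sum_congr rfl fun ε me => ?_
    obtain ⟨δ, h1, h2, h3, h4⟩ := k ε me
    rw [Finset.mul_sum, Finset.sum_eq_add_of_mem δ (ε - δ) h1 h2 h3, h4, mul_sub, h.sy.id ε me, h4, add_sub_cancel]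
    intro η y ne
    obtain ⟨k1, k2, ε', me', k3⟩ := m.1 y
    rcases eq_or_ne ε ε' with rfl | e
    · exact ((two_pt hu hq (Sy_id h.sy me) (h.rk ε me) (m.1 h1).1 (m.1 h1).2.1 h4 k1 k2 k3).elim ne.1 ne.2).elim
    · rw [← k3, ← mul_assoc, h.sy.orth ε me ε' me' e, zero_mul]
  · obtain ⟨ε, me⟩ := Finset.card_pos.1 (two_pos.trans_le h.sy.two)
    obtain ⟨δ, h1, h2, h3, -⟩ := k ε me
    exact Finset.one_lt_card.2 ⟨δ, h1, _, h2, h3⟩
  · obtain ⟨h1, h2, ε, me, h3⟩ := m.1 x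
    exact m.2 ⟨c.m.id g h1, (c.m.rank g δ).trans h2, c.m.ρ g ε, (c.m.mem_St.1 (h.le hg) ε).2 me, by
      rw [← ((c.m.lin_or g).resolve_right fun x => x.2.1 hu) ε δ, h3]⟩

end CF.Wb
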