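import Cfsg.Agent.Wb.CX
import Cfsg.Agent.Wb.FL1

/-! Normalisers of Singer cycles. -/

set_option autoImplicit false
set_option linter.unusedSectionVars false

namespace CF.Wb

open Matrix Subgroup CF.BG Module

variable {F : Type} [Field F] [Fintype F] {n : ℕ} {T : Ty F} {G : Type*} [Group G] [Finite G]

namespace SG

theorem card_eq {A B : Type*} [Group A] [Group B] (f : A →* B) (X : Subgroup A) : ♯X = ♯(f.ker ⊓ X) * ♯(X.map f) := by
  rw [← relIndex_ker, ← (f.ker.subgroupOf X).card_mul_index, ← card_map (H := f.ker.subgroupOf X) X.subtype_injective,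
    subgroupOf_map_subtype]
  rfl

theorem idx_le {A Y : Type*} [Group A] [Finite Y] {X : Subgroup A} (f : A → Y) (h : ∀ a b, f a = f b → a⁻¹ * b ∈ X) :
    X.index ≤ Nat.card Y :=
  Nat.card_le_card_of_injective (fun q : A ⧸ X => f q.out) fun a b r => by
    rw [← a.out_eq, ← b.out_eq]; exact QuotientGroup.eq.2 (h _ _ r)

theorem norm1 {K : Type*} [Field K] [Finite K] (σ : K →+* K) (ss : ∀ a, σ (σ a) = a) {a : K} (ha : σ a ≠ a) {Q : ℕ}
    (hQ : Nat.card K = Q ^ 2) {U : Subgroup Kˣ} (h : ∀ u : Kˣ, σ u * u = 1 → u ∈ U) : Q ≤ ♯U := by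
  let θ : Kˣ →* Kˣ := MonoidHom.id _ / Units.map σ
  have e := card_eq θ ⊤
  have c1 : Nat.card {x // σ x = x} * Nat.card {x // σ x = x} ≤ Q * Q := by
    rw [← Nat.card_prod, ← sq, ← hQ]
    refine Nat.card_le_card_of_injective (fun x : {x // σ x = x} × {x // σ x = x} => x.1.1 + x.2.1 * a) ?_
    rintro ⟨⟨x, hx⟩, y, hy⟩ ⟨⟨z, hz⟩, t, ht⟩ r
    have r' := congrArg σ r
    simp only [map_add, map_mul, hx, hy, hz, ht] at r r'
    obtain rfl : y = t := sub_eq_zero.1 ((mul_eq_zero.1 (by linear_combination r' - r)).resolve_right (sub_ne_zero.2 ha))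
    simpa using r
  have c2 : ♯(θ.ker ⊓ ⊤) ≤ Nat.card {x // σ x = x} := Nat.card_le_card_of_injective
    (fun u => ⟨(u.1 : K), (congrArg Units.val (div_eq_one.1 u.2.1)).symm⟩) fun u v r => Subtype.ext (Units.ext (congrArg Subtype.val r))
  have c3 : ♯((⊤ : Subgroup Kˣ).map θ) ≤ ♯U := card_le_of_le (by
    rintro _ ⟨u, -, rfl⟩
    exact h _ (by simp [θ, ss, ← mul_div_mul_comm, mul_comm]))
  rw [card_top, Nat.card_units, hQ] at e
  have c4 := (c2.trans (Nat.mul_self_le_mul_self_iff.1 c1))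
  have c5 := Nat.mul_le_mul c4 c3
  have c6 : 1 < Q ^ 2 := hQ ▸ Finite.one_lt_card
  by_contra! z
  obtain ⟨d, rfl⟩ := Nat.exists_eq_add_of_lt z
  generalize ♯U = u at *
  have : u + d + 1 ≠ 1 := fun o => by simp [o] at c6
  rw [← e] at c5
  have : (u + d + 1) ^ 2 ≤ (u + d + 1) * u + 1 := by omega
  rcases d with _ | d <;> rcases u with _ | u <;> simp at * <;> nlinarith

theorem num (T : Ty F) (ok : T.Ok n) {g t : ℕ} (h : g ≤ t * ♯T.Z) (hL : ¬ T.u → T.q ^ n ≤ g + 1) (hU : T.u → T.q ^ n ≤ g) :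
    T.q ^ max 1 (n - 2) ≤ t := by
  have q2 := T.q2
  by_cases hu : T.u
  · obtain ⟨m, rfl⟩ := Nat.exists_eq_add_of_le' (ok.n3 hu)
    rw [show max 1 (m + 3 - 2) = m + 1 by omega]
    refine Nat.le_of_mul_le_mul_right (c := T.q + 1) ?_ (by omega)
    rw [Ty.card_ZU hu] at h
    refine le_trans ?_ ((hU hu).trans h)
    rw [show T.q ^ (m + 3) = T.q ^ (m + 1) * (T.q * T.q) by ring]
    exact Nat.mul_le_mul_left _ (by nlinarith)
  · obtain ⟨m, rfl⟩ := Nat.exists_eq_add_of_le' ok.n2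
    have a := Ty.card_ZL hu
    have b := hL hu
    have c : 0 < T.q ^ (m + 1) := by positivity
    refine (Nat.pow_le_pow_right (by omega) (show _ ≤ m + 1 by omega)).trans
      (Nat.le_of_mul_le_mul_right (c := ♯T.Z) ?_ (by omega))
    rw [pow_succ] at b
    generalize T.q ^ (m + 1) = x at b c ⊢
    rw [← a, mul_add] at b
    omega

end SG

theorem Cx.sing (c : Cx T n G) {K : Subalgebra F (R n F)} (hK : c.m.Fld c.H K)
    (h : ∀ v : V n F, v ≠ 0 → ∀ w, ∃ a ∈ K, a *ᵥ v = w) : c.Bd := by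
  let := hK.fld.toField
  have : Finite K := Subtype.finite
  have n2 := c.m.ok.n2
  have : Nonempty (Fin n) := ⟨⟨0, by omega⟩⟩
  obtain ⟨v, v0⟩ := exists_ne (0 : V n F)
  have cm : ∀ a ∈ K, ∀ b ∈ K, a * b = b * a := fun a m b k => congrArg Subtype.val (hK.fld.mul_comm ⟨a, m⟩ ⟨b, k⟩)
  have dK : finrank F K = n := by
    rw [(LinearEquiv.ofBijective ((LinearMap.toSpanSingleton K _ v).restrictScalars F) ⟨smul_left_injective K v0,
      fun w => let ⟨a, m, r⟩ := h v v0 w; ⟨⟨a, m⟩, r⟩⟩).finrank_eq]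
    simp
  have cK : Nat.card K = Fintype.card F ^ n := by
    rw [Module.natCard_eq_pow_finrank (K := F), dK, Nat.card_eq_fintype_card]
  let ι : Kˣ →* GL (Fin n) F := Units.map K.val
  have mι : ∀ A : GL (Fin n) F, (A : R n F) ∈ K → ∃ k, ι k = A := fun A m =>
    ⟨Units.mk0 ⟨_, m⟩ fun z => A.ne_zero (congrArg Subtype.val z), Units.ext rfl⟩
  let C := (((T.S n).comap ι).map (cn.comp ι)).comap c.m.ρ
  have eC : C.map c.m.ρ = ((T.S n).comap ι).map (cn.comp ι) := map_comap_eq_self (by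
    rintro _ ⟨k, m, rfl⟩
    exact c.m.sur _ m)
  have le : C ≤ c.H := fun g ⟨k, m, r⟩ => c.m.mem_of_lift (hK.cen _ m fun a b => cm _ k.1.2 a b) r.symm
  refine c.cyc (C := C) (fun g ⟨k, m, r⟩ => c.m.mem_N.2 ⟨_, m, r.symm⟩)
    ((cyc_map_iff c.m.inj).1 (eC ▸ Cyc.map (inferInstance) _)) ⟨le, le_norm_iff.2 ?_⟩ ?_ ?_
  · rintro g m x ⟨k, a, r⟩
    obtain ⟨B, b1, -, b2, b3, b4⟩ := c.m.th g (ι k)
    have s := (c.m.mem_St.1 (hK.le m) (ι k)).2 k.1.2
    obtain ⟨l, rfl⟩ : ∃ l, ι l = B := by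
      rcases c.m.lin_or g with d | d
      · exact mι B (b3 d ▸ s)
      · obtain ⟨l, e⟩ := mι B⁻¹ (b4 d.1 ▸ s)
        exact ⟨l⁻¹, by rw [map_inv, e, inv_inv]⟩
    exact ⟨l, b2 a, by rw [map_mul, map_mul, map_inv, ← r]; exact b1.symm⟩
  · refine (SG.idx_le (Y := K →ₐ[F] K) (fun g =>
      { toFun a := ⟨_, (c.m.mem_St.1 (hK.le g.2.1) a).2 a.2⟩
        map_one' := Subtype.ext (c.m.one _)
        map_zero' := Subtype.ext (c.m.zero _)
        map_add' a b := Subtype.ext (c.m.add _ _ _)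
        map_mul' a b := Subtype.ext (c.m.lin_of_M (c.m.N_le_M g.2.2) _ _)
        commutes' z := Subtype.ext (by
          obtain ⟨s, -, r⟩ := c.m.mem_N.1 g.2.2
          change c.m.ρ g (algebraMap F (R n F) z) = algebraMap F (R n F) z
          rw [r, Algebra.algebraMap_eq_smul_one, B0.cn_smul, B0.cn_one]) }) fun a b r => ?_).trans
      ((card_algHom_le_finrank F K K).trans dK.le)
    obtain ⟨s, s1, s2⟩ := c.m.mem_N.1 (a⁻¹ * b).2.2
    have k : ∀ x ∈ K, (s : R n F) * x = x * s := fun x m => (Units.mul_inv_eq_iff_eq_mul s).1 (by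
      have : c.m.ρ a x = c.m.ρ b x := congrArg Subtype.val (DFunLike.congr_fun r ⟨x, m⟩)
      rw [← cn_apply, ← s2]
      simp [← this])
    obtain ⟨x, m, e⟩ := h v v0 (s *ᵥ v)
    obtain ⟨l, rfl⟩ := mι s (by
      rwa [show (s : R n F) = x from ext_iff_mulVec.2 fun w => by
        obtain ⟨y, m', rfl⟩ := h v v0 w
        rw [mulVec_mulVec, k y m', mulVec_mulVec, cm x m y m', ← mulVec_mulVec, ← mulVec_mulVec, e]])
    exact ⟨l, s1, s2.symm⟩
  · have e1 := SG.card_eq (cn.comp ι) ((T.S n).comap ι)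
    have e2 : ♯((cn.comp ι).ker ⊓ (T.S n).comap ι) ≤ n := by
      rw [← IsCyclic.exponent_eq_card]
      refine Nat.le_of_dvd (by omega) (Monoid.exponent_dvd_of_forall_pow_eq_one fun k => Subtype.ext
        (Units.ext (Subtype.ext ?_)))
      obtain ⟨z, hz⟩ := (cn_eq_one (A := ι k)).1 k.2.1
      have d := (Ty.mem_S.1 k.2.2).2
      change ((ι k : GL (Fin n) F) : R n F) ^ n = 1
      rw [hz] at d ⊢
      rw [smul_pow, one_pow, show z ^ n = 1 by simpa using d, one_smul]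
    have e3 := SG.card_eq (Matrix.GeneralLinearGroup.det.comp ι) ((T.Γ n).comap ι)
    have e4 : ♯(((T.Γ n).comap ι).map (Matrix.GeneralLinearGroup.det.comp ι)) ≤ ♯T.Z := card_le_of_le (by
      rintro _ ⟨k, m, rfl⟩
      exact Ty.det_mem_Z m)
    rw [show (Matrix.GeneralLinearGroup.det.comp ι).ker ⊓ (T.Γ n).comap ι = (T.S n).comap ι from
      Subgroup.ext fun k => and_comm] at e3
    refine (SG.num T c.m.ok (e3.le.trans (Nat.mul_le_mul_left _ e4)) (fun hu => ?_) fun hu => ?_).trans ?_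
    · rw [show (T.Γ n).comap ι = ⊤ from eq_top_iff.2 fun k _ z => (hu z).elim, card_top, Nat.card_units, cK, T.cL hu]
      exact le_tsub_add
    · obtain ⟨a, ha⟩ := Ty.ex_nb hu
      refine SG.norm1 (FL1.sg T hK.fld.mul_comm (hK.st hu)) (fun a => Subtype.ext (Ty.st_st hu _)) (a := algebraMap F K a)
        (fun z => ha ((algebraMap F K).injective ((FL1.sg_al ..).symm.trans z))) ?_ fun u r _ => congrArg Subtype.val r
      rw [cK, T.cU hu, ← pow_mul, mul_comm, pow_mul]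
      rfl
    · rw [e1, ← eC, card_map c.m.inj, mul_comm]
      exact (Nat.mul_le_mul_left _ e2).trans (Nat.le_succ _)

end CF.Wb
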