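import Cfsg.Agent.Wb.ST1
import Cfsg.Agent.Wb.CX

/-! Wielandt bound: structure from a normal subgroup with commuting lifts. -/

set_option autoImplicit false
set_option linter.unusedSectionVars false

namespace CF.Wb

open Matrix Subgroup CF.BG Module

variable {F : Type} [Field F] [Fintype F] {n : ℕ} {T : Ty F} {G : Type*} [Group G] [Finite G]

theorem Cx.alg (c : Cx T n G) (hp : c.p ≠ T.r) (h : ¬ c.NA) : ∃ K : Subalgebra F (R n F),
    (∀ a ∈ K, ∀ b ∈ K, a * b = b * a) ∧ (∃ k : ℕ, 2 ≤ k ∧ ∀ a ∈ K, a ^ k = a) ∧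
    (∃ a ∈ K, ¬ Sc a) ∧ (T.u → ∀ a ∈ K, T.st a ∈ K) ∧ c.H ≤ c.m.St K ∧
    ∀ s ∈ T.S n, (∀ a ∈ K, (s : R n F) * a = a * s) → s ∈ c.m.lift c.H := by
  classical
  simp only [Cx.NA, not_forall] at h
  obtain ⟨K, h1, h2, h3, h4, h5⟩ := h
  have : Nonempty (Fin n) := ⟨⟨0, two_pos.trans_le c.m.ok.n2⟩⟩
  have := T.char
  have := Fact.mk T.pr
  have g : ∀ A ∈ c.m.lift K, (A : R n F) ∈ Algebra.adjoin F (Units.val '' (c.m.lift K : Set _)) :=
    fun A hA => Algebra.subset_adjoin ⟨A, hA, rfl⟩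
  have cm : ∀ a ∈ Algebra.adjoin F (Units.val '' (c.m.lift K : Set (GL (Fin n) F))),
      ∀ b ∈ Algebra.adjoin F (Units.val '' (c.m.lift K : Set (GL (Fin n) F))), a * b = b * a :=
    fun a ha b hb => Algebra.commute_of_mem_adjoin_of_forall_mem_commute hb fun _ ⟨B, hB, e⟩ =>
      (Algebra.commute_of_mem_adjoin_of_forall_mem_commute ha fun _ ⟨A, hA, e'⟩ =>
        e ▸ e' ▸ congrArg Units.val (h4 B hB A hA)).symm
  refine ⟨_, cm, ?_, ?_, fun hu a ha => ?_, fun k hk => mem_stb_of fun a ha => ?_, fun s hs e =>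
    c.mem_of_cen h5 h1 h3 hs fun A hA => Units.ext (e _ (g A hA))⟩
  · obtain ⟨e, -, he⟩ := FiniteField.card F T.r
    have co : (Fintype.card F).Coprime (♯(c.m.lift K)) := by
      rw [he]
      refine Nat.Coprime.pow_left _ (T.pr.coprime_iff_not_dvd.2 fun d => ?_)
      obtain ⟨⟨A, hA⟩, o⟩ := exists_prime_orderOf_dvd_card' T.r d
      obtain ⟨j, z, hz⟩ := c.m.lift_pow (c.tw.Qp.to_le h2) hA
      have z0 : z ≠ 0 := by
        rintro rfl
        exact (A ^ c.p ^ j).ne_zero (by simpa using hz)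
      have : A ^ (c.p ^ j * (Fintype.card F - 1)) = 1 := Units.ext (by
        simp [pow_mul, hz, smul_pow, FiniteField.pow_card_sub_one_eq_one z z0])
      rw [← orderOf_dvd_iff_pow_eq_one, ← orderOf_mk A hA, o] at this
      rcases T.pr.dvd_mul.1 this with d | d
      · exact hp ((Nat.prime_dvd_prime_iff_eq T.pr c.tw.pr).1 (T.pr.dvd_of_dvd_pow d)).symm
      · exact T.pr.not_dvd_one ((Nat.dvd_sub_iff_right Fintype.card_pos
          (he ▸ dvd_pow_self _ e.ne_zero)).1 d)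
    refine ⟨Fintype.card F ^ (♯(c.m.lift K)).totient, Nat.one_lt_pow
      (Nat.totient_pos.2 Nat.card_pos).ne' Fintype.one_lt_card, fun a ha => ?_⟩
    induction ha using Algebra.adjoin_induction with
    | mem _ hx =>
      obtain ⟨A, hA, rfl⟩ := hx
      have := pow_eq_pow_iff_modEq.2 ((Nat.ModEq.pow_totient co).of_dvd
        (orderOf_dvd_natCard (⟨A, hA⟩ : c.m.lift K)))
      simpa using congrArg (fun x : c.m.lift K => (x.1 : R n F)) this
    | algebraMap z => rw [← map_pow, FiniteField.pow_card_pow]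
    | add x y hx hy e1 e2 =>
      rw [he, ← pow_mul] at *
      rw [add_pow_char_pow_of_commute _ _ (cm x hx y hy), e1, e2]
    | mul x y hx hy e1 e2 => rw [Commute.mul_pow (cm x hx y hy), e1, e2]
  · obtain ⟨A, hA, e⟩ := c.m.ex_nsc.1 (show K ⊓ c.m.M ≠ ⊥ by rwa [inf_eq_left.2 h3])
    exact ⟨_, g A hA, e⟩
  · induction ha using Algebra.adjoin_induction with
    | mem _ hx =>
      obtain ⟨A, hA, rfl⟩ := hx
      rw [T.st_inv hu hA.1]
      exact g _ (inv_mem hA)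
    | algebraMap z =>
      rw [Algebra.algebraMap_eq_smul_one, T.st_smul, T.st_one]
      exact Subalgebra.smul_mem _ (one_mem _) _
    | add x y _ _ e1 e2 => exact T.st_add x y ▸ add_mem e1 e2
    | mul x y _ _ e1 e2 => exact T.st_mul x y ▸ mul_mem e2 e1
  · induction ha using Algebra.adjoin_induction with
    | mem _ hx =>
      obtain ⟨A, hA, rfl⟩ := hx
      obtain ⟨B, hB, e⟩ := c.m.lift_th (h1.2 hk) hA
      exact e ▸ g B hB
    | algebraMap z =>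
      obtain ⟨σ, e⟩ := c.m.smul k
      rw [Algebra.algebraMap_eq_smul_one, e, c.m.one]
      exact Subalgebra.smul_mem _ (one_mem _) _
    | add x y _ _ e1 e2 => exact c.m.add k x y ▸ add_mem e1 e2
    | mul x y _ _ e1 e2 =>
      rcases c.m.lin_or k with e | e
      exacts [e x y ▸ mul_mem e1 e2, e.1 x y ▸ mul_mem e2 e1]

theorem Cx.struct (c : Cx T n G) (hp : c.p ≠ T.r) (h : ¬ c.NA) :
    (∃ D k, c.Eq D k) ∨ (∃ ε, c.Tw ε) ∨ (∃ K, c.m.Fld c.H K) ∨ ∃ ε, c.Ti ε := by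
  obtain ⟨K, cm, ⟨k, k2, hk⟩, ns, st, le, ce⟩ := c.alg hp h
  have : Nonempty (Fin n) := ⟨⟨0, two_pos.trans_le c.m.ok.n2⟩⟩
  have ml : ∀ g, ∀ a ∈ K, ∀ b ∈ K, c.m.ρ g (a * b) = c.m.ρ g a * c.m.ρ g b := fun g a ha b hb =>
    (c.m.lin_or g).elim (fun e => e a b) fun e => cm a ha b hb ▸ e.1 b a
  have mk : ∀ g ∈ c.H, ∀ a ∈ K, c.m.ρ g a ∈ K := fun g hg a ha => (c.m.mem_St.1 (le hg) a).2 ha
  have id : ∀ ε ∈ K, ∀ δ ∈ K, ε * ε = ε → δ * δ = δ → ε * δ * (ε * δ) = ε * δ := fun ε he δ hd e1 e2 => by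
    rw [mul_assoc, ← mul_assoc δ, cm δ hd ε he, mul_assoc, e2, ← mul_assoc, e1]
  by_cases nt : ∃ ε ∈ {ε | ε ∈ K ∧ T.Id ε}, ε ≠ 0 ∧ ε ≠ 1
  · obtain ⟨D, h1, h2, h3, h4⟩ := atoms (B := {ε | ε ∈ K ∧ T.Id ε}) (fun _ e => e.2.1) (fun _ a _ b => cm _ a.1 _ b.1)
      ⟨one_mem _, one_mul _, fun _ => T.st_one⟩ (fun _ e => ⟨sub_mem (one_mem _) e.1, e.2.compl⟩)
      (fun _ a _ b => ⟨mul_mem a.1 b.1, id _ a.1 _ b.1 a.2.1 b.2.1, fun hu => by
        rw [T.st_mul, a.2.2 hu, b.2.2 hu, cm _ a.1 _ b.1]⟩) nt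
    refine (c.of_sy ⟨fun ε e => ((h1 ε).1 e).1.2.1, fun ε e => ((h1 ε).1 e).2.1, h2, h3, h4,
      fun hu ε e => ((h1 ε).1 e).1.2.2 hu⟩ fun g hg => mem_stb_of fun ε he => ?_).imp_right .inl
    obtain ⟨⟨a1, a2⟩, a3, a4⟩ := (h1 ε).1 he
    refine (h1 _).2 ⟨⟨mk g hg ε a1, c.m.id g a2⟩, fun e => a3 ((c.m.ρ g).injective (e.trans (c.m.zero g).symm)),
      fun δ hd => ?_⟩
    have b1 := mk _ (inv_mem hg) δ hd.1
    have b2 := ml g _ b1 ε a1
    have b3 := a4 _ ⟨b1, c.m.id g⁻¹ hd.2⟩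
    rw [map_inv, Equiv.Perm.coe_inv, Equiv.apply_symm_apply] at b2
    rw [← b2, map_inv, Equiv.Perm.coe_inv] at *
    exact b3.imp (fun e => by rw [e, c.m.zero]) fun e => by rw [e]
  push Not at nt
  by_cases ni : ∀ ε ∈ K, ε * ε = ε → ε ≠ 0 → ε = 1
  · refine .inr (.inr (.inl ⟨K, ⟨exists_pair_ne _, fun a b => Subtype.ext (cm _ a.2 _ b.2),
      fun {a} a0 => ?_⟩, ns, st, le, ce⟩))
    obtain ⟨k, rfl⟩ := Nat.exists_eq_add_of_le' k2
    refine ⟨a ^ k, Subtype.ext (ni _ (a * a ^ k).2 ?_ fun e => a0 (Subtype.ext ?_))⟩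
    · show a.1 * a.1 ^ k * (a.1 * a.1 ^ k) = a.1 * a.1 ^ k
      rw [← mul_assoc, ← pow_succ' a.1 k, ← pow_succ, hk _ a.2, pow_succ']
    · rw [← hk _ a.2, pow_succ, pow_succ', show a.1 * a.1 ^ k = 0 from e, zero_mul]; rfl
  push Not at ni
  obtain ⟨ε, e1, e2, e3, e4⟩ := ni
  have hu : T.u := by_contra fun hu => e4 (nt ε ⟨e1, e2, fun e => absurd e hu⟩ e3)
  have z : ∀ δ ∈ K, δ * δ = δ → δ ≠ 1 → δ * T.st δ = 0 := fun δ a b d => by_contra fun e => d (by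
    have := nt _ ⟨mul_mem a (st hu δ a), id _ a _ (st hu δ a) b (by rw [← T.st_mul, b]), fun _ => by
      rw [T.st_mul, T.st_st hu]⟩ e
    rw [← mul_one δ, ← this, ← mul_assoc, b])
  have cp : ∀ δ : R n F, δ * δ = δ → (1 - δ) * (1 - δ) = 1 - δ := fun δ b => by
    simp [mul_sub, sub_mul, b]
  have s : ∀ δ ∈ K, δ * δ = δ → δ ≠ 0 → δ ≠ 1 → T.st δ = 1 - δ := fun δ a b d0 d1 => by
    have := z _ (sub_mem (one_mem _) a) (cp δ b) (by simpa using d0)
    rw [T.st_sub, T.st_one, mul_sub, mul_one, sub_mul, one_mul, z δ a b d1, sub_zero, sub_eq_zero] at this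
    exact this.symm
  have o : ∀ δ ∈ K, δ * δ = δ → δ ≠ 1 → ∀ η ∈ K, η * η = η → η ≠ 1 → δ * η ≠ 0 → δ = η :=
    fun δ a b d η a' b' d' e => by
      have := s _ (mul_mem a a') (id _ a _ a' b b') e fun e => d (by
        rw [← mul_one δ, ← e, ← mul_assoc, b])
      rw [T.st_mul, s δ a b (left_ne_zero_of_mul e) d, s η a' b' (right_ne_zero_of_mul e) d'] at this
      have t1 := congrArg (δ * ·) this
      have t2 := congrArg (· * η) this
      simp only [mul_sub, sub_mul, mul_one, one_mul, cm η a' δ a, ← mul_assoc, b] at t1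
      simp only [mul_sub, sub_mul, mul_one, one_mul, cm η a' δ a, mul_assoc, b'] at t2
      simp only [sub_self, @eq_comm _ (0 : R n F), sub_eq_zero] at t1 t2
      exact t1.trans t2.symm
  refine .inr (.inr (.inr ⟨ε, hu, e2, s ε e1 e2 e3 e4, fun g hg => mem_stb_of ?_⟩))
  have t : c.m.ρ g ε = ε ∨ c.m.ρ g ε = 1 - ε := by
    have a := mk g hg ε e1
    have b := (ml g ε e1 ε e1).symm.trans (congrArg _ e2)
    have d : c.m.ρ g ε ≠ 1 := fun e => e4 ((c.m.ρ g).injective (e.trans (c.m.one g).symm))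
    refine or_iff_not_imp_left.2 fun e => o _ a b d _ (sub_mem (one_mem _) e1) (cp ε e2) (by simpa using e3) ?_
    rw [mul_sub, mul_one, by_contra fun e' => e (o _ a b d ε e1 e2 e4 e'), sub_zero]
    exact fun e => e3 ((c.m.ρ g).injective (e.trans (c.m.zero g).symm))
  rcases t with t | t <;> simp [t, c.m.sub, c.m.one]

end CF.Wb
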