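import Cfsg.Agent.Wb.ST1
import Cfsg.Agent.Wb.CX

/-! Wielandt bound: the special linear and unitary groups preserve no decomposition. -/

set_option autoImplicit false
set_option linter.unusedSectionVars false

namespace CF.Wb

open Matrix Subgroup CF.BG Module

variable {F : Type} [Field F] [Fintype F] {n : ℕ} {T : Ty F} {G : Type*} [Group G] [Finite G]

namespace NP

variable {ε δ a b : R n F} {A : GL (Fin n) F} {x y : V n F} {D : Finset (R n F)}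

theorem cn_eq_iff : cn A a = a ↔ (A : R n F) * a = a * A := by
  rw [cn_apply, Units.mul_inv_eq_iff_eq_mul]

theorem rank_cn (A : GL (Fin n) F) (a : R n F) : (cn A a).rank = a.rank := by
  rw [cn_apply, rank_mul_eq_left_of_isUnit_det _ _ ((isUnit_iff_isUnit_det _).1 A⁻¹.isUnit),
    rank_mul_eq_right_of_isUnit_det _ _ ((isUnit_iff_isUnit_det _).1 A.isUnit)]

theorem cn_one_sub (A : GL (Fin n) F) (a : R n F) : cn A (1 - a) = 1 - cn A a := by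
  simp [cn_apply, mul_sub, sub_mul]

theorem ex_ne (h : a ≠ 0) : ∃ x, a *ᵥ x ≠ 0 := by
  by_contra! e
  exact h (toLin'.injective (LinearMap.ext fun x => by simpa using e x))

theorem rank_pos (h : a ≠ 0) : 1 ≤ a.rank := Nat.one_le_iff_ne_zero.2 fun e => by
  obtain ⟨x, hx⟩ := ex_ne h
  exact hx ((Submodule.finrank_eq_zero.1 ((finrank_rg a).trans e)).le (mem_rg.2 ⟨x, rfl⟩))

/-- the image of a vector of a block lies in one block -/
theorem blk {X : Set (R n F)} (ho : ∀ ε ∈ X, ∀ δ ∈ X, ε ≠ δ → ε * δ = 0) (hX : A ∈ PS X) (he : ε ∈ X)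
    (hx : ε *ᵥ x = x) (ha : a ∈ X) (h : a *ᵥ ((A : R n F) *ᵥ x) ≠ 0) : a = cn A ε := by_contra fun e => h (by
  have : cn A ε *ᵥ ((A : R n F) *ᵥ x) = (A : R n F) *ᵥ x := by
    rw [cn_apply, mulVec_mulVec, Units.inv_mul_cancel_right, ← mulVec_mulVec, hx]
  rw [← this, mulVec_mulVec, ho a ha _ ((mem_PS.1 hX ε).2 he) e, zero_mulVec])

theorem kill (h : ε * δ = 0) (hy : δ *ᵥ y = y) : ε *ᵥ y = 0 := by
  rw [← hy, mulVec_mulVec, h, zero_mulVec]

theorem unit (hu : T.u) (h : T.Id ε) (h0 : ε ≠ 0) {c : F} (hc : T.bar c = c) (c0 : c ≠ 0) :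
    ∃ v, ε *ᵥ v = v ∧ T.h v v = c := by
  obtain ⟨x, hx⟩ := ex_ne h0
  obtain ⟨v, hv, e⟩ := Ty.ex_val hu (X := rg ε) (fun e => hx ((h.nd hu).le
    ⟨mem_rg.2 ⟨x, rfl⟩, e (mem_rg.2 ⟨x, rfl⟩)⟩)) hc c0
  exact ⟨v, (mem_rg_id h.1).1 hv, e⟩

theorem orth (hu : T.u) (h : T.st ε = ε) (hx : ε *ᵥ x = x) (hy : ε *ᵥ y = 0) : T.h x y = 0 := by
  rw [← hx, T.h_mulVec hu, h, hy, HV.h_zero_right]

theorem ne_of_h {c : F} (h : T.h x x = c) (c0 : c ≠ 0) : x ≠ 0 := by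
  rintro rfl
  exact c0 (h ▸ HV.h_zero_left T 0)

theorem id_add (h : T.Sy D) (he : ε ∈ D) (hd : δ ∈ D) (hne : ε ≠ δ) : T.Id (ε + δ) :=
  ⟨by simp [mul_add, add_mul, h.id _ he, h.id _ hd, h.orth _ he _ hd hne, h.orth _ hd _ he hne.symm],
    fun hu => by rw [T.st_add, h.st hu _ he, h.st hu _ hd]⟩

theorem npL (hu : ¬ T.u) (h : T.Sy D) (he : ε ∈ D) (hd : δ ∈ D) (hne : ε ≠ δ) :
    ∃ s ∈ T.Se (ε + δ), s ∉ PS (D : Set (R n F)) := by
  obtain ⟨x, hx⟩ := ex_ne (h.ne ε he)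
  obtain ⟨y, hy⟩ := ex_ne (h.ne δ hd)
  obtain ⟨ψ, h1, -⟩ := ex_fun (U := ⊥) hy
  have o1 := h.orth _ he _ hd hne
  have o2 := h.orth _ hd _ he hne.symm
  have e1 : (ψ ᵥ* δ) ⬝ᵥ (δ *ᵥ y) = 1 := by rw [← dotProduct_mulVec, mulVec_mulVec, h.id _ hd, h1]
  obtain ⟨A, hA, e⟩ := Ty.Tv.se (T := T) (v := ε *ᵥ x) (φ := ψ ᵥ* δ) (ε := ε + δ) ⟨hx, fun e => by simp [e] at e1,
    by rw [← dotProduct_mulVec, mulVec_mulVec, o2]; simp, fun e => absurd e hu⟩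
    ⟨by simp [add_mul, h.id _ he, o2], by simp [mul_add, h.id _ hd, o2]⟩
  have e2 : (A : R n F) *ᵥ (δ *ᵥ y) = δ *ᵥ y + ε *ᵥ x := by
    rw [e, add_mulVec, one_mulVec, UN.vv_mulVec, e1, one_smul]
  have k := fun hX a => blk (x := δ *ᵥ y) (a := a) (A := A) h.orth hX hd (by simp [h.id _ hd])
  exact ⟨A, hA, fun hX => hne ((k hX ε he (by simpa [e2, mulVec_add, o1, h.id _ he] using hx)).trans
    (k hX δ hd (by simpa [e2, mulVec_add, o2, h.id _ hd] using hy)).symm)⟩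

theorem npU (hu : T.u) (h : T.Sy D) (he : ε ∈ D) (hd : δ ∈ D) (hne : ε ≠ δ)
    (h2 : 2 ≤ ε.rank ∨ T.q ≠ 2) : ∃ s ∈ T.Se (ε + δ), s ∉ PS (D : Set (R n F)) := by
  obtain ⟨x, hx, x1⟩ := unit hu ⟨h.id _ he, fun hu => h.st hu _ he⟩ (h.ne ε he) (map_one _) one_ne_zero
  obtain ⟨y, hy, y1⟩ := unit hu ⟨h.id _ hd, fun hu => h.st hu _ hd⟩ (h.ne δ hd) (c := -1) (by simp) (by simp)
  have o1 := kill (h.orth _ he _ hd hne) hy
  have o2 := kill (h.orth _ hd _ he hne.symm) hx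
  have o3 := orth hu (h.st hu _ he) hx o1
  have o4 := orth hu (h.st hu _ hd) hy o2
  have x0 := ne_of_h x1 one_ne_zero
  have y0 := ne_of_h y1 (by simp)
  obtain ⟨γ, g0, g1, g2⟩ : ∃ γ : F, γ ≠ 0 ∧ T.bar γ = -γ ∧ (2 ≤ ε.rank ∨ 1 + γ ≠ 0) := by
    rcases h2 with h2 | h2
    · exact (T.ex_skew hu).imp fun _ e => ⟨e.1, e.2, .inl h2⟩
    · obtain ⟨γ, g0, g1, g2⟩ := T.ex_skew' hu h2
      exact ⟨-γ, by simpa, by simp [g2], .inr fun e => g1 (by linear_combination -e)⟩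
  have t := T.tv_of hu (v := x + y) (fun e => x0 (by simpa [mulVec_add, hx, o1] using congrArg (ε *ᵥ ·) e))
    (by simp [T.h_add_left, T.h_add_right, *]) g0 g1
  obtain ⟨A, hA, e⟩ := t.se (t.sup hu (id_add h he hd hne) (by simp [add_mulVec, mulVec_add, *]))
  have e1 : (γ • T.bv (x + y)) ⬝ᵥ x = γ := by simp [T.bv_dot, T.h_add_right, x1, o3]
  have e2 : (A : R n F) *ᵥ x = (1 + γ) • x + γ • y := by
    rw [e, add_mulVec, one_mulVec, UN.vv_mulVec, e1]; module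
  refine ⟨A, hA, fun hX => ?_⟩
  have k := fun a => blk (a := a) h.orth hX he hx
  have k2 := k δ hd (by simp [e2, mulVec_add, mulVec_smul, o2, hy, g0, y0])
  refine g2.elim (fun g2 => ?_) fun g2 => hne ((k ε he (by
    simp [e2, mulVec_add, mulVec_smul, o1, hx, g2, x0])).trans k2.symm)
  obtain ⟨⟨z, hz⟩, z1, z0⟩ := (Submodule.ne_bot_iff _).1 (LinearMap.ker_ne_bot_of_finrank_lt
    (f := (dotProductBilin F F (γ • T.bv (x + y))).domRestrict (rg ε)) (by rwa [finrank_self]))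
  have e3 : (A : R n F) *ᵥ z = z := by
    rw [e, add_mulVec, one_mulVec, UN.vv_mulVec, show _ ⬝ᵥ z = 0 from z1]; simp
  rw [mem_rg_id (h.id _ he)] at hz
  exact hne ((blk h.orth hX he hz he (by simpa [e3, hz] using z0)).trans k2.symm)

theorem le_card (h : T.Sy D) (h1 : ∀ ε ∈ D, ε.rank ≤ 1) : n ≤ D.card := by
  have : ∀ E ⊆ D, (∑ ε ∈ E, ε).rank ≤ E.card := fun E => by
    classical
    induction E using Finset.induction_on with
    | empty => simp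
    | insert a E ha ih =>
      intro hE
      rw [Finset.sum_insert ha, Finset.card_insert_of_notMem ha]
      have := (Submodule.finrank_mono (LinearMap.range_add_le (toLin' a) (toLin' (∑ ε ∈ E, ε)))).trans
        (Submodule.finrank_add_le_finrank_add_finrank _ _)
      rw [← map_add] at this
      exact this.trans ((add_le_add (h1 a (hE (Finset.mem_insert_self _ _)))
        (ih ((Finset.subset_insert _ _).trans hE))).trans_eq (add_comm _ _))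
  simpa [h.sum] using this D subset_rfl

theorem np4 (hu : T.u) (h : T.Sy D) (h4 : 4 ≤ D.card) : ∃ s ∈ T.S n, s ∉ PS (D : Set (R n F)) := by
  classical
  obtain ⟨E, hE, c0⟩ := Finset.exists_subset_card_eq h4
  obtain ⟨a, E', rfl, c'⟩ : ∃ a E', E = insert a E' ∧ a ∉ E' ∧ E'.card = 3 := by
    obtain ⟨a, t, h1, h2, h3⟩ := Finset.card_eq_succ.1 c0
    exact ⟨a, t, h2.symm, h1, h3⟩
  obtain ⟨b, c, d, n1, n2, n3, rfl⟩ := Finset.card_eq_three.1 c'.2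
  simp only [Finset.insert_subset_iff, Finset.singleton_subset_iff, Finset.mem_insert,
    Finset.mem_singleton, not_or] at hE c'
  obtain ⟨ha, hb, hc, hd⟩ := hE
  obtain ⟨⟨n4, n5, n6⟩, -⟩ := c'
  have u := fun ε he => @unit F _ _ n T ε hu ⟨h.id _ he, fun hu => h.st hu _ he⟩ (h.ne ε he)
  obtain ⟨x, hx, x1⟩ := u a ha (map_one _) one_ne_zero
  obtain ⟨y, hy, y1⟩ := u b hb (c := -1) (by simp) (by simp)
  obtain ⟨z, hz, z1⟩ := u c hc (map_one _) one_ne_zero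
  obtain ⟨w, hw, w1⟩ := u d hd (c := -1) (by simp) (by simp)
  have k : ∀ {ε δ v}, ε ∈ D → δ ∈ D → ε ≠ δ → δ *ᵥ v = v → ε *ᵥ v = 0 := fun he hd e =>
    kill (h.orth _ he _ hd e)
  have o : ∀ {ε δ v v'}, ε ∈ D → δ ∈ D → ε ≠ δ → ε *ᵥ v = v → δ *ᵥ v' = v' → T.h v v' = 0 ∧ T.h v' v = 0 :=
    fun he hd e h1 h2 => ⟨orth hu (h.st hu _ he) h1 (k he hd e h2), orth hu (h.st hu _ hd) h2 (k hd he e.symm h1)⟩
  have o1 := o ha hb n4 hx hy
  have o2 := o ha hc n5 hx hz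
  have o3 := o ha hd n6 hx hw
  have o4 := o hb hc n1 hy hz
  have o5 := o hb hd n2 hy hw
  have o6 := o hc hd n3 hz hw
  have e1 : T.h x (x + y + z + w) = 1 := by simp [T.h_add_right, *]
  obtain ⟨γ, g0, g1⟩ := T.ex_skew hu
  obtain ⟨A, hA, e⟩ := (T.tv_of hu (v := x + y + z + w) (fun e => by simp [e, HV.h_zero_right] at e1)
    (by simp [T.h_add_left, T.h_add_right, *]) g0 g1).un
  have e2 : (A : R n F) *ᵥ x = x + γ • (x + y + z + w) := by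
    rw [e, add_mulVec, one_mulVec, UN.vv_mulVec, smul_dotProduct, T.bv_dot, e1, smul_eq_mul, mul_one]
  refine ⟨A, hA, fun hX => n1 ((blk h.orth hX ha hx hb ?_).trans (blk h.orth hX ha hx hc ?_).symm)⟩
  · simp [e2, mulVec_add, mulVec_smul, k hb ha (Ne.symm n4) hx, k hb hc n1 hz, k hb hd n2 hw, hy, g0,
      ne_of_h y1]
  · simp [e2, mulVec_add, mulVec_smul, k hc ha (Ne.symm n5) hx, k hc hb n1.symm hy, k hc hd n3 hw, hz, g0,
      ne_of_h z1]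

end NP

open NP

theorem tv_fix {X : Set (R n F)} (hi : ∀ ε ∈ X, ε * ε = ε)
    (ho : ∀ ε ∈ X, ∀ δ ∈ X, ε ≠ δ → ε * δ = 0) {A : GL (Fin n) F} {v φ : V n F}
    (hA : (A : R n F) = 1 + vecMulVec v φ) (hX : A ∈ PS X) {ε : R n F} (he : ε ∈ X)
    (h2 : 2 ≤ ε.rank) : ε *ᵥ v = v ∨ φ ᵥ* ε = 0 := by
  obtain ⟨⟨z, hz⟩, z1, z0⟩ := (Submodule.ne_bot_iff _).1 (LinearMap.ker_ne_bot_of_finrank_lt
    (f := (dotProductBilin F F φ).domRestrict (rg ε)) (by rwa [finrank_self]))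
  have e3 : (A : R n F) *ᵥ z = z := by
    rw [hA, add_mulVec, one_mulVec, UN.vv_mulVec, show _ ⬝ᵥ z = 0 from z1]; simp
  rw [mem_rg_id (hi _ he)] at hz
  have e := cn_eq_iff.1 (blk ho hX he hz he (by simpa [e3, hz] using z0)).symm
  rw [hA, add_mul, mul_add, one_mul, mul_one, add_right_inj] at e
  refine or_iff_not_imp_right.2 fun h0 => ?_
  obtain ⟨y, hy⟩ : ∃ y, φ ⬝ᵥ (ε *ᵥ y) ≠ 0 := by
    by_contra! k
    exact h0 (dotProduct_eq_zero _ fun y => by rw [← dotProduct_mulVec, k])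
  have := congrArg (· *ᵥ (ε *ᵥ y)) e
  simp only [← mulVec_mulVec, UN.vv_mulVec, mulVec_smul] at this
  rw [mulVec_mulVec, hi _ he] at this
  exact (smul_right_injective _ hy this).symm

theorem Ty.Sy.np2 {D : Finset (R n F)} (h : T.Sy D) {ε δ : R n F} (he : ε ∈ D) (hd : δ ∈ D)
    (hne : ε ≠ δ) (h2 : 2 ≤ ε.rank) :
    ∃ s ∈ T.Se (ε + δ), s ∉ PS (D : Set (R n F)) :=
  (em T.u).elim (fun hu => npU hu h he hd hne (.inl h2)) fun hu => npL hu h he hd hne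

theorem Ty.Sy.np (ok : T.Ok n) {D : Finset (R n F)} (h : T.Sy D) :
    ∃ s ∈ T.S n, s ∉ PS (D : Set (R n F)) := by
  by_cases h1 : ∀ ε ∈ D, ε.rank ≤ 1
  · obtain ⟨a, ha, b, hb, e⟩ := Finset.one_lt_card.1 h.two
    by_cases hu : T.u
    · by_cases hq : T.q = 2
      · refine np4 hu h (le_trans ?_ (le_card h h1))
        have := ok.n3 hu
        have := ok.ex hu
        omega
      · exact (npU hu h ha hb e (.inr hq)).imp fun _ e => ⟨e.1.1, e.2⟩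
    · exact (npL hu h ha hb e).imp fun _ e => ⟨e.1.1, e.2⟩
  · push Not at h1
    obtain ⟨a, ha, h1⟩ := h1
    obtain ⟨b, hb, e⟩ := Finset.exists_mem_ne h.two a
    exact (h.np2 ha hb e.symm h1).imp fun _ e => ⟨e.1.1, e.2⟩

theorem Ty.Sy.Se_le {D : Finset (R n F)} (h : T.Sy D) {ε : R n F} (he : ε ∈ D) :
    T.Se ε ≤ PS (D : Set (R n F)) := fun s hs => mem_stb_of fun δ hd => by
  rwa [cn_eq_iff.2 (Ty.Se_comm hs (or_iff_not_imp_right.2 fun e =>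
    ⟨h.orth _ hd _ he e, h.orth _ he _ hd (Ne.symm e)⟩))]

theorem Cx.Eq.eq {c : Cx T n G} {D : Finset (R n F)} {k : ℕ} (h : c.Eq D k) : c.H = c.m.St D :=
  c.st_eq h.le (h.sy.np c.m.ok)

theorem Cx.Tw.eq {c : Cx T n G} {ε : R n F} (h : c.Tw ε) : c.H = c.m.St {ε, 1 - ε} :=
  c.st_eq h.le (by
    simpa using (h.id.sy (by rintro rfl; simpa using h.rk) h.ne).np c.m.ok)

theorem Cx.Tw.two {c : Cx T n G} {ε : R n F} (h : c.Tw ε) : 2 ≤ ε.rank :=
  (rank_pos (sub_ne_zero.2 h.ne.symm)).trans_lt h.rk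

theorem mem_PS_tw {ε : R n F} (h : (1 - ε).rank < ε.rank) {A : GL (Fin n) F} :
    A ∈ PS ({ε, 1 - ε} : Set (R n F)) ↔ (A : R n F) * ε = ε * A := by
  rw [← cn_eq_iff]
  refine ⟨fun hA => ((mem_PS.1 hA ε).2 (.inl rfl)).resolve_right fun e => ?_,
    fun e => mem_stb_of (by simp [e, cn_one_sub])⟩
  rw [← show cn A ε = 1 - ε from e, rank_cn] at h
  exact h.false

end CF.Wb
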