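import Cfsg.Agent.Wb.X2
import Cfsg.Agent.Wb.NP

/-! Stabilisers of a pair of totally isotropic subspaces. -/

set_option autoImplicit false
set_option linter.unusedSectionVars false

namespace CF.Wb

open Matrix Subgroup CF.BG Module

variable {F : Type} [Field F] [Fintype F] {n : ℕ} {T : Ty F} {G : Type*} [Group G] [Finite G]

theorem Cx.ti (c : Cx T n G) (hp : c.p ≠ T.r) {ε : R n F} (h : c.Ti ε) : False := by
  have hu := h.u
  have r1 := rank_add_rank h.id
  have r2 := T.st_rank ε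
  have r3 := c.m.ok.n3 hu
  rw [h.st] at r2
  have i1 : ε * (1 - ε) = 0 := by rw [mul_sub, h.id, mul_one, sub_self]
  have i2 : (1 - ε) * ε = 0 := by rw [sub_mul, h.id, one_mul, sub_self]
  have i3 : (1 - ε) * (1 - ε) = 1 - ε := by rw [mul_sub, i2, mul_one, sub_zero]
  obtain ⟨w, hw, w0⟩ := UN.ex_not_span (X := rg ε) (by rw [finrank_rg]; omega) 0
  obtain ⟨y, hy, y0⟩ : ∃ y ∈ rg (1 - ε) ⊓ T.perp (F ∙ w), y ≠ 0 := by
    refine Submodule.exists_mem_ne_zero_of_ne_bot fun z => ?_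
    have a := Submodule.finrank_sup_add_finrank_inf_eq (rg (1 - ε)) (T.perp (F ∙ w))
    have b := T.finrank_perp (F ∙ w)
    have d := Submodule.finrank_le (rg (1 - ε) ⊔ T.perp (F ∙ w))
    have e := finrank_span_le_card (R := F) ({w} : Set (V n F))
    rw [z, finrank_rg] at a
    simp at a d e
    omega
  replace w0 : w ≠ 0 := by simpa using w0
  have yw : T.h y w = 0 := Ty.mem_perp.1 hy.2 w (Submodule.mem_span_singleton_self w)
  have e1 : ε *ᵥ w = w := (mem_rg_id h.id).1 hw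
  have e2 : (1 - ε) *ᵥ y = y := (mem_rg_id i3).1 hy.1
  have e3 : ε *ᵥ y = 0 := by rw [← e2, mulVec_mulVec, i1, zero_mulVec]
  have e4 : (1 - ε) *ᵥ w = 0 := by rw [sub_mulVec, e1, one_mulVec, sub_self]
  have ww : T.h w w = 0 := by rw [← e1, Ty.h_mulVec hu, h.st, e1, e4, HV.h_zero_right]
  have yy : T.h y y = 0 := by rw [← e2, Ty.h_mulVec hu, ← h.st, Ty.st_st hu, h.st, e2, e3, HV.h_zero_right]
  have wy := (HV.h_swap hu).1 yw
  have f1 : T.bv y ᵥ* ε = T.bv y := by rw [UN.bv_vecMul hu, h.st, e2]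
  have f2 : T.bv w ᵥ* ε = 0 := by rw [UN.bv_vecMul hu, h.st, e4]; ext; simp [Ty.bv]
  obtain ⟨γ, γ0, hγ⟩ := Ty.ex_skew hu
  have tv := Ty.tv_of hu (v := w + y) (fun z => w0 (by simpa [mulVec_add, e1, e3] using congrArg (ε *ᵥ ·) z))
    (by simp [T.h_add_left, T.h_add_right, ww, yy, wy, yw]) γ0 hγ
  obtain ⟨t, t1, t2⟩ := tv.un
  have hH := c.st_eq h.le ⟨t, t1, fun m => (tv_fix (by simp [h.id, i3]) (by simp [i1, i2]) t2 m (ε := ε) (by simp)
    (by omega)).elim (fun z => y0 (by simpa [mulVec_add, e1, e3] using z)) fun z => by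
      rw [smul_vecMul, UN.bv_vecMul hu, h.st, mulVec_add, e2, e4, zero_add] at z
      exact smul_ne_zero γ0 (UN.bv_ne T y0) z⟩
  obtain ⟨a, ha⟩ := Ty.ex_nb hu
  have g1 : ε * (vecMulVec w (T.bv y) - vecMulVec y (T.bv w)) = vecMulVec w (T.bv y) := by
    simp [mul_sub, mul_vecMulVec, e1, e3]
  have g2 : (vecMulVec w (T.bv y) - vecMulVec y (T.bv w)) * ε = vecMulVec w (T.bv y) := by
    simp [sub_mul, vecMulVec_mul, f1, f2]
  have n0 : vecMulVec w (T.bv y) - vecMulVec y (T.bv w) ≠ 0 := fun z => by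
    rw [z, mul_zero] at g1
    exact (vecMulVec_eq_zero.1 g1.symm).elim w0 (UN.bv_ne T y0)
  have n2 : (vecMulVec w (T.bv y) - vecMulVec y (T.bv w)) * (vecMulVec w (T.bv y) - vecMulVec y (T.bv w)) = 0 := by
    simp only [sub_mul, mul_sub, UN.vv_mul, ww, yy, wy, yw, zero_smul, sub_self]
  have ns : T.st (vecMulVec w (T.bv y) - vecMulVec y (T.bv w)) = -(vecMulVec w (T.bv y) - vecMulVec y (T.bv w)) := by
    rw [T.st_sub, T.st_vv, T.st_vv, UN.bv_bv hu, UN.bv_bv hu, neg_sub]
  replace g1 : Commute _ ε := g2.trans g1.symm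
  generalize vecMulVec w (T.bv y) - vecMulVec y (T.bv w) = ν at g1 n0 n2 ns
  have lc : ∀ x, Commute x ε → Commute x (a • ε + T.bar a • (1 - ε)) := fun x k =>
    (k.smul_right _).add_right (((Commute.one_right x).sub_right k).smul_right _)
  refine c.x3 hp n0 n2 (fun _ => ns) (lc ν g1) (fun _ => ?_) (fun i j k => ?_) fun s m r => ?_
  · rw [T.st_add, T.st_smul, T.st_smul, ← h.st, Ty.st_st hu, Ty.bar_bar hu, add_comm]
  · have z : (i : F) + j * a ≠ 0 := fun z => k (by
      have j0 : (j : F) = 0 := by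
        have := congrArg T.bar z
        rw [map_add, map_mul, map_natCast, map_natCast, map_zero] at this
        exact (mul_eq_zero.1 (by linear_combination this - z)).resolve_right (sub_ne_zero.2 ha)
      exact ⟨by simpa [j0] using z, j0⟩)
    have z' : (i : F) + j * T.bar a ≠ 0 := by simpa using (map_ne_zero T.bar).2 z
    refine IsUnit.of_mul_eq_one (((i : F) + j * a)⁻¹ • ε + ((i : F) + j * T.bar a)⁻¹ • (1 - ε)) ?_
    rw [show (i : F) • (1 : R n F) + (j : F) • (a • ε + T.bar a • (1 - ε)) =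
      ((i : F) + j * a) • ε + ((i : F) + j * T.bar a) • (1 - ε) by module]
    simp only [add_mul, mul_add, smul_mul_assoc, mul_smul_comm, h.id, i1, i2, i3, smul_zero, add_zero, zero_add,
      inv_smul_smul₀ z, inv_smul_smul₀ z', add_sub_cancel]
  · have k : Commute (s : R n F) ε := by
      rcases r with r | r <;> rw [r]
      · exact (Commute.one_left ε).add_left g1
      · exact (Commute.one_left ε).add_left ((lc ε rfl).symm.mul_left g1)
    refine hH ▸ c.m.lift_St m (mem_stb_of ?_)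
    rintro x (rfl | rfl)
    · exact .inl ((Units.mul_inv_eq_iff_eq_mul s).2 k)
    · exact .inr ((Units.mul_inv_eq_iff_eq_mul s).2 ((Commute.one_right _).sub_right k))

end CF.Wb
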