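import Cfsg.Agent.Wb.W1
import Cfsg.Agent.Wb.IM
import Cfsg.Agent.Wb.PE
import Cfsg.Agent.Wb.ST2
import Cfsg.Agent.Wb.TI
import Cfsg.Agent.Wb.FL2
import Cfsg.Agent.Wb.SG
import Cfsg.Agent.Wb.BG
import Cfsg.Agent.Wb.RF
import Cfsg.Agent.Wb.F0
import Cfsg.Agent.Wb.FA
import Cfsg.Agent.Wb.FB
import Cfsg.Agent.Wb.F3
import Cfsg.Agent.Wb.DM
import Cfsg.Agent.S3684
import Cfsg.Agent.S3685

/-! The Wielandt bound for linear and unitary socles. -/

set_option autoImplicit false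
set_option linter.unusedSectionVars false

namespace CF.Wb

open Matrix Subgroup CF.BG Module

variable {F : Type} [Field F] [Fintype F] {n : ℕ} {T : Ty F} {G : Type*} [Group G] [Finite G]


theorem Cx.frame (c : Cx T n G) (hp : c.p ≠ T.r) (hc : c.CA ∨ c.CB) {D : Finset (R n F)}
    (h : c.Eq D 1) : c.Bd := by
  obtain ⟨m, h1, h2, h3⟩ := c.std h
  let c' : Cx T n G := ⟨m, c.H, c.Q, c.P, c.P', c.g, c.p, c.d, h1 ▸ c.tw⟩
  change c'.Bd
  rcases (m.ok.n2).eq_or_lt with h4 | h4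
  · exact c'.fr2 h3 h4.symm
  · rcases hc with hc | hc
    · exact c'.frA h3 h4 (by simpa only [Cx.CA, c', h2] using hc)
    · exact c'.frB hp h3 h4 (by simpa only [Cx.CB, c', h2] using hc)

theorem Cx.main0 (c : Cx T n G) (hc : c.CA ∨ c.CB) : c.Bd := by
  by_cases hp : c.p = T.r
  · exact (c.par hp).elim
  by_cases hn : c.NA
  · exact hn.dend hp hc
  rcases c.struct hp hn with ⟨D, k, h⟩ | ⟨ε, h⟩ | ⟨K, h⟩ | ⟨ε, h⟩
  · rcases Nat.lt_or_ge k 2 with h2 | h2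
    · obtain ⟨ε, he⟩ := Finset.card_pos.1 (lt_of_lt_of_le two_pos h.sy.two)
      have h0 : k ≠ 0 := fun h0 => h.sy.ne ε he (by
        have := h.rk ε he
        rw [h0, ← finrank_rg, Submodule.finrank_eq_zero] at this
        refine Matrix.toLin'.injective ?_
        rw [map_zero]
        exact LinearMap.range_eq_bot.1 this)
      obtain rfl : k = 1 := by omega
      exact c.frame hp hc h
    · by_cases hx : T.u ∧ T.q = 2 ∧ k = 2
      · obtain ⟨hu, hq, rfl⟩ := hx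
        obtain ⟨D', h'⟩ := c.refine hu hq h
        exact c.frame hp hc h'
      · exact (hc.elim (c.blkA hp h h2 hx) (c.blkB hp h h2)).elim
  · exact (hc.elim (c.twA h) (c.twB hp h)).elim
  · by_cases hv : ∃ v : V n F, v ≠ 0 ∧ ∃ w, ∀ a ∈ K, a *ᵥ v ≠ w
    · exact (c.fld hp h hv).elim
    · push Not at hv
      exact c.sing h hv
  · exact (c.ti hp h).elim

theorem Cx.main (c : Cx T n G) : c.Bd := by
  by_cases h1 : c.P ⊓ c.m.M = ⊥
  · by_cases h2 : c.P' ⊓ c.m.M = ⊥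
    · exact c.main0 (.inr ⟨h1, h2⟩)
    · exact Cx.main0 ⟨c.m, c.H, c.Q, c.P', c.P, c.g⁻¹, c.p, c.d, c.tw.flip⟩ (.inl h2)
  · exact c.main0 (.inl h1)

theorem main {Ω : Type*} [MulAction G Ω] [FaithfulSMul G Ω] [Finite Ω] (N : Subgroup G)
    (hNn : N.Normal) (hNs : IsSimpleGroup N) (hNc : Subgroup.centralizer (N : Set G) = ⊥)
    (hsoc : Cfsg.IsPSL N ∨ Cfsg.IsPSU N) (hprim : MulAction.IsPreprimitive G Ω) (a b : Ω) (d : ℕ)
    (hd : Nat.card (MulAction.orbit (MulAction.stabilizer G a) b) = d) (h2 : 2 ≤ d) :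
    Nat.card (MulAction.stabilizer G a) ≤ Nat.factorial d * (Nat.factorial (d - 1)) ^ d := by
  rcases Nat.lt_or_ge d 4 with h4 | h4
  · obtain rfl | rfl : d = 2 ∨ d = 3 := by omega
    · rw [(Cfsg.Agent.S3684.result hprim a b hd).1]
      decide
    · rcases Cfsg.Agent.S3685.result hprim a b hd with ⟨⟨e⟩⟩ | ⟨⟨e⟩⟩ | ⟨⟨e⟩⟩ | ⟨⟨e⟩⟩ | ⟨⟨e⟩⟩ <;>
        rw [Nat.card_congr e.toEquiv] <;>
        simp [Nat.card_eq_fintype_card, Fintype.card_perm, DihedralGroup.card, Nat.factorial]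
  · have h1 : N ≠ ⊥ := (Subgroup.nontrivial_iff_ne_bot N).1 hNs.toNontrivial
    rcases tw_of N hNn h1 hprim a b d hd h4 with h | ⟨Q, g, p, P, P', t⟩
    · exact h
    · obtain ⟨F, _, _, T, n, m, rfl⟩ := model N hNn hNc hsoc
      exact Cx.main ⟨m, _, Q, P, P', g, p, d, t⟩

end CF.Wb
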