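import Mathlib
import Cfsg.Agent.BG.B1

/-!
Wielandt bound for linear and unitary socles: definitions.
An almost simple group with such a socle acts on the matrix ring by automorphisms and
anti-automorphisms; subspaces, decompositions and tori are encoded as sets of matrices.
-/

set_option autoImplicit false
set_option linter.unusedSectionVars false

namespace CF.Wb

open Matrix Subgroup CF.BG

/-- the Wielandt bound -/
def Bn (d : ℕ) : ℕ := d.factorial * (d - 1).factorial ^ d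

section tw

variable {G : Type*} [Group G]

/-- one direction of the Thompson-Wielandt data: `H = G_x`, `cj g H = G_y` for an out-neighbour
`y = g x`, `P` the `p`-core of the pointwise stabiliser of the second neighbourhood -/
structure Hf (H Q : Subgroup G) (g : G) (p d : ℕ) (P : Subgroup G) : Prop where
  ne : P ≠ ⊥
  nrm : P ⊴ H
  le : P ≤ Q
  le1 : P ≤ cj g Q
  le2 : ∀ h ∈ H, P ≤ cj (g * h * g⁻¹) H
  idx : (cj g H).relIndex H = d
  sl : (∀ k ∈ H, (∀ h ∈ H, k ∈ cj (h * g) H) → ∃ j : ℕ, k ^ p ^ j = 1) → ♯P ≤ 2 ^ d → ♯H ≤ Bn d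

/-- Thompson-Wielandt data; `Q = O_p(H)`, `H` has characteristic `p` -/
structure TW (N H Q : Subgroup G) (g : G) (p d : ℕ) (P P' : Subgroup G) : Prop where
  pr : p.Prime
  pd : p ≤ d
  d4 : 4 ≤ d
  max : IsCoatom H
  core : ∀ X : Subgroup G, X.Normal → X ≤ H → X = ⊥
  gN : g ∈ N
  gH : g ∉ H
  Qn : Q ⊴ H
  Qp : IsPGroup p Q
  Qm : ∀ X : Subgroup G, X ⊴ H → IsPGroup p X → X ≤ Q
  ch : ∀ k ∈ H, (∀ a ∈ Q, Commute k a) → k ∈ Q
  h1 : Hf H Q g p d P
  h2 : Hf H Q g⁻¹ p d P'

theorem TW.flip {N H Q : Subgroup G} {g : G} {p d : ℕ} {P P' : Subgroup G}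
    (t : TW N H Q g p d P P') : TW N H Q g⁻¹ p d P' P :=
  ⟨t.pr, t.pd, t.d4, t.max, t.core, inv_mem t.gN, fun h => t.gH (by simpa using inv_mem h), t.Qn,
    t.Qp, t.Qm, t.ch, t.h2, by simpa using t.h1⟩

end tw

/-- square matrices -/
abbrev R (n : ℕ) (F : Type) := Matrix (Fin n) (Fin n) F

/-- column vectors -/
abbrev V (n : ℕ) (F : Type) := Fin n → F

/-- type data: `u` says unitary; `q = r ^ f`; `bar` is `x ↦ x ^ q` in the unitary case -/
structure Ty (F : Type) [Field F] [Fintype F] where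
  u : Prop
  r : ℕ
  f : ℕ
  bar : F ≃+* F
  pr : r.Prime
  f1 : 1 ≤ f
  cL : ¬ u → Fintype.card F = r ^ f
  cU : u → Fintype.card F = (r ^ f) ^ 2
  bU : u → ∀ a, bar a = a ^ r ^ f

variable {F : Type} [Field F] [Fintype F] {n : ℕ}

/-- range of a matrix -/
def rg (a : R n F) : Submodule F (V n F) := LinearMap.range (Matrix.toLin' a)

/-- kernel of a matrix -/
def kr (a : R n F) : Submodule F (V n F) := LinearMap.ker (Matrix.toLin' a)

/-- image of a subspace -/
def mp (a : R n F) (U : Submodule F (V n F)) : Submodule F (V n F) := U.map (Matrix.toLin' a)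

/-- scalar matrices -/
def Sc (a : R n F) : Prop := ∃ z : F, a = z • (1 : R n F)

/-- `a` is a scalar on the range of `ε` -/
def ScOn (a ε : R n F) : Prop := ∃ z : F, a * ε = z • ε

/-- conjugation action of `GL` on matrices -/
def cn : GL (Fin n) F →* Equiv.Perm (R n F) := MulAction.toPermHom (ConjAct (GL (Fin n) F)) (R n F)
  |>.comp (ConjAct.toConjAct : GL (Fin n) F ≃* _).toMonoidHom

theorem cn_apply (A : GL (Fin n) F) (a : R n F) :
    cn A a = (A : R n F) * a * ((A⁻¹ : GL (Fin n) F) : R n F) := rfl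

/-- setwise stabiliser of a set of matrices -/
def stb (X : Set (R n F)) : Subgroup (Equiv.Perm (R n F)) where
  carrier := {α | ∀ a, α a ∈ X ↔ a ∈ X}
  mul_mem' {α β} ha hb a := (ha (β a)).trans (hb a)
  one_mem' _ := Iff.rfl
  inv_mem' {α} ha a := by simpa using (ha (α⁻¹ a)).symm

theorem mem_stb {X : Set (R n F)} {α : Equiv.Perm (R n F)} : α ∈ stb X ↔ ∀ a, α a ∈ X ↔ a ∈ X :=
  Iff.rfl

/-- invertible matrices preserving a set of matrices under conjugation -/
def PS (X : Set (R n F)) : Subgroup (GL (Fin n) F) := (stb X).comap cn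

/-- maps `V / A2 → A1` -/
def Nn (A1 A2 : Submodule F (V n F)) : Set (R n F) := {a | rg a ≤ A1 ∧ A2 ≤ kr a}

/-- the nil radical of the stabiliser of the flag `A1 ≤ A2` -/
def Rad (A1 A2 : Submodule F (V n F)) (ν : R n F) : Prop := rg ν ≤ A2 ∧ mp ν A2 ≤ A1 ∧ A1 ≤ kr ν

/-- the standard frame -/
def fr (n : ℕ) (F : Type) [Field F] : Set (R n F) := Set.range fun i => Matrix.single i i (1 : F)

/-- invertible diagonal matrix -/
def dg (t : Fin n → Fˣ) : GL (Fin n) F :=
  ⟨diagonal fun i => (t i : F), diagonal fun i => (((t i)⁻¹ : Fˣ) : F), by simp, by simp⟩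

/-- permutation matrix sending the `i`-th basis vector to the `π i`-th -/
def pm (F : Type) [Field F] (π : Equiv.Perm (Fin n)) : GL (Fin n) F :=
  ⟨π⁻¹.permMatrix F, π.permMatrix F, by rw [← Matrix.permMatrix_mul]; simp,
    by rw [← Matrix.permMatrix_mul]; simp⟩

/-- `α` induces `π` on the standard frame -/
def Pm (α : Equiv.Perm (R n F)) (π : Equiv.Perm (Fin n)) : Prop :=
  ∀ i, α (Matrix.single i i 1) = Matrix.single (π i) (π i) 1

namespace Ty

variable (T : Ty F)

/-- the parameter `q` -/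
def q : ℕ := T.r ^ T.f

/-- conjugate vector -/
def bv (v : V n F) : V n F := fun i => T.bar (v i)

/-- the Hermitian form -/
def h (a b : V n F) : F := a ⬝ᵥ T.bv b

/-- conjugate transpose -/
def st (a : R n F) : R n F := (a.map T.bar)ᵀ

theorem st_mul (a b : R n F) : T.st (a * b) = T.st b * T.st a := by
  simp only [st]
  rw [← transpose_mul]
  congr 1
  exact Matrix.map_mul (f := (T.bar : F →+* F))

theorem st_one : T.st (1 : R n F) = 1 := by simp [st]

/-- orthogonal complement -/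
def perp (U : Submodule F (V n F)) : Submodule F (V n F) where
  carrier := {v | ∀ w ∈ U, T.h v w = 0}
  add_mem' ha hb w hw := by
    have h1 := ha w hw
    have h2 := hb w hw
    simp only [h] at h1 h2 ⊢
    rw [add_dotProduct, h1, h2, add_zero]
  zero_mem' w _ := by simp [h]
  smul_mem' c v hv w hw := by
    have h1 := hv w hw
    simp only [h] at h1 ⊢
    rw [smul_dotProduct, h1, smul_zero]

/-- `GL` or `GU` -/
def Γ (n : ℕ) : Subgroup (GL (Fin n) F) where
  carrier := {A | T.u → T.st (A : R n F) * (A : R n F) = 1}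
  mul_mem' {A B} ha hb hu := by
    rw [Units.val_mul, st_mul, mul_assoc, ← mul_assoc (T.st (A : R n F)), ha hu, one_mul, hb hu]
  one_mem' _ := by simp [st_one]
  inv_mem' {A} ha hu := by
    have h1 : T.st (A : R n F) = ((A⁻¹ : GL (Fin n) F) : R n F) := by
      rw [← mul_one (T.st (A : R n F)), ← A.mul_inv, ← mul_assoc, ha hu, one_mul]
    rw [← h1, ← st_mul, h1, A.mul_inv, st_one]

/-- `SL` or `SU` -/
def S (n : ℕ) : Subgroup (GL (Fin n) F) := T.Γ n ⊓ (Matrix.GeneralLinearGroup.det).ker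

/-- the scalars of `Γ` -/
def Z : Subgroup Fˣ where
  carrier := {z | T.u → T.bar z * z = 1}
  mul_mem' {a b} ha hb hu := by
    rw [Units.val_mul, map_mul, mul_mul_mul_comm, ha hu, hb hu, one_mul]
  one_mem' _ := by simp
  inv_mem' {a} ha hu := by
    rw [Units.val_inv_eq_inv_val, map_inv₀, ← mul_inv, ha hu, inv_one]

/-- elements of `S` supported on the range of `ε` -/
def Se (ε : R n F) : Subgroup (GL (Fin n) F) where
  carrier := {s | s ∈ T.S n ∧ (s : R n F) * (1 - ε) = 1 - ε ∧ (1 - ε) * (s : R n F) = 1 - ε}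
  mul_mem' {a b} ha hb := ⟨mul_mem ha.1 hb.1, by rw [Units.val_mul, mul_assoc, hb.2.1, ha.2.1],
    by rw [Units.val_mul, ← mul_assoc, ha.2.2, hb.2.2]⟩
  one_mem' := ⟨one_mem _, by simp, by simp⟩
  inv_mem' {a} ha := ⟨inv_mem ha.1, by
    conv_lhs => rw [← ha.2.1, ← mul_assoc, a.inv_mul, one_mul], by
    conv_lhs => rw [← ha.2.2, mul_assoc, a.mul_inv, mul_one]⟩

/-- `1 + ν` lies in `S` -/
def Un (ν : R n F) : Prop := ∃ A ∈ T.S n, (A : R n F) = 1 + ν

/-- transvection data: `1 + v φ` is a transvection of `S` -/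
def Tv (v φ : V n F) : Prop :=
  v ≠ 0 ∧ φ ≠ 0 ∧ φ ⬝ᵥ v = 0 ∧ (T.u → ∃ γ : F, T.bar γ = -γ ∧ φ = γ • T.bv v)

/-- Eichler map minus one -/
def ei (w v : V n F) (c : F) : R n F :=
  vecMulVec v (T.bv w) - vecMulVec w (T.bv v) - c • vecMulVec w (T.bv w)

/-- a flag `A1 ≤ A2` whose stabiliser is parabolic -/
structure Fl (A1 A2 : Submodule F (V n F)) : Prop where
  ne : A1 ≠ ⊥
  ne' : A2 ≠ ⊤
  le : A1 ≤ A2
  pp : T.u → A2 = T.perp A1

/-- a system of orthogonal idempotents (a decomposition, orthogonal in the unitary case) -/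
structure Sy (D : Finset (R n F)) : Prop where
  id : ∀ ε ∈ D, ε * ε = ε
  ne : ∀ ε ∈ D, ε ≠ 0
  orth : ∀ ε ∈ D, ∀ δ ∈ D, ε ≠ δ → ε * δ = 0
  sum : ∑ ε ∈ D, ε = 1
  two : 2 ≤ D.card
  st : T.u → ∀ ε ∈ D, T.st ε = ε

/-- an idempotent, self-adjoint in the unitary case -/
def Id (ε : R n F) : Prop := ε * ε = ε ∧ (T.u → T.st ε = ε)

/-- the allowed maps of the matrix ring -/
def Al (α : Equiv.Perm (R n F)) : Prop :=
  ∃ A ∈ T.Γ n, ∃ σ : F ≃+* F, (∀ a, α a = cn A (a.map σ)) ∨
    (¬ T.u ∧ 3 ≤ n ∧ ∀ a, α a = cn A (a.map σ)ᵀ)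

/-- the socle is simple or at least not one of the small unitary groups -/
structure Ok (n : ℕ) : Prop where
  n2 : 2 ≤ n
  n3 : T.u → 3 ≤ n
  ex : T.u → ¬ (n = 3 ∧ T.q = 2)

end Ty

/-- `vecMulVec v φ` is supported on the range of `ε` -/
def Sup (ε : R n F) (v φ : V n F) : Prop := ε *ᵥ v = v ∧ φ ᵥ* ε = φ

/-- matrix model of an almost simple group with linear or unitary socle -/
structure Md (T : Ty F) (n : ℕ) (G : Type*) [Group G] where
  ρ : G →* Equiv.Perm (R n F)
  inj : Function.Injective ρ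
  ok : T.Ok n
  al : ∀ g, T.Al (ρ g)
  sur : ∀ s ∈ T.S n, ∃ g, ρ g = cn s

namespace Md

variable {T : Ty F} {G : Type*} [Group G] (m : Md T n G)

/-- the socle -/
def N : Subgroup G := ((T.S n).map cn).comap m.ρ

/-- the inner-diagonal part -/
def M : Subgroup G := ((T.Γ n).map cn).comap m.ρ

/-- all lifts to `Γ` of the elements of `K ⊓ M` -/
def lift (K : Subgroup G) : Subgroup (GL (Fin n) F) := T.Γ n ⊓ (K.map m.ρ).comap cn

/-- stabiliser of a set of matrices -/
def St (X : Set (R n F)) : Subgroup G := (stb X).comap m.ρ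

/-- `g` acts as a ring automorphism -/
def Lin (g : G) : Prop := ∀ a b, m.ρ g (a * b) = m.ρ g a * m.ρ g b

/-- `g` acts as a ring anti-automorphism -/
def Du (g : G) : Prop := ∀ a b, m.ρ g (a * b) = m.ρ g b * m.ρ g a

/-- the lifts of `K` commute -/
def Ab (K : Subgroup G) : Prop := ∀ A ∈ m.lift K, ∀ B ∈ m.lift K, A * B = B * A

open Classical in
/-- commutator scalar of two lifts -/
noncomputable def om (a b : G) : F :=
  if h : ∃ z : F, ∃ A ∈ T.Γ n, ∃ B ∈ T.Γ n, m.ρ a = cn A ∧ m.ρ b = cn B ∧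
    (A : R n F) * B = z • ((B : R n F) * A) then h.choose else 1

/-- `a` has a lift `W` with `W ^ p = 1` (`p` odd), `W ^ 2 = -1` (`p = 2`) -/
def Gd (p : ℕ) (a : G) : Prop :=
  ∃ W ∈ T.Γ n, m.ρ a = cn W ∧ (W : R n F) ^ p = if p = 2 then -1 else 1

/-- a field normalised by `H` whose centraliser in `S` lies in `H` -/
structure Fld (H : Subgroup G) (K : Subalgebra F (R n F)) : Prop where
  fld : IsField K
  ne : ∃ a ∈ K, ¬ Sc a
  st : T.u → ∀ a ∈ K, T.st a ∈ K
  le : H ≤ m.St K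
  cen : ∀ s ∈ T.S n, (∀ a ∈ K, (s : R n F) * a = a * s) → s ∈ m.lift H

end Md

/-- the full context -/
structure Cx (T : Ty F) (n : ℕ) (G : Type*) [Group G] where
  m : Md T n G
  H : Subgroup G
  Q : Subgroup G
  P : Subgroup G
  P' : Subgroup G
  g : G
  p : ℕ
  d : ℕ
  tw : TW m.N H Q g p d P P'

namespace Cx

variable {T : Ty F} {G : Type*} [Group G] (c : Cx T n G)

/-- the goal -/
def Bd : Prop := ♯c.H ≤ Bn c.d

/-- `P` meets the inner-diagonal part -/
def CA : Prop := c.P ⊓ c.m.M ≠ ⊥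

/-- neither `P` nor `P'` meets the inner-diagonal part -/
def CB : Prop := c.P ⊓ c.m.M = ⊥ ∧ c.P' ⊓ c.m.M = ⊥

/-- `H` stabilises a decomposition into blocks of rank `k` -/
structure Eq (D : Finset (R n F)) (k : ℕ) : Prop where
  sy : T.Sy D
  le : c.H ≤ c.m.St D
  rk : ∀ ε ∈ D, ε.rank = k

/-- `H` stabilises a decomposition into two blocks of different ranks -/
structure Tw (ε : R n F) : Prop where
  id : T.Id ε
  ne : ε ≠ 1
  rk : (1 - ε).rank < ε.rank
  le : c.H ≤ c.m.St {ε, 1 - ε}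

/-- `H` stabilises a pair of totally isotropic subspaces -/
structure Ti (ε : R n F) : Prop where
  u : T.u
  id : ε * ε = ε
  st : T.st ε = 1 - ε
  le : c.H ≤ c.m.St {ε, 1 - ε}

/-- no non-trivial normal `p`-subgroup of `H` inside `M` has commuting lifts -/
def NA : Prop := ∀ K : Subgroup G, K ⊴ c.H → K ≤ c.Q → K ≤ c.m.M → c.m.Ab K → K = ⊥

/-- the symplectic-type subgroup -/
def D : Subgroup G := c.Q ⊓ c.m.M

end Cx

end CF.Wb
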