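import Cfsg.Agent.Wb.UN

/-! Wielandt bound: the allowed maps of the matrix ring. -/

set_option autoImplicit false
set_option linter.unusedSectionVars false

namespace CF.Wb

open Matrix Subgroup CF.BG Module

variable {F : Type} [Field F] [Fintype F] {n : ℕ} {T : Ty F} {G : Type*} [Group G] [Finite G]

open HV UN

theorem cn_eq_one {A : GL (Fin n) F} : cn A = 1 ↔ Sc (A : R n F) :=
  ⟨fun h => by
    obtain ⟨z, hz⟩ := mem_range_scalar_iff_commute_single'.2 fun i j =>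
      ((Units.mul_inv_eq_iff_eq_mul A).1 (DFunLike.congr_fun h (single i j 1))).symm
    exact ⟨z, hz.symm.trans (smul_one_eq_diagonal z).symm⟩,
  fun ⟨_, h⟩ => (cn_of_smul (B := 1) h).trans (map_one _)⟩

theorem cn_eq {A B : GL (Fin n) F} : cn A = cn B ↔ ∃ z : Fˣ, (A : R n F) = (z : F) • (B : R n F) := by
  refine ⟨fun h => ?_, fun ⟨_, h⟩ => cn_of_smul h⟩
  obtain ⟨z, hz⟩ := cn_eq_one.1 (show cn (A * B⁻¹) = 1 by rw [map_mul, map_inv, h, mul_inv_cancel])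
  rw [Units.val_mul, Units.mul_inv_eq_iff_eq_mul, smul_mul_assoc, one_mul] at hz
  by_cases h0 : z = 0
  · rw [h0, zero_smul] at hz
    have := subsingleton_of_zero_eq_one (isUnit_zero_iff.1 (hz ▸ A.isUnit))
    exact ⟨1, Subsingleton.elim _ _⟩
  · exact ⟨Units.mk0 z h0, hz⟩

namespace B0

theorem smul_one_inj (hn : 1 ≤ n) {a b : F} (h : a • (1 : R n F) = b • 1) : a = b := by
  simpa using congrFun (congrFun h ⟨0, hn⟩) ⟨0, hn⟩

theorem cn_mul (A : GL (Fin n) F) (a b : R n F) : cn A (a * b) = cn A a * cn A b := by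
  simp only [cn_apply, mul_assoc, Units.inv_mul_cancel_left]

theorem cn_one (A : GL (Fin n) F) : cn A 1 = 1 := by rw [cn_apply, mul_one, A.mul_inv]

theorem cn_smul (A : GL (Fin n) F) (z : F) (a : R n F) : cn A (z • a) = z • cn A a := by
  simp only [cn_apply, mul_smul_comm, smul_mul_assoc]

theorem cn_add (A : GL (Fin n) F) (a b : R n F) : cn A (a + b) = cn A a + cn A b := by
  simp only [cn_apply, mul_add, add_mul]

theorem cn_det (A : GL (Fin n) F) (a : R n F) : (cn A a).det = a.det := det_units_conj A a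

theorem cn_rank (A : GL (Fin n) F) (a : R n F) : (cn A a).rank = a.rank := by
  rw [cn_apply, rank_mul_eq_left_of_isUnit_det _ _ ((isUnit_iff_isUnit_det _).1 (Units.isUnit _)),
    rank_mul_eq_right_of_isUnit_det _ _ ((isUnit_iff_isUnit_det _).1 (Units.isUnit _))]

theorem cn_st (hu : T.u) {A : GL (Fin n) F} (hA : A ∈ T.Γ n) (a : R n F) :
    cn A (T.st a) = T.st (cn A a) := by
  rw [cn_apply, cn_apply, T.st_mul, T.st_mul, T.st_inv hu hA, T.st_inv hu (inv_mem hA), inv_inv,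
    mul_assoc]

theorem map_st (hu : T.u) (σ : F ≃+* F) (a : R n F) : (T.st a).map σ = T.st (a.map σ) := by
  ext; simp [Ty.st, T.aut_bar hu]

theorem map_smul (σ : F ≃+* F) (z : F) (a : R n F) : (z • a).map σ = σ z • a.map σ := by
  ext; simp

theorem map_one' (σ : F ≃+* F) : (1 : R n F).map σ = 1 := Matrix.map_one _ (map_zero σ) (map_one σ)

/-- the entrywise image of an invertible matrix -/
def gm (σ : F ≃+* F) : GL (Fin n) F →* GL (Fin n) F := GeneralLinearGroup.map (σ : F →+* F)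

theorem gm_val (σ : F ≃+* F) (A : GL (Fin n) F) : (gm σ A : R n F) = (A : R n F).map σ := rfl

theorem gm_mem (σ : F ≃+* F) {A : GL (Fin n) F} (hA : A ∈ T.Γ n) : gm σ A ∈ T.Γ n := fun hu => by
  rw [gm_val, ← map_st hu, ← Matrix.map_mul, hA hu, map_one']

theorem map_cn (σ : F ≃+* F) (A : GL (Fin n) F) (a : R n F) :
    (cn A a).map σ = cn (gm σ A) (a.map σ) := by
  rw [cn_apply, cn_apply, ← map_inv, gm_val, gm_val, Matrix.map_mul, Matrix.map_mul]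

/-- the inverse transpose -/
def it (A : GL (Fin n) F) : GL (Fin n) F :=
  ⟨((A⁻¹ : GL (Fin n) F) : R n F)ᵀ, (A : R n F)ᵀ, by rw [← transpose_mul, A.mul_inv, transpose_one],
    by rw [← transpose_mul, A.inv_mul, transpose_one]⟩

theorem tr_cn (A : GL (Fin n) F) (a : R n F) : (cn A a)ᵀ = cn (it A) aᵀ := by
  rw [cn_apply, cn_apply, transpose_mul, transpose_mul, mul_assoc]; rfl

theorem mem_Γ (hu : ¬ T.u) (A : GL (Fin n) F) : A ∈ T.Γ n := fun c => (hu c).elim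

end B0

open B0

theorem Ty.sc_mem_Z (hn : 1 ≤ n) {A B : GL (Fin n) F} (hA : A ∈ T.Γ n) (hB : B ∈ T.Γ n) {z : Fˣ}
    (h : (A : R n F) = (z : F) • (B : R n F)) : z ∈ T.Z := fun hu => by
  have := hA hu
  rw [h, T.st_smul, smul_mul_smul, hB hu] at this
  exact smul_one_inj hn (this.trans (one_smul _ _).symm)

theorem Ty.Al.cn {A : GL (Fin n) F} (hA : A ∈ T.Γ n) : T.Al (cn A) :=
  ⟨A, hA, RingEquiv.refl F, .inl fun _ => rfl⟩

theorem Ty.Al.mul {α β : Equiv.Perm (R n F)} (h : T.Al α) (h' : T.Al β) : T.Al (α * β) := by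
  obtain ⟨A, hA, σ, h⟩ := h
  obtain ⟨B, hB, τ, h'⟩ := h'
  rcases h with h | ⟨h1, h2, h⟩ <;> rcases h' with h' | ⟨h3, h4, h'⟩
  · exact ⟨_, mul_mem hA (gm_mem σ hB), τ.trans σ, .inl fun a => by
      rw [Equiv.Perm.mul_apply, h, h', map_cn, map_mul]; rfl⟩
  · exact ⟨A * gm σ B, mem_Γ h3 _, τ.trans σ, .inr ⟨h3, h4, fun a => by
      rw [Equiv.Perm.mul_apply, h, h', map_cn, map_mul]; rfl⟩⟩
  · exact ⟨A * it (gm σ B), mem_Γ h1 _, τ.trans σ, .inr ⟨h1, h2, fun a => by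
      rw [Equiv.Perm.mul_apply, h, h', map_cn, tr_cn, map_mul]; rfl⟩⟩
  · exact ⟨A * it (gm σ B), mem_Γ h1 _, τ.trans σ, .inl fun a => by
      rw [Equiv.Perm.mul_apply, h, h', map_cn, tr_cn, map_mul]; rfl⟩

theorem Ty.Al.inv {α : Equiv.Perm (R n F)} (h : T.Al α) : T.Al α⁻¹ := by
  obtain ⟨k, hk⟩ := mem_powers_iff_mem_zpowers.2 (inv_mem (mem_zpowers α))
  rw [← hk]
  clear hk
  change T.Al (α ^ k)
  induction k with
  | zero => simpa using Ty.Al.cn (one_mem (T.Γ n))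
  | succ k ih => exact (pow_succ α k).symm ▸ Ty.Al.mul ih h

theorem Md.add (m : Md T n G) (g : G) (a b : R n F) : m.ρ g (a + b) = m.ρ g a + m.ρ g b := by
  obtain ⟨A, -, σ, h | ⟨-, -, h⟩⟩ := m.al g <;>
    simp only [h, Matrix.map_add _ (map_add σ), transpose_add, cn_add]

theorem Md.sub (m : Md T n G) (g : G) (a b : R n F) : m.ρ g (a - b) = m.ρ g a - m.ρ g b :=
  eq_sub_of_add_eq (by rw [← m.add, sub_add_cancel])

theorem Md.zero (m : Md T n G) (g : G) : m.ρ g 0 = 0 := by simpa using m.sub g 0 0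

theorem Md.one (m : Md T n G) (g : G) : m.ρ g 1 = 1 := by
  obtain ⟨A, -, σ, h | ⟨-, -, h⟩⟩ := m.al g <;> simp only [h, map_one', transpose_one, cn_one]

theorem Md.smul (m : Md T n G) (g : G) :
    ∃ σ : F ≃+* F, ∀ (z : F) (a : R n F), m.ρ g (z • a) = σ z • m.ρ g a := by
  obtain ⟨A, -, σ, h | ⟨-, -, h⟩⟩ := m.al g <;>
    exact ⟨σ, fun z a => by simp only [h, B0.map_smul, transpose_smul, cn_smul]⟩

namespace B0

theorem lin_of (m : Md T n G) {g : G} {A : GL (Fin n) F} {σ : F ≃+* F}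
    (h : ∀ a, m.ρ g a = cn A (a.map σ)) : m.Lin g := fun a b => by
  simp only [h, Matrix.map_mul, cn_mul]

theorem du_of (m : Md T n G) {g : G} {A : GL (Fin n) F} {σ : F ≃+* F}
    (h : ∀ a, m.ρ g a = cn A (a.map σ)ᵀ) : m.Du g := fun a b => by
  simp only [h, Matrix.map_mul, transpose_mul, cn_mul]

theorem det_one (m : Md T n G) (g : G) {a : R n F} (ha : a.det = 1) : (m.ρ g a).det = 1 := by
  have (σ : F ≃+* F) : (a.map σ).det = 1 := (σ.map_det a).symm.trans (ha ▸ map_one σ)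
  obtain ⟨A, -, σ, h | ⟨-, -, h⟩⟩ := m.al g <;> simp only [h, cn_det, det_transpose, this]

end B0

theorem Md.lin_or (m : Md T n G) (g : G) : m.Lin g ∨ (m.Du g ∧ ¬ T.u ∧ 3 ≤ n) := by
  obtain ⟨A, -, σ, h | ⟨h1, h2, h⟩⟩ := m.al g
  exacts [.inl (lin_of m h), .inr ⟨du_of m h, h1, h2⟩]

theorem Md.not_lin_du (m : Md T n G) {g : G} (h : m.Lin g) : ¬ m.Du g := fun c => by
  have := m.ok.n2
  have e := congrFun (congrFun ((m.ρ g).injective ((h (single ⟨0, by omega⟩ ⟨0, by omega⟩ 1)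
    (single ⟨0, by omega⟩ ⟨1, by omega⟩ 1)).trans (c _ _).symm)) ⟨0, by omega⟩) ⟨1, by omega⟩
  simp [single_mul_single_of_ne] at e

theorem Md.ex_lin (m : Md T n G) {g : G} (h : m.Lin g) :
    ∃ A ∈ T.Γ n, ∃ σ : F ≃+* F, ∀ a, m.ρ g a = cn A (a.map σ) := by
  obtain ⟨A, hA, σ, e | ⟨-, -, e⟩⟩ := m.al g
  exacts [⟨A, hA, σ, e⟩, (m.not_lin_du h (du_of m e)).elim]

theorem Md.ex_du (m : Md T n G) {g : G} (h : m.Du g) :
    ∃ A : GL (Fin n) F, ∃ σ : F ≃+* F, ∀ a, m.ρ g a = cn A (a.map σ)ᵀ := by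
  obtain ⟨A, hA, σ, e | ⟨-, -, e⟩⟩ := m.al g
  exacts [(m.not_lin_du (lin_of m e) h).elim, ⟨A, σ, e⟩]

theorem Md.rank (m : Md T n G) (g : G) (a : R n F) : (m.ρ g a).rank = a.rank := by
  obtain ⟨A, -, σ, h | ⟨-, -, h⟩⟩ := m.al g <;> simp only [h, cn_rank, rank_transpose, rank_map]

theorem Md.st (m : Md T n G) (hu : T.u) (g : G) (a : R n F) : m.ρ g (T.st a) = T.st (m.ρ g a) := by
  obtain ⟨A, hA, σ, h | ⟨h, -⟩⟩ := m.al g
  exacts [by rw [h, h, map_st hu, cn_st hu hA], (h hu).elim]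

theorem Md.id (m : Md T n G) (g : G) {ε : R n F} (h : T.Id ε) : T.Id (m.ρ g ε) :=
  ⟨(m.lin_or g).elim (fun e => by rw [← e, h.1]) fun e => by rw [← e.1, h.1],
    fun hu => by rw [← m.st hu, h.2 hu]⟩

theorem Md.th (m : Md T n G) (g : G) (A : GL (Fin n) F) :
    ∃ B : GL (Fin n) F, m.ρ g * cn A * (m.ρ g)⁻¹ = cn B ∧ (A ∈ T.Γ n → B ∈ T.Γ n) ∧
      (A ∈ T.S n → B ∈ T.S n) ∧ (m.Lin g → (B : R n F) = m.ρ g A) ∧
      (m.Du g → ((B⁻¹ : GL (Fin n) F) : R n F) = m.ρ g A) := by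
  rcases m.lin_or g with h | ⟨h, hu, -⟩
  · let B : GL (Fin n) F := ⟨m.ρ g A, m.ρ g (A⁻¹ : GL (Fin n) F), by rw [← h, A.mul_inv, m.one],
      by rw [← h, A.inv_mul, m.one]⟩
    have : A ∈ T.Γ n → B ∈ T.Γ n := fun hA hu => by
      change T.st (m.ρ g A) * m.ρ g A = 1
      rw [← m.st hu, ← h, hA hu, m.one]
    refine ⟨B, mul_inv_eq_of_eq_mul (Equiv.ext fun a => ?_), this,
      fun hA => T.mem_S.2 ⟨this hA.1, B0.det_one m g (T.mem_S.1 hA).2⟩, fun _ => rfl,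
      fun c => (m.not_lin_du h c).elim⟩
    rw [Equiv.Perm.mul_apply, cn_apply, h, h]; rfl
  · refine ⟨⟨m.ρ g (A⁻¹ : GL (Fin n) F), m.ρ g A, by rw [← h, A.mul_inv, m.one],
      by rw [← h, A.inv_mul, m.one]⟩, mul_inv_eq_of_eq_mul (Equiv.ext fun a => ?_),
      fun _ => mem_Γ hu _, fun hA => T.mem_S.2 ⟨mem_Γ hu _,
        B0.det_one m g (T.mem_S.1 (inv_mem hA)).2⟩, fun c => (m.not_lin_du c h).elim, fun _ => rfl⟩
    rw [Equiv.Perm.mul_apply, cn_apply, h, h, ← mul_assoc]; rfl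

theorem Md.mem_M_of (m : Md T n G) {g : G} (h : m.Lin g)
    (h' : ∀ z : F, m.ρ g (z • 1) = z • 1) : g ∈ m.M := by
  obtain ⟨A, hA, σ, e⟩ := m.ex_lin h
  obtain rfl : σ = RingEquiv.refl F := RingEquiv.ext fun z => smul_one_inj (m.ok.n2.trans' one_le_two)
    (by rw [RingEquiv.refl_apply, ← h' z, e, B0.map_smul, map_one', cn_smul, cn_one])
  exact ⟨A, hA, Equiv.ext fun a => (e a).symm⟩

theorem Md.conj (m : Md T n G) {C : GL (Fin n) F} (hC : C ∈ T.Γ n) :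
    ∃ m' : Md T n G, m'.N = m.N ∧ m'.M = m.M ∧ ∀ g, m'.ρ g = (cn C)⁻¹ * m.ρ g * cn C := by
  have k : ∀ L : Subgroup (GL (Fin n) F), (∀ A ∈ T.Γ n, ∀ s ∈ L, A * s * A⁻¹ ∈ L) → ∀ α,
      (cn C)⁻¹ * α * (cn C)⁻¹⁻¹ ∈ L.map cn ↔ α ∈ L.map cn := fun L hL α =>
    ⟨fun ⟨s, h1, h2⟩ => ⟨_, hL C hC s h1, by simp [h2, mul_assoc]⟩,
      fun ⟨s, h1, h2⟩ => ⟨_, hL _ (inv_mem hC) s h1, by simp [h2]⟩⟩
  refine ⟨⟨(MulAut.conj (cn C)⁻¹).toMonoidHom.comp m.ρ, (MulAut.conj _).injective.comp m.inj, m.ok,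
    fun g => ((Ty.Al.cn hC).inv.mul (m.al g)).mul (Ty.Al.cn hC).inv.inv, fun s hs => ?_⟩,
    Subgroup.ext fun g => k _ (fun _ h _ h' => T.conj_S h h') _,
    Subgroup.ext fun g => k _ (fun _ h _ h' => mul_mem (mul_mem h h') (inv_mem h)) _,
    fun g => by simp⟩
  obtain ⟨g, hg⟩ := m.sur _ (T.conj_S hC hs)
  exact ⟨g, by simp [hg, mul_assoc]⟩

end CF.Wb
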