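import Cfsg.Agent.Wb.B0

/-! Wielandt bound: lifts to the matrix group. -/

set_option autoImplicit false
set_option linter.unusedSectionVars false

namespace CF.Wb

open Matrix Subgroup CF.BG Module

variable {F : Type} [Field F] [Fintype F] {n : ℕ} {T : Ty F} {G : Type*} [Group G] [Finite G]

open HV UN B0

theorem Md.mem_N (m : Md T n G) {g : G} : g ∈ m.N ↔ ∃ s ∈ T.S n, m.ρ g = cn s :=
  exists_congr fun _ => and_congr_right fun _ => eq_comm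

theorem Md.mem_M (m : Md T n G) {g : G} : g ∈ m.M ↔ ∃ s ∈ T.Γ n, m.ρ g = cn s :=
  exists_congr fun _ => and_congr_right fun _ => eq_comm

theorem Md.mem_lift (m : Md T n G) {K : Subgroup G} {A : GL (Fin n) F} :
    A ∈ m.lift K ↔ A ∈ T.Γ n ∧ ∃ k ∈ K, m.ρ k = cn A := Iff.rfl

theorem Md.mem_St (m : Md T n G) {X : Set (R n F)} {g : G} :
    g ∈ m.St X ↔ ∀ a, m.ρ g a ∈ X ↔ a ∈ X := Iff.rfl

theorem mem_PS {X : Set (R n F)} {A : GL (Fin n) F} : A ∈ PS X ↔ ∀ a, cn A a ∈ X ↔ a ∈ X := Iff.rfl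

theorem mem_stb_of {X : Set (R n F)} {α : Equiv.Perm (R n F)} (h : ∀ a ∈ X, α a ∈ X) :
    α ∈ stb X := fun a =>
  ⟨fun c => by
    obtain ⟨b, hb, e⟩ := ((Set.toFinite X).surjOn_iff_bijOn_of_mapsTo h).2
      (((Set.toFinite X).injOn_iff_bijOn_of_mapsTo h).1 α.injective.injOn) c
    exact α.injective e ▸ hb, h a⟩

theorem Md.N_normal (m : Md T n G) : m.N.Normal := ⟨fun k hk g => by
  obtain ⟨s, hs, e⟩ := m.mem_N.1 hk
  obtain ⟨B, h1, -, h2, -⟩ := m.th g s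
  exact m.mem_N.2 ⟨B, h2 hs, by rw [map_mul, map_mul, map_inv, e, h1]⟩⟩

theorem Md.M_normal (m : Md T n G) : m.M.Normal := ⟨fun k hk g => by
  obtain ⟨s, hs, e⟩ := m.mem_M.1 hk
  obtain ⟨B, h1, h2, -⟩ := m.th g s
  exact m.mem_M.2 ⟨B, h2 hs, by rw [map_mul, map_mul, map_inv, e, h1]⟩⟩

theorem Md.N_le_M (m : Md T n G) : m.N ≤ m.M := comap_mono (map_mono inf_le_left)

theorem Md.lin_of_M (m : Md T n G) {g : G} (h : g ∈ m.M) : m.Lin g := fun a b => by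
  obtain ⟨s, -, e⟩ := m.mem_M.1 h
  rw [e, cn_mul]

theorem Md.lift_mono (m : Md T n G) {K L : Subgroup G} (h : K ≤ L) : m.lift K ≤ m.lift L :=
  inf_le_inf_left _ (comap_mono (map_mono h))

theorem Md.lift_inf_M (m : Md T n G) (K : Subgroup G) : m.lift (K ⊓ m.M) = m.lift K :=
  le_antisymm (m.lift_mono inf_le_left) fun A ⟨h1, k, h2, h3⟩ =>
    ⟨h1, k, ⟨h2, m.mem_M.2 ⟨A, h1, h3⟩⟩, h3⟩

theorem Md.sc_mem_lift (m : Md T n G) (K : Subgroup G) {A : GL (Fin n) F} (hA : A ∈ T.Γ n)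
    (h : Sc (A : R n F)) : A ∈ m.lift K :=
  m.mem_lift.2 ⟨hA, 1, one_mem _, (map_one _).trans (cn_eq_one.2 h).symm⟩

theorem Md.ex_nsc (m : Md T n G) {K : Subgroup G} :
    K ⊓ m.M ≠ ⊥ ↔ ∃ A ∈ m.lift K, ¬ Sc (A : R n F) := by
  rw [Ne, eq_bot_iff_forall]
  push Not
  refine ⟨fun ⟨k, h1, h2⟩ => ?_, fun ⟨A, ⟨h1, k, h2, h3⟩, h4⟩ => ⟨k, ⟨h2, m.mem_M.2 ⟨A, h1, h3⟩⟩,
    fun c => h4 (cn_eq_one.1 (h3.symm.trans (c ▸ map_one _)))⟩⟩
  obtain ⟨A, h3, h4⟩ := m.mem_M.1 h1.2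
  exact ⟨A, ⟨h3, k, h1.1, h4⟩, fun c => h2 (m.inj (by rw [h4, cn_eq_one.2 c, map_one]))⟩

theorem Md.mem_of_lift (m : Md T n G) {K : Subgroup G} {A : GL (Fin n) F} (hA : A ∈ m.lift K)
    {k : G} (hk : m.ρ k = cn A) : k ∈ K := by
  obtain ⟨-, l, h1, h2⟩ := hA
  exact m.inj (h2.trans hk.symm) ▸ h1

theorem Md.lift_conj (m : Md T n G) {K L : Subgroup G} (h : L ≤ 𝐍 K) {s A : GL (Fin n) F}
    (hs : s ∈ m.lift L) (hA : A ∈ m.lift K) : s * A * s⁻¹ ∈ m.lift K := by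
  obtain ⟨h1, l, h2, h3⟩ := m.mem_lift.1 hs
  obtain ⟨h4, k, h5, h6⟩ := m.mem_lift.1 hA
  exact m.mem_lift.2 ⟨mul_mem (mul_mem h1 h4) (inv_mem h1), _, conj_mem_of_norm (h h2) h5,
    by simp [h3, h6]⟩

theorem Md.lift_th (m : Md T n G) {K : Subgroup G} {g : G} (h : g ∈ 𝐍 K) {A : GL (Fin n) F}
    (hA : A ∈ m.lift K) : ∃ B ∈ m.lift K, (B : R n F) = m.ρ g A := by
  obtain ⟨h4, k, h5, h6⟩ := m.mem_lift.1 hA
  obtain ⟨B, h1, h2, -, h3, h7⟩ := m.th g A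
  have : B ∈ m.lift K := m.mem_lift.2 ⟨h2 h4, _, conj_mem_of_norm h h5, by simp [h6, h1]⟩
  exact (m.lin_or g).elim (fun c => ⟨B, this, h3 c⟩) fun c => ⟨_, inv_mem this, h7 c.1⟩

theorem Md.lift_cj (m : Md T n G) {K : Subgroup G} {g : G} {s A : GL (Fin n) F} (hs : s ∈ T.Γ n)
    (hg : m.ρ g = cn s) : A ∈ m.lift (cj g K) ↔ s⁻¹ * A * s ∈ m.lift K := by
  rw [m.mem_lift, m.mem_lift, mul_mem_cancel_right hs, mul_mem_cancel_left (inv_mem hs)]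
  exact and_congr_right fun _ => ⟨fun ⟨k, h1, h2⟩ => ⟨_, mem_cj.1 h1, by simp [h2, hg]⟩,
    fun ⟨k, h1, h2⟩ => ⟨_, mem_cj_iff.2 ⟨k, h1, rfl⟩, by simp [h2, hg, mul_assoc]⟩⟩

theorem Md.lift_pow (m : Md T n G) {K : Subgroup G} {p : ℕ} (h : IsPGroup p K) {A : GL (Fin n) F}
    (hA : A ∈ m.lift K) : ∃ j : ℕ, Sc ((A : R n F) ^ p ^ j) := by
  obtain ⟨-, k, h5, h6⟩ := m.mem_lift.1 hA
  obtain ⟨j, hj⟩ := h ⟨k, h5⟩
  exact ⟨j, Units.val_pow_eq_pow_val A _ ▸ cn_eq_one.1 (by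
    rw [map_pow, ← h6, ← map_pow, show k ^ p ^ j = 1 from congrArg Subtype.val hj, map_one])⟩

theorem Md.lift_St_le (m : Md T n G) (X : Set (R n F)) : m.lift (m.St X) ≤ PS X :=
  fun _ ⟨_, _, h1, h2⟩ => mem_comap.2 (h2 ▸ h1)

theorem Md.lift_St (m : Md T n G) {X : Set (R n F)} {s : GL (Fin n) F} (hs : s ∈ T.S n)
    (h : s ∈ PS X) : s ∈ m.lift (m.St X) := by
  obtain ⟨g, hg⟩ := m.sur s hs
  exact m.mem_lift.2 ⟨hs.1, g, mem_comap.2 (hg ▸ h), hg⟩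

theorem Md.cj_St (m : Md T n G) (g : G) (X : Set (R n F)) : cj g (m.St X) = m.St (m.ρ g '' X) := by
  ext x
  rw [mem_cj, m.mem_St, m.mem_St, (m.ρ g).surjective.forall (p := fun a => _ ∈ _ '' _ ↔ _)]
  simp only [Set.mem_image_equiv, map_mul, map_inv, Equiv.symm_apply_apply]
  rfl

theorem Md.card_lift (m : Md T n G) (K : Subgroup G) : ♯(K ⊓ m.M) * ♯T.Z = ♯(m.lift K) := by
  have hn : 1 ≤ n := m.ok.n2.trans' one_le_two
  have v : ∀ z : Fˣ, (GeneralLinearGroup.scalar (Fin n) z : R n F) = (z : F) • 1 := fun z =>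
    (smul_one_eq_diagonal _).symm
  have e1 : (m.lift K).map cn = (K ⊓ m.M).map m.ρ := le_antisymm
    (by rintro _ ⟨A, ⟨h1, k, h2, h3⟩, rfl⟩; exact ⟨k, ⟨h2, m.mem_M.2 ⟨A, h1, h3⟩⟩, h3⟩) (by
      rintro _ ⟨k, ⟨h1, h2⟩, rfl⟩
      obtain ⟨A, h3, h4⟩ := m.mem_M.1 h2
      exact ⟨A, ⟨h3, k, h1, h4⟩, h4.symm⟩)
  have e2 : cn.ker ⊓ m.lift K = T.Z.map (GeneralLinearGroup.scalar (Fin n)) := le_antisymm
    (fun A ⟨h1, h2⟩ => by
      obtain ⟨z, hz⟩ := cn_eq.1 (h1.trans (map_one _).symm)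
      exact ⟨z, T.sc_mem_Z hn h2.1 (one_mem _) hz, Units.ext ((v z).trans hz.symm)⟩) (by
      rintro _ ⟨z, hz, rfl⟩
      exact ⟨cn_eq_one.2 ⟨_, v z⟩, m.sc_mem_lift K (fun hu => by
        rw [v, T.st_smul, T.st_one, smul_mul_smul, hz hu, one_mul, one_smul]) ⟨_, v z⟩⟩)
  rw [← card_map_of_injective (K := K ⊓ m.M) m.inj, ← e1, ← relIndex_ker,
    ← card_map_of_injective (f := GeneralLinearGroup.scalar (Fin n)) (K := T.Z) fun a b h =>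
      Units.ext (smul_one_inj hn (by rw [← v, ← v, h])), ← e2, ← inf_relIndex_right,
    ← Nat.card_congr (subgroupOfEquivOfLe (inf_le_right : cn.ker ⊓ m.lift K ≤ _)).toEquiv,
    relIndex, index_mul_card]

theorem Md.comm_iff (m : Md T n G) {a b : G} {A B : GL (Fin n) F} (ha : m.ρ a = cn A)
    (hb : m.ρ b = cn B) :
    Commute a b ↔ ∃ z : Fˣ, (A : R n F) * B = (z : F) • ((B : R n F) * A) := by
  rw [commute_iff_eq, ← m.inj.eq_iff, map_mul, map_mul, ha, hb, ← map_mul, ← map_mul, cn_eq]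
  rfl

namespace B1

theorem rho_pow (m : Md T n G) (g : G) (a : R n F) (k : ℕ) : m.ρ g (a ^ k) = m.ρ g a ^ k := by
  induction k with
  | zero => rw [pow_zero, pow_zero, m.one]
  | succ k ih =>
    rcases m.lin_or g with h | ⟨h, -⟩
    · rw [pow_succ, h, ih, pow_succ]
    · rw [pow_succ, h, ih, pow_succ']

theorem rho_nil (m : Md T n G) (g : G) {a : R n F} (h : IsNilpotent a) : IsNilpotent (m.ρ g a) :=
  h.imp fun k hk => by rw [← rho_pow, hk, m.zero]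

theorem inv_nil {A : GL (Fin n) F} {ν : R n F} (hn : IsNilpotent ν) (hA : (A : R n F) = 1 + ν) :
    IsNilpotent (((A⁻¹ : GL (Fin n) F) : R n F) - 1) := by
  have c : Commute (A : R n F) (-ν) := hA ▸ ((Commute.one_left ν).add_left (.refl ν)).neg_right
  have := c.units_inv_left.isNilpotent_mul_left hn.neg
  rwa [← sub_add_cancel_left 1 ν, ← hA, mul_sub, mul_one, A.inv_mul] at this

end B1

/-- an element commuting with a unipotent element fixes it -/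
theorem Md.comm_un (m : Md T n G) {e k : G} {A : GL (Fin n) F} {ν : R n F} (hn : IsNilpotent ν)
    (hA : (A : R n F) = 1 + ν) (hk : m.ρ k = cn A) :
    Commute e k ↔ (m.Lin e ∧ m.ρ e ν = ν) ∨ (m.Du e ∧ (1 + m.ρ e ν) * (1 + ν) = 1) := by
  obtain ⟨B, h1, -, -, h2, h3⟩ := m.th e A
  rw [hA, m.add, m.one] at h2 h3
  rw [commute_iff_eq, ← mul_inv_eq_iff_eq_mul, ← m.inj.eq_iff, map_mul, map_mul, map_inv, hk, h1]
  refine ⟨fun h => (m.lin_or e).imp (fun c => ⟨c, ?_⟩) fun c => ⟨c.1, ?_⟩, ?_⟩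
  · obtain ⟨z, hz⟩ := cn_eq.1 h
    exact unip_eq (B1.rho_nil m e hn) hn (by rw [← h2 c, hz, hA])
  · obtain ⟨z, hz⟩ := cn_eq.1 (show cn B⁻¹ = cn A⁻¹ by rw [map_inv, map_inv, h])
    rw [unip_eq (B1.rho_nil m e hn) (B1.inv_nil hn hA) (by rw [← h3 c.1, hz, add_sub_cancel]),
      add_sub_cancel, ← hA, A.inv_mul]
  · rintro (⟨c, h⟩ | ⟨c, h⟩)
    · exact congrArg cn (Units.ext (by rw [h2 c, h, hA]))
    · rw [← h3 c, ← hA, Units.inv_mul_eq_one] at h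
      exact congrArg cn (Units.ext h)

end CF.Wb
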