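import Cfsg.Agent.Wb.BW
import Cfsg.Agent.Wb.NP

/-! Blocks: two decompositions centralised by one group coincide. -/

set_option autoImplicit false
set_option linter.unusedSectionVars false

namespace CF.Wb

open Matrix Subgroup CF.BG Module

variable {F : Type} [Field F] [Fintype F] {n : ℕ} {T : Ty F}

namespace Bk

variable {a b ε δ η : R n F} {s w A : GL (Fin n) F} {v φ : V n F} {z : F}

theorem se_cen (c : a * η = η * a) (h : ScOn a η) (hs : s ∈ T.Se η) : (s : R n F) * a = a * s := by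
  obtain ⟨z, h⟩ := h
  have c' : a * (1 - η) = (1 - η) * a := by rw [mul_sub, sub_mul, c, mul_one, one_mul]
  calc (s : R n F) * a = s * (a * η) + s * (a * (1 - η)) := by rw [← mul_add, ← mul_add, add_sub_cancel, mul_one]
    _ = a * η * s + a * (1 - η) * s := by
      rw [h, mul_smul_comm, smul_mul_assoc, se_c hs, mul_assoc a, hs.2.2, c', ← mul_assoc, hs.2.1]
    _ = a * s := by rw [← add_mul, ← mul_add, add_sub_cancel, mul_one]

theorem sc_of_le (i : δ * δ = δ) (l : rg ε ≤ rg δ) (h : a * δ = z • δ) : a * ε = z • ε := by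
  rw [← (rg_le i).1 l, ← mul_assoc, h, smul_mul_assoc]

theorem sc_eq {y : F} (hx : v ≠ 0) (h1 : ε *ᵥ v = v) (h2 : δ *ᵥ v = v) (e1 : a * ε = z • ε) (e2 : a * δ = y • δ) : y = z := by
  have k1 := congrArg (· *ᵥ v) e1
  have k2 := congrArg (· *ᵥ v) e2
  simp only [← mulVec_mulVec, smul_mulVec, h1, h2] at k1 k2
  exact smul_left_injective F hx (k2.symm.trans k1)

theorem inv_ker (he : T.Id η) {x : V n F} (m : η *ᵥ x = x) (ne : x ≠ 0)
    (h : ∀ s ∈ T.Se η, b *ᵥ ((s : R n F) *ᵥ x) = 0) : b * η = 0 := by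
  let U : Submodule F (V n F) :=
    { carrier := {x | x ∈ rg η ∧ ∀ s ∈ T.Se η, b *ᵥ ((s : R n F) *ᵥ x) = 0}
      zero_mem' := ⟨zero_mem _, fun s _ => by simp⟩
      add_mem' := fun p q => ⟨add_mem p.1 q.1, fun s k => by rw [mulVec_add, mulVec_add, p.2 s k, q.2 s k, add_zero]⟩
      smul_mem' := fun c x p => ⟨Submodule.smul_mem _ c p.1, fun s k => by
        rw [mulVec_smul, mulVec_smul, p.2 s k, smul_zero]⟩ }
  have := (Ty.irrSe he (U := U) (fun x p => p.1) fun s k => mp_le.2 fun x p => ⟨mp_le.1 (inv_rg (se_c k)) x p.1,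
    fun t k' => by simpa only [Units.val_mul, mulVec_mulVec, mul_assoc] using p.2 _ (mul_mem k' k)⟩).resolve_left fun e =>
      ne ((Submodule.mem_bot F).1 (e ▸ (⟨(mem_rg_id he.1).2 m, h⟩ : x ∈ U)))
  refine mx fun y => ?_
  have : η *ᵥ y ∈ U := this ▸ mem_rg.2 ⟨y, rfl⟩
  simpa using this.2 1 (one_mem _)

theorem cj_sc (c : (s : R n F) * ε = ε * s) (h : (A : R n F) * ε = z • ε) :
    ((s * A * s⁻¹ : GL (Fin n) F) : R n F) * ε = z • ε := by
  rw [Units.val_mul, Units.val_mul, mul_assoc, inv_c c, ← mul_assoc, mul_assoc _ _ ε, h, mul_smul_comm, c, smul_mul_assoc,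
    Units.mul_inv_cancel_right]

theorem cj_sub (s A : GL (Fin n) F) (z : F) : (s : R n F) * ((A : R n F) - z • 1) =
    (((s * A * s⁻¹ : GL (Fin n) F) : R n F) - z • 1) * s := by
  rw [Units.val_mul, Units.val_mul, sub_mul, Units.inv_mul_cancel_right, mul_sub, mul_smul_comm, smul_mul_assoc, one_mul,
    mul_one]

theorem sub_z (h : a * ε = z • ε) : (a - z • 1) * ε = 0 := by rw [sub_mul, h, smul_mul_assoc, one_mul, sub_self]

end Bk

open Bk

theorem Ty.ba {D D' : Finset (R n F)} (h : T.Sy D) (h' : T.Sy D') {k : ℕ}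
    (hk : ∀ ε ∈ D, ε.rank = k) (hk' : ∀ ε ∈ D', ε.rank = k) (h2 : 2 ≤ k)
    (hx : ¬ (T.u ∧ T.q = 2 ∧ k = 2)) {E : Subgroup (GL (Fin n) F)} (hE : E ≤ T.Γ n)
    (hc : ∀ a ∈ E, ∀ ε ∈ D, (a : R n F) * ε = ε * a)
    (hc' : ∀ a ∈ E, ∀ ε ∈ D', (a : R n F) * ε = ε * a)
    (hn : ∀ s ∈ T.S n, s ∈ PS (D : Set (R n F)) → ∀ a ∈ E, s * a * s⁻¹ ∈ E)
    (hn' : ∀ s ∈ T.S n, s ∈ PS (D' : Set (R n F)) → ∀ a ∈ E, s * a * s⁻¹ ∈ PS (D : Set (R n F)))
    (hz : ∀ s ∈ T.S n, (∀ a ∈ E, s * a = a * s) → s ∈ PS (D : Set (R n F))) : D = D' := by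
  refine h.eq_of h' hk hk' fun δ md => ?_
  by_cases c : ∀ a ∈ E, ScOn (a : R n F) δ
  · have K : ∀ ε ∈ D, ε * δ ≠ 0 → ∀ a ∈ E, ∀ z : F, (a : R n F) * δ = z • δ → (a : R n F) * ε = z • ε := by
      intro ε me ne a ma z e
      have i : ∀ a ∈ E, ∀ z : F, (a : R n F) * δ = z • δ → (a : R n F) * (ε * δ) = z • (ε * δ) := fun a ma z e => by
        rw [← mul_assoc, hc a ma ε me, mul_assoc, e, mul_smul_comm]
      by_cases t : rg (ε * δ) = rg ε
      · refine mx fun y => ?_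
        obtain ⟨x, hx⟩ := mem_rg.1 (t ▸ mem_rg.2 ⟨y, rfl⟩ : ε *ᵥ y ∈ rg (ε * δ))
        rw [← mulVec_mulVec, smul_mulVec, ← hx, mulVec_mulVec, i a ma z e, smul_mulVec]
      · obtain ⟨y, hy⟩ := Ty.irr (Sy_id h me) (hk ε me ▸ hx) hE (fun w m => hc w m ε me)
          (fun s m => hn s m.1 (h.Se_le me m)) ((rg_le (h.id ε me)).2 (by rw [← mul_assoc, h.id ε me])) (fun w m => by
            obtain ⟨z, e⟩ := c w m
            refine mp_le.2 fun x p => ?_
            obtain ⟨x, rfl⟩ := mem_rg.1 p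
            rw [mulVec_mulVec, i w m z e, smul_mulVec]
            exact Submodule.smul_mem _ _ p) (fun e => ne (rg_bot.1 e)) t a ma
        rw [hy, smul_inj ne ((i a ma z e).symm.trans (by rw [← mul_assoc, hy, smul_mul_assoc]))]
    obtain ⟨ε, me, ne⟩ : ∃ ε ∈ D, ε * δ ≠ 0 := by
      by_contra! e
      refine h'.ne δ md ?_
      rw [← one_mul δ, ← h.sum, Finset.sum_mul]
      exact Finset.sum_eq_zero e
    refine ⟨ε, me, (rg_le (h.id ε me)).2 ?_⟩
    conv_rhs => rw [← one_mul δ, ← h.sum, Finset.sum_mul]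
    refine (Finset.sum_eq_single_of_mem (f := (· * δ)) ε me fun ε' me' d => by_contra fun ne' => ?_).symm
    obtain ⟨s, m, ns⟩ := h.np2 me me' d.symm (hk ε me ▸ h2)
    refine ns (hz s m.1 fun a ma => Units.ext (se_cen ?_ ?_ m))
    · rw [mul_add, add_mul, hc a ma ε me, hc a ma ε' me']
    · obtain ⟨z, e⟩ := c a ma
      exact ⟨z, by rw [mul_add, K ε me ne a ma z e, K ε' me' ne' a ma z e, smul_add]⟩
  · push Not at c
    obtain ⟨a, ma, c⟩ := c
    obtain ⟨W, w1, w2, w3, w4⟩ := Ty.wl (Sy_id h' md) (hk' δ md ▸ h2) (hE ma) (hc' a ma δ md) c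
      fun s m => hn' s m.1 (h'.Se_le md m) a ma
    exact Ty.wblk h hk h2 hx (Sy_id h' md) (hk' δ md) w1 w2 w3 w4

theorem Ty.ba2 (ok : T.Ok n) {ε δ : R n F} (he : T.Id ε) (hd : T.Id δ) (h1 : ε ≠ 1)
    (hr : (1 - ε).rank < ε.rank) (hr' : δ.rank = ε.rank) {E : Subgroup (GL (Fin n) F)}
    (hE : E ≤ T.Γ n) (hs : ∃ a ∈ E, ¬ Sc (a : R n F)) (hc : ∀ a ∈ E, (a : R n F) * ε = ε * a)
    (hc' : ∀ a ∈ E, (a : R n F) * δ = δ * a)
    (hn : ∀ s ∈ T.S n, (s : R n F) * ε = ε * s → ∀ a ∈ E, s * a * s⁻¹ ∈ E)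
    (hn' : ∀ s ∈ T.S n, (s : R n F) * δ = δ * s → ∀ a ∈ E,
      ((s * a * s⁻¹ : GL (Fin n) F) : R n F) * ε = ε * (s * a * s⁻¹ : GL (Fin n) F)) : ε = δ := by
  have r1 := rank_add_rank he.1
  have r2 : (1 - ε).rank ≠ 0 := fun e => h1 (sub_eq_zero.1 (rg_bot.1 (by
    rwa [← finrank_rg, Submodule.finrank_eq_zero] at e))).symm
  have hx : ¬ (T.u ∧ T.q = 2 ∧ ε.rank = 2) := fun x => ok.ex x.1 ⟨by omega, x.2.1⟩
  have hY : rg ε ⊓ rg δ ≠ ⊥ := fun e => by
    have := Submodule.finrank_sup_add_finrank_inf_eq (rg ε) (rg δ)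
    have := Submodule.finrank_le (rg ε ⊔ rg δ)
    rw [e, finrank_bot, finrank_rg, finrank_rg] at *
    rw [finrank_fin_fun] at this
    omega
  by_cases c : ∀ a ∈ E, ScOn (a : R n F) ε
  · obtain ⟨y, my, y0⟩ := (Submodule.ne_bot_iff _).1 hY
    have K : ∀ a ∈ E, ∀ z : F, (a : R n F) * ε = z • ε → (a : R n F) * δ = z • δ := fun a ma z e => by
      by_cases k : ScOn (a : R n F) δ
      · obtain ⟨x, k⟩ := k
        rw [k, sc_eq y0 ((mem_rg_id he.1).1 my.1) ((mem_rg_id hd.1).1 my.2) e k]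
      · obtain ⟨W, w1, w2, w3, w, mw, w4⟩ := Ty.wl (L := MulAction.stabilizer _ ε |>.comap cn) hd (by omega) (hE ma)
          (hc' a ma) k fun s m => cn_fix.2 (hn' s m.1 (se_c m) a ma)
        refine sc_of_le he.1 (by_contra fun l => w4 (Ty.irr hd (hr' ▸ hx) (fun w m => se_Γ (w1 m)) (fun w m => se_c (w1 m))
          w3 inf_le_right (fun w m => inv_inf (se_c (w1 m)) (cn_fix.1 (w2 m))) hY (fun e => l (e ▸ inf_le_left)) w mw)) e
    obtain ⟨a, ma, ns⟩ := hs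
    obtain ⟨z, e⟩ := c a ma
    have sc : ∀ s : GL (Fin n) F, s ∈ T.Se (1 - ε) → (s : R n F) * ε = ε * s := fun s m => Ty.Se_comm m (.inl ⟨by
      rw [mul_sub, he.1, mul_one, sub_self], by rw [sub_mul, he.1, one_mul, sub_self]⟩)
    have cm : ∀ {a δ : R n F}, a * δ = δ * a → δ * (a - z • 1) = (a - z • 1) * δ := fun h => by
      rw [mul_sub, sub_mul, h, mul_smul_comm, smul_mul_assoc, one_mul, mul_one]
    have K' : ∀ s ∈ T.Se (1 - ε), (((s * a * s⁻¹ : GL (Fin n) F) : R n F) - z • 1) * δ = 0 := fun s m =>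
      sub_z (K _ (hn s m.1 (sc s m) a ma) z (cj_sc (sc s m) e))
    obtain ⟨x, x0⟩ := ex_ne (a := (a : R n F) - z • 1) fun e => ns ⟨z, sub_eq_zero.1 e⟩
    have e1 : δ * (1 - ε) = 0 := inv_ker he.compl (by
        rw [mulVec_mulVec, sub_mul, one_mul, cm (hc a ma), sub_z e, sub_zero]) x0 fun s m => by
      rw [mulVec_mulVec, mulVec_mulVec, mul_assoc, cj_sub, ← mul_assoc, cm (hc' _ (hn s m.1 (sc s m) a ma)), K' s m,
        zero_mul, zero_mulVec]
    have e2 : (1 - ε) * δ = 0 := by_contra fun ne => by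
      obtain ⟨x, x0⟩ := ex_ne ne
      have : ((a : R n F) - z • 1) * (1 - ε) = 0 := inv_ker he.compl (by
          rw [mulVec_mulVec, ← mul_assoc, he.compl.1]) x0 fun s m => by
        have k := cj_sub s⁻¹ a z
        have k' := hc _ (hn _ (inv_mem m).1 (sc _ (inv_mem m)) a ma)
        rw [Units.inv_mul_eq_iff_eq_mul] at k
        rw [mulVec_mulVec, mulVec_mulVec, k, mul_assoc _ _ (s : R n F), mul_assoc _ _ (s : R n F), Units.inv_mul, mul_one,
          mul_assoc, ← mul_assoc _ (1 - ε), mul_sub _ 1, mul_one, ← cm k', ← one_sub_mul, mul_assoc, K' _ (inv_mem m),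
          mul_zero, mul_zero, zero_mulVec]
      rw [mul_sub, sub_z e, mul_one, sub_zero, sub_eq_zero] at this
      exact ns ⟨z, this⟩
    rw [sub_mul, one_mul, sub_eq_zero] at e2
    rw [mul_sub, mul_one, sub_eq_zero] at e1
    exact ((rg_le hd.1).1 (rg_eq ((rg_le he.1).2 e2.symm) hr'.ge).ge).symm.trans e1.symm
  · have l : rg ε ≤ rg δ := by_contra fun l => c (Ty.irr he hx hE hc (fun s m => hn s m.1 (se_c m)) inf_le_left
      (fun w m => inv_inf (hc' w m) (hc w m)) hY fun e => l (e ▸ inf_le_right))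
    push Not at c
    obtain ⟨a, ma, c⟩ := c
    obtain ⟨W, w1, w2, w3, w, mw, w4⟩ := Ty.wl he (by omega) (hE ma) (hc a ma) c fun s m => hn s m.1 (se_c m) a ma
    have f : ∀ w ∈ W, (w : R n F) * (δ * (1 - ε)) = δ * (1 - ε) := fun w m => by
      rw [← mul_assoc, hc' w (w2 m), mul_assoc, (w1 m).2.1]
    have : δ * (1 - ε) = 0 := by_contra fun ne => w4 (by
      by_cases t : rg (δ * (1 - ε)) = rg ε
      · refine ⟨1, mx fun y => ?_⟩
        obtain ⟨x, hx⟩ := mem_rg.1 (t ▸ mem_rg.2 ⟨y, rfl⟩ : ε *ᵥ y ∈ rg (δ * (1 - ε)))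
        rw [← mulVec_mulVec, one_smul, ← hx, mulVec_mulVec, f w mw]
      · refine Ty.irr he hx (fun w m => se_Γ (w1 m)) (fun w m => se_c (w1 m)) w3
          (((rg_le hd.1).2 (by rw [← mul_assoc, hd.1])).trans (rg_eq l hr'.le).ge) (fun w m => mp_le.2 fun x p => ?_)
          (fun e => ne (rg_bot.1 e)) t w mw
        obtain ⟨x, rfl⟩ := mem_rg.1 p
        rwa [mulVec_mulVec, f w m])
    rw [mul_sub, mul_one, sub_eq_zero, (rg_le hd.1).1 l] at this
    exact this.symm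

end CF.Wb
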