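import Cfsg.Agent.Wb.IR2
import Cfsg.Agent.Wb.B1

/-! Blocks: subgroups of `Se δ` that permute a decomposition. -/

set_option autoImplicit false
set_option linter.unusedSectionVars false

namespace CF.Wb

open Matrix Subgroup CF.BG Module

variable {F : Type} [Field F] [Fintype F] {n : ℕ} {T : Ty F}

namespace Bk

variable {a b ε δ η : R n F} {s w A : GL (Fin n) F} {v φ : V n F} {z : F}

theorem mx (h : ∀ x, a *ᵥ x = b *ᵥ x) : a = b := Matrix.toLin'.injective (LinearMap.ext h)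

theorem ex_ne (h : a ≠ 0) : ∃ x, a *ᵥ x ≠ 0 := by
  by_contra! k
  exact h (mx fun x => (k x).trans (zero_mulVec x).symm)

theorem rg_le (h : ε * ε = ε) : rg a ≤ rg ε ↔ ε * a = a :=
  ⟨fun l => mx fun x => by rw [← mulVec_mulVec]; exact (mem_rg_id h).1 (l (mem_rg.2 ⟨x, rfl⟩)), fun e v m => by
    obtain ⟨x, rfl⟩ := mem_rg.1 m
    exact mem_rg.2 ⟨a *ᵥ x, by rw [mulVec_mulVec, e]⟩⟩

theorem rg_bot : rg a = ⊥ ↔ a = 0 :=
  ⟨fun h => mx fun x => by
    rw [zero_mulVec]; exact (Submodule.mem_bot F).1 (h ▸ mem_rg.2 ⟨x, rfl⟩), fun h => by simp [h, rg]⟩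

theorem rg_eq (h : rg a ≤ rg b) (l : b.rank ≤ a.rank) : rg a = rg b :=
  Submodule.eq_of_le_of_finrank_le h (by rwa [finrank_rg, finrank_rg])

theorem rank_pos (h : 0 < a.rank) : a ≠ 0 := by
  rintro rfl
  simp at h

theorem smul_inj {y : F} (h : a ≠ 0) (e : z • a = y • a) : z = y := smul_left_injective F h e

theorem se_l (h : s ∈ T.Se δ) : δ * ((s : R n F) - 1) = s - 1 := by
  have := h.2.2
  rw [sub_mul, one_mul, sub_eq_iff_eq_add] at this
  rw [mul_sub, mul_one]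
  conv_rhs => rw [this]
  abel

theorem se_c (h : s ∈ T.Se δ) : (s : R n F) * δ = δ * s := Ty.Se_comm h (.inr rfl)

theorem se_Γ (h : s ∈ T.Se δ) : s ∈ T.Γ n := h.1.1

theorem inv_c (h : (A : R n F) * δ = δ * A) : ((A⁻¹ : GL (Fin n) F) : R n F) * δ = δ * (A⁻¹ : GL (Fin n) F) :=
  (Commute.units_inv_left h).eq

theorem cn_fix : cn A ε = ε ↔ (A : R n F) * ε = ε * A := by rw [cn_apply, Units.mul_inv_eq_iff_eq_mul]

theorem cn_mul' (A : GL (Fin n) F) (ε : R n F) : cn A ε * A = A * ε := by rw [cn_apply, Units.inv_mul_cancel_right]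

theorem cn_mm (A : GL (Fin n) F) (a b : R n F) : cn A a * cn A b = cn A (a * b) := by
  simp only [cn_apply, mul_assoc, Units.inv_mul_cancel_left]

theorem cn_zero (A : GL (Fin n) F) : cn A (0 : R n F) = 0 := by simp [cn_apply]

theorem cn_one (A : GL (Fin n) F) : cn A (1 : R n F) = 1 := by simp [cn_apply]

theorem cn_inv (A : GL (Fin n) F) (a : R n F) : cn A⁻¹ (cn A a) = a := by
  rw [← Equiv.Perm.mul_apply, ← map_mul, inv_mul_cancel, map_one, Equiv.Perm.one_apply]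

theorem inv_rg (h : (A : R n F) * δ = δ * A) : mp (A : R n F) (rg δ) ≤ rg δ := mp_le.2 fun x m => by
  obtain ⟨y, rfl⟩ := mem_rg.1 m
  exact mem_rg.2 ⟨A *ᵥ y, by rw [mulVec_mulVec, mulVec_mulVec, h]⟩

theorem inv_inf (h : (A : R n F) * δ = δ * A) (h' : (A : R n F) * ε = ε * A) :
    mp (A : R n F) (rg ε ⊓ rg δ) ≤ rg ε ⊓ rg δ := mp_le.2 fun x m =>
  ⟨mp_le.1 (inv_rg h') x m.1, mp_le.1 (inv_rg h) x m.2⟩

theorem sup_l (h : Sup δ v φ) : δ * vecMulVec v φ = vecMulVec v φ := by rw [mul_vecMulVec, h.1]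

theorem sup_r (h : Sup δ v φ) : vecMulVec v φ * δ = vecMulVec v φ := by rw [vecMulVec_mul, h.2]

theorem Sy_id {D : Finset (R n F)} (h : T.Sy D) (m : ε ∈ D) : T.Id ε := ⟨h.id ε m, fun u => h.st u ε m⟩

theorem tv_comm (hc : (A : R n F) * δ = δ * A) (t : T.Tv v φ) (p : Sup δ v φ) (hs : s ∈ T.Se δ)
    (e : (s : R n F) = 1 + vecMulVec v φ) (h : ScOn ((A * s * A⁻¹ * s⁻¹ : GL (Fin n) F) : R n F) δ) :
    (A : R n F) * vecMulVec v φ = vecMulVec v φ * A := by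
  obtain ⟨z, h⟩ := h
  have h1 : δ + cn A (vecMulVec v φ) = z • (δ + vecMulVec v φ) := by
    have := congrArg (· * (s : R n F)) h
    simp only [Units.val_mul] at this
    rw [mul_assoc _ δ, ← se_c hs, mul_assoc _ _ (_ * δ), Units.inv_mul_cancel_left, smul_mul_assoc, e, mul_add δ, mul_one,
      sup_l p, mul_add, mul_one, add_mul, Units.mul_inv, add_mul, one_mul, mul_assoc _ _ δ, inv_c hc, ← mul_assoc,
      mul_assoc _ _ δ, sup_r p] at this
    exact this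
  have h0 : vecMulVec v φ *ᵥ v = 0 := by rw [vecMulVec_mulVec, t.2.2.1]; simp
  have h2 : cn A (vecMulVec v φ) *ᵥ v = (z - 1) • v := by
    have := congrArg (· *ᵥ v) h1
    simp only [add_mulVec, smul_mulVec, p.1, h0, add_zero] at this
    rw [sub_smul, ← this, one_smul, add_sub_cancel_left]
  have h3 : cn A (vecMulVec v φ) * cn A (vecMulVec v φ) = 0 := by
    rw [cn_mm, t.sq, cn_zero]
  have h4 : z = 1 := by
    have := congrArg (· *ᵥ v) h3
    simp only [← mulVec_mulVec, h2, mulVec_smul, smul_smul, zero_mulVec, smul_eq_zero, t.1, or_false, mul_self_eq_zero] at this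
    exact sub_eq_zero.1 this
  rw [h4, one_smul, add_right_inj] at h1
  exact cn_fix.1 h1

/-- a moved block projects onto the support -/
theorem mv (hd : δ * δ = δ) (hw : w ∈ T.Se δ) (i : η * η = η) (o : η * cn w η = 0) (o' : cn w η * η = 0)
    (r : δ.rank ≤ η.rank) {y : V n F} (hy : y ∈ rg δ) :
    (η *ᵥ y = 0 → y = 0) ∧ (cn w η *ᵥ y = 0 → y = 0) ∧ η *ᵥ y + cn w η *ᵥ y = y := by
  have e1 : η * (((w : R n F) - 1) * η) = -η := by
    rw [sub_mul, one_mul, ← cn_mul', mul_sub, ← mul_assoc, o, zero_mul, i, zero_sub]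
  have e2 : cn w η * (((w : R n F) - 1) * η) = w * η := by
    rw [sub_mul, one_mul, mul_sub, ← mul_assoc, cn_mul', o', mul_assoc, i, sub_zero]
  have e : rg (((w : R n F) - 1) * η) = rg δ := rg_eq ((rg_le hd).2 (by rw [← mul_assoc, se_l hw])) (r.trans (by
    have := Matrix.rank_mul_le_right (-η) (((w : R n F) - 1) * η)
    rwa [neg_mul, e1, neg_neg] at this))
  obtain ⟨x, rfl⟩ := mem_rg.1 (e ▸ hy)
  simp only [mulVec_mulVec, e1, e2]
  refine ⟨fun h => ?_, fun h => ?_, by rw [← add_mulVec, sub_mul, one_mul, neg_add_eq_sub]⟩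
  · rw [neg_mulVec, neg_eq_zero] at h
    rw [← mulVec_mulVec, h, mulVec_zero]
  · have := congrArg (((w⁻¹ : GL (Fin n) F) : R n F) *ᵥ ·) h
    simp only [mulVec_mulVec, Units.inv_mul_cancel_left, mulVec_zero] at this
    rw [← mulVec_mulVec, this, mulVec_zero]

end Bk

open Bk

theorem Ty.Sy.eq_of {D D' : Finset (R n F)} (h : T.Sy D) (h' : T.Sy D') {k : ℕ}
    (hk : ∀ ε ∈ D, ε.rank = k) (hk' : ∀ ε ∈ D', ε.rank = k)
    (hl : ∀ δ ∈ D', ∃ ε ∈ D, rg δ ≤ rg ε) : D = D' := by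
  have e : ∀ δ ∈ D', ∀ ε ∈ D, rg δ ≤ rg ε → ε * δ = δ ∧ δ * ε = ε := fun δ m ε m' l =>
    ⟨(rg_le (h.id ε m')).1 l, (rg_le (h'.id δ m)).1 (rg_eq l (by rw [hk ε m', hk' δ m])).ge⟩
  have s : D' ⊆ D := fun δ m => by
    obtain ⟨ε, m', l⟩ := hl δ m
    have : ε = δ := by
      rw [← mul_one ε, ← h'.sum, Finset.mul_sum, Finset.sum_eq_single_of_mem δ m, (e δ m ε m' l).1]
      intro δ' k ne
      obtain ⟨ε', k', l'⟩ := hl δ' k
      have : ε ≠ ε' := by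
        rintro rfl
        refine h.ne ε m' ?_
        rw [← (e δ m ε m' l).2, ← (e δ' k ε m' l').2, ← mul_assoc, h'.orth δ m δ' k ne.symm, zero_mul]
      rw [← (e δ' k ε' k' l').1, ← mul_assoc, h.orth ε m' ε' k' this, zero_mul]
    exact this ▸ m'
  refine (Finset.Subset.antisymm s fun ε m => by_contra fun k => h.ne ε m ?_).symm
  rw [← mul_one ε, ← h'.sum, Finset.mul_sum]
  exact Finset.sum_eq_zero fun δ m' => h.orth ε m δ (s m') fun e => k (e ▸ m')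

theorem Ty.wl {δ : R n F} (hd : T.Id δ) (h2 : 2 ≤ δ.rank) {L : Subgroup (GL (Fin n) F)}
    {a : GL (Fin n) F} (ha : a ∈ T.Γ n) (hc : (a : R n F) * δ = δ * a) (hs : ¬ ScOn (a : R n F) δ)
    (hL : ∀ s ∈ T.Se δ, s * a * s⁻¹ ∈ L) : ∃ W : Subgroup (GL (Fin n) F), W ≤ T.Se δ ∧ W ≤ L ∧
      (∀ s ∈ T.Se δ, ∀ w ∈ W, s * w * s⁻¹ ∈ W) ∧ ∃ w ∈ W, ¬ ScOn (w : R n F) δ := by
  let W : Subgroup (GL (Fin n) F) :=
    { carrier := {w | w ∈ T.Se δ ∧ ∀ s ∈ T.Se δ, s * w * s⁻¹ ∈ L}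
      one_mem' := ⟨one_mem _, fun s _ => by simp⟩
      mul_mem' := fun {x y} hx hy => ⟨mul_mem hx.1 hy.1, fun s m => by
        simpa only [conj_mul] using mul_mem (hx.2 s m) (hy.2 s m)⟩
      inv_mem' := fun {x} hx => ⟨inv_mem hx.1, fun s m => by simpa only [conj_inv] using inv_mem (hx.2 s m)⟩ }
  refine ⟨W, fun w m => m.1, fun w m => by simpa using m.2 1 (one_mem _), fun s m w m' =>
    ⟨mul_mem (mul_mem m m'.1) (inv_mem m), fun t k => ?_⟩, ?_⟩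
  · have := m'.2 _ (mul_mem k m)
    rwa [show t * s * w * (t * s)⁻¹ = t * (s * w * s⁻¹) * t⁻¹ by group] at this
  · by_contra! k
    refine hs (Ty.cen hd h2 fun v φ t p => ?_)
    obtain ⟨s, m, e⟩ := t.se p
    refine tv_comm hc t p m e (k _ ⟨mul_mem (Ty.conj_Se ha hc m) (inv_mem m), fun t k => ?_⟩)
    have := mul_mem (hL t k) (inv_mem (hL _ (mul_mem k m)))
    rwa [show t * a * t⁻¹ * (t * s * a * (t * s)⁻¹)⁻¹ = t * (a * s * a⁻¹ * s⁻¹) * t⁻¹ by group] at this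

theorem Ty.wblk {D : Finset (R n F)} (h : T.Sy D) {k : ℕ} (hk : ∀ ε ∈ D, ε.rank = k) (h2 : 2 ≤ k)
    (hx : ¬ (T.u ∧ T.q = 2 ∧ k = 2)) {δ : R n F} (hd : T.Id δ) (hr : δ.rank = k)
    {W : Subgroup (GL (Fin n) F)} (h1 : W ≤ T.Se δ) (hL : W ≤ PS (D : Set (R n F)))
    (hn : ∀ s ∈ T.Se δ, ∀ w ∈ W, s * w * s⁻¹ ∈ W) (hs : ∃ w ∈ W, ¬ ScOn (w : R n F) δ) :
    ∃ ε ∈ D, rg δ ≤ rg ε := by
  obtain ⟨w0, m0, s0⟩ := hs
  have n0 : w0 ≠ 1 := by
    rintro rfl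
    exact s0 ⟨1, by simp⟩
  by_cases c : ∀ w ∈ W, ∀ ε ∈ D, cn w ε = ε
  · obtain ⟨η, m, ne⟩ : ∃ η ∈ D, ((w0 : R n F) - 1) * η ≠ 0 := by
      by_contra! e
      refine n0 (Units.ext (sub_eq_zero.1 ?_))
      rw [← mul_one (_ - _), ← h.sum, Finset.mul_sum]
      exact Finset.sum_eq_zero e
    refine ⟨η, m, by_contra fun l => s0 (Ty.irr hd (hr ▸ hx) (fun w m => se_Γ (h1 m)) (fun w m => se_c (h1 m)) hn
      inf_le_right (fun w k => inv_inf (se_c (h1 k)) (cn_fix.1 (c w k η m))) (fun e => ne (rg_bot.1 (eq_bot_iff.2 (e ▸ le_inf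
        ((rg_le (h.id η m)).2 ?_) ((rg_le hd.1).2 (by rw [← mul_assoc, se_l (h1 m0)])))))) (fun e => l (e ▸ inf_le_left)) w0 m0)⟩
    rw [sub_mul, cn_fix.1 (c w0 m0 η m), one_mul, mul_sub, ← mul_assoc, h.id η m]
  · push Not at c
    obtain ⟨w, mw, ε, me, ne⟩ := c
    have M : ∀ w ∈ W, cn w ε ≠ ε → cn w ε ∈ D ∧ ∀ y ∈ rg δ,
        (ε *ᵥ y = 0 → y = 0) ∧ (cn w ε *ᵥ y = 0 → y = 0) ∧ ε *ᵥ y + cn w ε *ᵥ y = y := fun w m ne =>
      have k : cn w ε ∈ D := (mem_PS.1 (hL m) ε).2 me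
      ⟨k, fun y => mv hd.1 (h1 m) (h.id ε me) (h.orth _ me _ k ne.symm) (h.orth _ k _ me ne) (by rw [hr, hk ε me])⟩
    obtain ⟨me', M0⟩ := M w mw ne
    have K : ∀ x ∈ W, cn x ε = ε → x = 1 := fun x m e => by
      have l : ∀ y, ((x : R n F) - 1) *ᵥ y ∈ rg δ := fun y => (mem_rg_id hd.1).2 (by rw [mulVec_mulVec, se_l (h1 m)])
      have c : ε * ((x : R n F) - 1) = (x - 1) * ε := by rw [mul_sub, sub_mul, cn_fix.1 e, one_mul, mul_one]
      have z : ε * ((x : R n F) - 1) = 0 := mx fun y => by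
        rw [zero_mulVec, c, ← mulVec_mulVec]
        refine (M0 _ (l _)).2.1 ?_
        rw [mulVec_mulVec, mulVec_mulVec, mul_assoc, ← c, ← mul_assoc, h.orth _ me' _ me ne, zero_mul, zero_mulVec]
      exact Units.ext (sub_eq_zero.1 (mx fun y => (zero_mulVec y).symm ▸ (M0 _ (l y)).1 (by rw [mulVec_mulVec, z, zero_mulVec])))
    have K2 : ∀ x ∈ W, x ≠ 1 → x = w := fun x m n1 => by
      obtain ⟨k, M1⟩ := M x m fun e => n1 (K x m e)
      have : cn x ε = cn w ε := by_contra fun e => by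
        obtain ⟨y, hy⟩ := ex_ne (rank_pos (show 0 < δ.rank by omega))
        have my : δ *ᵥ y ∈ rg δ := mem_rg.2 ⟨y, rfl⟩
        refine hy ((M0 _ my).2.1 ?_)
        rw [← (M1 _ my).2.2, mulVec_add, mulVec_mulVec, mulVec_mulVec _ (cn w ε), h.orth _ me' _ me ne,
          h.orth _ me' _ k (Ne.symm e), zero_mulVec, add_zero]
      exact (inv_mul_eq_one.1 (K _ (mul_mem (inv_mem mw) m) (by
        rw [map_mul, Equiv.Perm.mul_apply, this, cn_inv]))).symm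
    refine (s0 (Ty.cen hd (hr ▸ h2) fun v φ t p => ?_)).elim
    obtain ⟨s, m, e⟩ := t.se p
    have := (K2 _ (hn s m w0 m0) fun e => n0 (conj_eq_one_iff.1 e)).trans (K2 w0 m0 n0).symm
    have := congrArg Units.val (mul_inv_eq_iff_eq_mul.1 this)
    rw [Units.val_mul, Units.val_mul, e, add_mul, mul_add, one_mul, mul_one, add_right_inj] at this
    exact this.symm

end CF.Wb
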