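import Cfsg.Agent.Wb.OM
import Cfsg.Agent.Wb.AB

/-! The symplectic-type subgroup `D = Q ⊓ M`. -/

set_option autoImplicit false
set_option linter.unusedSectionVars false

namespace CF.Wb

open Matrix Subgroup CF.BG Module

variable {F : Type} [Field F] [Fintype F] {n : ℕ} {T : Ty F} {G : Type*} [Group G] [Finite G]

/-- elements of `M` whose lifts commute with the lifts of `E` -/
def Md.pp (m : Md T n G) (E : Subgroup G) : Subgroup G where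
  carrier := {a | a ∈ m.M ∧ ∀ b ∈ E, b ∈ m.M → Commute a b ∧ m.om a b = 1}
  mul_mem' {a a'} ha ha' := ⟨mul_mem ha.1 ha'.1, fun b hb hM =>
    ⟨(ha.2 b hb hM).1.mul_left (ha'.2 b hb hM).1, by
      rw [m.om_mul_left ha.1 ha'.1 hM (ha.2 b hb hM).1 (ha'.2 b hb hM).1, (ha.2 b hb hM).2,
        (ha'.2 b hb hM).2, one_mul]⟩⟩
  one_mem' := ⟨one_mem _, fun b _ _ => ⟨Commute.one_left b, m.om_one_left b⟩⟩
  inv_mem' {a} ha := ⟨inv_mem ha.1, fun b hb hM => ⟨(ha.2 b hb hM).1.inv_left, by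
    rw [m.om_inv_left ha.1 hM (ha.2 b hb hM).1, (ha.2 b hb hM).2, inv_one]⟩⟩

theorem Md.mem_pp (m : Md T n G) {E : Subgroup G} (hE : E ≤ m.M) {a : G} :
    a ∈ m.pp E ↔ a ∈ m.M ∧ ∀ b ∈ E, Commute a b ∧ m.om a b = 1 :=
  ⟨fun h => ⟨h.1, fun b hb => h.2 b hb (hE hb)⟩, fun h => ⟨h.1, fun b hb _ => h.2 b hb⟩⟩

theorem Md.norm_pp (m : Md T n G) {E H : Subgroup G} (h : H ≤ 𝐍 E) : H ≤ 𝐍 (m.pp E) := by
  refine le_norm_iff.2 fun g hg a ha => ⟨m.M_normal.conj_mem _ ha.1 g, fun b hb hM => ?_⟩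
  have h1 := ha.2 (g⁻¹ * b * g) (conj_mem_of_norm' (h hg) hb)
    (by simpa using m.M_normal.conj_mem _ hM g⁻¹)
  have e : b = g * (g⁻¹ * b * g) * g⁻¹ := by group
  refine ⟨?_, by rw [e]; exact m.om_conj h1.1 g h1.2⟩
  rw [e]
  exact (h1.1.map (MulAut.conj g) :)

/-- `rep` in terms of `pp` -/
theorem Md.rep' (m : Md T n G) {E : Subgroup G} (hE : E ≤ m.M)
    (hc : ∀ a ∈ E, ∀ b ∈ E, Commute a b) (nd : E ⊓ m.pp E = ⊥) {k : G} (hk : k ∈ m.M)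
    (h : ∀ b ∈ E, Commute k b) : ∃ a ∈ E, a⁻¹ * k ∈ m.pp E := by
  obtain ⟨a, ha, h1⟩ := m.rep hE hc (fun a ha h1 => by
    rw [← mem_bot, ← nd]
    exact ⟨ha, (m.mem_pp hE).2 ⟨hE ha, fun b hb => ⟨hc a ha b hb, h1 b hb⟩⟩⟩) hk h
  refine ⟨a, ha, (m.mem_pp hE).2 ⟨mul_mem (inv_mem (hE ha)) hk, fun b hb =>
    ⟨(hc a ha b hb).inv_left.mul_left (h b hb), ?_⟩⟩⟩
  rw [m.om_mul_left (inv_mem (hE ha)) hk (hE hb) (hc a ha b hb).inv_left (h b hb),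
    m.om_inv_left (hE ha) (hE hb) (hc a ha b hb), h1 b hb, inv_mul_cancel₀ (m.om_ne _ _)]

theorem Cx.D_ne (c : Cx T n G) : c.D ≠ ⊥ := fun h =>
  c.tw.QN c.m.N_normal (eq_bot_iff.2 ((inf_le_inf_left _ c.m.N_le_M).trans h.le))

theorem Cx.D_nrm (c : Cx T n G) : c.D ⊴ c.H :=
  ⟨inf_le_left.trans c.tw.Qn.le, norm_inf c.tw.Qn.norm
    (le_top.trans (normalIn_top.2 c.m.M_normal).norm)⟩

theorem Cx.D_Q (c : Cx T n G) : c.D ≤ c.Q := inf_le_left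

theorem Cx.D_M (c : Cx T n G) : c.D ≤ c.m.M := inf_le_right

theorem Cx.NA.rad {c : Cx T n G} (h : c.NA) {E : Subgroup G} (hE : E ⊴ c.H) (hD : E ≤ c.D) :
    E ⊓ c.m.pp E = ⊥ := by
  have hM := hD.trans c.D_M
  refine h _ ⟨inf_le_left.trans hE.le, norm_inf hE.norm (c.m.norm_pp hE.norm)⟩
    (inf_le_left.trans (hD.trans c.D_Q)) (inf_le_left.trans hM) (c.m.ab_of ?_ ?_)
  · exact fun a ha b hb => (((c.m.mem_pp hM).1 ha.2).2 b hb.1).1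
  · exact fun a ha b hb => (((c.m.mem_pp hM).1 ha.2).2 b hb.1).2

theorem Cx.NA.comm {c : Cx T n G} (h : c.NA) : ∀ a ∈ c.D, ∀ b ∈ c.D, Commute a b := by
  have z1 : c.D ⊓ 𝐂 c.D ⊴ c.H :=
    ⟨inf_le_left.trans c.D_nrm.le, norm_inf_cent c.D_nrm.norm c.D_nrm.norm⟩
  have z2 := h.rad z1 inf_le_left
  have z3 : c.D ⊓ c.m.pp (c.D ⊓ 𝐂 c.D) = ⊥ := by
    by_contra h0
    refine c.tw.meet h0 c.D_Q ⟨inf_le_left, norm_inf (le_norm_self _)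
      (c.D_nrm.le.trans (c.m.norm_pp z1.norm))⟩ (eq_bot_iff.2 ?_)
    rw [← z2]
    exact fun a ha => ⟨⟨ha.1.1, ha.2⟩, ha.1.2⟩
  intro a ha b hb
  obtain ⟨e, he, h1⟩ := c.m.rep' (inf_le_left.trans c.D_M)
    (fun a ha b hb => (mem_cent.1 hb.2 a ha.1 :)) z2 (c.D_M ha)
    (fun b hb => (mem_cent.1 hb.2 a ha :))
  have h2 : e⁻¹ * a ∈ c.D ⊓ c.m.pp (c.D ⊓ 𝐂 c.D) := ⟨c.D.mul_mem (c.D.inv_mem he.1) ha, h1⟩
  rw [z3, mem_bot, inv_mul_eq_one] at h2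
  subst h2
  exact (mem_cent.1 he.2 b hb).symm

theorem Cx.NA.nd {c : Cx T n G} (h : c.NA) {E : Subgroup G} (hE : E ⊴ c.H) (hD : E ≤ c.D) {a : G}
    (ha : a ∈ E) (h1 : a ≠ 1) : ∃ b ∈ E, c.m.om a b ≠ 1 := by
  by_contra h2
  push Not at h2
  refine h1 ?_
  rw [← mem_bot, ← h.rad hE hD]
  exact ⟨ha, (c.m.mem_pp (hD.trans c.D_M)).2 ⟨c.D_M (hD ha), fun b hb =>
    ⟨h.comm a (hD ha) b (hD hb), h2 b hb⟩⟩⟩

theorem Cx.NA.pow {c : Cx T n G} (h : c.NA) : ∀ a ∈ c.D, a ^ c.p = 1 := by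
  let O : Subgroup G :=
    { carrier := {a | a ∈ c.D ∧ a ^ c.p = 1}
      mul_mem' := fun {a b} ha hb => ⟨mul_mem ha.1 hb.1, by
        rw [(h.comm a ha.1 b hb.1).mul_pow, ha.2, hb.2, one_mul]⟩
      one_mem' := ⟨one_mem _, one_pow _⟩
      inv_mem' := fun {a} ha => ⟨inv_mem ha.1, by rw [inv_pow, ha.2, inv_one]⟩ }
  have hO : O ⊴ c.H := ⟨fun a ha => c.D_nrm.le ha.1, le_norm_iff.2 fun g hg a ha =>
    ⟨c.D_nrm.conj_mem hg ha.1, by rw [conj_pow, ha.2, mul_one, mul_inv_cancel]⟩⟩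
  have key : ∀ a ∈ c.D, (a ^ c.p) ^ c.p = 1 → a ^ c.p = 1 := by
    intro a ha h1
    by_contra h2
    obtain ⟨b, hb, h3⟩ := h.nd hO (fun a ha => ha.1) (a := a ^ c.p) ⟨pow_mem ha _, h1⟩ h2
    refine h3 ?_
    rw [c.m.om_pow_left (c.D_M ha) (c.D_M hb.1) (h.comm a ha b hb.1),
      ← c.m.om_pow_right (c.D_M ha) (c.D_M hb.1) (h.comm a ha b hb.1), hb.2, c.m.om_one_right]
  have ind : ∀ j : ℕ, ∀ a ∈ c.D, a ^ c.p ^ j = 1 → a ^ c.p = 1 := by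
    intro j
    induction j with
    | zero => intro a _ h1; rw [pow_zero, pow_one] at h1; rw [h1, one_pow]
    | succ j ih =>
      intro a ha h1
      exact key a ha (ih _ (pow_mem ha _) (by rw [← pow_mul, ← pow_succ', h1]))
  intro a ha
  obtain ⟨j, hj⟩ := c.tw.Qp ⟨a, c.D_Q ha⟩
  exact ind j a ha (congrArg Subtype.val hj)

theorem Cx.NA.pp_D {c : Cx T n G} (h : c.NA) : c.m.pp c.D = ⊥ := by
  have h1 : c.m.pp c.D ≤ c.H := by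
    rw [← c.tw.norm_eq c.D_ne c.D_nrm]
    exact fun a ha => cent_le_norm _ (mem_cent.2 fun b hb =>
      (((c.m.mem_pp c.D_M).1 ha).2 b hb).1.symm)
  have h2 : c.m.pp c.D ⊴ c.H := ⟨h1, c.m.norm_pp c.D_nrm.norm⟩
  have h3 : c.m.pp c.D ⊓ c.Q = ⊥ := by
    rw [eq_bot_iff, ← h.rad c.D_nrm le_rfl]
    exact fun a ha => ⟨⟨ha.2, ha.1.1⟩, ha.1⟩
  have h4 := h2.cent_of_inf_eq_bot c.tw.Qn h3
  rw [← h3]
  exact (inf_of_le_left fun a ha =>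
    c.tw.ch a (h1 ha) fun b hb => (mem_cent.1 (h4 ha) b hb).symm).symm

theorem Cx.NA.cen {c : Cx T n G} (h : c.NA) {k : G} (hk : k ∈ c.m.M)
    (hc : ∀ a ∈ c.D, Commute k a) : k ∈ c.D := by
  obtain ⟨e, he, h1⟩ := c.m.rep' c.D_M h.comm (h.rad c.D_nrm le_rfl) hk hc
  rw [h.pp_D, mem_bot, inv_mul_eq_one] at h1
  exact h1 ▸ he

theorem Cx.NA.perp {c : Cx T n G} (h : c.NA) {E : Subgroup G} (hE : E ⊴ c.H) (hD : E ≤ c.D) :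
    ∃ Y : Subgroup G, Y ⊴ c.H ∧ Y ≤ c.D ∧ (∀ a ∈ Y, ∀ b ∈ E, c.m.om a b = 1) ∧ E ⊓ Y = ⊥ ∧
      ∀ a ∈ c.D, ∃ e ∈ E, ∃ y ∈ Y, a = e * y := by
  have hM := hD.trans c.D_M
  refine ⟨c.D ⊓ c.m.pp E, ⟨inf_le_left.trans c.D_nrm.le, norm_inf c.D_nrm.norm
    (c.m.norm_pp hE.norm)⟩, inf_le_left, fun a ha b hb => (((c.m.mem_pp hM).1 ha.2).2 b hb).2,
    ?_, fun a ha => ?_⟩
  · rw [eq_bot_iff, ← h.rad hE hD]
    exact fun a ha => ⟨ha.1, ha.2.2⟩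
  · obtain ⟨e, he, h1⟩ := c.m.rep' hM (fun a ha b hb => h.comm a (hD ha) b (hD hb)) (h.rad hE hD)
      (c.D_M ha) fun b hb => h.comm a ha b (hD hb)
    exact ⟨e, he, e⁻¹ * a, ⟨c.D.mul_mem (c.D.inv_mem (hD he)) ha, h1⟩, by group⟩

end CF.Wb
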