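import Cfsg.Agent.Wb.B1

/-! Wielandt bound: the outer part. -/

set_option autoImplicit false
set_option linter.unusedSectionVars false

namespace CF.Wb

open Matrix Subgroup CF.BG Module

variable {F : Type} [Field F] [Fintype F] {n : ℕ} {T : Ty F} {G : Type*} [Group G] [Finite G]

open B0

namespace O

theorem n1 (m : Md T n G) : 1 ≤ n := m.ok.n2.trans' one_le_two

theorem fin_aut : Finite (RingAut F) := Finite.of_injective _ DFunLike.coe_injective

theorem sg_one (m : Md T n G) (g : G) (z : F) : m.ρ g (z • 1) = (m.smul g).choose z • 1 := by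
  rw [(m.smul g).choose_spec, m.one]

/-- the field automorphism induced by an element -/
noncomputable def sg (m : Md T n G) : G →* RingAut F :=
  MonoidHom.mk' (fun g => (m.smul g).choose) fun a b => RingEquiv.ext fun z => smul_one_inj (n1 m) (by
    rw [← sg_one, map_mul, Equiv.Perm.mul_apply, sg_one, sg_one]; rfl)

theorem sg_smul (m : Md T n G) (g : G) (z : F) (a : R n F) :
    m.ρ g (z • a) = sg m g z • m.ρ g a := (m.smul g).choose_spec z a

open Classical in
/-- the sign of an element: automorphism or anti-automorphism -/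
noncomputable def ep (m : Md T n G) : G →* ℤˣ :=
  MonoidHom.mk' (fun g => if m.Lin g then 1 else -1) fun a b => by
    have p : ∀ x, m.ρ (a * b) x = m.ρ a (m.ρ b x) := fun x => by rw [map_mul]; rfl
    rcases m.lin_or a with h | ⟨h, -⟩ <;> rcases m.lin_or b with h' | ⟨h', -⟩
    · simp only [h, h', show m.Lin (a * b) from fun x y => by rw [p, h', h, p, p], if_true, mul_one]
    · simp only [h, mt m.not_lin_du (not_not.2 h'), mt (m.not_lin_du (g := a * b))
        (not_not.2 fun x y => by rw [p, h', h, p, p]), if_true, if_false, one_mul]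
    · simp only [h', mt m.not_lin_du (not_not.2 h), mt (m.not_lin_du (g := a * b))
        (not_not.2 fun x y => by rw [p, h', h, p, p]), if_true, if_false, mul_one]
    · simp only [mt m.not_lin_du (not_not.2 h'), mt m.not_lin_du (not_not.2 h),
        show m.Lin (a * b) from fun x y => by rw [p, h', h, p, p], if_true, if_false, neg_mul_neg,
        mul_one]

theorem ep_eq (m : Md T n G) {g : G} : ep m g = 1 ↔ m.Lin g := by
  by_cases h : m.Lin g <;> simp [ep, h]

theorem mem_M (m : Md T n G) {g : G} : g ∈ m.M ↔ sg m g = 1 ∧ ep m g = 1 := by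
  rw [ep_eq]
  refine ⟨fun h => ⟨RingEquiv.ext fun z => smul_one_inj (n1 m) ?_, m.lin_of_M h⟩,
    fun h => m.mem_M_of h.2 fun z => by rw [sg_smul, m.one, h.1]; rfl⟩
  obtain ⟨A, -, e⟩ := m.mem_M.1 h
  rw [← m.one g, ← sg_smul, ← m.one g, e, cn_smul, cn_one, cn_one]; rfl

theorem card_le {K L M : Subgroup G} (h : K ≤ L) : ♯K ≤ M.relIndex L * ♯(K ⊓ M) := by
  rw [← index_mul_card (M.subgroupOf K), ← inf_subgroupOf_left,
    Nat.card_congr (subgroupOfEquivOfLe inf_le_left).toEquiv]
  exact Nat.mul_le_mul_right _ ((inf_relIndex_left K M).le.trans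
    (relIndex_le_of_le_right h index_ne_zero_of_finite))

end O

open O

theorem Md.comm_mem_M (m : Md T n G) (a b : G) : a * b * a⁻¹ * b⁻¹ ∈ m.M := by
  haveI := aut_cyc (F := F)
  refine (O.mem_M m).2 ⟨?_, by
    rw [map_mul, map_mul, map_mul, map_inv, map_inv, mul_inv_cancel_comm, mul_inv_cancel]⟩
  rw [map_mul, map_mul, map_mul, map_inv, map_inv, IsCyclic.commGroup.mul_comm (sg m a),
    mul_inv_cancel_right, mul_inv_cancel]

theorem Md.index_M (m : Md T n G) : m.M.index ≤ 2 * T.f := by
  haveI := fin_aut (F := F)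
  by_cases hu : T.u
  · rw [show m.M = (sg m).ker from Subgroup.ext fun g => (O.mem_M m).trans (and_iff_left
      ((ep_eq m).2 ((m.lin_or g).resolve_right fun c => c.2.1 hu))), index_ker, ← T.card_autU hu]
    exact card_le_card_group _
  · rw [show m.M = ((ep m).prod (sg m)).ker from Subgroup.ext fun g => (O.mem_M m).trans (and_comm.trans
      Prod.mk_eq_one.symm), index_ker, ← T.card_autL hu]
    exact (card_le_card_group _).trans (by simp)

theorem Md.relIndex_N (m : Md T n G) : m.N.relIndex m.M ≤ n := by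
  let Zn := (powMonoidHom n : T.Z →* T.Z).range.map T.Z.subtype
  have f : ∀ {X : Type} [Group X] [Finite X] (A B : Subgroup X), A.relIndex B ≠ 0 :=
    fun _ _ => index_ne_zero_of_finite
  calc m.N.relIndex m.M ≤ ((T.S n).map cn).relIndex ((T.Γ n).map cn) :=
        (relIndex_comap _ _ _).le.trans (relIndex_le_of_le_right (map_comap_le _ _) (f _ _))
    _ ≤ (T.Γ n ⊓ Zn.comap GeneralLinearGroup.det).relIndex (T.Γ n) := by
        rw [← relIndex_comap]
        refine relIndex_le_of_le_left ?_ (f _ _)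
        rintro A ⟨h1, _, ⟨z, rfl⟩, h2⟩
        have v : ((dg (fun _ => z⁻¹.1) * A : GL (Fin n) F) : R n F) = (z⁻¹.1 : F) • (A : R n F) := by
          rw [Units.val_mul, dg_const, smul_mul_assoc, one_mul]
        refine ⟨_, T.mem_S.2 ⟨fun hu => ?_, ?_⟩, cn_eq.2 ⟨_, v⟩⟩ <;> rw [v]
        · rw [T.st_smul, smul_mul_smul, h1 hu, z⁻¹.2 hu, one_smul]
        · rw [det_smul, ← GeneralLinearGroup.val_det_apply, ← h2]
          simp
    _ ≤ Zn.relIndex T.Z := by
        rw [inf_relIndex_left, relIndex_comap]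
        exact relIndex_le_of_le_right (by rintro _ ⟨A, h, rfl⟩; exact T.det_mem_Z h) (f _ _)
    _ ≤ n := by
        rw [relIndex, subgroupOf, comap_map_eq_self_of_injective T.Z.subtype_injective, index_range,
          IsCyclic.card_powMonoidHom_ker]
        exact Nat.gcd_le_right _ (n1 m)

theorem Md.card_tor (m : Md T n G) {P : Subgroup G} {p : ℕ} (hp : p.Prime) (h : P ⊓ m.M = ⊥)
    (h' : ∀ a ∈ P, a ^ p = 1) : ♯P ≤ 2 * p := by
  classical
  haveI := aut_cyc (F := F)
  haveI := fin_aut (F := F)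
  haveI := Fintype.ofFinite (RingAut F)
  refine (Nat.card_le_card_of_injective (fun a : P => (ep m a, (⟨sg m a, by
    rw [← map_pow, h' _ a.2, map_one]⟩ : {σ : RingAut F // σ ^ p = 1}))) fun a b e => ?_).trans ?_
  · refine Subtype.ext (mul_inv_eq_one.1 (h.le (mem_inf.2 ⟨mul_mem a.2 (inv_mem b.2),
      (O.mem_M m).2 ?_⟩)))
    simp only [Prod.mk.injEq, Subtype.mk.injEq] at e
    simp [e.1, e.2]
  · rw [Nat.card_prod, Nat.card_eq_fintype_card (α := Subtype _), Fintype.card_subtype]
    exact Nat.mul_le_mul (by simp) (IsCyclic.card_pow_eq_one_le hp.pos)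

theorem Md.card_le_M (m : Md T n G) (K : Subgroup G) : ♯K ≤ 2 * T.f * ♯(K ⊓ m.M) :=
  (O.card_le le_top).trans (Nat.mul_le_mul_right _ ((relIndex_top_right _).le.trans m.index_M))

theorem Md.card_le_N (m : Md T n G) (K : Subgroup G) : ♯K ≤ 2 * T.f * n * ♯(K ⊓ m.N) := by
  have := (O.card_le (K := K ⊓ m.M) (M := m.N) inf_le_right).trans
    (Nat.mul_le_mul_right _ m.relIndex_N)
  rw [inf_assoc, inf_eq_right.2 m.N_le_M] at this
  exact (m.card_le_M K).trans ((Nat.mul_le_mul_left _ this).trans_eq (mul_assoc _ _ _).symm)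

end CF.Wb
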