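import Cfsg.Agent.Wb.DG
import Cfsg.Agent.Wb.CX
import Cfsg.Agent.Wb.O

/-! Wielandt bound: the product of two quaternion groups. -/

set_option autoImplicit false
set_option linter.unusedSectionVars false

namespace CF.Wb

open Matrix Subgroup CF.BG Module

variable {F : Type} [Field F] [Fintype F] {n : ℕ} {T : Ty F} {G : Type*} [Group G] [Finite G]

theorem DA.card_le {X : Type*} [Finite X] {K C : Subgroup G} (φ : K → X)
    (h : ∀ a b : K, φ a = φ b → (a⁻¹ * b : G) ∈ C) : ♯K ≤ Nat.card X * ♯C := by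
  classical
  rw [← (C.subgroupOf K).index_mul_card]
  refine Nat.mul_le_mul (Nat.card_le_card_of_surjective
    (fun z => if k : ∃ a, φ a = z then QuotientGroup.mk k.choose else QuotientGroup.mk 1) fun q => ?_)
    (Nat.card_le_card_of_injective (fun a => ⟨a.1.1, a.2⟩) fun a b e =>
      Subtype.ext (Subtype.ext (congrArg (Subtype.val : C → G) e)))
  obtain ⟨a, rfl⟩ := QuotientGroup.mk_surjective q
  have k : ∃ b, φ b = φ a := ⟨a, rfl⟩
  exact ⟨φ a, (dif_pos k).trans (QuotientGroup.eq.2 (h _ _ k.choose_spec))⟩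

theorem Cx.NA.four {c : Cx T n G} (h : c.NA) (h2 : c.p = 2) (hi : ¬ ∃ i ∈ T.Z, (i : F) ^ 2 = -1)
    {E : Subgroup G} (hE : E ⊴ c.H) (hD : E ≤ c.D) (e0 : E ≠ ⊥) (g1 : ∀ a ∈ E, a ≠ 1 → c.m.Gd 2 a) :
    ∃ a ∈ E, ∃ b ∈ E, a ≠ 1 ∧ b ≠ 1 ∧ c.m.om a b = -1 ∧ ∀ x ∈ E, x = 1 ∨ x = a ∨ x = b ∨ x = a * b := by
  have sq {a : G} (ha : a ∈ E) : a * a = 1 := by rw [← sq, ← h2, h.pow a (hD ha)]
  have key {a b : G} (ha : a ∈ E) (hb : b ∈ E) (a1 : a ≠ 1) (b1 : b ≠ 1) (ab : b ≠ a) : c.m.om a b = -1 := by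
    have := (h.quad h2 hi (hD ha) (hD hb)).1 (g1 _ (mul_mem ha hb) fun e => ab
      (mul_left_cancel (e.trans (sq ha).symm)))
    refine (sq_eq_one_iff.1 ?_).resolve_left (this.1 (iff_of_true (g1 a ha a1) (g1 b hb b1)))
    rw [← c.m.om_pow_right (hD ha).2 (hD hb).2 (h.comm _ (hD ha) _ (hD hb)), pow_two, sq hb, c.m.om_one_right]
  obtain ⟨⟨a, ha⟩, a1⟩ := ne_bot_iff_exists_ne_one.1 e0
  have a1 : a ≠ 1 := fun e => a1 (Subtype.ext e)
  obtain ⟨b, hb, o⟩ := h.nd hE hD ha a1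
  have b1 : b ≠ 1 := by rintro rfl; exact o (c.m.om_one_right a)
  have ab := key ha hb a1 b1 (by rintro rfl; exact o (c.m.om_self _))
  refine ⟨a, ha, b, hb, a1, b1, ab, fun x hx => ?_⟩
  by_contra! k
  have := key ha (mul_mem hb hx) a1 (fun e => k.2.2.1 (mul_left_cancel (e.trans (sq hb).symm))) fun e =>
    k.2.2.2 (by rw [(h.comm _ (hD ha) _ (hD hb)).eq, ← e, ← mul_assoc, sq hb, one_mul])
  rw [c.m.om_mul_right (hD ha).2 (hD hb).2 (hD hx).2 (h.comm _ (hD ha) _ (hD hb)) (h.comm _ (hD ha) _ (hD hx)),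
    ab, key ha hx a1 k.1 k.2.1, neg_mul_neg, one_mul] at this
  exact o (ab.trans this.symm)

theorem DA.sq_lin {f : R n F} (h : f * f = -1) (x y : F) :
    (x • (1 : R n F) + y • f) * (x • 1 + y • f) = (x * x - y * y) • 1 + (2 * x * y) • f := by
  simp only [add_mul, mul_add, smul_mul_assoc, mul_smul_comm, h, one_mul, mul_one]
  module

theorem Cx.NA.root {c : Cx T n G} (h : c.NA) (h2 : c.p = 2) (t : (2 : F) ≠ 0) {E Y : Subgroup G}
    (hE : E ⊴ c.H) (hD : E ≤ c.D) (hY : Y ⊴ c.H) (hD' : Y ≤ c.D) (e0 : E ≠ ⊥)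
    (ho : ∀ a ∈ Y, ∀ b ∈ E, c.m.om a b = 1) {a b : G} (ha : a ∈ Y) (hb : b ∈ Y) (a1 : a ≠ 1)
    (ga : c.m.Gd 2 a) (ab : c.m.om a b = -1) {β : F} (hβ : T.u → T.bar β = β) :
    (1 + β ^ 2) * β * (1 - β ^ 2) * ((1 - β ^ 2) ^ 2 - 4 * β ^ 2) = 0 := by
  by_contra k
  have k0 : 1 + β ^ 2 ≠ 0 := fun e => k (by rw [e]; ring)
  obtain ⟨f, hf, ea, ff⟩ := ga
  rw [if_pos rfl, sq] at ff
  obtain ⟨g, hg, eb⟩ := c.m.mem_M.1 (hD' hb).2
  have fg := c.m.om_spec (h.comm _ (hD' ha) _ (hD' hb)) hf hg ea eb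
  rw [ab, neg_smul, one_smul] at fg
  have u {x : F} (e : x * x = β ^ 2) :
      ((1 : R n F) + x • f.1) * ((1 + β ^ 2)⁻¹ • (1 + (-x) • f.1)) = 1 := by
    simp only [add_mul, mul_add, smul_add, smul_mul_assoc, mul_smul_comm, ff, one_mul, mul_one]
    match_scalars
    · field_simp; linear_combination e
    · ring
  let τ : GL (Fin n) F := .mkOfMulEqOne _ _ (u (sq β).symm)
  have τ1 : τ.1 = 1 + β • f.1 := rfl
  have τ2 : (τ⁻¹).1 = (1 + β ^ 2)⁻¹ • (1 + (-β) • f.1) := rfl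
  have gτ : (g * τ⁻¹ * g⁻¹).1 = (1 + β ^ 2)⁻¹ • τ.1 := by
    rw [Units.val_mul, Units.mul_inv_eq_iff_eq_mul, Units.val_mul, τ1, τ2]
    simp only [add_mul, mul_add, smul_add, smul_mul_assoc, mul_smul_comm, fg, one_mul, mul_one]
    module
  obtain ⟨κ, hκ⟩ : ∃ κ, κ = τ * (g * τ⁻¹ * g⁻¹) := ⟨_, rfl⟩
  have κ1 : κ.1 = ((1 + β ^ 2)⁻¹ * (1 - β ^ 2)) • 1 + ((1 + β ^ 2)⁻¹ * (2 * β)) • f.1 := by
    rw [hκ, Units.val_mul, gτ, τ1]
    simp only [add_mul, mul_add, smul_add, smul_mul_assoc, mul_smul_comm, ff, one_mul, mul_one]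
    module
  have u' : κ.1 * (((1 + β ^ 2)⁻¹ * (1 - β ^ 2)) • 1 - ((1 + β ^ 2)⁻¹ * (2 * β)) • f.1) = 1 := by
    rw [κ1]
    simp only [add_mul, mul_sub, smul_mul_assoc, mul_smul_comm, ff, one_mul, mul_one]
    match_scalars
    · field_simp; ring
    · ring
  have hs : κ ∈ T.S n := Ty.mem_S.2 ⟨fun hu => by
    have : T.st f.1 = -f.1 := by
      rw [Ty.st_inv hu hf]
      exact Units.inv_eq_of_mul_eq_one_right (by rw [mul_neg, ff, neg_neg])
    refine mul_eq_one_comm.1 (.trans (congrArg _ ?_) u')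
    rw [κ1, T.st_add, T.st_smul, T.st_smul, T.st_one, this]
    simp [hβ hu, sub_eq_add_neg, map_ofNat], by
    rw [← GeneralLinearGroup.val_det_apply, hκ]
    simp only [map_mul, map_inv]
    rw [mul_comm (GeneralLinearGroup.det g), mul_inv_cancel_right, mul_inv_cancel, Units.val_one]⟩
  have hH := c.mem_of_cen e0 hE (hD.trans inf_le_right) hs fun A hA => Units.ext (by
    obtain ⟨hA, x, hx, e⟩ := c.m.mem_lift.1 hA
    have := c.m.om_spec (h.comm _ (hD' ha) _ (hD hx)) hf hA ea e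
    rw [ho a ha x hx, one_smul] at this
    simp only [Units.val_mul, κ1, add_mul, mul_add, smul_mul_assoc, mul_smul_comm, this, one_mul, mul_one])
  have gl : g ∈ c.m.lift Y := c.m.mem_lift.2 ⟨hg, b, hb, eb⟩
  have gκ : g * κ⁻¹ * g⁻¹ = κ := Units.ext (by
    rw [Units.val_mul, Units.mul_inv_eq_iff_eq_mul, Units.val_mul, Units.inv_eq_of_mul_eq_one_right u', κ1]
    simp only [add_mul, mul_sub, smul_mul_assoc, mul_smul_comm, fg, one_mul, mul_one]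
    module)
  have := mul_mem (c.m.lift_conj hY.2 hH gl) (inv_mem gl)
  rw [mul_assoc κ, mul_assoc κ, gκ] at this
  obtain ⟨-, x, hx, e⟩ := c.m.mem_lift.1 this
  obtain ⟨z, hz⟩ := cn_eq_one.1 (show cn (κ * κ * (κ * κ)) = 1 by
    rw [map_mul, ← e, ← map_mul, ← sq, ← h2, h.pow x (hD' hx), map_one])
  simp only [Units.val_mul, κ1, DA.sq_lin ff] at hz
  rw [← eq_sub_iff_add_eq', ← sub_smul, ← eq_inv_smul_iff₀ (by
    have : ∀ w : F, (1 + β ^ 2) * w = 1 → 2 * (w * (1 - β ^ 2) * (w * (1 - β ^ 2)) - w * (2 * β) * (w * (2 * β))) *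
        (2 * (w * (1 - β ^ 2)) * (w * (2 * β))) ≠ 0 := fun w hw e => by
      refine mul_ne_zero (pow_ne_zero 3 t) (mul_ne_zero (pow_ne_zero 5 (right_ne_zero_of_mul_eq_one hw)) k) ?_
      linear_combination e + (8 * w ^ 4 * β * (1 - β ^ 2) * ((1 - β ^ 2) ^ 2 - 4 * β ^ 2)) * hw
    exact this _ (mul_inv_cancel₀ k0)), smul_smul] at hz
  exact a1 (c.m.inj (by rw [ea, map_one, cn_eq_one]; exact ⟨_, hz⟩))

theorem Cx.NA.aniso {c : Cx T n G} (h : c.NA) (h2 : c.p = 2) (hi : ¬ ∃ i ∈ T.Z, (i : F) ^ 2 = -1)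
    {E Y : Subgroup G} (hE : E ⊴ c.H) (hD : E ≤ c.D) (hY : Y ⊴ c.H) (hD' : Y ≤ c.D) (e0 : E ≠ ⊥)
    (y0 : Y ≠ ⊥) (ho : ∀ a ∈ Y, ∀ b ∈ E, c.m.om a b = 1)
    (hs : ∀ a ∈ c.D, ∃ e ∈ E, ∃ y ∈ Y, a = e * y) (g1 : ∀ a ∈ E, a ≠ 1 → c.m.Gd 2 a)
    (g2 : ∀ a ∈ Y, a ≠ 1 → c.m.Gd 2 a) : c.Bd := by
  classical
  have t : (2 : F) ≠ 0 := fun e => hi ⟨1, one_mem _, by rw [Units.val_one]; linear_combination e⟩
  obtain ⟨a, ha, b, hb, -, -, -, k⟩ := h.four h2 hi hE hD e0 g1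
  obtain ⟨a', ha', b', hb', a1, -, ab, k'⟩ := h.four h2 hi hY hD' y0 g2
  have c4 {X : Subgroup G} {a b : G} (k : ∀ x ∈ X, x = 1 ∨ x = a ∨ x = b ∨ x = a * b) : ♯X ≤ 4 :=
    (Set.ncard_le_ncard (t := ({1, a, b, a * b} : Finset G)) fun x hx => by simpa using k x hx).trans
      ((Set.ncard_coe_finset _).le.trans Finset.card_le_four)
  have cE := c4 k
  have cY := c4 k'
  have cD : ♯c.D ≤ 16 := (Nat.card_le_card_of_surjective
    (fun x : E × Y => (⟨x.1 * x.2, mul_mem (hD x.1.2) (hD' x.2.2)⟩ : c.D)) fun x => by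
      obtain ⟨e, he, y, hy, z⟩ := hs x.1 x.2
      exact ⟨(⟨e, he⟩, ⟨y, hy⟩), Subtype.ext z.symm⟩).trans (Nat.card_prod _ _ ▸ Nat.mul_le_mul cE cY)
  have cm {X : Subgroup G} {a b g : G} (k : ∀ x ∈ X, x = 1 ∨ x = a ∨ x = b ∨ x = a * b) (x : Commute g a)
      (y : Commute g b) : ∀ z ∈ X, Commute g z := fun z hz => by
    rcases k z hz with rfl | rfl | rfl | rfl
    exacts [.one_right _, x, y, x.mul_right y]
  have cj {u v x : G} (e : u * x * u⁻¹ = v * x * v⁻¹) : Commute (u⁻¹ * v) x := by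
    calc _ = u⁻¹ * (v * x * v⁻¹) * v := by group
      _ = _ := by rw [← e]; group
  have cH := DA.card_le (K := c.H ⊓ c.m.M) (C := c.D) (fun g => ((⟨_, hE.conj_mem g.2.1 ha⟩,
    ⟨_, hE.conj_mem g.2.1 hb⟩, ⟨_, hY.conj_mem g.2.1 ha'⟩, ⟨_, hY.conj_mem g.2.1 hb'⟩) : E × E × Y × Y))
    fun u v e => h.cen (mul_mem (inv_mem u.2.2) v.2.2) fun x hx => by
      simp only [Prod.mk.injEq, Subtype.mk.injEq] at e
      obtain ⟨y, hy, z, hz, rfl⟩ := hs x hx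
      exact (cm k (cj e.1) (cj e.2.1) y hy).mul_right (cm k' (cj e.2.2.1) (cj e.2.2.2) z hz)
  have q : T.q ≤ 9 := by
    let P : Polynomial F := (1 + .X ^ 2) * .X * (1 - .X ^ 2) * ((1 - .X ^ 2) ^ 2 - 4 * .X ^ 2)
    have ne {Q : Polynomial F} (e : Q.eval 0 = 1) : Q ≠ 0 := by rintro rfl; simp at e
    have P0 : P ≠ 0 := mul_ne_zero (mul_ne_zero (mul_ne_zero (ne (by simp)) Polynomial.X_ne_zero) (ne (by simp)))
      (ne (by simp))
    have := Polynomial.card_le_degree_of_subset_roots (p := P)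
      (Z := Finset.univ.filter fun β => T.u → T.bar β = β) fun β hβ => (Polynomial.mem_roots P0).2 (by
        simpa only [P, Polynomial.IsRoot, Polynomial.eval_mul, Polynomial.eval_add, Polynomial.eval_sub,
          Polynomial.eval_pow, Polynomial.eval_X, Polynomial.eval_one, Polynomial.eval_ofNat] using
          h.root h2 t hE hD hY hD' e0 ho ha' hb' a1 (g2 _ ha' a1) ab (Finset.mem_filter.1 hβ).2)
    refine le_trans (le_of_eq ?_) (this.trans (by unfold P; compute_degree))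
    by_cases hu : T.u
    · rw [← Ty.card_fix hu, Nat.card_eq_fintype_card, Fintype.card_subtype]; simp [hu]
    · simp [hu, T.cL hu, Ty.q]
  have f3 : T.f ≤ 3 := by
    by_contra! j
    have := (Nat.pow_le_pow_right two_pos j).trans (T.pow_le_q.trans q)
    omega
  simp only [Nat.card_prod] at cH
  refine (c.m.card_le_M _).trans (le_trans ?_ (Bn_ge c.tw.d4))
  exact (Nat.mul_le_mul (Nat.mul_le_mul_left 2 f3) (cH.trans (Nat.mul_le_mul
    (Nat.mul_le_mul cE (Nat.mul_le_mul cE (Nat.mul_le_mul cY cY))) cD))).trans (by norm_num)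

end CF.Wb
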