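import Cfsg.Agent.Wb.D0

/-! Powers of lifts of elements of the symplectic-type subgroup. -/

set_option autoImplicit false
set_option linter.unusedSectionVars false

namespace CF.Wb

open Matrix Subgroup CF.BG Module

variable {F : Type} [Field F] [Fintype F] {n : ℕ} {T : Ty F} {G : Type*} [Group G] [Finite G]

namespace DG

theorem ex_sm {A : GL (Fin n) F} (hA : A ∈ T.Γ n) {z : Fˣ} (hz : z ∈ T.Z) :
    ∃ B ∈ T.Γ n, cn B = cn A ∧ (B : R n F) = (z : F) • (A : R n F) := by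
  refine ⟨z • A, fun hu => ?_, cn_eq.2 ⟨z, rfl⟩, rfl⟩
  change T.st ((z : F) • (A : R n F)) * ((z : F) • (A : R n F)) = 1
  rw [T.st_smul, smul_mul_assoc, mul_smul_comm, hA hu, smul_smul, hz hu, one_smul]

theorem pow_cm {A B : R n F} {w : F} (h : B * A = w • (A * B)) (k : ℕ) :
    B ^ k * A = w ^ k • (A * B ^ k) := by
  induction k with
  | zero => simp
  | succ k ih =>
    rw [pow_succ, mul_assoc, h, mul_smul_comm, ← mul_assoc, ih, smul_mul_assoc, smul_smul,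
      mul_assoc, ← pow_succ, ← pow_succ']

theorem mul_pow' {A B : R n F} {w : F} (h : B * A = w • (A * B)) (k : ℕ) :
    (A * B) ^ k = w ^ k.choose 2 • (A ^ k * B ^ k) := by
  induction k with
  | zero => simp
  | succ k ih =>
    rw [pow_succ, ih, smul_mul_assoc, mul_assoc, ← mul_assoc (B ^ k), pow_cm h, smul_mul_assoc,
      mul_smul_comm, smul_smul, Nat.choose_succ_succ, Nat.choose_one_right, pow_add,
      mul_comm (w ^ k), pow_succ, pow_succ]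
    simp only [mul_assoc]

theorem rho_pow (m : Md T n G) (g : G) (a : R n F) (k : ℕ) : m.ρ g (a ^ k) = m.ρ g a ^ k := by
  induction k with
  | zero => simp [m.one]
  | succ k ih =>
    rcases m.lin_or g with h | ⟨h, -⟩
    · rw [pow_succ, h, ih, pow_succ]
    · rw [pow_succ, h, ih, pow_succ']

/-- some lift has the scalar `z` as `p`-th power -/
def Lf (m : Md T n G) (p : ℕ) (a : G) (z : F) : Prop :=
  ∃ W ∈ T.Γ n, m.ρ a = cn W ∧ (W : R n F) ^ p = z • 1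

variable {m : Md T n G} {p : ℕ} {a b : G} {z w : F}

theorem gd_iff : m.Gd p a ↔ Lf m p a (if p = 2 then -1 else 1) := by
  unfold Md.Gd Lf
  split_ifs <;> simp

theorem gd2 : m.Gd 2 a ↔ Lf m 2 a (-1) := by simpa using gd_iff (m := m) (p := 2) (a := a)

theorem Lf.mul (h : Commute a b) (ha : Lf m p a z) (hb : Lf m p b w) :
    Lf m p (a * b) (m.om b a ^ p.choose 2 * (z * w)) := by
  obtain ⟨A, hA, e1, a1⟩ := ha
  obtain ⟨B, hB, e2, b1⟩ := hb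
  refine ⟨A * B, mul_mem hA hB, by rw [map_mul, map_mul, e1, e2], ?_⟩
  rw [Units.val_mul, mul_pow' (m.om_spec h.symm hB hA e2 e1), a1, b1, smul_mul_assoc, one_mul,
    smul_smul, smul_smul, mul_assoc]

theorem Lf.sc (ha : Lf m p a z) {y : Fˣ} (hy : y ∈ T.Z) : Lf m p a ((y : F) ^ p * z) := by
  obtain ⟨A, hA, e1, a1⟩ := ha
  obtain ⟨B, hB, e2, b1⟩ := ex_sm hA hy
  exact ⟨B, hB, e1.trans e2.symm, by rw [b1, smul_pow, a1, smul_smul]⟩

theorem Lf.ex (ha : a ∈ m.M) (h : a ^ p = 1) : ∃ z ∈ T.Z, Lf m p a (z : F) := by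
  obtain ⟨A, hA, e1⟩ := m.mem_M.1 ha
  obtain ⟨z, hz⟩ := (cn_eq (A := A ^ p) (B := 1)).1 (by rw [map_pow, ← e1, ← map_pow, h, map_one,
    map_one])
  exact ⟨z, T.sc_mem_Z (OM.n1 m) (pow_mem hA p) (one_mem _) hz, A, hA, e1, by simpa using hz⟩

theorem Lf.uniq (ha : Lf m p a z) (hb : Lf m p a w) : ∃ y ∈ T.Z, z = (y : F) ^ p * w := by
  obtain ⟨A, hA, e1, a1⟩ := ha
  obtain ⟨B, hB, e2, b1⟩ := hb
  obtain ⟨y, hy⟩ := cn_eq.1 (e1.symm.trans e2)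
  refine ⟨y, T.sc_mem_Z (OM.n1 m) hA hB hy, OM.smul_inj (OM.n1 m) 1 ?_⟩
  rw [Units.val_one, ← a1, hy, smul_pow, b1, smul_smul]

theorem Lf.one : Lf m p 1 1 := ⟨1, one_mem _, by rw [map_one, map_one], by simp⟩

theorem Lf.pow (ha : Lf m p a z) (k : ℕ) : Lf m p (a ^ k) (z ^ k) := by
  obtain ⟨A, hA, e1, a1⟩ := ha
  refine ⟨A ^ k, pow_mem hA k, by rw [map_pow, map_pow, e1], ?_⟩
  rw [Units.val_pow_eq_pow_val, ← pow_mul, mul_comm, pow_mul, a1, smul_pow, one_pow]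

theorem Lf.inv (ha : Lf m p a 1) : Lf m p a⁻¹ 1 := by
  obtain ⟨A, hA, e1, a1⟩ := ha
  refine ⟨A⁻¹, inv_mem hA, by rw [map_inv, map_inv, e1], ?_⟩
  have : A ^ p = 1 := Units.ext (by simpa using a1)
  rw [← Units.val_pow_eq_pow_val, inv_pow, this, inv_one, Units.val_one, one_smul]

theorem Lf.conj (ha : Lf m p a 1) (g : G) : Lf m p (g * a * g⁻¹) 1 := by
  obtain ⟨A, hA, e1, a1⟩ := ha
  obtain ⟨B, b1, b2, -, b3, b4⟩ := m.th g A
  rw [one_smul] at a1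
  refine ⟨B, b2 hA, by rw [map_mul, map_mul, map_inv, e1, b1], ?_⟩
  rw [one_smul]
  rcases m.lin_or g with h | ⟨h, -⟩
  · rw [b3 h, ← rho_pow, a1, m.one]
  · have : B⁻¹ ^ p = 1 := Units.ext (by
      rw [Units.val_pow_eq_pow_val, b4 h, ← rho_pow, a1, m.one, Units.val_one])
    rw [inv_pow, inv_eq_one] at this
    rw [← Units.val_pow_eq_pow_val, this, Units.val_one]

theorem ex_gen (T : Ty F) : ∃ x ∈ T.Z, ∀ z ∈ T.Z, ∃ k : ℕ, x ^ k = z := by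
  obtain ⟨x, hx⟩ := IsCyclic.exists_monoid_generator (α := T.Z)
  refine ⟨x, x.2, fun z hz => ?_⟩
  obtain ⟨k, hk⟩ := hx ⟨z, hz⟩
  exact ⟨k, congrArg Subtype.val hk⟩

end DG

open DG

theorem Cx.NA.om_pow {c : Cx T n G} (h : c.NA) {a b : G} (ha : a ∈ c.D) (hb : b ∈ c.D) :
    c.m.om a b ^ c.p = 1 := by
  rw [← c.m.om_pow_left (c.D_M ha) (c.D_M hb) (h.comm a ha b hb), h.pow a ha, c.m.om_one_left]

theorem Cx.NA.good {c : Cx T n G} (h : c.NA) (h2 : c.p ≠ 2 ∨ ∃ i ∈ T.Z, (i : F) ^ 2 = -1) :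
    ∀ a ∈ c.D, c.m.Gd c.p a := by
  have hp := c.tw.pr
  have mul : ∀ a ∈ c.D, ∀ b ∈ c.D, ∀ z w : F, Lf c.m c.p a z → Lf c.m c.p b w →
      Lf c.m c.p (a * b) (z * w) := by
    intro a ha b hb z w h1 h3
    have h4 := h1.mul (h.comm a ha b hb) h3
    have h5 := h.om_pow hb ha
    by_cases e : c.p = 2
    · obtain ⟨i, hi, i2⟩ := h2.resolve_left (not_not.2 e)
      rw [e] at h4 h5 ⊢
      rw [Nat.choose_self, pow_one] at h4
      rcases sq_eq_one_iff.1 h5 with h6 | h6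
      · simpa [h6] using h4
      · simpa [h6, i2] using h4.sc hi
    · obtain ⟨k, hk⟩ := hp.dvd_choose_self two_ne_zero (lt_of_le_of_ne hp.two_le (Ne.symm e))
      rwa [hk, pow_mul, h5, one_pow, one_mul] at h4
  let E : Subgroup G :=
    { carrier := {a | a ∈ c.D ∧ Lf c.m c.p a 1}
      mul_mem' := fun {a b} ha hb => ⟨mul_mem ha.1 hb.1, by
        simpa using mul a ha.1 b hb.1 1 1 ha.2 hb.2⟩
      one_mem' := ⟨one_mem _, Lf.one⟩
      inv_mem' := fun {a} ha => ⟨inv_mem ha.1, ha.2.inv⟩ }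
  have hE : E ⊴ c.H := ⟨fun a ha => c.D_nrm.le ha.1, le_norm_iff.2 fun g hg a ha =>
    ⟨c.D_nrm.conj_mem hg ha.1, ha.2.conj g⟩⟩
  obtain ⟨Y, y1, y2, -, y4, y5⟩ := h.perp hE fun a ha => ha.1
  obtain ⟨x, hx, gen⟩ := ex_gen T
  have one : ∀ y ∈ Y, ∀ k : ℕ, c.p ∣ k → Lf c.m c.p y ((x : F) ^ k) → y = 1 := by
    rintro y hy _ ⟨k, rfl⟩ h1
    rw [← mem_bot, ← y4]
    refine ⟨⟨y2 hy, ?_⟩, hy⟩
    have := h1.sc (T.Z.inv_mem (T.Z.pow_mem hx k))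
    rwa [pow_mul', ← Units.val_pow_eq_pow_val x, ← mul_pow, Units.inv_mul, one_pow] at this
  have hY : Y = ⊥ := by
    refine h Y y1 (y2.trans c.D_Q) (y2.trans c.D_M)
      (c.m.ab_of (fun a ha b hb => h.comm a (y2 ha) b (y2 hb)) fun a ha b hb => ?_)
    by_cases a1 : a = 1
    · rw [a1, c.m.om_one_left]
    obtain ⟨z, hz, a2⟩ := Lf.ex (c.D_M (y2 ha)) (h.pow a (y2 ha))
    obtain ⟨w, hw, b2⟩ := Lf.ex (c.D_M (y2 hb)) (h.pow b (y2 hb))
    obtain ⟨s, rfl⟩ := gen z hz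
    obtain ⟨t, rfl⟩ := gen w hw
    rw [Units.val_pow_eq_pow_val] at a2 b2
    have := Fact.mk hp
    have s0 : (s : ZMod c.p) ≠ 0 := fun e =>
      a1 (one a ha s ((ZMod.natCast_eq_zero_iff _ _).1 e) a2)
    set k := (-(t : ZMod c.p) / s).val
    have e : a ^ k * b = 1 := by
      refine one _ (mul_mem (pow_mem ha k) hb) (s * k + t) ((ZMod.natCast_eq_zero_iff _ _).1 ?_) ?_
      · push_cast
        rw [ZMod.natCast_zmod_val]
        field_simp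
        ring
      · rw [pow_add, pow_mul]
        exact mul _ (pow_mem (y2 ha) k) _ (y2 hb) _ _ (a2.pow k) b2
    rw [eq_inv_of_mul_eq_one_right e, c.m.om_inv_right (c.D_M (y2 ha)) (pow_mem (c.D_M (y2 ha)) k)
      (Commute.self_pow a k), c.m.om_pow_right (c.D_M (y2 ha)) (c.D_M (y2 ha)) (Commute.refl a),
      c.m.om_self, one_pow, inv_one]
  intro a ha
  obtain ⟨e, he, y, hy, rfl⟩ := y5 a ha
  rw [hY, mem_bot] at hy
  rw [hy, mul_one, gd_iff]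
  split_ifs with e2
  · obtain ⟨i, hi, i2⟩ := h2.resolve_left (not_not.2 e2)
    have := he.2.sc hi
    rwa [mul_one, show (i : F) ^ c.p = -1 by rw [e2, i2]] at this
  · exact he.2

theorem DG.pm {m : Md T n G} (hi : ¬ ∃ i ∈ T.Z, (i : F) ^ 2 = -1) {a : G} (ha : a ∈ m.M)
    (h : a ^ 2 = 1) : Lf m 2 a 1 ∨ Lf m 2 a (-1) := by
  obtain ⟨x, hx, gen⟩ := ex_gen T
  obtain ⟨z, hz, a2⟩ := Lf.ex ha h
  obtain ⟨s, hs⟩ := gen _ T.neg_one_mem
  obtain ⟨t, rfl⟩ := gen z hz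
  obtain ⟨s, rfl | rfl⟩ := Nat.even_or_odd' s
  · exact (hi ⟨x ^ s, T.Z.pow_mem hx s, by
      rw [← Units.val_pow_eq_pow_val, ← pow_mul', hs]; rfl⟩).elim
  obtain ⟨t, rfl | rfl⟩ := Nat.even_or_odd' t
  · left
    have := a2.sc (T.Z.inv_mem (T.Z.pow_mem hx t))
    rwa [pow_mul', Units.val_pow_eq_pow_val (x ^ t), ← mul_pow, Units.inv_mul, one_pow] at this
  · right
    have := a2.sc (T.Z.mul_mem (T.Z.pow_mem hx s) (T.Z.inv_mem (T.Z.pow_mem hx t)))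
    rwa [← Units.val_pow_eq_pow_val, ← Units.val_mul,
      show (x ^ s * (x ^ t)⁻¹) ^ 2 * x ^ (2 * t + 1) = x ^ (2 * s + 1) by
        rw [mul_pow, inv_pow, ← pow_mul', ← pow_mul', pow_succ, pow_succ, mul_assoc,
          inv_mul_cancel_left], hs] at this

theorem DG.not_both {m : Md T n G} (hi : ¬ ∃ i ∈ T.Z, (i : F) ^ 2 = -1) {a : G}
    (h : Lf m 2 a 1) : ¬ m.Gd 2 a := fun h' => by
  obtain ⟨y, hy, e⟩ := (gd2.1 h').uniq h
  exact hi ⟨y, hy, by rw [e, mul_one]⟩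

theorem DG.ne_neg (hi : ¬ ∃ i ∈ T.Z, (i : F) ^ 2 = -1) : (-1 : F) ≠ 1 := fun h =>
  hi ⟨1, one_mem _, by simp [h]⟩

theorem Cx.NA.om_pm {c : Cx T n G} (h : c.NA) (h2 : c.p = 2) {a b : G} (ha : a ∈ c.D)
    (hb : b ∈ c.D) : c.m.om a b = 1 ∨ c.m.om a b = -1 :=
  sq_eq_one_iff.1 (h2 ▸ h.om_pow ha hb)

theorem Cx.NA.om_symm {c : Cx T n G} (h : c.NA) (h2 : c.p = 2) {a b : G} (ha : a ∈ c.D)
    (hb : b ∈ c.D) : c.m.om b a = c.m.om a b := by
  have h1 := c.m.om_swap (h.comm a ha b hb)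
  rcases h.om_pm h2 ha hb with e | e <;> rw [e] at h1 ⊢
  · simpa using h1
  · rw [neg_one_mul, neg_eq_iff_eq_neg] at h1
    exact h1

theorem Cx.NA.quad {c : Cx T n G} (h : c.NA) (h2 : c.p = 2) (hi : ¬ ∃ i ∈ T.Z, (i : F) ^ 2 = -1)
    {a b : G} (ha : a ∈ c.D) (hb : b ∈ c.D) :
    c.m.Gd 2 (a * b) ↔ ((c.m.Gd 2 a ↔ c.m.Gd 2 b) ↔ c.m.om a b ≠ 1) := by
  have hm := fun (z w : F) (h1 : Lf c.m 2 a z) (h3 : Lf c.m 2 b w) => h1.mul (h.comm a ha b hb) h3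
  simp only [Nat.choose_self, pow_one, h.om_symm h2 ha hb] at hm
  have n1 := ne_neg hi
  rcases DG.pm hi (c.D_M ha) (h2 ▸ h.pow a ha) with a1 | a1 <;>
    rcases DG.pm hi (c.D_M hb) (h2 ▸ h.pow b hb) with b1 | b1 <;>
    rcases h.om_pm h2 ha hb with e | e <;>
    have h4 := hm _ _ a1 b1 <;>
    simp only [e, mul_one, mul_neg, neg_neg] at h4 <;>
    simp [e, n1, not_both hi, gd2.2, a1, b1, h4]

end CF.Wb
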