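import Cfsg.Agent.Wb.B1

/-! Monomial matrices and the standard frame. -/

set_option autoImplicit false
set_option linter.unusedSectionVars false

namespace CF.Wb

open Matrix Subgroup CF.BG Module

variable {F : Type} [Field F] [Fintype F] {n : ℕ} {T : Ty F} {G : Type*} [Group G] [Finite G]

theorem dg_val (t : Fin n → Fˣ) :
    ((dg t : GL (Fin n) F) : R n F) = diagonal fun i => (t i : F) := rfl

theorem sg_inj {i j : Fin n} (h : (Matrix.single i i 1 : R n F) = Matrix.single j j 1) : i = j := by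
  by_contra h1
  have := congrFun (congrFun h i) i
  simp [Matrix.single, Ne.symm h1] at this

theorem ex_Pm {α : Equiv.Perm (R n F)} (h : α ∈ stb (fr n F)) : ∃ π, Pm α π := by
  have h1 : ∀ i : Fin n, ∃ j, Matrix.single j j 1 = α (Matrix.single i i 1) := fun i =>
    (h _).2 ⟨i, rfl⟩
  choose f hf using h1
  have h2 : Function.Injective f := fun i j h2 => sg_inj (F := F) (α.injective (by
    rw [← hf, ← hf, h2]))
  exact ⟨Equiv.ofBijective f (Finite.injective_iff_bijective.1 h2), fun i => (hf i).symm⟩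

theorem Pm.mul {α β : Equiv.Perm (R n F)} {π τ : Equiv.Perm (Fin n)} (h : Pm α π) (h' : Pm β τ) :
    Pm (α * β) (π * τ) := fun i => by rw [Equiv.Perm.mul_apply, h', h, Equiv.Perm.mul_apply]

theorem Pm.inv {α : Equiv.Perm (R n F)} {π : Equiv.Perm (Fin n)} (h : Pm α π) : Pm α⁻¹ π⁻¹ :=
  fun i => by
    rw [Equiv.Perm.inv_eq_iff_eq, h]
    simp

theorem Pm.uniq {α : Equiv.Perm (R n F)} {π τ : Equiv.Perm (Fin n)} (h : Pm α π) (h' : Pm α τ) :
    π = τ := Equiv.ext fun i => sg_inj (F := F) ((h i).symm.trans (h' i))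

theorem Pm.mem {α : Equiv.Perm (R n F)} {π : Equiv.Perm (Fin n)} (h : Pm α π) :
    α ∈ stb (fr n F) := mem_stb_of (by
  rintro _ ⟨i, rfl⟩
  exact ⟨π i, (h i).symm⟩)

theorem Pm.one : Pm (1 : Equiv.Perm (R n F)) 1 := fun _ => rfl

theorem Pm.pow {α : Equiv.Perm (R n F)} {π : Equiv.Perm (Fin n)} (h : Pm α π) (k : ℕ) :
    Pm (α ^ k) (π ^ k) := by
  induction k with
  | zero => simpa using Pm.one
  | succ k ih => simpa only [pow_succ] using ih.mul h

theorem cn_pm (π : Equiv.Perm (Fin n)) (a : R n F) : cn (pm F π) a = a.submatrix ⇑π⁻¹ ⇑π⁻¹ := by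
  change π⁻¹.permMatrix F * a * π.permMatrix F = _
  rw [PEquiv.toMatrix_toPEquiv_mul, PEquiv.mul_toMatrix_toPEquiv]
  rfl

theorem Pm_pm (π : Equiv.Perm (Fin n)) : Pm (cn (pm F π)) π := fun i => by
  rw [cn_pm]
  ext a b
  simp [Matrix.single, Equiv.eq_symm_apply]

theorem Pm_dg (t : Fin n → Fˣ) : Pm (cn (dg t)) 1 := fun i => by
  rw [cn_apply]
  change diagonal (fun i => (t i : F)) * _ * diagonal (fun i => (((t i)⁻¹ : Fˣ) : F)) = _
  ext a b
  by_cases h : i = a ∧ i = b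
  · obtain ⟨rfl, rfl⟩ := h
    simp
  · simp [Matrix.single, h]

theorem dg_of_diag {A : GL (Fin n) F} (h : ∀ i j, i ≠ j → (A : R n F) i j = 0) : ∃ t, A = dg t := by
  have h1 : (A : R n F) = diagonal fun i => (A : R n F) i i := by
    ext i j
    by_cases h1 : i = j
    · simp [h1]
    · simp [h1, h i j h1]
  have h2 : ∀ i, (A : R n F) i i ≠ 0 := fun i h2 => by
    have := congrFun (congrFun A.mul_inv i) i
    rw [h1] at this
    simp [h2] at this
  exact ⟨fun i => Units.mk0 _ (h2 i), Units.ext h1⟩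

theorem Pm.dg {A : GL (Fin n) F} (h : Pm (cn A) 1) : ∃ t, A = dg t := by
  refine dg_of_diag fun i j hij => ?_
  have h1 : (A : R n F) * Matrix.single j j 1 = Matrix.single j j (1 : F) * (A : R n F) := by
    have := congrArg (· * (A : R n F)) (h j)
    simpa [cn_apply, mul_assoc] using this
  simpa [hij] using congrFun (congrFun h1 i) j

theorem Pm.diag {α : Equiv.Perm (R n F)} {π : Equiv.Perm (Fin n)} (h : Pm α π)
    (ha : ∀ a b, α (a + b) = α a + α b) {σ : F → F} (hs : ∀ z a, α (z • a) = σ z • α a)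
    (d : Fin n → F) : α (diagonal d) = diagonal fun i => σ (d (π⁻¹ i)) := by
  have h1 := map_sum (AddMonoidHom.mk' α ha) (fun i => Matrix.single i i (d i)) Finset.univ
  rw [sum_single_eq_diagonal] at h1
  refine h1.trans ?_
  rw [← sum_single_eq_diagonal (fun i => σ (d (π⁻¹ i))), ← Equiv.sum_comp π
    (fun i => Matrix.single i i (σ (d (π⁻¹ i))))]
  refine Finset.sum_congr rfl fun i _ => ?_
  have h2 := hs (d i) (Matrix.single i i 1)
  rw [h] at h2
  simpa using h2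

theorem Pm.conj {A : GL (Fin n) F} {π : Equiv.Perm (Fin n)} (h : Pm (cn A) π) (t : Fin n → Fˣ) :
    A * Wb.dg t * A⁻¹ = Wb.dg fun i => t (π⁻¹ i) :=
  Units.ext (h.diag (σ := id) (fun a b => by simp [cn_apply, mul_add, add_mul])
    (fun z a => by simp [cn_apply]) _)

theorem dg_mul (s t : Fin n → Fˣ) : dg (s * t) = dg s * dg t := Units.ext (by simp [dg_val])

theorem dg_one : dg (1 : Fin n → Fˣ) = 1 := Units.ext (by simp [dg_val])

theorem dg_inv (t : Fin n → Fˣ) : dg t⁻¹ = (dg t)⁻¹ :=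
  eq_inv_of_mul_eq_one_left (by rw [← dg_mul, inv_mul_cancel, dg_one])

theorem dg_inj {s t : Fin n → Fˣ} (h : dg s = dg t) : s = t := funext fun i => Units.ext (by
  have h1 : ((dg s : GL (Fin n) F) : R n F) = (dg t : GL (Fin n) F) := by rw [h]
  simpa [dg_val] using congrFun (congrFun h1 i) i)

theorem dg_sc {t : Fin n → Fˣ} : Sc ((dg t : GL (Fin n) F) : R n F) ↔ ∀ i j, t i = t j := by
  constructor
  · rintro ⟨z, hz⟩ i j
    have h1 : ∀ i, (t i : F) = z := fun i => by simpa [dg_val] using congrFun (congrFun hz i) i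
    exact Units.ext ((h1 i).trans (h1 j).symm)
  · intro h
    rcases isEmpty_or_nonempty (Fin n) with h1 | ⟨⟨k⟩⟩
    · exact ⟨1, Subsingleton.elim _ _⟩
    · refine ⟨t k, ?_⟩
      rw [dg_val, smul_one_eq_diagonal]
      exact congrArg diagonal (funext fun i => by rw [h i k])

theorem Ty.dg_mem_Γ {t : Fin n → Fˣ} : dg t ∈ T.Γ n ↔ ∀ i, t i ∈ T.Z := by
  change (T.u → T.st (diagonal _) * diagonal _ = 1) ↔ ∀ i, T.u → _
  rw [forall_comm]
  refine forall_congr' fun _ => ?_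
  rw [Ty.st, diagonal_map (map_zero _), diagonal_transpose, diagonal_mul_diagonal, ← diagonal_one,
    diagonal_eq_diagonal_iff]

theorem Ty.dg_mem_S {t : Fin n → Fˣ} : dg t ∈ T.S n ↔ (∀ i, t i ∈ T.Z) ∧ ∏ i, t i = 1 := by
  rw [Ty.mem_S, Ty.dg_mem_Γ, dg_val, det_diagonal, ← Units.coe_prod, Units.val_eq_one]

theorem Ty.pm_mem_Γ (T : Ty F) (π : Equiv.Perm (Fin n)) : pm F π ∈ T.Γ n := fun _ => by
  have : T.st (π⁻¹.permMatrix F) = π.permMatrix F := by
    ext i j
    simp only [Ty.st, transpose_apply, map_apply, Equiv.Perm.permMatrix, PEquiv.toMatrix_apply,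
      Equiv.toPEquiv_apply, Option.mem_def, Option.some.injEq, Equiv.Perm.inv_eq_iff_eq,
      @eq_comm _ j]
    split_ifs <;> simp
  exact (congrArg (· * _) this).trans (pm F π).inv_mul

theorem Ty.pm_mem_S (T : Ty F) {π : Equiv.Perm (Fin n)} (h : Equiv.Perm.sign π = 1) :
    pm F π ∈ T.S n := Ty.mem_S.2 ⟨T.pm_mem_Γ π, by
  change (π⁻¹.permMatrix F).det = 1
  rw [det_permutation]
  simp [h]⟩

theorem Ty.card_mono (T : Ty F) : ♯(T.Γ n ⊓ PS (fr n F)) ≤ ♯T.Z ^ n * n.factorial := by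
  have h : ∀ A : (T.Γ n ⊓ PS (fr n F) : Subgroup _), ∃ x : (Fin n → T.Z) × Equiv.Perm (Fin n),
      (A : GL (Fin n) F) = pm F x.2 * dg fun i => x.1 i := fun A => by
    obtain ⟨A, hA⟩ := A
    obtain ⟨π, h⟩ := ex_Pm (α := cn A) (mem_comap.1 (mem_inf.1 hA).2)
    have h1 := (Pm_pm (F := F) π).inv.mul h
    rw [← map_inv, ← map_mul, inv_mul_cancel] at h1
    obtain ⟨t, ht⟩ := h1.dg
    have h2 : dg t ∈ T.Γ n := ht ▸ mul_mem (inv_mem (T.pm_mem_Γ π)) (mem_inf.1 hA).1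
    exact ⟨(fun i => ⟨t i, Ty.dg_mem_Γ.1 h2 i⟩, π), inv_mul_eq_iff_eq_mul.1 ht⟩
  choose f hf using h
  have h1 := Nat.card_le_card_of_injective f fun A B h => Subtype.ext (by rw [hf, hf, h])
  rwa [Nat.card_prod, Nat.card_fun, Nat.card_perm, Nat.card_fin] at h1

theorem diag_of_sep {E : Set (Fin n → Fˣ)} (hs : ∀ i j, i ≠ j → ∃ t ∈ E, t i ≠ t j) {a : R n F}
    (h : ∀ t ∈ E, a * (dg t : GL (Fin n) F) = (dg t : GL (Fin n) F) * a) :
    ∀ i j, i ≠ j → a i j = 0 := by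
  intro i j hij
  obtain ⟨t, ht, h1⟩ := hs i j hij
  have h2 := congrFun (congrFun (h t ht) i) j
  rw [dg_val, mul_diagonal, diagonal_mul, mul_comm] at h2
  exact (mul_eq_mul_right_iff.1 h2).resolve_left fun h3 => h1 (Units.ext h3.symm)

theorem mem_fr_of {a : R n F} (hd : ∀ i j, i ≠ j → a i j = 0) (hi : a * a = a) (hr : a.rank = 1) :
    a ∈ fr n F := by
  classical
  have h1 : a = diagonal fun i => a i i := by
    ext i j
    by_cases h1 : i = j
    · simp [h1]
    · simp [h1, hd i j h1]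
  rw [h1, rank_diagonal, Fintype.card_eq_one_iff] at hr
  obtain ⟨⟨i, h2⟩, h3⟩ := hr
  have h4 := congrFun (congrFun hi i) i
  rw [h1, diagonal_mul_diagonal, diagonal_apply_eq, diagonal_apply_eq] at h4
  refine ⟨i, ((diagonal_single i 1).symm.trans (congrArg diagonal (funext fun j => ?_))).trans h1.symm⟩
  by_cases h5 : j = i
  · rw [h5, Pi.single_eq_same]
    exact (mul_left_eq_self₀.1 h4).resolve_right h2 |>.symm
  · rw [Pi.single_eq_of_ne h5]
    by_contra h6
    exact h5 (congrArg Subtype.val (h3 ⟨j, Ne.symm h6⟩))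

theorem sep (h3 : 3 ≤ n) {E : Set (Fin n → Fˣ)}
    (hE : ∀ π : Equiv.Perm (Fin n), π.IsThreeCycle → ∀ t ∈ E, (fun i => t (π i)) ∈ E)
    (h : ∃ t ∈ E, ∃ i j, t i ≠ t j) : ∀ i j, i ≠ j → ∃ t ∈ E, t i ≠ t j := by
  intro i j hij
  by_contra! h1
  obtain ⟨t, ht, a, b, h2⟩ := h
  have h4 : ∀ k, t k = t j := fun k => by
    by_cases hi : k = i
    · exact hi ▸ h1 t ht
    by_cases hj : k = j
    · rw [hj]
    have := h1 _ (hE _ (Equiv.Perm.isThreeCycle_swap_mul_swap_same hij.symm (Ne.symm hj)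
      (Ne.symm hi)) t ht)
    simpa [Equiv.swap_apply_of_ne_of_ne, hij, hi, hj, Ne.symm hi] using this.symm
  exact h2 ((h4 a).trans (h4 b).symm)

theorem perm_cen (h4 : 4 ≤ n) {π : Equiv.Perm (Fin n)}
    (h : ∀ τ : Equiv.Perm (Fin n), τ.IsThreeCycle → Commute π τ) : π = 1 := by
  refine Equiv.ext fun i => ?_
  by_contra h1
  have h2 : 1 < (Finset.univ \ {i, π i}).card := by
    have := Finset.card_le_two (a := i) (b := π i)
    rw [Finset.card_univ_sdiff, Fintype.card_fin]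
    omega
  obtain ⟨k, hk, l, hl, h3⟩ := Finset.one_lt_card.1 h2
  simp only [Finset.mem_sdiff, Finset.mem_univ, Finset.mem_insert, Finset.mem_singleton, true_and,
    not_or] at hk hl
  have h5 := Equiv.congr_fun (h _ (Equiv.Perm.isThreeCycle_swap_mul_swap_same (Ne.symm hk.2)
    (Ne.symm hl.2) h3)).eq i
  have h6 : i ≠ π i := Ne.symm h1
  simp only [Equiv.Perm.mul_apply, Equiv.swap_apply_left,
    Equiv.swap_apply_of_ne_of_ne h6 (Ne.symm hl.1), Equiv.swap_apply_of_ne_of_ne h6 (Ne.symm hk.1),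
    Equiv.swap_apply_of_ne_of_ne hl.2 h3.symm] at h5
  exact hl.2 h5.symm

theorem Md.rho_dg (m : Md T n G) {g : G} {π : Equiv.Perm (Fin n)} (h : Pm (m.ρ g) π) {σ : F ≃+* F}
    (hs : ∀ (z : F) (a : R n F), m.ρ g (z • a) = σ z • m.ρ g a) (t : Fin n → Fˣ) :
    m.ρ g (dg t : GL (Fin n) F) = diagonal fun i => σ (t (π⁻¹ i) : F) :=
  h.diag (m.add g) hs _

end CF.Wb
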