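import Cfsg.Agent.Wb.F1
import Cfsg.Agent.Wb.CX

/-! Frames: the normal `p`-subgroup is diagonal; small cases. -/

set_option autoImplicit false
set_option linter.unusedSectionVars false

namespace CF.Wb

open Matrix Subgroup CF.BG Module

variable {F : Type} [Field F] [Fintype F] {n : ℕ} {T : Ty F} {G : Type*} [Group G] [Finite G]

theorem Cx.fr_pm (c : Cx T n G) (hF : c.H = c.m.St (fr n F)) {A : GL (Fin n) F}
    (hA : A ∈ c.m.lift c.H) : ∃ π, Pm (cn A) π := by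
  rw [hF] at hA
  exact ex_Pm (mem_comap.1 (c.m.lift_St_le _ hA))

theorem Cx.fr_mem (c : Cx T n G) (hF : c.H = c.m.St (fr n F)) {s : GL (Fin n) F} (hs : s ∈ T.S n)
    {π : Equiv.Perm (Fin n)} (h : Pm (cn s) π) : s ∈ c.m.lift c.H := by
  rw [hF]
  exact c.m.lift_St hs (mem_comap.2 h.mem)

theorem Cx.fq (c : Cx T n G) (hF : c.H = c.m.St (fr n F)) (h5 : 5 ≤ n) :
    ∀ A ∈ c.m.lift c.Q, ∃ t, A = dg t := by
  have := Fact.mk c.tw.pr
  let X : Subgroup (Equiv.Perm (Fin n)) :=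
    { carrier := {π | ∃ A ∈ c.m.lift c.Q, Pm (cn A) π}
      mul_mem' := by
        rintro _ _ ⟨A, hA, h⟩ ⟨B, hB, h'⟩
        exact ⟨A * B, mul_mem hA hB, by simpa only [map_mul] using h.mul h'⟩
      one_mem' := ⟨1, one_mem _, by simpa only [map_one] using Pm.one⟩
      inv_mem' := by
        rintro _ ⟨A, hA, h⟩
        exact ⟨A⁻¹, inv_mem hA, by simpa only [map_inv] using h.inv⟩ }
  have h1 : ∀ τ ∈ alternatingGroup (Fin n), ∀ π ∈ X, τ * π * τ⁻¹ ∈ X := by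
    rintro τ hτ π ⟨A, hA, h⟩
    refine ⟨_, c.m.lift_conj c.tw.Qn.norm (c.fr_mem hF (T.pm_mem_S hτ) (Pm_pm τ)) hA, ?_⟩
    simpa only [map_mul, map_inv] using ((Pm_pm τ).mul h).mul (Pm_pm τ).inv
  have h2 : ∀ π ∈ X, ∃ j, π ^ c.p ^ j = 1 := by
    rintro π ⟨A, hA, h⟩
    obtain ⟨j, hj⟩ := c.m.lift_pow c.tw.Qp hA
    have h3 := h.pow (c.p ^ j)
    rw [← map_pow, cn_eq_one.2 (by simpa using hj)] at h3
    exact ⟨j, h3.uniq Pm.one⟩
  have hs := alternatingGroup.isSimpleGroup (α := Fin n) (by simpa using h5)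
  have h3 : (X.subgroupOf (alternatingGroup (Fin n))).Normal :=
    ⟨fun π hπ τ => mem_subgroupOf.2 (h1 τ τ.2 π hπ)⟩
  intro A hA
  obtain ⟨π, hπ⟩ := c.fr_pm hF (c.m.lift_mono c.tw.Qn.le hA)
  suffices π = 1 from (this ▸ hπ).dg
  rcases h3.eq_bot_or_eq_top with h4 | h4
  · refine perm_cen (by omega) fun τ hτ => ?_
    have h6 : π ∈ X := ⟨A, hA, hπ⟩
    have h7 : (⟨π * τ * π⁻¹ * τ⁻¹, by simp [hτ.sign]⟩ : alternatingGroup (Fin n)) ∈
        X.subgroupOf (alternatingGroup (Fin n)) := by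
      have := mul_mem h6 (h1 τ hτ.mem_alternatingGroup _ (inv_mem h6))
      simpa only [mem_subgroupOf, mul_assoc] using this
    rw [h4, mem_bot, Subtype.ext_iff] at h7
    exact commutatorElement_eq_one_iff_commute.1 h7
  · exfalso
    have h6 : IsPGroup c.p (alternatingGroup (Fin n)) := fun x => by
      obtain ⟨j, hj⟩ := h2 x (mem_subgroupOf.1 (h4 ▸ mem_top x))
      exact ⟨j, Subtype.ext hj⟩
    have := h6.center_nontrivial
    obtain ⟨⟨x, hx⟩, h7⟩ := exists_ne (1 : center (alternatingGroup (Fin n)))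
    refine h7 (Subtype.ext (Subtype.ext (perm_cen (by omega) fun τ hτ => ?_)))
    exact (congrArg Subtype.val (mem_center_iff.1 hx ⟨τ, hτ.mem_alternatingGroup⟩)).symm

/-- difference operator on exponent vectors -/
def dfo (π : Equiv.Perm (Fin n)) (c : Fin n → ℤ) : Fin n → ℤ := fun i => c i - c (π⁻¹ i)

/-- difference of two basis vectors -/
def dfv (j k : Fin n) : Fin n → ℤ := fun l => (if l = j then 1 else 0) - if l = k then 1 else 0

theorem dfo_ex (h3 : 3 ≤ n) (h4 : n ≤ 4) (π : Equiv.Perm (Fin n)) : π ≠ 1 → ∃ j k i,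
    0 < (dfo π (dfo π (dfo π (dfv j k))) i).natAbs ∧
      (dfo π (dfo π (dfo π (dfv j k))) i).natAbs ≤ 4 := by
  obtain rfl | rfl : n = 3 ∨ n = 4 := by omega
  · revert π
    decide +kernel
  · revert π
    decide +kernel

theorem prod_dfv (z : Fˣ) (j k : Fin n) : ∏ i, z ^ dfv j k i = 1 := by
  simp only [dfv, _root_.zpow_sub, Finset.prod_mul_distrib]
  simp [apply_ite (z ^ · : ℤ → Fˣ)]

theorem Ty.dl (h3 : 3 ≤ n) (h4 : n ≤ 4) {π : Equiv.Perm (Fin n)} (hπ : π ≠ 1)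
    {δ : (Fin n → Fˣ) → Fin n → Fˣ} (hδ : ∀ t i, δ t i = t i * (t (π⁻¹ i))⁻¹)
    (h : ∀ t : Fin n → Fˣ, (∀ i, t i ∈ T.Z) → ∏ i, t i = 1 → δ (δ (δ t)) = 1) : ♯T.Z ≤ 4 := by
  obtain ⟨j, k, i, h1, h2⟩ := dfo_ex h3 h4 π hπ
  refine (Ty.card_Z_le h1 fun z hz => ?_).trans h2
  have h5 : ∀ c : Fin n → ℤ, δ (fun i => z ^ c i) = fun i => z ^ dfo π c i := fun c =>
    funext fun i => by rw [hδ, dfo, _root_.zpow_sub]
  have h6 := congrFun (h (fun i => z ^ dfv j k i) (fun i => zpow_mem hz _) (prod_dfv z j k)) i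
  rw [h5, h5, h5] at h6
  exact (pow_natAbs_eq_one).2 h6

theorem Cx.fb (c : Cx T n G) (hF : c.H = c.m.St (fr n F)) (h4 : n ≤ 4) (hZ : ♯T.Z ≤ 4) : c.Bd := by
  have h1 : T.f ≤ 2 := by
    have h1 := T.pow_le_q
    have h2 : T.q ≤ 5 := by
      by_cases hu : T.u
      · have := Ty.card_ZU hu
        omega
      · have := Ty.card_ZL hu
        omega
    by_contra h3
    have := Nat.pow_le_pow_right two_pos (show 3 ≤ T.f by omega)
    omega
  have h2 : ♯(c.H ⊓ c.m.M) ≤ 4 ^ 4 * Nat.factorial 4 := by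
    refine (Nat.le_mul_of_pos_right _ Nat.card_pos).trans ((c.m.card_lift c.H).le.trans ?_)
    refine (card_le_of_le (le_inf inf_le_left ?_)).trans (T.card_mono.trans (Nat.mul_le_mul
      ((Nat.pow_le_pow_left hZ n).trans (Nat.pow_le_pow_right (by norm_num) h4))
      (Nat.factorial_le h4)))
    rw [hF]
    exact c.m.lift_St_le _
  refine (c.m.card_le_M c.H).trans (le_trans ?_ (Bn_ge c.tw.d4))
  exact (Nat.mul_le_mul (Nat.mul_le_mul_left 2 h1) h2).trans (by decide)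

end CF.Wb
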