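import Cfsg.Agent.Wb.A

/-! Wielandt bound: finite field facts. -/

set_option autoImplicit false
set_option linter.unusedSectionVars false

namespace CF.Wb

open Matrix Subgroup CF.BG Module

variable {F : Type} [Field F] [Fintype F] {n : ℕ} {T : Ty F} {G : Type*} [Group G] [Finite G]

theorem Ty.char (T : Ty F) : _root_.CharP F T.r := by
  haveI : Fact T.r.Prime := ⟨T.pr⟩
  by_cases hu : T.u
  · exact charP_of_card_eq_prime_pow ((T.cU hu).trans (pow_mul _ _ _).symm)
  · exact charP_of_card_eq_prime_pow (T.cL hu)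

theorem Ty.pow_le_q (T : Ty F) : 2 ^ T.f ≤ T.q := Nat.pow_le_pow_left T.pr.two_le _

theorem Ty.q2 (T : Ty F) : 2 ≤ T.q :=
  le_trans (by simpa using Nat.pow_le_pow_right (show 0 < 2 by omega) T.f1) T.pow_le_q

namespace HB

theorem bar_eq (hu : T.u) (a : F) : T.bar a = a ^ T.q := T.bU hu a

theorem card_u (hu : T.u) : Nat.card Fˣ = (T.q + 1) * (T.q - 1) := by
  have := T.q2
  rw [Nat.card_units, Nat.card_eq_fintype_card, T.cU hu, ← Nat.sq_sub_sq, one_pow]; rfl

theorem ker1 (hu : T.u) : ♯(powMonoidHom (T.q - 1) : Fˣ →* Fˣ).ker = T.q - 1 := by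
  rw [IsCyclic.card_powMonoidHom_ker, card_u hu, Nat.gcd_mul_left_left]

theorem mem1 (hu : T.u) {a : Fˣ} :
    a ∈ (powMonoidHom (T.q - 1) : Fˣ →* Fˣ).ker ↔ T.bar a = a := by
  have := T.q2
  rw [MonoidHom.mem_ker, powMonoidHom_apply, bar_eq hu, ← Units.val_pow_eq_pow_val, Units.val_inj]
  obtain ⟨k, hk⟩ : ∃ k, T.q = k + 1 := ⟨T.q - 1, by omega⟩
  simp [hk, pow_succ]

theorem aut_equiv {p f : ℕ} [Fact p.Prime] (hF : Fintype.card F = p ^ f) :
    IsCyclic (RingAut F) ∧ Nat.card (RingAut F) = f := by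
  haveI := charP_of_card_eq_prime_pow hF
  letI := ZMod.algebra F p
  let e : RingAut F ≃* Gal(F/ZMod p) :=
    { toFun := fun σ => AlgEquiv.ofRingEquiv (f := σ) fun a =>
        DFunLike.congr_fun (RingHom.ext_zmod ((σ : F →+* F).comp (algebraMap (ZMod p) F)) _) a
      invFun := fun σ => σ.toRingEquiv
      left_inv := fun σ => rfl
      right_inv := fun σ => rfl
      map_mul' := fun _ _ => rfl }
  refine ⟨isCyclic_of_surjective e.symm e.symm.surjective, ?_⟩
  rw [Nat.card_congr e.toEquiv, IsGalois.card_aut_eq_finrank]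
  have := Module.card_eq_pow_finrank (K := ZMod p) (V := F)
  rw [hF, ZMod.card] at this
  exact (Nat.pow_right_injective (Fact.out : p.Prime).two_le this).symm

end HB

open HB

theorem Ty.bar_bar (hu : T.u) (a : F) : T.bar (T.bar a) = a := by
  rw [T.bU hu, T.bU hu, ← pow_mul, ← sq, ← T.cU hu, FiniteField.pow_card]

theorem Ty.card_fix (hu : T.u) : Nat.card {a : F // T.bar a = a} = T.q := by
  classical
  have := T.q2
  have e : {a : F // T.bar a = a} ≃ Option (powMonoidHom (T.q - 1) : Fˣ →* Fˣ).ker :=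
    { toFun := fun a => if h : a.1 = 0 then none else some ⟨Units.mk0 a.1 h, (mem1 hu).2 a.2⟩
      invFun := fun a => a.elim ⟨0, map_zero _⟩ fun b => ⟨b.1, (mem1 hu).1 b.2⟩
      left_inv := fun a => by
        by_cases h : a.1 = 0
        · simp only [dif_pos h, Option.elim]; exact Subtype.ext h.symm
        · simp only [dif_neg h, Option.elim]; rfl
      right_inv := fun a => by
        cases a with
        | none => simp
        | some b => simp }
  rw [Nat.card_congr e, Finite.card_option, ker1 hu]; omega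

theorem Ty.ex_nb (hu : T.u) : ∃ a : F, T.bar a ≠ a := by
  by_contra! c
  have h := T.card_fix hu
  have := T.q2
  rw [Nat.card_congr (Equiv.subtypeUnivEquiv c), Nat.card_eq_fintype_card, T.cU hu] at h
  change T.q ^ 2 = T.q at h
  nlinarith

theorem Ty.ex_norm (hu : T.u) {b : F} (hb : T.bar b = b) : ∃ a : F, a * T.bar a = b := by
  have := T.q2
  by_cases h : b = 0
  · exact ⟨0, by simp [h]⟩
  have e : (powMonoidHom (T.q + 1) : Fˣ →* Fˣ).range = (powMonoidHom (T.q - 1) : Fˣ →* Fˣ).ker := by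
    refine Subgroup.eq_of_le_of_card_ge ?_ ?_
    · rintro _ ⟨a, rfl⟩
      rw [MonoidHom.mem_ker, powMonoidHom_apply, powMonoidHom_apply, ← pow_mul, ← card_u hu,
        pow_card_eq_one']
    · rw [ker1 hu, IsCyclic.card_powMonoidHom_range, card_u hu, Nat.gcd_mul_right_left,
        Nat.mul_div_cancel_left _ (by omega)]
  obtain ⟨a, ha⟩ := e.ge ((mem1 hu (a := Units.mk0 b h)).2 hb)
  exact ⟨a, by simpa [bar_eq hu, pow_succ'] using congrArg Units.val ha⟩

theorem Ty.ex_skew (hu : T.u) : ∃ γ : F, γ ≠ 0 ∧ T.bar γ = -γ := by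
  obtain ⟨a, ha⟩ := T.ex_nb hu
  exact ⟨a - T.bar a, sub_ne_zero.2 ha.symm, by rw [map_sub, T.bar_bar hu, neg_sub]⟩

theorem Ty.ex_tr (hu : T.u) {b : F} (hb : T.bar b = b) : ∃ c : F, c + T.bar c = b := by
  obtain ⟨c, hc⟩ : ∃ c, c + T.bar c ≠ 0 := by
    by_contra! c
    obtain ⟨a, ha⟩ := T.ex_nb hu
    have h1 := c 1
    rw [map_one] at h1
    exact ha (by linear_combination c a - a * h1)
  refine ⟨b / (c + T.bar c) * c, ?_⟩
  rw [map_mul, map_div₀, map_add, T.bar_bar hu, hb, add_comm (T.bar c), ← mul_add,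
    div_mul_cancel₀ _ hc]

theorem Ty.fix2 (hu : T.u) (hq : T.q = 2) {a : F} (ha : T.bar a = a) : a = 0 ∨ a = 1 := by
  rw [bar_eq hu, hq] at ha
  exact (mul_eq_zero.1 (show a * (a - 1) = 0 by linear_combination ha)).imp_right sub_eq_zero.1

theorem Ty.ex_skew' (hu : T.u) (hq : T.q ≠ 2) : ∃ γ : F, γ ≠ 0 ∧ γ ≠ 1 ∧ T.bar γ = -γ := by
  obtain ⟨γ, h1, h2⟩ := T.ex_skew hu
  by_cases h : γ = 1
  swap
  · exact ⟨γ, h1, h, h2⟩
  have := T.q2
  have : Nontrivial (powMonoidHom (T.q - 1) : Fˣ →* Fˣ).ker :=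
    Finite.one_lt_card_iff_nontrivial.1 (by rw [ker1 hu]; omega)
  obtain ⟨b, hb⟩ := exists_ne (1 : (powMonoidHom (T.q - 1) : Fˣ →* Fˣ).ker)
  refine ⟨b.1, b.1.ne_zero, fun c => hb (Subtype.ext (Units.ext c)), ?_⟩
  rw [h, map_one] at h2
  rw [(mem1 hu).1 b.2]
  linear_combination (b.1 : F) * h2

theorem Ty.aut_bar (hu : T.u) (σ : F ≃+* F) (a : F) : σ (T.bar a) = T.bar (σ a) := by
  rw [T.bU hu, T.bU hu, map_pow]

theorem Ty.aut_fix (hu : T.u) (σ : F ≃+* F) (h : ∀ a, T.bar a = a → σ a = a) :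
    σ = RingEquiv.refl F ∨ σ = T.bar := by
  have k : ∀ x, σ x = x ∨ σ x = T.bar x := fun x => by
    have h1 := h (x + T.bar x) (by rw [map_add, T.bar_bar hu, add_comm])
    have h2 := h (x * T.bar x) (by rw [map_mul, T.bar_bar hu, mul_comm])
    rw [map_add] at h1
    rw [map_mul] at h2
    exact (mul_eq_zero.1 (show (σ x - x) * (σ x - T.bar x) = 0 by
      linear_combination σ x * h1 - h2)).imp sub_eq_zero.1 sub_eq_zero.1
  obtain ⟨a, ha⟩ := T.ex_nb hu
  refine (k a).imp (fun e => RingEquiv.ext fun x => ?_) fun e => RingEquiv.ext fun x => ?_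
  all_goals
    have h1 := k (x + a)
    rw [map_add, map_add, e] at h1
  · rcases k x with h2 | h2
    · exact h2
    · exact h1.elim add_right_cancel fun c => (ha (add_left_cancel (h2 ▸ c)).symm).elim
  · rcases k x with h2 | h2
    · exact h1.elim (fun c => (ha (by linear_combination c - h2)).elim) add_right_cancel
    · exact h2

theorem Ty.aut_Z (σ : F ≃+* F) (h : ∀ z ∈ T.Z, σ (z : F) = z) : σ = RingEquiv.refl F := by
  by_cases hu : T.u
  swap
  · refine RingEquiv.ext fun x => ?_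
    by_cases hx : x = 0
    · simp [hx]
    · exact h (Units.mk0 x hx) fun c => (hu c).elim
  have k : ∀ a, σ a * T.bar a = a * T.bar (σ a) := fun a => by
    by_cases ha : a = 0
    · simp [ha]
    have hb : T.bar a ≠ 0 := by simpa using ha
    have := h (Units.mk0 (a / T.bar a) (div_ne_zero ha hb)) fun _ => by
      simp only [Units.val_mk0, map_div₀, T.bar_bar hu]; field_simp
    rwa [Units.val_mk0, map_div₀, T.aut_bar hu, div_eq_div_iff (by simpa using ha) hb] at this
  have k2 : ∀ a, T.bar a ≠ a → σ a = a := fun a ha => by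
    have h1 := k (a + 1)
    simp only [map_add, map_one] at h1
    exact sub_eq_zero.1 ((mul_eq_zero.1 (show (σ a - a) * (T.bar a - a) = 0 by
      linear_combination (1 + a) * k a - a * h1)).resolve_right (sub_ne_zero.2 ha))
  obtain ⟨a, ha⟩ := T.ex_nb hu
  refine RingEquiv.ext fun x => ?_
  by_cases hx : T.bar x = x
  · have := k2 (x + a) (by rw [map_add, hx]; simpa using ha)
    rw [map_add, k2 a ha] at this
    exact add_right_cancel this
  · exact k2 x hx

theorem Ty.card_ZL (hu : ¬ T.u) : ♯T.Z + 1 = T.q := by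
  have := T.q2
  rw [show T.Z = ⊤ from eq_top_iff.2 fun _ _ c => (hu c).elim, card_top, Nat.card_units,
    Nat.card_eq_fintype_card, T.cL hu]
  change T.q - 1 + 1 = _
  omega

theorem Ty.card_ZU (hu : T.u) : ♯T.Z = T.q + 1 := by
  have : T.Z = (powMonoidHom (T.q + 1) : Fˣ →* Fˣ).ker := by
    ext z
    rw [MonoidHom.mem_ker, powMonoidHom_apply, ← Units.val_inj, Units.val_pow_eq_pow_val, pow_succ,
      ← bar_eq hu]
    exact ⟨fun h => h hu, fun h _ => h⟩
  rw [this, IsCyclic.card_powMonoidHom_ker, card_u hu, Nat.gcd_mul_right_left]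

theorem Ty.card_autL (hu : ¬ T.u) : Nat.card (RingAut F) = T.f :=
  haveI : Fact T.r.Prime := ⟨T.pr⟩
  (aut_equiv (T.cL hu)).2

theorem Ty.card_autU (hu : T.u) : Nat.card (RingAut F) = 2 * T.f :=
  haveI : Fact T.r.Prime := ⟨T.pr⟩
  (aut_equiv ((T.cU hu).trans (pow_mul' _ _ _).symm)).2

theorem aut_cyc : IsCyclic (RingAut F) := by
  obtain ⟨p, -, f, hp, hF⟩ := FiniteField.card' F
  haveI : Fact p.Prime := ⟨hp⟩
  exact (aut_equiv hF).1

theorem Ty.card_Z_le {k : ℕ} (hk : 0 < k) (h : ∀ z ∈ T.Z, z ^ k = 1) : ♯T.Z ≤ k := by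
  refine (card_le_of_le (K := (powMonoidHom k : Fˣ →* Fˣ).ker) h).trans ?_
  rw [IsCyclic.card_powMonoidHom_ker]
  exact Nat.gcd_le_right _ hk

theorem Ty.neg_one_mem (T : Ty F) : -1 ∈ T.Z := fun _ => by simp

end CF.Wb
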