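import Cfsg.Agent.Wb.HB

/-! Wielandt bound: Hermitian linear algebra. -/

set_option autoImplicit false
set_option linter.unusedSectionVars false

namespace CF.Wb

open Matrix Subgroup CF.BG Module

variable {F : Type} [Field F] [Fintype F] {n : ℕ} {T : Ty F} {G : Type*} [Group G] [Finite G]

theorem mem_rg {a : R n F} {v : V n F} : v ∈ rg a ↔ ∃ w, a *ᵥ w = v := by
  simp only [rg, LinearMap.mem_range, toLin'_apply]

theorem mem_kr {a : R n F} {v : V n F} : v ∈ kr a ↔ a *ᵥ v = 0 := by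
  simp only [kr, LinearMap.mem_ker, toLin'_apply]

theorem mem_mp {a : R n F} {U : Submodule F (V n F)} {v : V n F} :
    v ∈ mp a U ↔ ∃ w ∈ U, a *ᵥ w = v := by
  simp only [mp, Submodule.mem_map, toLin'_apply]

theorem mp_le {a : R n F} {U W : Submodule F (V n F)} : mp a U ≤ W ↔ ∀ w ∈ U, a *ᵥ w ∈ W :=
  ⟨fun h w hw => h (mem_mp.2 ⟨w, hw, rfl⟩), fun h _ hv => by
    obtain ⟨w, hw, rfl⟩ := mem_mp.1 hv
    exact h w hw⟩

theorem mem_rg_id {ε : R n F} (h : ε * ε = ε) {v : V n F} : v ∈ rg ε ↔ ε *ᵥ v = v :=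
  mem_rg.trans ⟨by rintro ⟨w, rfl⟩; rw [mulVec_mulVec, h], fun h => ⟨v, h⟩⟩

theorem finrank_rg (a : R n F) : finrank F (rg a) = a.rank := rfl

theorem finrank_mp (A : GL (Fin n) F) (U : Submodule F (V n F)) :
    finrank F (mp (A : R n F) U) = finrank F U :=
  (Submodule.equivMapOfInjective _ (mulVec_injective_of_isUnit A.isUnit) U).finrank_eq.symm

theorem rank_add_rank {ε : R n F} (h : ε * ε = ε) : ε.rank + (1 - ε).rank = n := by
  have e : rg (1 - ε) = kr ε := Submodule.ext fun v => by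
    rw [mem_rg_id (by simp [mul_sub, sub_mul, h]), mem_kr, sub_mulVec, one_mulVec, sub_eq_self]
  rw [← finrank_rg (1 - ε), e]
  exact (LinearMap.finrank_range_add_finrank_ker (toLin' ε)).trans (by simp)

theorem ex_fun {U : Submodule F (V n F)} {v : V n F} (h : v ∉ U) :
    ∃ φ : V n F, φ ⬝ᵥ v = 1 ∧ ∀ w ∈ U, φ ⬝ᵥ w = 0 := by
  obtain ⟨f, h1, h2⟩ := U.exists_dual_map_eq_bot_of_notMem h inferInstance
  obtain ⟨φ, rfl⟩ := (dotProductEquiv F (Fin n)).surjective f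
  refine ⟨(φ ⬝ᵥ v)⁻¹ • φ, (smul_dotProduct _ _ _).trans (inv_mul_cancel₀ h1), fun w hw => ?_⟩
  rw [smul_dotProduct, show φ ⬝ᵥ w = 0 from h2.le ⟨w, hw, rfl⟩, smul_zero]

theorem dg_const (z : Fˣ) : ((dg (fun _ : Fin n => z) : GL (Fin n) F) : R n F) = (z : F) • 1 :=
  (smul_one_eq_diagonal _).symm

namespace HV

/-- image of a subspace under a field automorphism -/
def sm (σ : F ≃+* F) (U : Submodule F (V n F)) : Submodule F (V n F) where
  carrier := {v | σ.symm ∘ v ∈ U}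
  add_mem' {a b} ha hb := by
    have := U.add_mem ha hb
    rwa [show σ.symm ∘ a + σ.symm ∘ b = σ.symm ∘ (a + b) by ext; simp] at this
  zero_mem' := by
    have := U.zero_mem
    rwa [show (0 : V n F) = σ.symm ∘ (0 : V n F) by ext; simp] at this
  smul_mem' c a ha := by
    have := U.smul_mem (σ.symm c) ha
    rwa [show σ.symm c • σ.symm ∘ a = σ.symm ∘ (c • a) by ext; simp] at this

theorem mem_sm {σ : F ≃+* F} {U : Submodule F (V n F)} {v : V n F} :
    v ∈ sm σ U ↔ σ.symm ∘ v ∈ U := Iff.rfl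

theorem symm_comp (σ : F ≃+* F) (v : V n F) : σ.symm ∘ σ ∘ v = v := by ext; simp

theorem comp_symm (σ : F ≃+* F) (v : V n F) : σ ∘ σ.symm ∘ v = v := by ext; simp

theorem comp_mem_sm {σ : F ≃+* F} {U : Submodule F (V n F)} {v : V n F} :
    σ ∘ v ∈ sm σ U ↔ v ∈ U := by rw [mem_sm, symm_comp]

theorem finrank_sm (σ : F ≃+* F) (U : Submodule F (V n F)) : finrank F (sm σ U) = finrank F U := by
  have e : sm σ U ≃ U :=
    ⟨fun v => ⟨_, v.2⟩, fun v => ⟨_, comp_mem_sm.2 v.2⟩, fun v => Subtype.ext (comp_symm σ v.1),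
      fun v => Subtype.ext (symm_comp σ v.1)⟩
  have := Nat.card_congr e
  rw [natCard_eq_pow_finrank (K := F), natCard_eq_pow_finrank (K := F) (V := U)] at this
  exact Nat.pow_right_injective (Finite.one_lt_card (α := F)) this

theorem map_mulVec (σ : F ≃+* F) (a : R n F) (v : V n F) :
    a.map σ *ᵥ (σ ∘ v) = σ ∘ (a *ᵥ v) :=
  funext fun i => (RingHom.map_mulVec (σ : F →+* F) a v i).symm

theorem map_dot (σ : F ≃+* F) (v w : V n F) : (σ ∘ v) ⬝ᵥ (σ ∘ w) = σ (v ⬝ᵥ w) :=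
  (RingHom.map_dotProduct (σ : F →+* F) v w).symm

theorem rank_map (σ : F ≃+* F) (a : R n F) : (a.map σ).rank = a.rank := by
  suffices h : rg (a.map σ) = sm σ (rg a) by rw [← finrank_rg, h, finrank_sm, finrank_rg]
  ext v
  rw [mem_sm, mem_rg, mem_rg]
  exact ⟨by rintro ⟨w, rfl⟩; exact ⟨σ.symm ∘ w, by rw [← comp_symm σ w, map_mulVec]; simp [symm_comp]⟩,
    fun ⟨w, h⟩ => ⟨σ ∘ w, by rw [map_mulVec, h, comp_symm]⟩⟩

/-- annihilator for the dot product -/
def an (U : Submodule F (V n F)) : Submodule F (V n F) :=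
  U.dualAnnihilator.comap (dotProductEquiv F (Fin n)).toLinearMap

theorem mem_an {U : Submodule F (V n F)} {φ : V n F} : φ ∈ an U ↔ ∀ w ∈ U, φ ⬝ᵥ w = 0 :=
  Submodule.mem_dualAnnihilator _

theorem finrank_an (U : Submodule F (V n F)) : finrank F U + finrank F (an U) = n := by
  rw [an, Submodule.comap_equiv_eq_map_symm, LinearEquiv.finrank_map_eq,
    Subspace.finrank_add_finrank_dualAnnihilator_eq]
  simp

theorem an_an (U : Submodule F (V n F)) : an (an U) = U := by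
  have h1 := finrank_an U
  have h2 := finrank_an (an U)
  exact (Submodule.eq_of_le_of_finrank_eq (fun v hv => mem_an.2 fun w hw =>
    (dotProduct_comm _ _).trans (mem_an.1 hw v hv)) (by omega)).symm

theorem bv_eq (T : Ty F) (v : V n F) : T.bv v = T.bar ∘ v := rfl

end HV

open HV

theorem Ty.bv_dot (T : Ty F) (v w : V n F) : T.bv w ⬝ᵥ v = T.h v w := dotProduct_comm _ _

theorem Ty.h_symm (hu : T.u) (a b : V n F) : T.h b a = T.bar (T.h a b) := by
  simp [Ty.h, Ty.bv, dotProduct, T.bar_bar hu, mul_comm]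

theorem Ty.h_add_left (T : Ty F) (a b c : V n F) : T.h (a + b) c = T.h a c + T.h b c :=
  add_dotProduct _ _ _

theorem Ty.h_add_right (T : Ty F) (a b c : V n F) : T.h a (b + c) = T.h a b + T.h a c := by
  simp [Ty.h, Ty.bv, dotProduct, mul_add, Finset.sum_add_distrib]

theorem Ty.h_smul_left (T : Ty F) (z : F) (a b : V n F) : T.h (z • a) b = z * T.h a b :=
  smul_dotProduct _ _ _

theorem Ty.h_smul_right (T : Ty F) (z : F) (a b : V n F) : T.h a (z • b) = T.bar z * T.h a b := by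
  simp [Ty.h, Ty.bv, dotProduct, Finset.mul_sum, mul_left_comm]

theorem Ty.h_mulVec (hu : T.u) (a : R n F) (v w : V n F) : T.h (a *ᵥ v) w = T.h v (T.st a *ᵥ w) := by
  have : T.bv (T.st a *ᵥ w) = aᵀ *ᵥ T.bv w := by
    rw [bv_eq, ← map_mulVec]
    congr 1
    ext i j
    simp [Ty.st, T.bar_bar hu]
  rw [Ty.h, Ty.h, this, mulVec_transpose, dotProduct_comm, dotProduct_mulVec, dotProduct_comm]

theorem Ty.h_nd (T : Ty F) {w : V n F} (h : ∀ v, T.h v w = 0) : w = 0 :=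
  funext fun i => by simpa [Ty.h, Ty.bv] using h (Pi.single i 1)

theorem Ty.ex_bv (T : Ty F) (φ : V n F) : ∃ w, T.bv w = φ := ⟨_, comp_symm T.bar φ⟩

theorem Ty.st_st (hu : T.u) (a : R n F) : T.st (T.st a) = a := by
  ext; simp [Ty.st, T.bar_bar hu]

theorem Ty.st_add (T : Ty F) (a b : R n F) : T.st (a + b) = T.st a + T.st b := by
  ext; simp [Ty.st]

theorem Ty.st_sub (T : Ty F) (a b : R n F) : T.st (a - b) = T.st a - T.st b := by
  ext; simp [Ty.st]

theorem Ty.st_smul (T : Ty F) (z : F) (a : R n F) : T.st (z • a) = T.bar z • T.st a := by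
  ext; simp [Ty.st]

theorem Ty.st_vv (T : Ty F) (v φ : V n F) :
    T.st (vecMulVec v φ) = vecMulVec (T.bv φ) (T.bv v) := by
  ext; simp [Ty.st, Ty.bv, vecMulVec_apply, mul_comm]

theorem Ty.st_rank (T : Ty F) (a : R n F) : (T.st a).rank = a.rank :=
  (rank_transpose _).trans (rank_map _ _)

theorem Ty.st_inv (hu : T.u) {A : GL (Fin n) F} (hA : A ∈ T.Γ n) :
    T.st (A : R n F) = ((A⁻¹ : GL (Fin n) F) : R n F) := by
  rw [← mul_one (T.st (A : R n F)), ← A.mul_inv, ← mul_assoc, hA hu, one_mul]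

theorem Ty.h_Γ (hu : T.u) {A : GL (Fin n) F} (hA : A ∈ T.Γ n) (v w : V n F) :
    T.h ((A : R n F) *ᵥ v) ((A : R n F) *ᵥ w) = T.h v w := by
  rw [T.h_mulVec hu, mulVec_mulVec, hA hu, one_mulVec]

theorem Ty.mem_S {A : GL (Fin n) F} : A ∈ T.S n ↔ A ∈ T.Γ n ∧ (A : R n F).det = 1 :=
  and_congr_right fun _ => Units.ext_iff

theorem Ty.det_mem_Z {A : GL (Fin n) F} (hA : A ∈ T.Γ n) :
    Matrix.GeneralLinearGroup.det A ∈ T.Z := fun hu => by
  have := congrArg det (hA hu)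
  rw [det_mul, Ty.st, det_transpose, det_one] at this
  exact (congrArg (· * _) (T.bar.map_det _)).trans this

theorem Ty.conj_S {A s : GL (Fin n) F} (hA : A ∈ T.Γ n) (hs : s ∈ T.S n) : A * s * A⁻¹ ∈ T.S n :=
  mem_inf.2 ⟨mul_mem (mul_mem hA hs.1) (inv_mem hA), (MonoidHom.normal_ker _).conj_mem _ hs.2 _⟩

theorem Ty.comm_S {A B : GL (Fin n) F} (hA : A ∈ T.Γ n) (hB : B ∈ T.Γ n) :
    A * B * A⁻¹ * B⁻¹ ∈ T.S n :=
  mem_inf.2 ⟨mul_mem (mul_mem (mul_mem hA hB) (inv_mem hA)) (inv_mem hB), by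
    rw [MonoidHom.mem_ker, map_mul, map_mul, map_mul, map_inv, map_inv,
      mul_inv_cancel_comm, mul_inv_cancel]⟩

theorem Ty.mem_perp {U : Submodule F (V n F)} {v : V n F} :
    v ∈ T.perp U ↔ ∀ w ∈ U, T.h v w = 0 := Iff.rfl

theorem Ty.finrank_perp (T : Ty F) (U : Submodule F (V n F)) :
    finrank F U + finrank F (T.perp U) = n := by
  have : T.perp U = an (sm T.bar U) := Submodule.ext fun v => by
    rw [mem_an]
    exact ⟨fun h w hw => comp_symm T.bar w ▸ h _ hw, fun h w hw => h _ (comp_mem_sm.2 hw)⟩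
  rw [this, ← finrank_sm T.bar U, finrank_an]

theorem Ty.perp_perp (hu : T.u) (U : Submodule F (V n F)) : T.perp (T.perp U) = U := by
  have h1 := T.finrank_perp U
  have h2 := T.finrank_perp (T.perp U)
  exact (Submodule.eq_of_le_of_finrank_eq (fun v hv w hw => by
    rw [T.h_symm hu, hw v hv, map_zero]) (by omega)).symm

theorem Ty.perp_anti (T : Ty F) {U W : Submodule F (V n F)} (h : U ≤ W) : T.perp W ≤ T.perp U :=
  fun _ hv w hw => hv w (h hw)

namespace HV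

theorem perp_sup (T : Ty F) (U W : Submodule F (V n F)) : T.perp (U ⊔ W) = T.perp U ⊓ T.perp W :=
  le_antisymm (le_inf (T.perp_anti le_sup_left) (T.perp_anti le_sup_right)) fun v hv w hw => by
    obtain ⟨a, ha, b, hb, rfl⟩ := Submodule.mem_sup.1 hw
    rw [T.h_add_right, hv.1 a ha, hv.2 b hb, add_zero]

theorem mem_perp_span {v a : V n F} : v ∈ T.perp (F ∙ a) ↔ T.h v a = 0 :=
  ⟨fun h => h a (Submodule.mem_span_singleton_self a), fun h w hw => by
    obtain ⟨c, rfl⟩ := Submodule.mem_span_singleton.1 hw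
    rw [T.h_smul_right, h, mul_zero]⟩

theorem h_nd' (hu : T.u) {v : V n F} (h : ∀ w, T.h v w = 0) : v = 0 :=
  T.h_nd fun w => by rw [T.h_symm hu, h, map_zero]

theorem h_swap (hu : T.u) {a b : V n F} : T.h a b = 0 ↔ T.h b a = 0 := by
  rw [T.h_symm hu a b, map_eq_zero]

theorem h_fix (hu : T.u) (a : V n F) : T.bar (T.h a a) = T.h a a := (T.h_symm hu a a).symm

theorem h_sub_left (T : Ty F) (a b c : V n F) : T.h (a - b) c = T.h a c - T.h b c :=
  sub_dotProduct _ _ _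

theorem h_sub_right (T : Ty F) (a b c : V n F) : T.h a (b - c) = T.h a b - T.h a c :=
  eq_sub_of_add_eq (by rw [← T.h_add_right, sub_add_cancel])

theorem h_zero_left (T : Ty F) (a : V n F) : T.h 0 a = 0 := zero_dotProduct _

theorem h_zero_right (T : Ty F) (a : V n F) : T.h a 0 = 0 := by simp [Ty.h, Ty.bv, dotProduct]

end HV

theorem Ty.perp_inf (hu : T.u) (U W : Submodule F (V n F)) :
    T.perp (U ⊓ W) = T.perp U ⊔ T.perp W := by
  rw [← T.perp_perp hu (_ ⊔ _), perp_sup, T.perp_perp hu, T.perp_perp hu]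

theorem Ty.perp_mp (hu : T.u) {A : GL (Fin n) F} (hA : A ∈ T.Γ n) (U : Submodule F (V n F)) :
    T.perp (mp (A : R n F) U) = mp (A : R n F) (T.perp U) := by
  have h1 := T.finrank_perp U
  have h2 := T.finrank_perp (mp (A : R n F) U)
  refine (Submodule.eq_of_le_of_finrank_eq (mp_le.2 fun v hv w hw => ?_)
    (by rw [finrank_mp] at h2 ⊢; omega)).symm
  obtain ⟨x, hx, rfl⟩ := mem_mp.1 hw
  rw [T.h_Γ hu hA, hv x hx]

theorem Ty.perp_rg (hu : T.u) (a : R n F) : T.perp (rg a) = kr (T.st a) := by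
  have e : ∀ v w, T.h (T.st a *ᵥ v) w = T.h v (a *ᵥ w) := fun v w => by
    rw [T.h_mulVec hu, T.st_st hu]
  ext v
  rw [mem_kr]
  refine ⟨fun h => h_nd' hu fun w => (e v w).trans (h _ (mem_rg.2 ⟨w, rfl⟩)), fun h w hw => ?_⟩
  obtain ⟨w, rfl⟩ := mem_rg.1 hw
  rw [← e, h, h_zero_left]

theorem Ty.zero_diag (hu : T.u) (a : R n F) {U : Submodule F (V n F)}
    (h : ∀ v ∈ U, T.h (a *ᵥ v) v = 0) : ∀ v ∈ U, ∀ w ∈ U, T.h (a *ᵥ v) w = 0 := fun v hv w hw => by
  obtain ⟨c, hc⟩ := T.ex_nb hu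
  have h1 := h _ (U.add_mem hv hw)
  have h2 := h _ (U.add_mem hv (U.smul_mem c hw))
  simp only [mulVec_add, mulVec_smul, T.h_add_left, T.h_add_right, T.h_smul_left, T.h_smul_right,
    h v hv, h w hw] at h1 h2
  exact (mul_eq_zero.1 (show (T.bar c - c) * T.h (a *ᵥ v) w = 0 by
    linear_combination h2 - c * h1)).resolve_left (sub_ne_zero.2 hc)

theorem Ty.ex_val (hu : T.u) {X : Submodule F (V n F)} (hX : ¬ X ≤ T.perp X) {b : F}
    (hb : T.bar b = b) (h0 : b ≠ 0) : ∃ v ∈ X, T.h v v = b := by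
  obtain ⟨v, hv, h⟩ : ∃ v ∈ X, T.h v v ≠ 0 := by
    by_contra! c
    exact hX fun v hv w hw => by simpa using T.zero_diag hu 1 (by simpa using c) v hv w hw
  obtain ⟨c, hc⟩ := T.ex_norm hu (b := b / T.h v v) (by rw [map_div₀, hb, h_fix hu])
  exact ⟨c • v, X.smul_mem c hv, by
    rw [T.h_smul_left, T.h_smul_right, ← mul_assoc, hc, div_mul_cancel₀ _ h]⟩

theorem Ty.Id.nd (hu : T.u) {ε : R n F} (h : T.Id ε) : rg ε ⊓ T.perp (rg ε) = ⊥ :=
  eq_bot_iff.2 fun v hv => by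
    have h1 := hv.2
    rw [T.perp_rg hu, h.2 hu] at h1
    exact ((mem_rg_id h.1).1 hv.1).symm.trans (mem_kr.1 h1)

theorem Ty.Id.compl {ε : R n F} (h : T.Id ε) : T.Id (1 - ε) :=
  ⟨by simp [mul_sub, sub_mul, h.1], fun hu => by rw [T.st_sub, T.st_one, h.2 hu]⟩

/-- `x + c w` is isotropic for a suitable `c` -/
theorem Ty.ex_iso (hu : T.u) {x w : V n F} (hw : T.h w w = 0) (hx : T.h x w ≠ 0) :
    ∃ c : F, T.h (x + c • w) (x + c • w) = 0 := by
  obtain ⟨e, he⟩ := T.ex_tr hu (b := -T.h x x) (by rw [map_neg, h_fix hu])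
  refine ⟨T.bar (e / T.h x w), ?_⟩
  simp only [T.h_add_left, T.h_add_right, T.h_smul_left, T.h_smul_right, hw, T.bar_bar hu]
  rw [T.h_symm hu x w, ← map_mul, div_mul_cancel₀ _ hx]
  linear_combination he

/-- irreducibility modulo the radical -/
theorem Ty.hi (hu : T.u) {X U : Submodule F (V n F)} (h1 : X ⊓ T.perp X ≤ U) (h2 : U ≤ X)
    (h : ∀ v ∈ X, T.h v v = 0 → v ∈ U ∨ v ∈ T.perp U) : U = X ⊓ T.perp X ∨ U = X := by
  by_cases c : U ≤ T.perp U
  · refine .inl (le_antisymm (le_inf h2 fun r hr x hx => ?_) h1)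
    by_contra e
    have e1 := c hr r hr
    obtain ⟨z, hz⟩ := T.ex_iso hu e1 (mt (h_swap hu).1 e)
    rcases h _ (X.add_mem hx (X.smul_mem z (h2 hr))) hz with e2 | e2
    · exact e (c hr x ((U.add_mem_iff_left (U.smul_mem z hr)).1 e2))
    · have := e2 r hr
      rw [T.h_add_left, T.h_smul_left, e1, mul_zero, add_zero] at this
      exact e ((h_swap hu).1 this)
  obtain ⟨a, ha, e⟩ := T.ex_val hu c (map_one _) one_ne_zero
  have k : ∀ y ∈ X, y ∉ U → T.h y a = 0 → y ∈ T.perp U ∧ T.h y y = 0 := fun y hy h3 h4 => by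
    obtain ⟨z, hz⟩ := T.ex_norm hu (b := -T.h y y) (by rw [map_neg, h_fix hu])
    have h5 : T.h (y + z • a) (y + z • a) = 0 := by
      simp only [T.h_add_left, T.h_add_right, T.h_smul_left, T.h_smul_right, h4, (h_swap hu).1 h4, e]
      linear_combination hz
    have h6 := (h _ (X.add_mem hy (X.smul_mem z (h2 ha))) h5).resolve_left
      (mt (U.add_mem_iff_left (U.smul_mem z ha)).1 h3)
    have h7 := h6 a ha
    rw [T.h_add_left, T.h_smul_left, h4, e, zero_add, mul_one] at h7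
    rw [h7, zero_smul, add_zero] at h5 h6
    exact ⟨h6, h5⟩
  have p : ∀ w, T.h (w - T.h w a • a) a = 0 := fun w => by
    rw [h_sub_left, T.h_smul_left, e, mul_one, sub_self]
  have pX : ∀ w ∈ X, w - T.h w a • a ∈ X ⊓ T.perp (F ∙ a) := fun w hw =>
    ⟨X.sub_mem hw (X.smul_mem _ (h2 ha)), mem_perp_span.2 (p w)⟩
  refine .inr (le_antisymm h2 fun x hx => (U.sub_mem_iff_left (U.smul_mem (T.h x a) ha)).1 ?_)
  by_contra hy
  have y0 := pX x hx
  refine hy (h1 ⟨y0.1, fun w hw => ?_⟩)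
  have := T.zero_diag hu 1 (U := X ⊓ T.perp (F ∙ a)) (fun v hv => by
    rw [one_mulVec]
    by_cases hv' : v ∈ U
    · exact ((T.perp U).add_mem_iff_left (k _ y0.1 hy (p x)).1).1 (k _ (X.add_mem hv.1 y0.1)
        (mt (U.add_mem_iff_right hv').1 hy)
        (by rw [T.h_add_left, p, mem_perp_span.1 hv.2, add_zero])).1 v hv'
    · exact (k v hv.1 hv' (mem_perp_span.1 hv.2)).2) _ y0 _ (pX w hw)
  rwa [one_mulVec, h_sub_right, T.h_smul_right, p, mul_zero, sub_zero] at this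

end CF.Wb
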