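import Cfsg.Agent.Wb.B1
import Cfsg.Agent.Wb.IR1

/-! Wielandt bound: uniqueness of allowed maps and construction of the model. -/

set_option autoImplicit false
set_option linter.unusedSectionVars false

namespace CF.Wb

open Matrix Subgroup CF.BG Module HV UN B0

variable {F : Type} [Field F] [Fintype F] {n : ℕ} {T : Ty F} {G : Type*} [Group G] [Finite G]

namespace I0

/-- the group of allowed maps -/
def ag (T : Ty F) (n : ℕ) : Subgroup (Equiv.Perm (R n F)) where
  carrier := {α | T.Al α}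
  mul_mem' := Ty.Al.mul
  one_mem' := by simpa using Ty.Al.cn (one_mem (T.Γ n))
  inv_mem' := Ty.Al.inv

/-- the universal model -/
def md (ok : T.Ok n) : Md T n (ag T n) :=
  ⟨(ag T n).subtype, Subtype.val_injective, ok, fun g => g.2,
    fun _ hs => ⟨⟨_, Ty.Al.cn hs.1⟩, rfl⟩⟩

theorem sq (hu : T.u) (h3 : 3 ≤ n) : ∃ μ : F → R n F, (∀ z, T.Un (μ z) ∧ IsNilpotent (μ z)) ∧
    μ 1 * μ 1 ≠ 0 ∧ ∀ z, μ 1 * μ z = z • (μ 1 * μ 1) := by
  obtain ⟨w, φ, ⟨h0, h1, h2, h⟩, -⟩ := T.ex_tv (IR.id_one T (n := n)) (by rw [rank_one]; simp; omega)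
  obtain ⟨γ, -, rfl⟩ := h hu
  have hw : T.h w w = 0 := by
    rw [smul_dotProduct, T.bv_dot, smul_eq_mul, mul_eq_zero] at h2
    exact h2.resolve_left fun c => h1 (by rw [c, zero_smul])
  obtain ⟨v, hv, e⟩ := T.ex_val hu (X := T.perp (F ∙ w)) (fun c => by
    have h4 := T.finrank_perp (F ∙ w)
    have h5 := Submodule.finrank_mono c
    rw [T.perp_perp hu] at h5
    rw [finrank_span_singleton h0] at h4 h5
    omega) (map_one _) one_ne_zero
  rw [mem_perp_span] at hv
  have hv' := (h_swap hu).1 hv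
  have hc : ∀ z : F, ∃ c : F, c + T.bar c = T.h (z • v) (z • v) := fun z => T.ex_tr hu (h_fix hu _)
  choose c hc using hc
  have k : ∀ z x, (T.ei w ((1 : F) • v) (c 1) * T.ei w (z • v) (c z)) *ᵥ x = -(z * T.h x w) • w :=
    fun z x => by
      rw [← mulVec_mulVec, T.ei_mulVec w (z • v), T.ei_mulVec]
      simp only [h_sub_left, T.h_smul_left, T.h_smul_right, one_smul, hw, hv, hv', e]
      module
  refine ⟨fun z => T.ei w (z • v) (c z), fun z => T.ei_un hu hw (by
    rw [T.h_smul_left, hv, mul_zero]) (hc z), fun c => h0 (T.h_nd fun x => ?_), fun z =>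
      ext_iff_mulVec.2 fun x => ?_⟩
  · have := k 1 x
    rw [c, zero_mulVec, eq_comm, smul_eq_zero] at this
    simpa using this.resolve_right h0
  · rw [smul_mulVec, k, k]
    module

end I0

open I0

theorem Ty.Al.uniq (ok : T.Ok n) {α : Equiv.Perm (R n F)} (h : T.Al α)
    (h' : ∀ s ∈ T.S n, α * Wb.cn s * α⁻¹ = Wb.cn s) : α = 1 := by
  let m := md ok
  let e : ag T n := ⟨α, h⟩
  have k : ∀ ν : R n F, T.Un ν → IsNilpotent ν →
      (m.Lin e ∧ α ν = ν) ∨ (m.Du e ∧ (1 + α ν) * (1 + ν) = 1) := fun ν ⟨A, hA, eA⟩ hn =>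
    (m.comm_un (e := e) (k := ⟨_, Ty.Al.cn hA.1⟩) hn eA rfl).1
      (Subtype.ext (mul_inv_eq_iff_eq_mul.1 (h' A hA)))
  have r1 : 2 ≤ (1 : R n F).rank := by rw [rank_one]; simpa using ok.n2
  rcases m.lin_or e with hl | ⟨hd, hu, h3⟩
  · have k1 : ∀ ν : R n F, T.Un ν → IsNilpotent ν → α ν = ν := fun ν a b =>
      ((k ν a b).resolve_right fun c => m.not_lin_du hl c.1).2
    obtain ⟨A, hA, σ, ea⟩ := m.ex_lin hl
    replace ea : ∀ a, α a = Wb.cn A (a.map σ) := ea
    have sm : ∀ (z : F) (a : R n F), α (z • a) = σ z • α a := fun z a => by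
      rw [ea, ea, B0.map_smul, cn_smul]
    have hs : ∃ a : R n F, a ≠ 0 ∧ ∀ z : F, α (z • a) = z • a := by
      by_cases hu : T.u
      · obtain ⟨μ, h1, h2, h3⟩ := sq hu (ok.n3 hu)
        refine ⟨_, h2, fun z => ?_⟩
        rw [← h3]
        exact (hl _ _).trans (congrArg₂ _ (k1 _ (h1 1).1 (h1 1).2) (k1 _ (h1 z).1 (h1 z).2))
      · obtain ⟨v, φ, t, -⟩ := T.ex_tv (IR.id_one T) r1
        refine ⟨_, t.ne, fun z => ?_⟩
        have : (z • vecMulVec v φ) * (z • vecMulVec v φ) = 0 := by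
          rw [smul_mul_smul, t.sq, smul_zero]
        exact k1 _ (T.skew_un this fun c => (hu c).elim) ⟨2, by rw [pow_two, this]⟩
    obtain ⟨a, a0, ha⟩ := hs
    obtain rfl : σ = RingEquiv.refl F := RingEquiv.ext fun z => smul_left_injective F a0 (by
      have := ha 1
      rw [one_smul] at this
      simp only [RingEquiv.refl_apply]
      rw [← ha z, sm, this])
    obtain ⟨z, hz⟩ := T.cen (IR.id_one T) r1 (a := A) fun v φ t _ =>
      (Units.mul_inv_eq_iff_eq_mul A).1
        ((ea _).symm.trans (k1 _ t.un ⟨2, (pow_two _).trans t.sq⟩))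
    rw [← cn_eq_one.2 ⟨z, (mul_one _).symm.trans hz⟩]
    exact Equiv.ext ea
  · have k1 : ∀ i j : Fin n, i ≠ j → α (single i j 1) = -single i j 1 := fun i j hij => by
      have h2 : (single i j 1 : R n F) * single i j 1 = 0 := single_mul_single_of_ne _ _ _ _ hij.symm _
      have := ((k _ (T.skew_un h2 fun c => (hu c).elim) ⟨2, by rw [pow_two, h2]⟩).resolve_left
        fun c => m.not_lin_du c.1 hd).2
      have h4 : (1 + single i j 1 : R n F) * (1 - single i j 1) = 1 := by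
        rw [add_mul, mul_sub, mul_sub, h2]; simp
      have h5 := congrArg (· * (1 - single i j 1)) this
      simp only [mul_assoc, h4, mul_one, one_mul] at h5
      rw [sub_eq_add_neg] at h5
      exact add_left_cancel h5
    let i : Fin n := ⟨0, by omega⟩
    let j : Fin n := ⟨1, by omega⟩
    let l : Fin n := ⟨2, by omega⟩
    have h5 : α (single i j 1 * single j l 1) = α (single j l 1) * α (single i j 1) := hd _ _
    rw [single_mul_single_same, mul_one, k1 i l (by simp [i, l]), k1 j l (by simp [j, l]),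
      k1 i j (by simp [i, j]), neg_mul_neg,
      single_mul_single_of_ne _ _ _ _ (show l ≠ i by simp [i, l])] at h5
    simpa using congrFun (congrFun h5 i) l

theorem Ty.Al.uniq' (ok : T.Ok n) {α β : Equiv.Perm (R n F)} (h : T.Al α) (h1 : T.Al β)
    (h' : ∀ x : (T.S n).map Wb.cn, α * (x : Equiv.Perm (R n F)) * α⁻¹ = β * x * β⁻¹) : α = β :=
  (inv_mul_eq_one.1 ((h1.inv.mul h).uniq ok fun s hs => by
    have := h' ⟨_, mem_map_of_mem _ hs⟩
    simp only at this
    rw [_root_.mul_inv_rev, inv_inv, mul_assoc β⁻¹, ← mul_assoc _ α⁻¹, mul_assoc β⁻¹, this]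
    group)).symm

theorem build (ok : T.Ok n) (N : Subgroup G) (hN : N.Normal) (hc : 𝐂 N = ⊥)
    (ψ : N ≃* (T.S n).map cn) (hs : ∀ β : MulAut ((T.S n).map cn),
    ∃ α : Equiv.Perm (R n F), T.Al α ∧
      ∀ x : (T.S n).map cn, (β x : Equiv.Perm (R n F)) = α * (x : Equiv.Perm (R n F)) * α⁻¹) :
    ∃ m : Md T n G, m.N = N := by
  choose a h1 h2 using hs
  let b : G →* MulAut ((T.S n).map cn) := (MulAut.congr ψ).toMonoidHom.comp MulAut.conjNormal
  let ρ : G →* Equiv.Perm (R n F) := MonoidHom.mk' (fun g => a (b g)) fun g k =>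
    (h1 _).uniq' ok ((h1 _).mul (h1 _)) fun x => by
      rw [← h2, map_mul, MulAut.mul_apply, h2, h2]; group
  have inj : Function.Injective ρ := (injective_iff_map_eq_one ρ).2 fun g hg => by
    rw [← Subgroup.mem_bot, ← hc]
    intro x hx
    have := h2 (b g) (ψ ⟨x, hx⟩)
    rw [show a (b g) = 1 from hg, one_mul, inv_one, mul_one] at this
    have h3 : MulAut.conjNormal g (⟨x, hx⟩ : N) = ⟨x, hx⟩ :=
      ψ.injective (by simpa [b] using Subtype.ext this)
    exact (mul_inv_eq_iff_eq_mul.1 (congrArg Subtype.val h3)).symm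
  have e : ∀ g : N, ρ g = ψ g := fun g => by
    obtain ⟨s, hs, es⟩ := (ψ g).2
    refine (h1 _).uniq' ok (es ▸ Ty.Al.cn hs.1) fun x => ?_
    rw [← h2]
    obtain ⟨y, rfl⟩ := ψ.surjective x
    have : b g (ψ y) = ψ (g * y * g⁻¹) := by
      simp only [b, MonoidHom.comp_apply, MulEquiv.coe_toMonoidHom, MulAut.congr_apply,
        MulEquiv.trans_apply, MulEquiv.symm_apply_apply]
      rfl
    rw [this]; simp
  refine ⟨⟨ρ, inj, ok, fun g => h1 _, fun s hs =>
    ⟨ψ.symm ⟨_, mem_map_of_mem _ hs⟩, by rw [e]; simp⟩⟩, Subgroup.ext fun g => ⟨fun hg => ?_,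
      fun hg => ?_⟩⟩
  · have : ρ g = ρ (ψ.symm ⟨ρ g, hg⟩) := by rw [e]; simp
    rw [inj this]
    exact Subtype.property _
  · change ρ g ∈ (T.S n).map cn
    rw [e ⟨g, hg⟩]
    exact Subtype.property _

end CF.Wb
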