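import Cfsg.Agent.Wb.IR1

/-! A group normalised by `Se ε` and reducible on the range of `ε` is scalar there. -/

set_option autoImplicit false
set_option linter.unusedSectionVars false

namespace CF.Wb

open Matrix Subgroup CF.BG Module HV UN

variable {F : Type} [Field F] [Fintype F] {n : ℕ} {T : Ty F} {G : Type*} [Group G] [Finite G]

namespace IR

theorem ex_ker {Y : Submodule F (V n F)} {a b : V n F} (ha : a ∈ Y) (hb : b ∈ Y) (h0 : a ≠ 0)
    (h : b ∉ F ∙ a) (φ : V n F) : ∃ y ∈ Y, y ≠ 0 ∧ φ ⬝ᵥ y = 0 := by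
  by_cases h1 : φ ⬝ᵥ a = 0
  · exact ⟨a, ha, h0, h1⟩
  refine ⟨b - ((φ ⬝ᵥ b) / (φ ⬝ᵥ a)) • a, sub_mem hb (Y.smul_mem _ ha), fun e => h ?_, ?_⟩
  · exact Submodule.mem_span_singleton.2 ⟨_, (sub_eq_zero.1 e).symm⟩
  · rw [dotProduct_sub, dotProduct_smul, smul_eq_mul, div_mul_cancel₀ _ h1, sub_self]

/-- a block of dimension at least two is everything -/
theorem blk {ε : R n F} (he : T.Id ε) {Y : Submodule F (V n F)} (hY : Y ≤ rg ε) {a b : V n F}
    (ha : a ∈ Y) (hb : b ∈ Y) (h0 : a ≠ 0) (h : b ∉ F ∙ a)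
    (hs : ∀ s ∈ T.Se ε, ∀ y ∈ Y, y ≠ 0 → (s : R n F) *ᵥ y = y → mp (s : R n F) Y ≤ Y) :
    Y = rg ε := by
  refine (Ty.irrS he hY fun v φ t s x hx => ?_).resolve_left fun e => h0 (by simpa [e] using ha)
  obtain ⟨A, hA, e⟩ := t.se s
  obtain ⟨y, hy, y0, y1⟩ := ex_ker ha hb h0 h φ
  have := mp_le.1 (hs A hA y hy y0 (by rw [tv_vec e, y1, zero_smul, add_zero])) x hx
  rw [tv_vec e] at this
  simpa using sub_mem this hx

theorem Se_rg {ε : R n F} (he : T.Id ε) {s : GL (Fin n) F} (hs : s ∈ T.Se ε) {x : V n F}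
    (hx : x ∈ rg ε) : (s : R n F) *ᵥ x ∈ rg ε := by
  rw [mem_rg_id he.1] at *
  rw [mulVec_mulVec, ← Ty.Se_comm hs (.inr rfl), ← mulVec_mulVec, hx]

theorem conj_vec (s w : GL (Fin n) F) (x : V n F) : (w : R n F) *ᵥ (s : R n F) *ᵥ x =
    (s : R n F) *ᵥ ((s⁻¹ * w * s⁻¹⁻¹ : GL (Fin n) F) : R n F) *ᵥ x := by
  rw [mulVec_mulVec, mulVec_mulVec, ← Units.val_mul, ← Units.val_mul]
  congr 2
  group

theorem gl_ne (s : GL (Fin n) F) {x : V n F} (h : x ≠ 0) : (s : R n F) *ᵥ x ≠ 0 := fun e =>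
  h (mulVec_injective_of_isUnit s.isUnit (e.trans (mulVec_zero _).symm))

/-- common eigenvector -/
def Ev (W : Subgroup (GL (Fin n) F)) (a : V n F) : Prop :=
  ∀ w ∈ W, ∃ z : F, (w : R n F) *ᵥ a = z • a

theorem Ev.se {ε : R n F} {W : Subgroup (GL (Fin n) F)}
    (hn : ∀ s ∈ T.Se ε, ∀ w ∈ W, s * w * s⁻¹ ∈ W) {a : V n F} (h : Ev W a) {s : GL (Fin n) F}
    (hs : s ∈ T.Se ε) : Ev W ((s : R n F) *ᵥ a) := fun w hw => by
  obtain ⟨z, hz⟩ := h _ (hn _ (inv_mem hs) w hw)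
  exact ⟨z, by rw [conj_vec, hz, mulVec_smul]⟩

/-- two independent eigenvectors with the same character -/
theorem same {ε : R n F} (he : T.Id ε) {W : Subgroup (GL (Fin n) F)}
    (hn : ∀ s ∈ T.Se ε, ∀ w ∈ W, s * w * s⁻¹ ∈ W) {a b : V n F} (ha : a ∈ rg ε) (hb : b ∈ rg ε)
    (h0 : a ≠ 0) (h : b ∉ F ∙ a) (e : Ev W a)
    (hs : ∀ w ∈ W, ∀ z : F, (w : R n F) *ᵥ a = z • a → (w : R n F) *ᵥ b = z • b) :
    ∀ w ∈ W, ScOn (w : R n F) ε := by
  let Y : Submodule F (V n F) :=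
    { carrier := {x | x ∈ rg ε ∧ ∀ w ∈ W, ∀ z : F, (w : R n F) *ᵥ a = z • a →
        (w : R n F) *ᵥ x = z • x}
      add_mem' := fun h1 h2 => ⟨add_mem h1.1 h2.1, fun w hw z hz => by
        rw [mulVec_add, h1.2 w hw z hz, h2.2 w hw z hz, smul_add]⟩
      zero_mem' := ⟨zero_mem _, by simp⟩
      smul_mem' := fun c _ h1 => ⟨Submodule.smul_mem _ _ h1.1, fun w hw z hz => by
        rw [mulVec_smul, h1.2 w hw z hz, smul_comm]⟩ }
  have hY : Y = rg ε := blk he (fun _ h => h.1) (a := a) (b := b) ⟨ha, fun _ _ _ h => h⟩ ⟨hb, hs⟩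
    h0 h fun s h1 y hy y0 y1 => mp_le.2 fun x hx => ⟨Se_rg he h1 hx.1, fun w hw z hz => by
      have hw' := hn _ (inv_mem h1) w hw
      obtain ⟨z', hz'⟩ := e _ hw'
      have h2 := conj_vec s w y
      rw [y1, hy.2 w hw z hz, hy.2 _ hw' z' hz', mulVec_smul, y1] at h2
      rw [conj_vec, hx.2 _ hw' z' hz', mulVec_smul, smul_left_injective F y0 h2]⟩
  intro w hw
  obtain ⟨z, hz⟩ := e w hw
  refine ⟨z, Matrix.ext_iff_mulVec.2 fun x => ?_⟩
  rw [← mulVec_mulVec, smul_mulVec]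
  exact (hY.ge (mem_rg.2 ⟨x, rfl⟩)).2 w hw z hz

theorem three {W : Subgroup (GL (Fin n) F)} {a b : V n F} {c : F} (h0 : a ≠ 0) (h : b ∉ F ∙ a)
    (c0 : c ≠ 0) (e1 : Ev W b) (e2 : Ev W (b + c • a)) :
    ∀ w ∈ W, ∀ z : F, (w : R n F) *ᵥ a = z • a → (w : R n F) *ᵥ b = z • b := fun w hw z hz => by
  obtain ⟨y, hy⟩ := e1 w hw
  obtain ⟨x, hx⟩ := e2 w hw
  rw [mulVec_add, mulVec_smul, hy, hz] at hx
  have h1 : (y - x) • b = (c * (x - z)) • a := by linear_combination (norm := module) hx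
  have h2 : y - x = 0 := by
    by_contra h2
    exact h (Submodule.mem_span_singleton.2 ⟨(y - x)⁻¹ * (c * (x - z)), by
      rw [mul_smul, ← h1, inv_smul_smul₀ h2]⟩)
  rw [h2, zero_smul, eq_comm, smul_eq_zero_iff_left h0, mul_eq_zero_iff_left c0, sub_eq_zero] at h1
  rw [hy, sub_eq_zero.1 h2, h1]

theorem two (hu : T.u) {W : Subgroup (GL (Fin n) F)} (hW : W ≤ T.Γ n) {a b : V n F}
    (h1 : T.h a a ≠ 0) (h2 : T.h b a ≠ 0) (e : Ev W b) :
    ∀ w ∈ W, ∀ z : F, (w : R n F) *ᵥ a = z • a → (w : R n F) *ᵥ b = z • b := fun w hw z hz => by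
  obtain ⟨y, hy⟩ := e w hw
  have k1 := T.h_Γ hu (hW hw) a a
  have k2 := T.h_Γ hu (hW hw) b a
  rw [hz, T.h_smul_left, T.h_smul_right, ← mul_assoc, mul_eq_right₀ h1] at k1
  rw [hz, hy, T.h_smul_left, T.h_smul_right, ← mul_assoc, mul_eq_right₀ h2] at k2
  rw [hy, mul_right_cancel₀ (right_ne_zero_of_mul_eq_one k1) (k2.trans k1.symm)]

theorem rk_perp (T : Ty F) (X : Submodule F (V n F)) (u : V n F) :
    finrank F X ≤ finrank F ↥(X ⊓ T.perp (F ∙ u)) + 1 := by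
  have h1 := T.finrank_perp (F ∙ u)
  have h2 : finrank F (F ∙ u) ≤ 1 := by simpa using finrank_span_le_card ({u} : Set (V n F))
  have h3 := Submodule.finrank_sup_add_finrank_inf_eq X (T.perp (F ∙ u))
  have h4 := Submodule.finrank_le (X ⊔ T.perp (F ∙ u))
  rw [finrank_fin_fun] at h4
  omega

theorem ex_opp (hu : T.u) {X : Submodule F (V n F)} (hX : X ⊓ T.perp X = ⊥) (h2 : 2 ≤ finrank F X)
    {u : V n F} (h : u ∈ X) (h0 : T.h u u ≠ 0) : ∃ b ∈ X, T.h b u = 0 ∧ T.h b b = -T.h u u := by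
  suffices c : ¬ X ⊓ T.perp (F ∙ u) ≤ T.perp (X ⊓ T.perp (F ∙ u)) by
    obtain ⟨b, hb, e⟩ := T.ex_val hu c (b := -T.h u u)
      (by rw [map_neg, h_fix hu]) (neg_ne_zero.2 h0)
    exact ⟨b, hb.1, mem_perp_span.1 hb.2, e⟩
  intro c
  have h3 := rk_perp T X u
  suffices X ⊓ T.perp (F ∙ u) = ⊥ by
    rw [this, finrank_bot] at h3
    omega
  refine eq_bot_iff.2 fun y hy => hX.le ⟨hy.1, fun x hx => ?_⟩
  have h4 := c hy (x - (T.h x u / T.h u u) • u) ⟨sub_mem hx (X.smul_mem _ h), mem_perp_span.2 (by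
    rw [h_sub_left, T.h_smul_left, div_mul_cancel₀ _ h0, sub_self])⟩
  rwa [h_sub_right, T.h_smul_right, mem_perp_span.1 hy.2, mul_zero, sub_zero] at h4

theorem ei_se (hu : T.u) {ε : R n F} (he : T.Id ε) {w v : V n F} {c : F} (hw : T.h w w = 0)
    (hv : T.h v w = 0) (hc : c + T.bar c = T.h v v) (h1 : w ∈ rg ε) (h2 : v ∈ rg ε) :
    ∃ A ∈ T.Se ε, (A : R n F) = 1 + T.ei w v c := by
  obtain ⟨A, hA, e⟩ := (Ty.ei_un hu hw hv hc).1
  rw [mem_rg_id he.1] at h1 h2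
  have k1 : T.ei w v c * ε = T.ei w v c := by
    simp only [Ty.ei, sub_mul, smul_mul_assoc, vecMulVec_mul, bv_vecMul hu, he.2 hu, h1, h2]
  have k2 : ε * T.ei w v c = T.ei w v c := by
    simp only [Ty.ei, mul_sub, mul_smul_comm, mul_vecMulVec, h1, h2]
  refine ⟨A, ⟨hA, ?_, ?_⟩, e⟩
  · rw [e, add_mul, one_mul, mul_sub, mul_one, k1, sub_self, add_zero]
  · rw [e, mul_add, mul_one, sub_mul, one_mul, k2, sub_self, add_zero]

/-- a non-singular point is moved to a different point not orthogonal to it -/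
theorem move (hu : T.u) {ε : R n F} (he : T.Id ε) (h2 : 2 ≤ ε.rank)
    (hx : ¬ (T.q = 2 ∧ ε.rank = 2)) {u : V n F} (h : u ∈ rg ε) (h0 : T.h u u ≠ 0) :
    ∃ s ∈ T.Se ε, T.h ((s : R n F) *ᵥ u) u ≠ 0 ∧ (s : R n F) *ᵥ u ∉ F ∙ u := by
  obtain ⟨b, hb, b1, b2⟩ := ex_opp hu (he.nd hu) h2 h h0
  have b3 := (h_swap hu).1 b1
  have hw : T.h (u + b) (u + b) = 0 := by
    simp only [T.h_add_left, T.h_add_right, b1, b2, b3]
    ring
  have uw : T.h u (u + b) = T.h u u := by rw [T.h_add_right, b3, add_zero]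
  by_cases hq : T.q = 2
  · have r1 := rk_perp T (rg ε) u
    have r2 := rk_perp T (rg ε ⊓ T.perp (F ∙ u)) b
    obtain ⟨v, hv, v0⟩ := (Submodule.ne_bot_iff (rg ε ⊓ T.perp (F ∙ u) ⊓ T.perp (F ∙ b))).1
      fun e => by
        rw [e, finrank_bot] at r2
        rw [finrank_rg] at r1
        exact hx ⟨hq, by omega⟩
    have v1 := mem_perp_span.1 hv.1.2
    have v2 := mem_perp_span.1 hv.2
    obtain ⟨c, hc, c1⟩ : ∃ c, c + T.bar c = T.h v v ∧ 1 - c * T.h u u ≠ 0 := by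
      obtain ⟨c, hc⟩ := T.ex_tr hu (h_fix hu v)
      obtain ⟨γ, g0, g1⟩ := T.ex_skew hu
      by_cases c1 : 1 - c * T.h u u = 0
      · refine ⟨c + γ, by rw [map_add, g1, ← hc]; ring, fun e => mul_ne_zero g0 h0 ?_⟩
        linear_combination c1 - e
      · exact ⟨c, hc, c1⟩
    obtain ⟨s, hs, e⟩ := ei_se hu he hw (by rw [T.h_add_right, v1, v2, add_zero]) hc
      (add_mem h hb) hv.1.1
    have e1 : (s : R n F) *ᵥ u = u + (T.h u u • v - (c * T.h u u) • (u + b)) := by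
      rw [e, add_mulVec, one_mulVec, T.ei_mulVec, uw, (h_swap hu).1 v1, zero_smul, sub_zero]
    refine ⟨s, hs, ?_, fun hm => ?_⟩
    · simp only [e1, T.h_add_left, h_sub_left, T.h_smul_left, v1, b1]
      convert mul_ne_zero c1 h0 using 1
      ring
    · obtain ⟨z, hz⟩ := Submodule.mem_span_singleton.1 hm
      rw [e1] at hz
      have k1 := congrArg (T.h · b) hz
      have k2 := congrArg (T.h · u) hz
      simp only [T.h_add_left, h_sub_left, T.h_smul_left, v1, v2, b1, b2, b3] at k1 k2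
      have c0 : c = 0 := by
        have : c * (T.h u u * T.h u u) = 0 := by linear_combination -k1
        simpa [h0] using this
      have z1 : z = 1 := by
        have : (z - 1) * T.h u u = 0 := by rw [c0] at k2; linear_combination k2
        simpa [h0, sub_eq_zero] using this
      rw [c0, z1] at hz
      simp [h0, v0] at hz
  · obtain ⟨γ, g0, g1, g2⟩ := T.ex_skew' hu hq
    have t := Ty.tv_of hu (v := u + b) (fun e => h0 (by rw [← uw, e, h_zero_right])) hw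
      (γ := -γ / T.h u u) (div_ne_zero (neg_ne_zero.2 g0) h0)
      (by rw [map_div₀, map_neg, g2, h_fix hu, neg_div _ (-γ)])
    obtain ⟨s, hs, e⟩ := t.se (t.sup hu he ((mem_rg_id he.1).1 (add_mem h hb)))
    have e1 : (s : R n F) *ᵥ u = u + (-γ) • (u + b) := by
      rw [tv_vec e, smul_dotProduct, T.bv_dot, uw, smul_eq_mul, div_mul_cancel₀ _ h0]
    refine ⟨s, hs, ?_, fun hm => ?_⟩
    · simp only [e1, T.h_add_left, T.h_smul_left, b1]
      convert mul_ne_zero (sub_ne_zero.2 g1.symm) h0 using 1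
      ring
    · obtain ⟨z, hz⟩ := Submodule.mem_span_singleton.1 hm
      rw [e1] at hz
      have k1 := congrArg (T.h · b) hz
      simp only [T.h_add_left, T.h_smul_left, b2, b3] at k1
      exact mul_ne_zero g0 h0 (by linear_combination -k1)

theorem of_ev {ε : R n F} (he : T.Id ε) (h2 : 2 ≤ ε.rank) (hx : ¬ (T.u ∧ T.q = 2 ∧ ε.rank = 2))
    {W : Subgroup (GL (Fin n) F)} (hW : W ≤ T.Γ n)
    (hn : ∀ s ∈ T.Se ε, ∀ w ∈ W, s * w * s⁻¹ ∈ W) {u : V n F} (h : u ∈ rg ε) (h0 : u ≠ 0)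
    (e : Ev W u) : ∀ w ∈ W, ScOn (w : R n F) ε := by
  by_cases hu : T.u
  · by_cases h1 : T.h u u = 0
    · obtain ⟨x, hx, x0⟩ : ∃ x ∈ rg ε, T.h u x ≠ 0 := by
        by_contra! c
        exact h0 ((he.nd hu).le ⟨h, c⟩)
      obtain ⟨c, hc⟩ := Ty.ex_iso hu h1 (mt (h_swap hu).1 x0)
      have uv : T.h u (x + c • u) ≠ 0 := by
        rwa [T.h_add_right, T.h_smul_right, h1, mul_zero, add_zero]
      have hv : x + c • u ∈ rg ε := add_mem hx (Submodule.smul_mem _ _ h)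
      generalize x + c • u = v at hc uv hv
      obtain ⟨γ, g0, g1⟩ := T.ex_skew hu
      have t := Ty.tv_of hu (v := v) (fun e => uv (by rw [e, h_zero_right])) hc g0 g1
      obtain ⟨s, hs, es⟩ := t.se (t.sup hu he ((mem_rg_id he.1).1 hv))
      have t' := Ty.tv_of hu h0 h1 g0 g1
      obtain ⟨s', hs', es'⟩ := t'.se (t'.sup hu he ((mem_rg_id he.1).1 h))
      have k : T.h ((s : R n F) *ᵥ u) u ≠ 0 := by
        rw [tv_vec es, smul_dotProduct, T.bv_dot, T.h_add_left, T.h_smul_left, h1, zero_add]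
        exact mul_ne_zero (mul_ne_zero g0 uv) (mt (h_swap hu).1 uv)
      have k' : (s : R n F) *ᵥ u ∉ F ∙ u := fun hm => by
        obtain ⟨z, hz⟩ := Submodule.mem_span_singleton.1 hm
        exact k (by rw [← hz, T.h_smul_left, h1, mul_zero])
      have e2 := (e.se hn hs).se hn hs'
      rw [tv_vec es', smul_dotProduct, T.bv_dot] at e2
      exact same he hn h (Se_rg he hs h) h0 k' e (three h0 k' (mul_ne_zero g0 k) (e.se hn hs) e2)
    · obtain ⟨s, hs, k, k'⟩ := move hu he h2 (fun c => hx ⟨hu, c⟩) h h1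
      exact same he hn h (Se_rg he hs h) h0 k' e (two hu hW h1 k (e.se hn hs))
  · have key : ∀ v ∈ rg ε, v ∉ F ∙ u → Ev W (v + (1 : F) • u) := fun v hv hv' => by
      have v0 : v ≠ 0 := fun e => hv' (e ▸ zero_mem _)
      obtain ⟨φ, t, s, e1⟩ := tvL hu he h hv v0 fun hm => by
        obtain ⟨z, rfl⟩ := Submodule.mem_span_singleton.1 hm
        exact hv' (((F ∙ (z • v)).smul_mem_iff (left_ne_zero_of_smul h0)).1
          (Submodule.mem_span_singleton_self _))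
      obtain ⟨A, hA, eA⟩ := t.se s
      have := e.se hn hA
      rwa [tv_vec eA, e1, one_smul, add_comm, ← one_smul F u] at this
    obtain ⟨v, hv, hv'⟩ := ex_not_span (X := rg ε) h2 u
    have k := key (v - u) (sub_mem hv h) fun hm => hv' (by
      simpa using add_mem hm (Submodule.mem_span_singleton_self u))
    rw [one_smul, sub_add_cancel] at k
    exact same he hn h hv h0 hv' e (three h0 hv' one_ne_zero k (key v hv hv'))

end IR

open IR

theorem Ty.irr {ε : R n F} (he : T.Id ε) (hx : ¬ (T.u ∧ T.q = 2 ∧ ε.rank = 2))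
    {W : Subgroup (GL (Fin n) F)} (hW : W ≤ T.Γ n) (hc : ∀ w ∈ W, (w : R n F) * ε = ε * w)
    (hn : ∀ s ∈ T.Se ε, ∀ w ∈ W, s * w * s⁻¹ ∈ W) {U : Submodule F (V n F)} (hU : U ≤ rg ε)
    (hi : ∀ w ∈ W, mp (w : R n F) U ≤ U) (h1 : U ≠ ⊥) (h2 : U ≠ rg ε) :
    ∀ w ∈ W, ScOn (w : R n F) ε := by
  have r2 : 2 ≤ ε.rank := by
    have k1 := Submodule.finrank_lt_finrank_of_lt (lt_of_le_of_ne hU h2)
    have k2 : finrank F U ≠ 0 := fun e => h1 (Submodule.finrank_eq_zero.1 e)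
    rw [finrank_rg] at k1
    omega
  obtain ⟨Y, ⟨y0, y1, y2⟩, hm⟩ := (wellFounded_lt (α := Submodule F (V n F))).has_min
    {Y | Y ≠ ⊥ ∧ Y ≤ U ∧ ∀ w ∈ W, ∀ x ∈ Y, (w : R n F) *ᵥ x ∈ Y}
    ⟨U, h1, le_rfl, fun w hw => mp_le.1 (hi w hw)⟩
  obtain ⟨u, hu, u0⟩ := (Submodule.ne_bot_iff Y).1 y0
  by_cases hb : ∃ b ∈ Y, b ∉ F ∙ u
  · obtain ⟨b, hb, hb'⟩ := hb
    refine absurd (le_antisymm hU ((blk he (y1.trans hU) hu hb u0 hb' ?_).ge.trans y1)) h2
    intro s hs y hy k0 k1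
    have : Y ⊓ mp (s : R n F) Y = Y := by
      refine inf_le_left.eq_or_lt.resolve_right (hm _ ⟨?_, inf_le_left.trans y1, ?_⟩)
      · exact (Submodule.ne_bot_iff _).2 ⟨y, ⟨hy, mem_mp.2 ⟨y, hy, k1⟩⟩, k0⟩
      · rintro w hw x ⟨hx, hx'⟩
        refine ⟨y2 w hw x hx, ?_⟩
        obtain ⟨x', k, rfl⟩ := mem_mp.1 hx'
        exact mem_mp.2 ⟨_, y2 _ (hn _ (inv_mem hs) w hw) x' k, (conj_vec s w x').symm⟩
    exact (Submodule.eq_of_le_of_finrank_eq (inf_eq_left.1 this) (finrank_mp s Y).symm).ge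
  · push Not at hb
    refine of_ev he r2 hx hW hn (hU (y1 hu)) u0 fun w hw => ?_
    obtain ⟨z, hz⟩ := Submodule.mem_span_singleton.1 (hb _ (y2 w hw u hu))
    exact ⟨z, hz.symm⟩

end CF.Wb
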