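import Cfsg.Agent.Wb.B1

/-! The commutator scalar of two commuting inner-diagonal elements. -/

set_option autoImplicit false
set_option linter.unusedSectionVars false

namespace CF.Wb

open Matrix Subgroup CF.BG Module

variable {F : Type} [Field F] [Fintype F] {n : ℕ} {T : Ty F} {G : Type*} [Group G] [Finite G]

namespace OM

theorem smul_inj (hn : 1 ≤ n) (X : GL (Fin n) F) {z w : F}
    (h : z • (X : R n F) = w • (X : R n F)) : z = w := by
  have h1 : z • (1 : R n F) = w • (1 : R n F) := by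
    rw [← X.mul_inv, ← smul_mul_assoc, ← smul_mul_assoc, h]
  simpa using congrFun (congrFun h1 ⟨0, hn⟩) ⟨0, hn⟩

theorem n1 (m : Md T n G) : 1 ≤ n := le_trans one_le_two m.ok.n2

theorem cases (m : Md T n G) (a b : G) :
    ((¬ ∃ z : F, ∃ A ∈ T.Γ n, ∃ B ∈ T.Γ n, m.ρ a = cn A ∧ m.ρ b = cn B ∧
      (A : R n F) * B = z • ((B : R n F) * A)) ∧ m.om a b = 1) ∨
    ∃ A ∈ T.Γ n, ∃ B ∈ T.Γ n, m.ρ a = cn A ∧ m.ρ b = cn B ∧
      (A : R n F) * B = m.om a b • ((B : R n F) * A) := by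
  unfold Md.om
  split_ifs with h
  · exact .inr h.choose_spec
  · exact .inl ⟨h, rfl⟩

theorem ne0 (hn : 1 ≤ n) {A B : GL (Fin n) F} {z : F} (h : (A : R n F) = z • (B : R n F)) :
    z ≠ 0 := by
  rintro rfl
  have : (1 : F) • (A : R n F) = (0 : F) • (A : R n F) := by rw [one_smul, h, zero_smul, smul_zero]
  exact one_ne_zero (smul_inj hn A this)

end OM

theorem Md.om_eq (m : Md T n G) {a b : G} {A B : GL (Fin n) F}
    (hA : A ∈ T.Γ n) (hB : B ∈ T.Γ n) (ha : m.ρ a = cn A) (hb : m.ρ b = cn B) {z : F}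
    (h : (A : R n F) * B = z • ((B : R n F) * A)) : m.om a b = z := by
  rcases OM.cases m a b with ⟨h1, -⟩ | ⟨A', -, B', -, ha', hb', h1⟩
  · exact (h1 ⟨z, A, hA, B, hB, ha, hb, h⟩).elim
  · obtain ⟨x, hx⟩ := cn_eq.1 (ha.symm.trans ha')
    obtain ⟨y, hy⟩ := cn_eq.1 (hb.symm.trans hb')
    refine OM.smul_inj (OM.n1 m) (B * A) ?_
    rw [Units.val_mul, ← h, hx, hy]
    simp only [smul_mul_assoc, mul_smul_comm, h1, smul_smul]
    congr 1
    ring

theorem Md.om_spec (m : Md T n G) {a b : G} (h : Commute a b) {A B : GL (Fin n) F}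
    (hA : A ∈ T.Γ n) (hB : B ∈ T.Γ n) (ha : m.ρ a = cn A) (hb : m.ρ b = cn B) :
    (A : R n F) * B = m.om a b • ((B : R n F) * A) := by
  obtain ⟨z, hz⟩ := (m.comm_iff ha hb).1 h
  rw [m.om_eq hA hB ha hb hz, hz]

theorem Md.om_mem (m : Md T n G) (a b : G) : ∃ z ∈ T.Z, (z : F) = m.om a b := by
  rcases OM.cases m a b with ⟨-, h1⟩ | ⟨A, hA, B, hB, -, -, h1⟩
  · exact ⟨1, one_mem _, by simp [h1]⟩
  · have h2 : ((A * B : GL (Fin n) F) : R n F) = m.om a b • ((B * A : GL (Fin n) F) : R n F) := h1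
    exact ⟨Units.mk0 _ (OM.ne0 (OM.n1 m) h2),
      T.sc_mem_Z (OM.n1 m) (mul_mem hA hB) (mul_mem hB hA) h2, rfl⟩

theorem Md.om_ne (m : Md T n G) (a b : G) : m.om a b ≠ 0 := by
  obtain ⟨z, -, hz⟩ := m.om_mem a b
  exact hz ▸ z.ne_zero

theorem Md.om_mul_left (m : Md T n G) {a a' b : G} (ha : a ∈ m.M) (ha' : a' ∈ m.M) (hb : b ∈ m.M)
    (h : Commute a b) (h' : Commute a' b) : m.om (a * a') b = m.om a b * m.om a' b := by
  obtain ⟨A, hA, e1⟩ := m.mem_M.1 ha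
  obtain ⟨A', hA', e2⟩ := m.mem_M.1 ha'
  obtain ⟨B, hB, e3⟩ := m.mem_M.1 hb
  refine m.om_eq (mul_mem hA hA') hB (by rw [map_mul, map_mul, e1, e2]) e3 ?_
  rw [Units.val_mul, mul_assoc, m.om_spec h' hA' hB e2 e3, mul_smul_comm, ← mul_assoc,
    m.om_spec h hA hB e1 e3, smul_mul_assoc, smul_smul, mul_comm (m.om a' b), mul_assoc]

theorem Md.om_mul_right (m : Md T n G) {a b b' : G} (ha : a ∈ m.M) (hb : b ∈ m.M) (hb' : b' ∈ m.M)
    (h : Commute a b) (h' : Commute a b') : m.om a (b * b') = m.om a b * m.om a b' := by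
  obtain ⟨A, hA, e1⟩ := m.mem_M.1 ha
  obtain ⟨B, hB, e2⟩ := m.mem_M.1 hb
  obtain ⟨B', hB', e3⟩ := m.mem_M.1 hb'
  refine m.om_eq hA (mul_mem hB hB') e1 (by rw [map_mul, map_mul, e2, e3]) ?_
  rw [Units.val_mul, ← mul_assoc, m.om_spec h hA hB e1 e2, smul_mul_assoc, mul_assoc,
    m.om_spec h' hA hB' e1 e3, mul_smul_comm, smul_smul, mul_assoc]

theorem Md.om_one_left (m : Md T n G) (b : G) : m.om 1 b = 1 := by
  rcases OM.cases m 1 b with ⟨-, h1⟩ | ⟨A, -, B, hB, -, e2, -⟩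
  · exact h1
  · exact m.om_eq (one_mem _) hB (by rw [map_one, map_one]) e2 (by simp)

theorem Md.om_one_right (m : Md T n G) (a : G) : m.om a 1 = 1 := by
  rcases OM.cases m a 1 with ⟨-, h1⟩ | ⟨A, hA, B, -, e1, -, -⟩
  · exact h1
  · exact m.om_eq hA (one_mem _) e1 (by rw [map_one, map_one]) (by simp)

theorem Md.om_self (m : Md T n G) (a : G) : m.om a a = 1 := by
  rcases OM.cases m a a with ⟨-, h1⟩ | ⟨A, hA, B, -, e1, -, -⟩
  · exact h1
  · exact m.om_eq hA hA e1 e1 (by simp)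

theorem Md.om_pow_left (m : Md T n G) {a b : G} (ha : a ∈ m.M) (hb : b ∈ m.M) (h : Commute a b)
    (k : ℕ) : m.om (a ^ k) b = m.om a b ^ k := by
  induction k with
  | zero => simp [m.om_one_left]
  | succ k ih => rw [pow_succ, m.om_mul_left (pow_mem ha k) ha hb (h.pow_left k) h, ih, pow_succ]

theorem Md.om_pow_right (m : Md T n G) {a b : G} (ha : a ∈ m.M) (hb : b ∈ m.M) (h : Commute a b)
    (k : ℕ) : m.om a (b ^ k) = m.om a b ^ k := by
  induction k with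
  | zero => simp [m.om_one_right]
  | succ k ih => rw [pow_succ, m.om_mul_right ha (pow_mem hb k) hb (h.pow_right k) h, ih, pow_succ]

theorem Md.om_inv_left (m : Md T n G) {a b : G} (ha : a ∈ m.M) (hb : b ∈ m.M) (h : Commute a b) :
    m.om a⁻¹ b = (m.om a b)⁻¹ := by
  refine eq_inv_of_mul_eq_one_left ?_
  rw [← m.om_mul_left (inv_mem ha) ha hb h.inv_left h, inv_mul_cancel, m.om_one_left]

theorem Md.om_inv_right (m : Md T n G) {a b : G} (ha : a ∈ m.M) (hb : b ∈ m.M) (h : Commute a b) :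
    m.om a b⁻¹ = (m.om a b)⁻¹ := by
  refine eq_inv_of_mul_eq_one_left ?_
  rw [← m.om_mul_right ha (inv_mem hb) hb h.inv_right h, inv_mul_cancel, m.om_one_right]

theorem Md.om_swap (m : Md T n G) {a b : G} (h : Commute a b) : m.om a b * m.om b a = 1 := by
  rcases OM.cases m a b with ⟨h0, h1⟩ | ⟨A, hA, B, hB, e1, e2, h1⟩
  · rcases OM.cases m b a with ⟨-, h2⟩ | ⟨B, hB, A, hA, e2, e1, -⟩
    · rw [h1, h2, one_mul]
    · exact (h0 ⟨_, A, hA, B, hB, e1, e2, m.om_spec h hA hB e1 e2⟩).elim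
  · refine OM.smul_inj (OM.n1 m) (A * B) ?_
    rw [one_smul, Units.val_mul, mul_smul, ← m.om_spec h.symm hB hA e2 e1, ← h1]

theorem Md.om_conj (m : Md T n G) {a b : G} (h : Commute a b) (g : G) (h1 : m.om a b = 1) :
    m.om (g * a * g⁻¹) (g * b * g⁻¹) = 1 := by
  rcases OM.cases m (g * a * g⁻¹) (g * b * g⁻¹) with ⟨-, h2⟩ | ⟨A, hA, B, hB, e1, e2, -⟩
  · exact h2
  · have ha : a ∈ m.M := by
      simpa [mul_assoc] using m.M_normal.conj_mem _ (m.mem_M.2 ⟨A, hA, e1⟩) g⁻¹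
    have hb : b ∈ m.M := by
      simpa [mul_assoc] using m.M_normal.conj_mem _ (m.mem_M.2 ⟨B, hB, e2⟩) g⁻¹
    obtain ⟨A, hA, e1⟩ := m.mem_M.1 ha
    obtain ⟨B, hB, e2⟩ := m.mem_M.1 hb
    have h3 := m.om_spec h hA hB e1 e2
    rw [h1, one_smul] at h3
    obtain ⟨A', a1, a2, -, a3, a4⟩ := m.th g A
    obtain ⟨B', b1, b2, -, b3, b4⟩ := m.th g B
    refine m.om_eq (a2 hA) (b2 hB) (by rw [map_mul, map_mul, map_inv, e1, a1])
      (by rw [map_mul, map_mul, map_inv, e2, b1]) ?_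
    rw [one_smul]
    rcases m.lin_or g with hl | ⟨hd, -⟩
    · rw [a3 hl, b3 hl, ← hl, ← hl, h3]
    · have : A'⁻¹ * B'⁻¹ = B'⁻¹ * A'⁻¹ := by
        refine Units.ext ?_
        rw [Units.val_mul, Units.val_mul, a4 hd, b4 hd, ← hd, ← hd, h3]
      rw [← Units.val_mul, ← Units.val_mul, (Commute.inv_inv_iff.1 this).eq]

theorem Md.ab_of (m : Md T n G) {K : Subgroup G} (hc : ∀ a ∈ K, ∀ b ∈ K, Commute a b)
    (h : ∀ a ∈ K, ∀ b ∈ K, m.om a b = 1) : m.Ab K := by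
  intro A hA B hB
  obtain ⟨hA, a, ha, e1⟩ := m.mem_lift.1 hA
  obtain ⟨hB, b, hb, e2⟩ := m.mem_lift.1 hB
  refine Units.ext ?_
  rw [Units.val_mul, Units.val_mul, m.om_spec (hc a ha b hb) hA hB e1 e2, h a ha b hb, one_smul]

theorem Md.rep (m : Md T n G) {E : Subgroup G} (hE : E ≤ m.M) (hc : ∀ a ∈ E, ∀ b ∈ E, Commute a b)
    (nd : ∀ a ∈ E, (∀ b ∈ E, m.om a b = 1) → a = 1) {k : G} (hk : k ∈ m.M)
    (h : ∀ b ∈ E, Commute k b) : ∃ a ∈ E, ∀ b ∈ E, m.om k b = m.om a b := by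
  classical
  let χ : ∀ k ∈ m.M, (∀ b ∈ E, Commute k b) → (E →* F) := fun k hk h =>
    { toFun := fun b => m.om k b
      map_one' := m.om_one_right k
      map_mul' := fun b b' => m.om_mul_right hk (hE b.2) (hE b'.2) (h b b.2) (h b' b'.2) }
  let Φ : E → (E →* F) := fun a => χ a (hE a.2) (hc a a.2)
  have inj : Function.Injective Φ := by
    intro a a' e
    have : (a : G) * (a' : G)⁻¹ = 1 := by
      refine nd _ (mul_mem a.2 (inv_mem a'.2)) fun b hb => ?_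
      have e1 : m.om a b = m.om a' b := DFunLike.congr_fun e ⟨b, hb⟩
      rw [m.om_mul_left (hE a.2) (hE (inv_mem a'.2)) (hE hb) (hc a a.2 b hb)
        (hc _ (inv_mem a'.2) b hb), m.om_inv_left (hE a'.2) (hE hb) (hc _ a'.2 b hb), e1,
        mul_inv_cancel₀ (m.om_ne _ _)]
    exact Subtype.ext (mul_inv_eq_one.1 this)
  have : Finite (E →* F) := Finite.of_injective (fun f : E →* F => (f : E → F)) DFunLike.coe_injective
  have := Fintype.ofFinite (E →* F)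
  have := Fintype.ofFinite E
  have hle : Fintype.card (E →* F) ≤ Fintype.card E := by
    simpa using (linearIndependent_monoidHom E F).fintype_card_le_finrank
  have hb : Function.Bijective Φ :=
    (Fintype.bijective_iff_injective_and_card Φ).2
      ⟨inj, le_antisymm (Fintype.card_le_of_injective Φ inj) hle⟩
  obtain ⟨a, ha⟩ := hb.2 (χ k hk h)
  exact ⟨a, a.2, fun b hb => (DFunLike.congr_fun ha ⟨b, hb⟩).symm⟩

end CF.Wb
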