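import Cfsg.Agent.Wb.UN

/-! Subspaces invariant under a parabolic subgroup. -/

set_option autoImplicit false
set_option linter.unusedSectionVars false

namespace CF.Wb

open Matrix Subgroup CF.BG Module

variable {F : Type} [Field F] [Fintype F] {n : ℕ} {T : Ty F} {G : Type*} [Group G] [Finite G]

namespace PD

theorem vv (w φ x : V n F) : vecMulVec w φ *ᵥ x = (φ ⬝ᵥ x) • w := by
  ext i; simp [mulVec, dotProduct, vecMulVec_apply, Finset.mul_sum, mul_comm, mul_left_comm]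

theorem mp_eq {s : GL (Fin n) F} {A : Submodule F (V n F)} (h : ∀ x ∈ A, (s : R n F) *ᵥ x ∈ A) :
    mp (s : R n F) A = A :=
  Submodule.eq_of_le_of_finrank_eq (mp_le.2 h) (finrank_mp s A)

theorem mp_un {s : GL (Fin n) F} {ν : R n F} (e : (s : R n F) = 1 + ν) {A : Submodule F (V n F)}
    (h : ∀ x ∈ A, ν *ᵥ x ∈ A) : mp (s : R n F) A = A :=
  mp_eq fun x k => by rw [e, add_mulVec, one_mulVec]; exact add_mem k (h x k)

theorem h0 (hu : T.u) {a b : V n F} (h : T.h a b = 0) : T.h b a = 0 := by rw [T.h_symm hu, h, map_zero]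

theorem mp2 {A1 A2 : Submodule F (V n F)} (h : T.Fl A1 A2) (hu : T.u) {s : GL (Fin n) F} (hs : s ∈ T.S n)
    (e : mp (s : R n F) A1 = A1) : mp (s : R n F) A2 = A2 := by
  rw [h.pp hu, ← T.perp_mp hu hs.1, e]

theorem tvU (hu : T.u) {u : V n F} (h : T.h u u = 0) :
    ∃ γ : F, γ ≠ 0 ∧ ∃ ν : R n F, T.Un ν ∧ ν * ν = 0 ∧ ∀ x, ν *ᵥ x = (γ * T.h x u) • u := by
  obtain ⟨γ, g0, g⟩ := T.ex_skew hu
  by_cases u0 : u = 0
  · exact ⟨γ, g0, 0, ⟨1, one_mem _, by simp⟩, by simp, by simp [u0]⟩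
  · have := T.tv_of hu u0 h g0 g
    exact ⟨γ, g0, _, this.un, this.sq, fun x => by rw [vv, smul_dotProduct, T.bv_dot, smul_eq_mul]⟩

theorem eiU (hu : T.u) {w u : V n F} (hw : T.h w w = 0) (h : T.h u w = 0) : ∃ c : F, ∃ ν : R n F, T.Un ν ∧
    IsNilpotent ν ∧ ∀ x, ν *ᵥ x = T.h x w • u - T.h x u • w - (c * T.h x w) • w := by
  obtain ⟨c, hc⟩ := T.ex_tr hu (T.h_symm hu u u).symm
  exact ⟨c, _, (T.ei_un hu hw h hc).1, (T.ei_un hu hw h hc).2, T.ei_mulVec w u c⟩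

theorem ex_h {U : Submodule F (V n F)} {v : V n F} (h : v ∉ U) : ∃ u, T.h v u = 1 ∧ ∀ w ∈ U, T.h w u = 0 := by
  obtain ⟨φ, h1, h2⟩ := ex_fun h
  obtain ⟨u, rfl⟩ := T.ex_bv φ
  exact ⟨u, T.bv_dot .. ▸ h1, fun w k => T.bv_dot .. ▸ h2 w k⟩

theorem of_span {W : Submodule F (V n F)} {v w : V n F} (m : v ∈ W) (v0 : v ≠ 0) (h : v ∈ F ∙ w) : w ∈ W := by
  obtain ⟨c, rfl⟩ := Submodule.mem_span_singleton.1 h
  exact (W.smul_mem_iff (left_ne_zero_of_smul v0)).1 m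

end PD

open PD

theorem Ty.Fl.inv {A1 A2 W : Submodule F (V n F)} (h : T.Fl A1 A2)
    (hW : ∀ s ∈ T.S n, Wb.mp (s : R n F) A1 = A1 → Wb.mp (s : R n F) A2 = A2 →
      Wb.mp (s : R n F) W ≤ W) :
    (W ≠ ⊥ → A1 ≤ W) ∧ (¬ W ≤ A1 → A2 ≤ W) ∧ (¬ T.u → ¬ W ≤ A2 → W = ⊤) := by
  have act ν (k : T.Un ν) (k1 : ∀ x ∈ A1, ν *ᵥ x ∈ A1) (k2 : ¬ T.u → ∀ x ∈ A2, ν *ᵥ x ∈ A2) v (m : v ∈ W) :
      ν *ᵥ v ∈ W := by
    obtain ⟨s, hs, e⟩ := k
    have := mp_le.1 (hW s hs (mp_un e k1) (by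
      by_cases hu : T.u
      exacts [mp2 h hu hs (mp_un e k1), mp_un e (k2 hu)])) v m
    rwa [e, add_mulVec, one_mulVec, add_mem_cancel_left m] at this
  by_cases hu : T.u
  · have p := h.pp hu
    have i1 {x y} (a : x ∈ A2) (b : y ∈ A1) : T.h x y = 0 := T.mem_perp.1 (p ▸ a) y b
    have ei {w u} (a : w ∈ A1) (b : T.h u w = 0) {v} (m : v ∈ W) :
        ∃ c : F, T.h v w • u - T.h v u • w - (c * T.h v w) • w ∈ W := by
      obtain ⟨c, ν, k, -, e⟩ := eiU hu (i1 (h.le a) a) b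
      exact ⟨c, e v ▸ act ν k (fun x z => by
        rw [e, i1 (h.le z) a]; simpa using A1.smul_mem _ a) (absurd hu) v m⟩
    have tv {u} (a : T.h u u = 0) (b : u ∈ A1 ∨ u ∈ A2) {v} (m : v ∈ W) (z : T.h v u ≠ 0) : u ∈ W := by
      obtain ⟨γ, g0, ν, k, -, e⟩ := tvU hu a
      exact (W.smul_mem_iff (mul_ne_zero g0 z)).1 (e v ▸ act ν k (fun x z => by
        rw [e, h0 hu (i1 (b.elim (h.le ·) id) z)]; simp) (absurd hu) v m)
    have ex {v} (k : v ∉ A2) : ∃ w ∈ A1, T.h v w ≠ 0 := by simpa [p, Ty.mem_perp] using k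
    have a1 (k : W ≠ ⊥) : A1 ≤ W := fun w a => by
      obtain ⟨v, m, v0⟩ := W.ne_bot_iff.1 k
      by_cases k : v ∈ A2
      · by_cases z : v ∈ F ∙ w
        · exact of_span m v0 z
        obtain ⟨u, u1, u2⟩ := ex_h (T := T) z
        obtain ⟨c, z⟩ := ei a (h0 hu (u2 w (Submodule.mem_span_singleton_self w))) m
        simpa [i1 k a, u1] using z
      obtain ⟨y, b, z⟩ := ex k
      have t {x} (b : x ∈ A1) := tv (i1 (h.le b) b) (.inl b) m
      by_cases z' : T.h v w = 0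
      · exact (add_mem_cancel_right (t b z)).1 (t (add_mem a b) (by rwa [T.h_add_right, z', zero_add]))
      · exact t a z'
    refine ⟨a1, fun k => ?_, absurd hu⟩
    have a := a1 fun z => k (z ▸ bot_le)
    by_cases k' : W ≤ A2
    · have q : A2 ⊓ T.perp A2 = A1 := by rw [p, T.perp_perp hu, ← p, inf_eq_right.2 h.le]
      exact ((T.hi hu (q ▸ a) k' fun u b z => or_iff_not_imp_right.2 fun y => by
        obtain ⟨x, m, y⟩ : ∃ x ∈ W, T.h u x ≠ 0 := by simpa [Ty.mem_perp] using y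
        exact tv z (.inr b) m (mt (h0 hu) y)).resolve_left fun z => k (z.trans q).le).ge
    · obtain ⟨v, m, z⟩ := SetLike.not_le_iff_exists.1 k'
      obtain ⟨w, b, z⟩ := ex z
      intro u d
      obtain ⟨c, y⟩ := ei b (i1 d b) m
      rwa [W.sub_mem_iff_left (W.smul_mem _ (a b)), W.sub_mem_iff_left (W.smul_mem _ (a b)),
        W.smul_mem_iff z] at y
  have st (B C : Submodule F (V n F)) (c : C ≤ W) (k : ¬ W ≤ C) (k1 : B ≤ A1 ∨ A1 ≤ C) (k2 : B ≤ A2 ∨ A2 ≤ C) :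
      B ≤ W := fun w b => by
    obtain ⟨v, m, z⟩ := SetLike.not_le_iff_exists.1 k
    by_cases y : v ∈ C ⊔ F ∙ w
    · obtain ⟨a, d, x, e, rfl⟩ := Submodule.mem_sup.1 y
      exact of_span ((add_mem_cancel_left (c d)).1 m) (fun y => z (by simpa [y] using d)) e
    obtain ⟨φ, f1, f2⟩ := ex_fun y
    have t A (k : B ≤ A ∨ A ≤ C) x (m : x ∈ A) : vecMulVec w φ *ᵥ x ∈ A := by
      rw [vv]
      exact k.elim (fun k => A.smul_mem _ (k b)) fun k => by simp [f2 x (Submodule.mem_sup_left (k m))]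
    simpa [vv, f1] using act _ (T.skew_un (by
      rw [vecMulVec_mul_vecMulVec, f2 w (Submodule.mem_sup_right (Submodule.mem_span_singleton_self w))]; simp)
      (absurd · hu)) (t _ k1) (fun _ => t _ k2) v m
  have a1 (k : W ≠ ⊥) : A1 ≤ W := st A1 ⊥ bot_le (by simpa using k) (.inl le_rfl) (.inl h.le)
  have a2 (k : ¬ W ≤ A1) : A2 ≤ W := st A2 A1 (a1 fun z => k (z ▸ bot_le)) k (.inr le_rfl) (.inl le_rfl)
  exact ⟨a1, a2, fun _ k => top_le_iff.1 (st ⊤ A2 (a2 fun z => k (z.trans h.le)) k (.inr h.le) (.inr le_rfl))⟩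

end CF.Wb
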