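import Cfsg.Agent.Wb.PB1
import Cfsg.Agent.Wb.CX
import Cfsg.Agent.Wb.IR1
import Cfsg.Agent.Wb.PD

/-! In defining characteristic `H` is the stabiliser of a flag. -/

set_option autoImplicit false
set_option linter.unusedSectionVars false

namespace CF.Wb

open Matrix Subgroup CF.BG Module

variable {F : Type} [Field F] [Fintype F] {n : ℕ} {T : Ty F} {G : Type*} [Group G] [Finite G]

/-- commuting nilpotent matrices kill a non-zero vector of an invariant subspace -/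
theorem nil_fix {X : Set (R n F)} (hn : ∀ ν ∈ X, IsNilpotent ν)
    (hc : ∀ ν ∈ X, ∀ μ ∈ X, ν * μ = μ * ν) {W : Submodule F (V n F)} (h0 : W ≠ ⊥)
    (hW : ∀ ν ∈ X, ∀ v ∈ W, ν *ᵥ v ∈ W) :
    ∃ U, U ≠ ⊥ ∧ U ≤ W ∧ ∀ ν ∈ X, ∀ v ∈ U, ν *ᵥ v = 0 := by
  obtain ⟨U, ⟨h1, h2, h3⟩, hm⟩ := (wellFounded_lt (α := Submodule F (V n F))).has_min
    {U | U ≠ ⊥ ∧ U ≤ W ∧ ∀ ν ∈ X, ∀ v ∈ U, ν *ᵥ v ∈ U} ⟨W, h0, le_rfl, hW⟩
  refine ⟨U, h1, h2, fun ν hν => ?_⟩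
  have hl : mp ν U ≤ U := mp_le.2 (h3 ν hν)
  by_contra hne
  have hb : mp ν U ≠ ⊥ := fun hb => hne fun v hv => by
    simpa using mp_le.1 hb.le v hv
  have he : mp ν U = U := by
    refine hl.eq_or_lt.resolve_right (hm _ ⟨hb, hl.trans h2, fun μ hμ v hv => ?_⟩)
    obtain ⟨w, hw, rfl⟩ := mem_mp.1 hv
    exact mem_mp.2 ⟨μ *ᵥ w, h3 μ hμ w hw, by rw [mulVec_mulVec, mulVec_mulVec, hc ν hν μ hμ]⟩
  obtain ⟨k, hk⟩ := hn ν hν
  have : ∀ j : ℕ, ∀ v ∈ U, ∃ w ∈ U, (ν ^ j) *ᵥ w = v := by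
    intro j
    induction j with
    | zero => exact fun v hv => ⟨v, hv, by simp⟩
    | succ j ih =>
      intro v hv
      obtain ⟨w, hw, rfl⟩ := ih v hv
      obtain ⟨x, hx, rfl⟩ := mem_mp.1 (he.ge hw)
      exact ⟨x, hx, by rw [pow_succ, mulVec_mulVec]⟩
  refine h1 (eq_bot_iff.2 fun v hv => ?_)
  obtain ⟨w, -, rfl⟩ := this k v hv
  simp [hk]

/-- dual form of `nil_fix` -/
theorem nil_cofix {X : Set (R n F)} (hn : ∀ ν ∈ X, IsNilpotent ν)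
    (hc : ∀ ν ∈ X, ∀ μ ∈ X, ν * μ = μ * ν) {W : Submodule F (V n F)} (h0 : W ≠ ⊤)
    (hW : ∀ ν ∈ X, ∀ v ∈ W, ν *ᵥ v ∈ W) :
    ∃ U, U ≠ ⊤ ∧ W ≤ U ∧ ∀ ν ∈ X, ∀ v, ν *ᵥ v ∈ U := by
  obtain ⟨U, ⟨h1, h2, h3⟩, hm⟩ := (wellFounded_gt (α := Submodule F (V n F))).has_min
    {U | U ≠ ⊤ ∧ W ≤ U ∧ ∀ ν ∈ X, ∀ v ∈ U, ν *ᵥ v ∈ U} ⟨W, h0, le_rfl, hW⟩
  refine ⟨U, h1, h2, fun ν hν => ?_⟩
  have mem : ∀ v, v ∈ U.comap (Matrix.toLin' ν) ↔ ν *ᵥ v ∈ U := fun v => by simp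
  have hl : U ≤ U.comap (Matrix.toLin' ν) := fun v hv => (mem v).2 (h3 ν hν v hv)
  by_contra hne
  have hb : U.comap (Matrix.toLin' ν) ≠ ⊤ := fun hb => hne fun v => (mem v).1 (by simp [hb])
  have he : U = U.comap (Matrix.toLin' ν) := by
    refine hl.eq_or_lt.resolve_right (hm _ ⟨hb, h2.trans hl, fun μ hμ v hv => ?_⟩)
    rw [mem, mulVec_mulVec, hc ν hν μ hμ, ← mulVec_mulVec]
    exact h3 μ hμ _ ((mem v).1 hv)
  obtain ⟨k, hk⟩ := hn ν hν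
  have : ∀ j : ℕ, ∀ v, (ν ^ j) *ᵥ v ∈ U → v ∈ U := by
    intro j
    induction j with
    | zero => exact fun v hv => by simpa using hv
    | succ j ih =>
      intro v hv
      rw [pow_succ, ← mulVec_mulVec] at hv
      exact he.ge ((mem v).2 (ih _ hv))
  exact h1 (eq_top_iff.2 fun v _ => this k v (by simp [hk]))

theorem Md.map_pow (m : Md T n G) (g : G) (a : R n F) (k : ℕ) : m.ρ g (a ^ k) = m.ρ g a ^ k := by
  induction k with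
  | zero => simp [m.one]
  | succ k ih =>
    rcases m.lin_or g with h | h
    · rw [pow_succ, h, ih, pow_succ]
    · rw [pow_succ, h.1, ih, pow_succ']

theorem Md.nilp (m : Md T n G) (g : G) {a : R n F} (h : IsNilpotent a) :
    IsNilpotent (m.ρ g a) := by
  obtain ⟨k, hk⟩ := h
  exact ⟨k, by rw [← m.map_pow, hk, m.zero]⟩

/-- common kernel -/
def cK (X : Set (R n F)) : Submodule F (V n F) := ⨅ ν ∈ X, kr ν

/-- sum of the ranges -/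
def cR (X : Set (R n F)) : Submodule F (V n F) := ⨆ ν ∈ X, rg ν

theorem le_cK {X : Set (R n F)} {U : Submodule F (V n F)} : U ≤ cK X ↔ ∀ ν ∈ X, mp ν U ≤ ⊥ := by
  simp only [cK, le_iInf_iff, kr, mp, le_bot_iff, LinearMap.le_ker_iff_map]

theorem cR_le {X : Set (R n F)} {U : Submodule F (V n F)} : cR X ≤ U ↔ ∀ ν ∈ X, mp ν ⊤ ≤ U := by
  simp only [cR, iSup_le_iff, rg, mp, Submodule.map_top]

theorem Md.St_all (m : Md T n G) {X : Set (R n F)} {g : G} (h : g ∈ m.St X) (p : R n F → Prop) :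
    (∀ ν ∈ X, p (m.ρ g ν)) ↔ ∀ ν ∈ X, p ν := by
  conv_rhs => rw [← m.img_St h, Set.forall_mem_image]

theorem Md.St_flag (m : Md T n G) {X : Set (R n F)} {g : G} (h : g ∈ m.St X) :
    g ∈ m.St (Nn (cK X ⊓ cR X) (cK X ⊔ cR X)) := by
  refine m.St_of_img ?_
  obtain ⟨Φ, ⟨-, h1, -, h2, h3⟩ | ⟨-, h1, -, h2, h3⟩⟩ := m.phi g
  · obtain ⟨b, t⟩ := mono_bot_top h1
    have e1 : Φ (cK X) = cK X := eq_of_forall_le_iff fun U => by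
      obtain ⟨U, rfl⟩ := Φ.surjective U
      rw [h1, le_cK, le_cK, ← m.St_all h fun ν => mp ν (Φ U) ≤ ⊥]
      simp only [← h2 _ U ⊥, b]
    have e2 : Φ (cR X) = cR X := eq_of_forall_ge_iff fun U => by
      obtain ⟨U, rfl⟩ := Φ.surjective U
      rw [h1, cR_le, cR_le, ← m.St_all h fun ν => mp ν ⊤ ≤ Φ U]
      simp only [← h2 _ ⊤ U, t]
    let Ψ : Submodule F (V n F) ≃o Submodule F (V n F) := ⟨Φ, h1 _ _⟩
    have i1 : Φ (cK X ⊓ cR X) = Φ (cK X) ⊓ Φ (cR X) := Ψ.map_inf _ _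
    have i2 : Φ (cK X ⊔ cR X) = Φ (cK X) ⊔ Φ (cR X) := Ψ.map_sup _ _
    rw [h3, i1, i2, e1, e2]
  · obtain ⟨b, t⟩ := anti_bot_top h1
    have e1 : Φ (cK X) = cR X := eq_of_forall_ge_iff fun U => by
      obtain ⟨U, rfl⟩ := Φ.surjective U
      rw [h1, le_cK, cR_le, ← m.St_all h fun ν => mp ν ⊤ ≤ Φ U]
      simp only [← h2 _ U ⊥, b]
    have e2 : Φ (cR X) = cK X := eq_of_forall_le_iff fun U => by
      obtain ⟨U, rfl⟩ := Φ.surjective U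
      rw [h1, cR_le, le_cK, ← m.St_all h fun ν => mp ν (Φ U) ≤ ⊥]
      simp only [← h2 _ ⊤ U, t]
    let Ψ : Submodule F (V n F) ≃o (Submodule F (V n F))ᵒᵈ := ⟨Φ.trans OrderDual.toDual, by
      intro a b
      exact h1 _ _⟩
    have i1 : Φ (cK X ⊓ cR X) = Φ (cK X) ⊔ Φ (cR X) := Ψ.map_inf _ _
    have i2 : Φ (cK X ⊔ cR X) = Φ (cK X) ⊓ Φ (cR X) := Ψ.map_sup _ _
    rw [h3, i1, i2, e1, e2, inf_comm, sup_comm]

theorem Ty.fl_of {X : Set (R n F)} (hn : ∀ ν ∈ X, IsNilpotent ν)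
    (hc : ∀ ν ∈ X, ∀ μ ∈ X, ν * μ = μ * ν) (h0 : ∃ ν ∈ X, ν ≠ 0)
    (hs : T.u → ∀ ν ∈ X, T.st ν ∈ X) : T.Fl (cK X ⊓ cR X) (cK X ⊔ cR X) := by
  obtain ⟨μ, hμ, h0⟩ := h0
  have k1 : ∀ ν ∈ X, ∀ v ∈ cK X, ν *ᵥ v = 0 := fun ν hν v hv => by
    simpa using mp_le.1 (le_cK.1 le_rfl ν hν) v hv
  have k2 : ∀ ν ∈ X, ∀ v, ν *ᵥ v ∈ cR X := fun ν hν v =>
    mp_le.1 (cR_le.1 le_rfl ν hν) v trivial
  refine ⟨?_, ?_, inf_le_sup, fun hu => ?_⟩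
  · obtain ⟨U, h1, h2, h3⟩ := nil_fix hn hc (W := cR X)
      (fun hb => h0 (Matrix.ext_iff_mulVec.2 fun v => by simpa [hb] using k2 μ hμ v))
      fun ν hν v _ => k2 ν hν v
    exact fun hb => h1 (le_bot_iff.1 (hb ▸ le_inf
      (le_cK.2 fun ν hν => mp_le.2 fun v hv => by simp [h3 ν hν v hv]) h2))
  · obtain ⟨U, h1, h2, h3⟩ := nil_cofix hn hc (W := cK X)
      (fun hb => h0 (Matrix.ext_iff_mulVec.2 fun v => by simpa using k1 μ hμ v (by simp [hb])))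
      fun ν hν v hv => by simp [k1 ν hν v hv]
    exact fun hb => h1 (top_le_iff.1 (hb ▸ sup_le h2
      (cR_le.2 fun ν hν => mp_le.2 fun v _ => h3 ν hν v)))
  · have e : T.perp (cR X) = cK X := by
      refine le_antisymm (le_iInf₂ fun ν hν => ?_) fun v hv => ?_
      · rw [← Ty.st_st hu ν, ← Ty.perp_rg hu]
        exact T.perp_anti (le_iSup₂ (f := fun ν (_ : ν ∈ X) => rg ν) _ (hs hu ν hν))
      · have : cR X ≤ T.perp (F ∙ v) := by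
          refine iSup₂_le fun ν hν w hw => Ty.mem_perp.2 fun x hx => ?_
          obtain ⟨y, rfl⟩ := mem_rg.1 hw
          obtain ⟨z, rfl⟩ := Submodule.mem_span_singleton.1 hx
          rw [Ty.h_mulVec hu, mulVec_smul, k1 _ (hs hu ν hν) v hv]
          simp [Ty.h, Ty.bv, dotProduct]
        have h2 := T.perp_anti this
        rw [Ty.perp_perp hu] at h2
        exact h2 (Submodule.mem_span_singleton_self v)
    rw [Ty.perp_inf hu, e, ← e, Ty.perp_perp hu, sup_comm]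

theorem Cx.st_Nn (c : Cx T n G) {A1 A2 : Submodule F (V n F)} (h : T.Fl A1 A2)
    (hl : c.H ≤ c.m.St (Nn A1 A2)) : c.H = c.m.St (Nn A1 A2) := by
  obtain ⟨s, hs, h1⟩ := T.S_irr h.ne fun e => h.ne' (top_le_iff.1 (e ▸ h.le))
  exact c.st_eq hl ⟨s, hs, fun h2 => h1 ((mem_PS_Nn h.ne h.ne').1 h2).1⟩

theorem Cx.flag0 (c : Cx T n G) (hp : c.p = T.r) :
    ∃ A1 A2, T.Fl A1 A2 ∧ c.H = c.m.St (Nn A1 A2) := by
  have hN := c.m.N_normal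
  have n1 : c.Q ⊓ c.m.N ⊴ c.H := ⟨inf_le_left.trans c.tw.Qn.le,
    norm_inf c.tw.Qn.norm (by rw [normalizer_eq_top]; exact le_top)⟩
  have k0 := c.tw.meet (c.tw.QN hN) le_rfl (n1.of_le inf_le_left c.tw.Qn.le)
  have k1 : c.H ≤ 𝐍 (c.Q ⊓ c.m.N ⊓ 𝐂 c.Q) := norm_inf_cent n1.norm c.tw.Qn.norm
  set K := c.Q ⊓ c.m.N ⊓ 𝐂 c.Q
  have kQ : K ≤ c.Q := inf_le_left.trans inf_le_left
  let X : Set (R n F) := {ν | IsNilpotent ν ∧ ∃ A ∈ c.m.lift K, (A : R n F) = 1 + ν}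
  have hX : c.H ≤ c.m.St X := fun g hg => mem_stb_of (by
    rintro ν ⟨h1, A, hA, e⟩
    obtain ⟨B, hB, e'⟩ := c.m.lift_th (k1 hg) hA
    exact ⟨c.m.nilp g h1, B, hB, by rw [e', e, c.m.add, c.m.one]⟩)
  have hf : T.Fl (cK X ⊓ cR X) (cK X ⊔ cR X) := by
    refine Ty.fl_of (fun ν h => h.1) ?_ ?_ ?_
    · rintro ν ⟨h1, A, hA, e⟩ μ ⟨h2, B, hB, e'⟩
      obtain ⟨hA, a, ha, ea⟩ := c.m.mem_lift.1 hA
      obtain ⟨-, b, hb, eb⟩ := c.m.mem_lift.1 hB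
      have hc : Commute a b := (mem_cent.1 hb.2 a (kQ ha))
      have hl := c.m.lin_of_M (c.m.mem_M.2 ⟨A, hA, ea⟩)
      have h3 := (((c.m.comm_un h2 e' eb).1 hc).resolve_right fun h => c.m.not_lin_du hl h.1).2
      rw [ea, cn_apply, Units.mul_inv_eq_iff_eq_mul, e, add_mul, mul_add] at h3
      simpa using h3
    · have : K ⊓ c.m.M ≠ ⊥ := by
        rwa [inf_eq_left.2 ((inf_le_left.trans inf_le_right).trans c.m.N_le_M)]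
      obtain ⟨A, hA, hs⟩ := c.m.ex_nsc.1 this
      obtain ⟨j, hj⟩ := c.m.lift_pow (c.tw.Qp.to_le kQ) hA
      obtain ⟨hA, a, ha, ea⟩ := c.m.mem_lift.1 hA
      obtain ⟨B, hB, e, h1⟩ := Ty.ex_unip hA (hp ▸ hj)
      refine ⟨_, ⟨h1, B, c.m.mem_lift.2 ⟨hB.1, a, ha, ea.trans e.symm⟩, by simp⟩, fun h => hs ?_⟩
      rw [← cn_eq_one, ← e, cn_eq_one]
      exact ⟨1, by rw [one_smul, sub_eq_zero.1 h]⟩
    · rintro hu ν ⟨⟨k, hk⟩, A, hA, e⟩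
      refine ⟨⟨k, ?_⟩, A⁻¹, inv_mem hA, ?_⟩
      · have : ∀ j : ℕ, T.st (ν ^ j) = T.st ν ^ j := fun j => by
          induction j with
          | zero => simp [T.st_one]
          | succ j ih => rw [pow_succ, T.st_mul, ih, pow_succ']
        rw [← this, hk]
        simp [Ty.st]
      · rw [← Ty.st_inv hu (c.m.mem_lift.1 hA).1, e, T.st_add, T.st_one]
  exact ⟨_, _, hf, c.st_Nn hf fun g hg => c.m.St_flag (hX hg)⟩

theorem Cx.flag (c : Cx T n G) (hp : c.p = T.r) : ∃ A1 A2, T.Fl A1 A2 ∧ c.H = c.m.St (Nn A1 A2) ∧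
    (T.u ∨ A1 = A2 ∨ ∃ h ∈ c.H, c.m.Du h) := by
  obtain ⟨A1, A2, hf, hH⟩ := c.flag0 hp
  refine ⟨A1, A2, hf, hH, ?_⟩
  by_cases hu : T.u
  · exact .inl hu
  by_cases hd : ∃ h ∈ c.H, c.m.Du h
  · exact .inr (.inr hd)
  refine .inr (.inl ?_)
  have f1 : T.Fl A1 A1 := ⟨hf.ne, fun e => hf.ne' (top_le_iff.1 (e ▸ hf.le)), le_rfl,
    fun h => absurd h hu⟩
  have h1 : c.H = c.m.St (Nn A1 A1) := c.st_Nn f1 fun g hg => by
    obtain ⟨Φ, ⟨-, -, -, -, h3⟩ | ⟨h, -⟩⟩ := c.m.phi g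
    · have hi := (c.m.img_St (hH ▸ hg : g ∈ c.m.St (Nn A1 A2))).symm
      rw [h3] at hi
      refine c.m.St_of_img ?_
      rw [h3, ← (Nn_inj hf.ne hf.ne' hi).1]
    · exact absurd ⟨g, hg, h⟩ hd
  refine le_antisymm hf.le ?_
  by_contra hle
  refine hf.ne' ((f1.inv fun s hs e _ => ?_).2.2 hu hle)
  have h2 := c.m.lift_St hs ((mem_PS_Nn f1.ne f1.ne').2 ⟨e, e⟩)
  rw [← h1, hH] at h2
  exact ((mem_PS_Nn hf.ne hf.ne').1 (c.m.lift_St_le _ h2)).2.le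

end CF.Wb
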