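import Cfsg.Agent.Wb.B2

/-! The lifts of the nil radical of the flag lie in `O_p(H)`. -/

set_option autoImplicit false
set_option linter.unusedSectionVars false

namespace CF.Wb

open Matrix Subgroup CF.BG Module

variable {F : Type} [Field F] [Fintype F] {n : ℕ} {T : Ty F} {G : Type*} [Group G] [Finite G]

theorem Md.img_St (m : Md T n G) {X : Set (R n F)} {g : G} (h : g ∈ m.St X) : m.ρ g '' X = X := by
  ext a
  constructor
  · rintro ⟨b, hb, rfl⟩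
    exact (m.mem_St.1 h b).2 hb
  · intro ha
    exact ⟨(m.ρ g).symm a, (m.mem_St.1 h _).1 (by simpa using ha), by simp⟩

theorem Md.St_of_img (m : Md T n G) {X : Set (R n F)} {g : G} (h : m.ρ g '' X = X) :
    g ∈ m.St X :=
  mem_stb_of fun a ha => h ▸ ⟨a, ha, rfl⟩

theorem mono_bot_top {α : Type*} [PartialOrder α] [BoundedOrder α] {Φ : α ≃ α}
    (h : ∀ U W, Φ U ≤ Φ W ↔ U ≤ W) : Φ ⊥ = ⊥ ∧ Φ ⊤ = ⊤ :=
  ⟨le_bot_iff.1 (by simpa using (h ⊥ (Φ.symm ⊥)).2 bot_le),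
    top_le_iff.1 (by simpa using (h (Φ.symm ⊤) ⊤).2 le_top)⟩

theorem anti_bot_top {α : Type*} [PartialOrder α] [BoundedOrder α] {Φ : α ≃ α}
    (h : ∀ U W, Φ U ≤ Φ W ↔ W ≤ U) : Φ ⊥ = ⊤ ∧ Φ ⊤ = ⊥ :=
  ⟨top_le_iff.1 (by simpa using (h (Φ.symm ⊤) ⊥).2 bot_le),
    le_bot_iff.1 (by simpa using (h ⊤ (Φ.symm ⊥)).2 le_top)⟩

theorem rad_mp {A1 A2 : Submodule F (V n F)} {ν : R n F} :
    Rad A1 A2 ν ↔ mp ν ⊤ ≤ A2 ∧ mp ν A2 ≤ A1 ∧ mp ν A1 ≤ ⊥ := by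
  refine and_congr ?_ (and_congr Iff.rfl ?_)
  · rw [rg, mp, Submodule.map_top]
  · rw [kr, mp, le_bot_iff, LinearMap.le_ker_iff_map]

theorem rad_vec {A1 A2 : Submodule F (V n F)} {ν : R n F} :
    Rad A1 A2 ν ↔ (∀ v, ν *ᵥ v ∈ A2) ∧ (∀ v ∈ A2, ν *ᵥ v ∈ A1) ∧ ∀ v ∈ A1, ν *ᵥ v = 0 := by
  simp only [rad_mp, mp_le, Submodule.mem_top, Submodule.mem_bot, forall_true_left]

theorem Rad.add {A1 A2 : Submodule F (V n F)} {ν μ : R n F} (h : Rad A1 A2 ν) (h' : Rad A1 A2 μ) :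
    Rad A1 A2 (ν + μ) := by
  rw [rad_vec] at *
  simp only [add_mulVec]
  exact ⟨fun v => add_mem (h.1 v) (h'.1 v), fun v hv => add_mem (h.2.1 v hv) (h'.2.1 v hv),
    fun v hv => by rw [h.2.2 v hv, h'.2.2 v hv, add_zero]⟩

theorem Rad.neg {A1 A2 : Submodule F (V n F)} {ν : R n F} (h : Rad A1 A2 ν) :
    Rad A1 A2 (-ν) := by
  rw [rad_vec] at *
  simp only [neg_mulVec]
  exact ⟨fun v => neg_mem (h.1 v), fun v hv => neg_mem (h.2.1 v hv),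
    fun v hv => by rw [h.2.2 v hv, neg_zero]⟩

theorem Rad.mul {A1 A2 : Submodule F (V n F)} {ν μ : R n F} (h : Rad A1 A2 ν) (h' : Rad A1 A2 μ) :
    Rad A1 A2 (ν * μ) := by
  rw [rad_vec] at *
  simp only [← mulVec_mulVec]
  exact ⟨fun v => h.1 _, fun v _ => h.2.1 _ (h'.1 v),
    fun v hv => by rw [h'.2.2 v hv, mulVec_zero]⟩

theorem Rad.cube {A1 A2 : Submodule F (V n F)} {ν : R n F} (h : Rad A1 A2 ν) : ν ^ 3 = 0 := by
  rw [rad_vec] at h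
  refine Matrix.ext_iff_mulVec.2 fun v => ?_
  rw [pow_three, ← mulVec_mulVec, ← mulVec_mulVec, zero_mulVec]
  exact h.2.2 _ (h.2.1 _ (h.1 v))

theorem Rad.inv {A1 A2 : Submodule F (V n F)} {s : GL (Fin n) F}
    (h : Rad A1 A2 ((s : R n F) - 1)) : Rad A1 A2 (((s⁻¹ : GL (Fin n) F) : R n F) - 1) := by
  have h3 := h.cube
  have : ((s⁻¹ : GL (Fin n) F) : R n F) - 1 =
      -((s : R n F) - 1) + ((s : R n F) - 1) * ((s : R n F) - 1) := by
    have h1 := s.inv_mul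
    generalize ((s⁻¹ : GL (Fin n) F) : R n F) = t at h1
    generalize (s : R n F) = a at h1 h3
    have h4 : t * (a - 1) ^ 3 = 0 := by rw [h3, mul_zero]
    have h5 : t * (a - 1) ^ 3 = t * a * (a * a) - 3 * (t * a * a) + 3 * (t * a) - t := by
      noncomm_ring
    rw [h5, h1] at h4
    rw [← sub_eq_zero, ← neg_eq_zero, ← h4]
    noncomm_ring
  rw [this]
  exact h.neg.add (h.mul h)

theorem Rad.ps {A1 A2 : Submodule F (V n F)} (hf : T.Fl A1 A2) {s : GL (Fin n) F}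
    (h : Rad A1 A2 ((s : R n F) - 1)) : s ∈ PS (Nn A1 A2) := by
  rw [rad_vec] at h
  have e : ∀ v, (s : R n F) *ᵥ v = ((s : R n F) - 1) *ᵥ v + v := fun v => by
    rw [sub_mulVec, one_mulVec, sub_add_cancel]
  rw [mem_PS_Nn hf.ne hf.ne']
  constructor <;> refine Submodule.eq_of_le_of_finrank_eq (mp_le.2 fun v hv => ?_) (finrank_mp _ _)
  · rw [e, h.2.2 v hv, zero_add]
    exact hv
  · rw [e]
    exact add_mem (h.1 v) hv

theorem Ty.unip_pow (T : Ty F) (hn : 1 ≤ n) {a : R n F} {k j : ℕ} (h : (a - 1) ^ k = 0)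
    (hk : k ≤ T.r ^ j) : a ^ T.r ^ j = 1 := by
  have := T.char
  have := Fact.mk T.pr
  have : Nonempty (Fin n) := ⟨⟨0, hn⟩⟩
  have h1 := add_pow_char_pow_of_commute T.r j (Commute.one_right (a - 1))
  rwa [sub_add_cancel, one_pow, pow_eq_zero_of_le hk h, zero_add] at h1

/-- an element stabilising `Nn A1 A2` preserves the radical -/
theorem Md.rad_St (m : Md T n G) {A1 A2 : Submodule F (V n F)} (hf : T.Fl A1 A2) {g : G}
    (h : g ∈ m.St (Nn A1 A2)) {ν : R n F} (hr : Rad A1 A2 ν) : Rad A1 A2 (m.ρ g ν) := by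
  have hi := (m.img_St h).symm
  rw [rad_mp] at *
  obtain ⟨Φ, ⟨-, h1, -, h2, h3⟩ | ⟨-, h1, -, h2, h3⟩⟩ := m.phi g
  · rw [h3] at hi
    obtain ⟨e1, e2⟩ := Nn_inj hf.ne hf.ne' hi
    obtain ⟨b, t⟩ := mono_bot_top h1
    have a1 := (h2 _ _ _).2 hr.1
    have a2 := (h2 _ _ _).2 hr.2.1
    have a3 := (h2 _ _ _).2 hr.2.2
    rw [t, ← e2] at a1
    rw [← e1, ← e2] at a2
    rw [b, ← e1] at a3
    exact ⟨a1, a2, a3⟩
  · rw [h3] at hi
    obtain ⟨e1, e2⟩ := Nn_inj hf.ne hf.ne' hi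
    obtain ⟨b, t⟩ := anti_bot_top h1
    have a1 := (h2 _ _ _).2 hr.1
    have a2 := (h2 _ _ _).2 hr.2.1
    have a3 := (h2 _ _ _).2 hr.2.2
    rw [t, ← e1] at a1
    rw [← e1, ← e2] at a2
    rw [b, ← e2] at a3
    exact ⟨a3, a2, a1⟩

/-- the group of the radical -/
def Md.radG (m : Md T n G) (A1 A2 : Submodule F (V n F)) : Subgroup G where
  carrier := {k | ∃ s ∈ T.S n, m.ρ k = cn s ∧ Rad A1 A2 ((s : R n F) - 1)}
  one_mem' := ⟨1, one_mem _, by simp, by simp [rad_vec]⟩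
  mul_mem' := by
    rintro a b ⟨s, hs, e, r⟩ ⟨t, ht, e', r'⟩
    refine ⟨s * t, mul_mem hs ht, by rw [map_mul, map_mul, e, e'], ?_⟩
    have : ((s * t : GL (Fin n) F) : R n F) - 1 =
        ((s : R n F) - 1) * ((t : R n F) - 1) + (((s : R n F) - 1) + ((t : R n F) - 1)) := by
      rw [Units.val_mul]
      noncomm_ring
    rw [this]
    exact (r.mul r').add (r.add r')
  inv_mem' := by
    rintro a ⟨s, hs, e, r⟩
    exact ⟨s⁻¹, inv_mem hs, by rw [map_inv, map_inv, e], r.inv⟩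

theorem Cx.rad_le (c : Cx T n G) (hp : c.p = T.r) {A1 A2 : Submodule F (V n F)} (h : T.Fl A1 A2)
    (hH : c.H = c.m.St (Nn A1 A2)) {k : G} {s : GL (Fin n) F} (hs : s ∈ T.S n)
    (hk : c.m.ρ k = cn s) (hr : Rad A1 A2 ((s : R n F) - 1)) : k ∈ c.Q := by
  refine c.tw.Qm (c.m.radG A1 A2) ⟨?_, le_norm_iff.2 ?_⟩ ?_ ⟨s, hs, hk, hr⟩
  · rintro a ⟨t, -, e, r⟩
    rw [hH]
    change c.m.ρ a ∈ stb _
    rw [e]
    exact r.ps h
  · rintro g hg a ⟨t, ht, e, r⟩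
    obtain ⟨B, e1, -, hB, hl, hd⟩ := c.m.th g t
    have r' := c.m.rad_St h (hH ▸ hg) r
    rw [c.m.sub, c.m.one] at r'
    refine ⟨B, hB ht, by rw [map_mul, map_mul, map_inv, e, e1], ?_⟩
    rcases c.m.lin_or g with h1 | h1
    · rwa [hl h1]
    · rw [← hd h1.1] at r'
      simpa using r'.inv
  · rintro ⟨a, t, -, e, r⟩
    refine ⟨2, Subtype.ext (c.m.inj ?_)⟩
    have h1 : t ^ T.r ^ 2 = 1 := Units.ext (by
      rw [Units.val_pow_eq_pow_val]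
      exact T.unip_pow (le_trans one_le_two c.m.ok.n2) r.cube (by nlinarith [T.pr.two_le]))
    change c.m.ρ (a ^ c.p ^ 2) = c.m.ρ 1
    rw [map_pow, e, hp, ← map_pow, h1, map_one, map_one]

end CF.Wb
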