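import Cfsg.Agent.Wb.B1

/-! Wielandt bound: atoms of a Boolean algebra of idempotents. -/

set_option autoImplicit false
set_option linter.unusedSectionVars false

namespace CF.Wb

open Matrix Subgroup CF.BG Module

variable {F : Type} [Field F] [Fintype F] {n : ℕ} {T : Ty F} {G : Type*} [Group G] [Finite G]

theorem atoms {B : Set (R n F)} (hi : ∀ ε ∈ B, ε * ε = ε) (hc : ∀ ε ∈ B, ∀ δ ∈ B, ε * δ = δ * ε)
    (h1 : (1 : R n F) ∈ B) (hs : ∀ ε ∈ B, 1 - ε ∈ B) (hm : ∀ ε ∈ B, ∀ δ ∈ B, ε * δ ∈ B)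
    (nt : ∃ ε ∈ B, ε ≠ 0 ∧ ε ≠ 1) : ∃ D : Finset (R n F),
      (∀ ε, ε ∈ D ↔ ε ∈ B ∧ ε ≠ 0 ∧ ∀ δ ∈ B, δ * ε = 0 ∨ δ * ε = ε) ∧
      (∀ ε ∈ D, ∀ δ ∈ D, ε ≠ δ → ε * δ = 0) ∧ ∑ ε ∈ D, ε = 1 ∧ 2 ≤ D.card := by
  classical
  obtain ⟨D, hD⟩ : ∃ D : Finset (R n F), ∀ ε, ε ∈ D ↔ ε ∈ B ∧ ε ≠ 0 ∧ ∀ δ ∈ B, δ * ε = 0 ∨ δ * ε = ε :=
    ⟨(Set.toFinite _).toFinset, fun _ => Set.Finite.mem_toFinset _⟩
  have o : ∀ ε ∈ D, ∀ δ ∈ D, ε ≠ δ → ε * δ = 0 := fun ε he δ hd e => by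
    rw [hD] at he hd
    refine (hd.2.2 ε he.1).resolve_right fun e1 => ?_
    have e2 := he.2.2 δ hd.1
    rw [← hc ε he.1 δ hd.1, e1] at e2
    exact e2.elim hd.2.1 e.symm
  have ex : ∀ η ∈ B, η ≠ 0 → ∃ δ ∈ D, η * δ = δ := fun η hη h0 => by
    obtain ⟨δ, ⟨d1, d2, d3⟩, hδ⟩ := Set.exists_min_image {δ | δ ∈ B ∧ δ ≠ 0 ∧ η * δ = δ}
      (fun δ => {γ | γ * δ = γ}.ncard) (Set.toFinite _) ⟨η, hη, h0, hi η hη⟩
    refine ⟨δ, (hD δ).2 ⟨d1, d2, fun γ hγ => or_iff_not_imp_left.2 fun e => by_contra fun e' => ?_⟩, d3⟩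
    refine (hδ _ ⟨hm γ hγ δ d1, e, by rw [← mul_assoc, hc η hη γ hγ, mul_assoc, d3]⟩).not_gt
      (Set.ncard_lt_ncard ⟨fun a (ha : a * (γ * δ) = a) => ?_, fun h => e' ?_⟩)
    · show a * δ = a
      rw [← ha, mul_assoc, mul_assoc, hi δ d1]
    · have : δ * (γ * δ) = δ := h (hi δ d1)
      rwa [← mul_assoc, ← hc γ hγ δ d1, mul_assoc, hi δ d1] at this
  have sm : ∀ E ⊆ D, 1 - ∑ ε ∈ E, ε ∈ B := fun E => by
    induction E using Finset.induction_on with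
    | empty => simpa using h1
    | insert a E ha ih =>
      intro hE
      have h2 := hE (Finset.mem_insert_self _ _)
      have h3 := (Finset.subset_insert _ _).trans hE
      convert hm _ (hs a ((hD a).1 h2).1) _ (ih h3) using 1
      rw [Finset.sum_insert ha, sub_mul, one_mul, mul_sub, mul_one, Finset.mul_sum,
        Finset.sum_eq_zero fun b hb => o a h2 b (h3 hb) (ne_of_mem_of_not_mem hb ha).symm]
      abel
  refine ⟨D, hD, o, by_contra fun e => ?_, ?_⟩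
  · obtain ⟨δ, hδ, e1⟩ := ex _ (sm D subset_rfl) (sub_ne_zero.2 (Ne.symm e))
    rw [sub_mul, one_mul, Finset.sum_mul, Finset.sum_eq_single_of_mem δ hδ fun b hb => o b hb δ hδ,
      hi δ ((hD δ).1 hδ).1, sub_self] at e1
    exact ((hD δ).1 hδ).2.1 e1.symm
  · obtain ⟨ε, he, e0, e1⟩ := nt
    obtain ⟨a, ha, e2⟩ := ex ε he e0
    obtain ⟨b, hb, e3⟩ := ex _ (hs ε he) (sub_ne_zero.2 e1.symm)
    refine Finset.one_lt_card.2 ⟨a, ha, b, hb, ?_⟩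
    rintro rfl
    rw [sub_mul, one_mul, e2, sub_self] at e3
    exact ((hD a).1 ha).2.1 e3.symm

open _root_.Classical in
theorem Ty.Id.sy {ε : R n F} (h : T.Id ε) (h0 : ε ≠ 0) (h1 : ε ≠ 1) : T.Sy {ε, 1 - ε} := by
  have e1 : ε * (1 - ε) = 0 := by rw [mul_sub, mul_one, h.1, sub_self]
  have e2 : (1 - ε) * ε = 0 := by rw [sub_mul, one_mul, h.1, sub_self]
  have e : ε ≠ 1 - ε := fun e => h0 (by rw [← h.1]; nth_rw 2 [e]; exact e1)
  refine ⟨?_, ?_, ?_, by simp [Finset.sum_pair e], by simp [Finset.card_pair e], fun hu => ?_⟩ <;>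
    simp only [Finset.mem_insert, Finset.mem_singleton, forall_eq_or_imp, forall_eq]
  exacts [⟨h.1, h.compl.1⟩, ⟨h0, sub_ne_zero.2 h1.symm⟩, by simp [e1, e2], ⟨h.2 hu, h.compl.2 hu⟩]

theorem Md.mem_St_fix (m : Md T n G) {g : G} {ε : R n F} (h : m.ρ g ε = ε) :
    g ∈ m.St {ε, 1 - ε} := mem_stb_of (by simp [h, m.sub, m.one])

theorem Cx.of_sy (c : Cx T n G) {D : Finset (R n F)} (h : T.Sy D) (hl : c.H ≤ c.m.St D) :
    (∃ D k, c.Eq D k) ∨ ∃ ε, c.Tw ε := by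
  classical
  obtain ⟨a, ha⟩ := Finset.card_pos.1 (two_pos.trans_le h.two)
  by_cases e : ∀ ε ∈ D, ε.rank = a.rank
  · exact .inl ⟨D, _, h, hl, e⟩
  push Not at e
  obtain ⟨b, hb, e⟩ := e
  set E := D.filter (·.rank = a.rank)
  have hE : ∀ ε ∈ D, ε * ∑ δ ∈ E, δ = if ε ∈ E then ε else 0 := fun ε he => by
    rw [Finset.mul_sum, ← Finset.sum_ite_eq E ε fun _ => ε]
    refine Finset.sum_congr rfl fun δ hd => ?_
    split_ifs with e
    exacts [e ▸ h.id ε he, h.orth ε he δ (Finset.mem_filter.1 hd).1 e]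
  have h1 : T.Id (∑ δ ∈ E, δ) := ⟨by
    rw [Finset.sum_mul]
    exact Finset.sum_congr rfl fun δ hd => by rw [hE δ (Finset.mem_filter.1 hd).1, if_pos hd], fun hu => by
    rw [← AddMonoidHom.mk'_apply T.st T.st_add, map_sum]
    exact Finset.sum_congr rfl fun δ hd => h.st hu δ (Finset.mem_filter.1 hd).1⟩
  have h2 : ∑ δ ∈ E, δ ≠ 0 := fun e => h.ne a ha (by
    simpa [e, E, ha] using (hE a ha).symm)
  have h3 : ∑ δ ∈ E, δ ≠ 1 := fun e' => h.ne b hb (by simpa [e', E, e] using hE b hb)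
  have h4 : ∀ g ∈ c.H, c.m.ρ g (∑ δ ∈ E, δ) = ∑ δ ∈ E, δ := fun g hg => by
    rw [← AddMonoidHom.mk'_apply (c.m.ρ g) (c.m.add g), map_sum]
    exact Finset.sum_equiv (c.m.ρ g) (fun δ => by
      rw [Finset.mem_filter, Finset.mem_filter, c.m.rank]
      exact and_congr_left' (c.m.mem_St.1 (hl hg) δ).symm) fun _ _ => rfl
  generalize ∑ δ ∈ E, δ = ε at *
  have h5 : c.H ≤ c.m.St {ε, 1 - ε} := fun g hg => c.m.mem_St_fix (h4 g hg)
  rcases lt_trichotomy (1 - ε).rank ε.rank with l | l | l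
  · exact .inr ⟨ε, h1, h3, l, h5⟩
  · exact .inl ⟨_, ε.rank, h1.sy h2 h3, by simpa using h5, by simp [l]⟩
  · exact .inr ⟨1 - ε, h1.compl, by simpa using h2, by simpa using l, by simpa [Set.pair_comm] using h5⟩

end CF.Wb
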