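import Cfsg.Agent.Wb.HV

/-! Wielandt bound: unipotent elements. -/

set_option autoImplicit false
set_option linter.unusedSectionVars false

namespace CF.Wb

open Matrix Subgroup CF.BG Module

variable {F : Type} [Field F] [Fintype F] {n : ℕ} {T : Ty F} {G : Type*} [Group G] [Finite G]

open HV

theorem nil_sc {ν : R n F} (h : IsNilpotent ν) (hs : Sc ν) : ν = 0 := by
  obtain ⟨z, rfl⟩ := hs
  obtain ⟨k, hk⟩ := h
  rw [smul_pow, one_pow, smul_eq_zero] at hk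
  exact smul_eq_zero.2 (hk.imp_left eq_zero_of_pow_eq_zero)

theorem unip_eq {ν μ : R n F} (h : IsNilpotent ν) (h' : IsNilpotent μ) {z : F}
    (he : 1 + ν = z • (1 + μ)) : ν = μ := by
  have e : ν - z • μ = (z - 1) • 1 := by
    rw [eq_sub_of_add_eq' he]; module
  have c : Commute ν (z • μ) := by
    rw [eq_add_of_sub_eq e]
    exact ((Commute.one_left _).smul_left _).add_left (Commute.refl _)
  have := nil_sc (c.isNilpotent_sub h (h'.smul z)) ⟨_, e⟩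
  rcases smul_eq_zero.1 (e.symm.trans this) with h1 | h1
  · rwa [sub_eq_zero.1 h1, one_smul, sub_eq_zero] at this
  · rw [← mul_one ν, ← mul_one μ, h1, mul_zero, mul_zero]

namespace UN

theorem one_add_pow {ν : R n F} (h : ν * ν = 0) (m : ℕ) : (1 + ν) ^ m = 1 + (m : F) • ν := by
  induction m with
  | zero => simp
  | succ m ih =>
    rw [pow_succ, ih, add_mul, mul_add, mul_add, smul_mul_assoc _ ν ν, h]
    simp only [mul_one, one_mul, Nat.cast_succ]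
    module

theorem sub_one_pow (T : Ty F) (a : R n F) (k : ℕ) : (a - 1) ^ T.r ^ k = a ^ T.r ^ k - 1 := by
  cases n with
  | zero => exact Subsingleton.elim _ _
  | succ n =>
    haveI := T.char
    haveI : Fact T.r.Prime := ⟨T.pr⟩
    rw [sub_pow_char_pow_of_commute _ _ (Commute.one_right a), one_pow]

theorem pow_inj (T : Ty F) {a b : F} {k : ℕ} (h : a ^ T.r ^ k = b ^ T.r ^ k) : a = b :=
  haveI := T.char
  haveI : Fact T.r.Prime := ⟨T.pr⟩
  (iterateFrobenius F T.r k).injective h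

theorem unip_pow (T : Ty F) {ν : R n F} (h : IsNilpotent ν) : ∃ k, (1 + ν) ^ T.r ^ k = 1 := by
  obtain ⟨k, hk⟩ := h
  refine ⟨k, sub_eq_zero.1 ?_⟩
  rw [← sub_one_pow, add_sub_cancel_left, pow_eq_zero_of_le (Nat.lt_pow_self T.pr.one_lt).le hk]

theorem vv_mulVec (u v w : V n F) : vecMulVec u v *ᵥ w = (v ⬝ᵥ w) • u := by
  rw [vecMulVec_mulVec, op_smul_eq_smul]

theorem vv_mul (T : Ty F) (x y z t : V n F) :
    vecMulVec x (T.bv y) * vecMulVec z t = T.h z y • vecMulVec x t := by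
  rw [vecMulVec_mul_vecMulVec, T.bv_dot, vecMulVec_smul]

theorem bv_bv (hu : T.u) (v : V n F) : T.bv (T.bv v) = v := funext fun _ => T.bar_bar hu _

theorem bv_smul (T : Ty F) (z : F) (v : V n F) : T.bv (z • v) = T.bar z • T.bv v :=
  funext fun _ => map_mul _ _ _

theorem bv_vecMul (hu : T.u) (v : V n F) (a : R n F) : T.bv v ᵥ* a = T.bv (T.st a *ᵥ v) := by
  rw [bv_eq T (_ *ᵥ _), ← map_mulVec, ← mulVec_transpose]
  congr 1
  ext i j
  simp [Ty.st, T.bar_bar hu]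

theorem bv_ne (T : Ty F) {v : V n F} (h : v ≠ 0) : T.bv v ≠ 0 := fun e =>
  h (funext fun i => by simpa [Ty.bv] using congrFun e i)

theorem cn_of_smul {A B : GL (Fin n) F} {z : F} (h : (A : R n F) = z • (B : R n F)) :
    cn A = cn B := Equiv.ext fun a => by
  rw [cn_apply, cn_apply, Units.mul_inv_eq_iff_eq_mul, h, mul_smul_comm, smul_mul_assoc,
    Units.inv_mul_cancel_right]

theorem ex_not_span {X : Submodule F (V n F)} (h : 2 ≤ finrank F X) (a : V n F) :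
    ∃ x ∈ X, x ∉ F ∙ a := by
  by_contra! c
  have := (Submodule.finrank_mono c).trans (finrank_span_le_card ({a} : Set (V n F)))
  simp at this
  omega

end UN

open UN

theorem Ty.pow_sc (T : Ty F) {p j : ℕ} (hp : p.Prime) (hr : p ≠ T.r) {ν : R n F} (h : ν * ν = 0)
    (hs : Sc ((1 + ν) ^ p ^ j)) : ν = 0 := by
  haveI := T.char
  obtain ⟨z, hz⟩ := hs
  rw [one_add_pow h] at hz
  refine (smul_eq_zero.1 (nil_sc (IsNilpotent.smul ⟨2, (sq ν).trans h⟩ ((p ^ j : ℕ) : F)) ⟨z - 1, by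
    rw [sub_smul, ← hz, one_smul, add_sub_cancel_left]⟩)).resolve_left fun c => hr ?_
  exact ((Nat.prime_dvd_prime_iff_eq T.pr hp).1
    (T.pr.dvd_of_dvd_pow ((CharP.cast_eq_zero_iff F T.r _).1 c))).symm

theorem Ty.un_of {ν : R n F} (h : IsNilpotent ν) (hs : T.u → T.st (1 + ν) * (1 + ν) = 1) :
    T.Un ν := by
  obtain ⟨A, hA⟩ := h.isUnit_one_add
  obtain ⟨k, hk⟩ := unip_pow T h
  refine ⟨A, T.mem_S.2 ⟨fun hu => hA ▸ hs hu, pow_inj T (k := k) ?_⟩, hA⟩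
  rw [← det_pow, hA, hk, det_one, one_pow]

theorem Ty.skew_un {ν : R n F} (h : ν * ν = 0) (hs : T.u → T.st ν = -ν) : T.Un ν :=
  Ty.un_of ⟨2, (sq ν).trans h⟩ fun hu => by
    rw [T.st_add, T.st_one, hs hu]
    simp [mul_add, add_mul, h]

theorem Ty.Tv.sq {v φ : V n F} (h : T.Tv v φ) : vecMulVec v φ * vecMulVec v φ = 0 := by
  simp [vecMulVec_mul_vecMulVec, h.2.2.1]

theorem Ty.Tv.ne {v φ : V n F} (h : T.Tv v φ) : vecMulVec v φ ≠ 0 :=
  fun c => (vecMulVec_eq_zero.1 c).elim h.1 h.2.1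

theorem Ty.Tv.un {v φ : V n F} (h : T.Tv v φ) : T.Un (vecMulVec v φ) :=
  Ty.skew_un h.sq fun hu => by
    obtain ⟨γ, h1, rfl⟩ := h.2.2.2 hu
    rw [T.st_vv, bv_smul, bv_bv hu, h1, smul_vecMulVec, vecMulVec_smul, neg_smul]

theorem Ty.Tv.se {v φ : V n F} (h : T.Tv v φ) {ε : R n F} (hs : Sup ε v φ) :
    ∃ A ∈ T.Se ε, (A : R n F) = 1 + vecMulVec v φ := by
  obtain ⟨A, h1, h2⟩ := h.un
  refine ⟨A, ⟨h1, ?_, ?_⟩, h2⟩
  · rw [h2, add_mul, one_mul, mul_sub, mul_one, vecMulVec_mul, hs.2, sub_self, add_zero]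
  · rw [h2, mul_add, mul_one, sub_mul, one_mul, mul_vecMulVec, hs.1, sub_self, add_zero]

theorem Ty.tv_of (hu : T.u) {v : V n F} (h0 : v ≠ 0) (hv : T.h v v = 0) {γ : F} (hγ : γ ≠ 0)
    (hs : T.bar γ = -γ) : T.Tv v (γ • T.bv v) :=
  ⟨h0, smul_ne_zero hγ (bv_ne T h0), by rw [smul_dotProduct, T.bv_dot, hv, smul_zero],
    fun _ => ⟨γ, hs, rfl⟩⟩

theorem Ty.Tv.sup (hu : T.u) {v φ : V n F} (h : T.Tv v φ) {ε : R n F} (he : T.Id ε)
    (hv : ε *ᵥ v = v) : Sup ε v φ := by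
  obtain ⟨γ, -, rfl⟩ := h.2.2.2 hu
  exact ⟨hv, by rw [smul_vecMul, bv_vecMul hu, he.2 hu, hv]⟩

theorem Ty.ex_tv {ε : R n F} (he : T.Id ε) (h2 : 2 ≤ ε.rank) : ∃ v φ, T.Tv v φ ∧ Sup ε v φ := by
  obtain ⟨v, hv, h0⟩ := ex_not_span (X := rg ε) h2 0
  rw [Submodule.span_zero_singleton, Submodule.mem_bot] at h0
  by_cases hu : T.u
  · obtain ⟨a, ha, e⟩ := T.ex_val hu (X := rg ε) (fun c => h0 ((he.nd hu).le ⟨hv, c hv⟩))
      (map_one _) one_ne_zero
    obtain ⟨x, hx, h1⟩ := ex_not_span (X := rg ε) h2 a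
    obtain ⟨z, hz⟩ := T.ex_norm hu (b := T.h x a * T.h a x - T.h x x) (by
      rw [map_sub, map_mul, h_fix hu, ← T.h_symm hu, ← T.h_symm hu, mul_comm])
    obtain ⟨γ, h3, h4⟩ := T.ex_skew hu
    have t := T.tv_of hu (v := x + (z - T.h x a) • a) (fun c => h1 (Submodule.mem_span_singleton.2
      ⟨_, by rw [eq_neg_of_add_eq_zero_left c, neg_smul]⟩)) (by
        simp only [T.h_add_left, T.h_add_right, T.h_smul_left, T.h_smul_right, e, map_sub,
          ← T.h_symm hu]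
        linear_combination hz) h3 h4
    exact ⟨_, _, t, t.sup hu he ((mem_rg_id he.1).1 (add_mem hx (Submodule.smul_mem _ _ ha)))⟩
  obtain ⟨x, hx, h1⟩ := ex_not_span (X := rg ε) h2 v
  obtain ⟨φ, h3, h4⟩ := ex_fun h1
  rw [mem_rg_id he.1] at hv hx
  refine ⟨v, φ ᵥ* ε, ⟨h0, fun c => ?_, ?_, fun c => (hu c).elim⟩, hv, by rw [vecMul_vecMul, he.1]⟩
  · rw [← hx, dotProduct_mulVec, c, zero_dotProduct] at h3
    exact zero_ne_one h3
  · rw [← dotProduct_mulVec, hv, h4 v (Submodule.mem_span_singleton_self v)]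

theorem Ty.ei_mulVec (T : Ty F) (w v : V n F) (c : F) (x : V n F) :
    T.ei w v c *ᵥ x = T.h x w • v - T.h x v • w - (c * T.h x w) • w := by
  simp only [Ty.ei, sub_mulVec, smul_mulVec, vv_mulVec, T.bv_dot, mul_smul]

theorem Ty.ei_un (hu : T.u) {w v : V n F} {c : F} (hw : T.h w w = 0) (hv : T.h v w = 0)
    (hc : c + T.bar c = T.h v v) : T.Un (T.ei w v c) ∧ IsNilpotent (T.ei w v c) := by
  have hv' := (h_swap hu).1 hv
  have h : IsNilpotent (T.ei w v c) := ⟨3, by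
    simp [pow_succ, Ty.ei, mul_sub, sub_mul, vv_mul, hw, hv, hv']⟩
  refine ⟨Ty.un_of h fun _ => ?_, h⟩
  simp only [Ty.ei, T.st_add, T.st_one, T.st_sub, T.st_smul, T.st_vv, bv_bv hu, mul_sub, sub_mul,
    mul_add, add_mul, one_mul, mul_one, smul_mul_assoc, mul_smul_comm, vv_mul, hw, hv, hv', ← hc]
  module

theorem Ty.ex_unip {A : GL (Fin n) F} (hA : A ∈ T.Γ n) {j : ℕ} (h : Sc ((A : R n F) ^ T.r ^ j)) :
    ∃ B ∈ T.S n, cn B = cn A ∧ IsNilpotent ((B : R n F) - 1) := by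
  cases n with
  | zero => exact ⟨A, T.mem_S.2 ⟨hA, det_isEmpty⟩, rfl, 0, Subsingleton.elim _ _⟩
  | succ n =>
  haveI := T.char
  haveI : Fact T.r.Prime := ⟨T.pr⟩
  obtain ⟨z, hz⟩ := h
  obtain ⟨y, hy⟩ := Finite.surjective_of_injective (iterateFrobenius F T.r j).injective z⁻¹
  replace hy : y ^ T.r ^ j = z⁻¹ := hy
  have h0 : z ≠ 0 := fun c => (A ^ T.r ^ j).ne_zero (by rw [Units.val_pow_eq_pow_val, hz, c, zero_smul])
  have h1 : IsNilpotent (y • (A : R (n + 1) F) - 1) := ⟨T.r ^ j, by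
    rw [sub_one_pow, smul_pow, hy, hz, inv_smul_smul₀ h0, sub_self]⟩
  obtain ⟨B, h2, h3⟩ := T.un_of h1 fun hu => by
    have := pow_mem hA (T.r ^ j) hu
    rw [Units.val_pow_eq_pow_val, hz, T.st_smul, T.st_one, smul_mul_smul, one_mul,
      ← sub_eq_zero, ← one_smul F (1 : R (n + 1) F), smul_smul, ← sub_smul, smul_eq_zero_iff_left
      one_ne_zero, mul_one, sub_eq_zero] at this
    rw [add_sub_cancel, T.st_smul, smul_mul_smul, hA hu, pow_inj T (k := j) (a := T.bar y * y) (b := 1)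
      (by rw [mul_pow, ← map_pow, hy, map_inv₀, ← mul_inv, this, inv_one, one_pow]), one_smul]
  exact ⟨B, h2, cn_of_smul (h3.trans (add_sub_cancel _ _)), by rwa [h3, add_sub_cancel_left]⟩

theorem Ty.conj_Se {A s : GL (Fin n) F} {ε : R n F} (hA : A ∈ T.Γ n)
    (hc : (A : R n F) * ε = ε * A) (hs : s ∈ T.Se ε) : A * s * A⁻¹ ∈ T.Se ε := by
  have c : Commute (A : R n F) (1 - ε) := (Commute.one_right _).sub_right hc
  refine ⟨T.conj_S hA hs.1, ?_, ?_⟩ <;> simp only [Units.val_mul]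
  · rw [mul_assoc, c.units_inv_left.eq, ← mul_assoc, mul_assoc _ _ (1 - ε), hs.2.1, c.eq,
      Units.mul_inv_cancel_right]
  · rw [← mul_assoc, ← mul_assoc, ← c.eq, mul_assoc _ (1 - ε), hs.2.2, c.eq,
      Units.mul_inv_cancel_right]

theorem Ty.Se_comm {s : GL (Fin n) F} {ε δ : R n F} (hs : s ∈ T.Se ε)
    (h : (δ * ε = 0 ∧ ε * δ = 0) ∨ δ = ε) : (s : R n F) * δ = δ * s := by
  rcases h with h | rfl
  · have h1 := congrArg (· * δ) hs.2.1
    have h2 := congrArg (δ * ·) hs.2.2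
    simp only [mul_assoc, sub_mul, one_mul, h.2, sub_zero] at h1
    simp only [← mul_assoc, mul_sub, mul_one, h.1, sub_zero] at h2
    rw [h1, h2]
  · have := hs.2.1.trans hs.2.2.symm
    rwa [mul_sub, sub_mul, mul_one, one_mul, sub_right_inj] at this

end CF.Wb
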