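import Cfsg.Agent.Wb.A
import Cfsg.Agent.Recog.TW

/-! Thompson-Wielandt data from a primitive action. -/

set_option autoImplicit false
set_option linter.unusedSectionVars false

namespace CF.Wb

open Subgroup CF.BG MulAction CF.Recog CF.Sig

variable {G : Type*} [Group G] [Finite G] {Ω : Type*} [MulAction G Ω] [Finite Ω]
  {r : Ω → Ω → Prop} {x y : Ω}

theorem rix_K (h : Orb G r) (x : Ω) {d : ℕ} (hd : {z | r x z}.ncard = d) :
    (Kr G r x).relIndex (stabilizer G x) ∣ d.factorial := by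
  classical
  have := index_ker_dvd (restrHom (stabilizer G x) {z | r x z} fun g hg y hy => by
    simpa [show g • x = x from hg] using h.inv g hy)
  rw [Nat.card_perm, Nat.card_coe_set_eq, hd] at this
  refine (congrArg index (Subgroup.ext fun g => ?_)).dvd.trans this
  rw [mem_subgroupOf, MonoidHom.mem_ker, restrHom_eq_one, mem_Kr]
  exact ⟨fun h => h.2, fun h => ⟨g.2, h⟩⟩

theorem rix_P (h : Orb G r) (x : Ω) {d : ℕ} (hd : {z | r x z}.ncard = d) :
    (Pr G r x).relIndex (Kr G r x) ∣ (d - 1).factorial ^ d := by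
  classical
  have := Fintype.ofFinite {z | r x z}
  have := index_ker_dvd (MonoidHom.pi fun y : {z | r x z} =>
    restrHom (Kr G r x) ({z | r z y} \ {x}) fun g hg z hz => ⟨by
      simpa [(mem_Kr.1 hg).2 y y.2] using h.inv g hz.1, fun h' => hz.2 (by
        rw [Set.mem_singleton_iff, ← (mem_Kr.1 hg).1, smul_left_cancel_iff] at h'
        exact h')⟩)
  rw [Nat.card_pi, Finset.prod_congr rfl (g := fun _ => (d - 1).factorial) fun y _ => by
    rw [Nat.card_perm, Nat.card_coe_set_eq, Set.ncard_sdiff_singleton_of_mem (by exact y.2),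
      h.ncard_flip y.2, hd], Finset.prod_const, Finset.card_univ, ← Nat.card_eq_fintype_card,
    Nat.card_coe_set_eq, hd] at this
  refine (congrArg index (Subgroup.ext fun g => ?_)).dvd.trans this
  rw [mem_subgroupOf, MonoidHom.mem_ker, funext_iff, mem_Pr]
  simp only [MonoidHom.pi_apply, Pi.one_apply]
  refine ⟨fun h y => restrHom_eq_one.2 fun z hz => h.2 y z y.2 hz.1,
    fun h => ⟨g.2, fun y z hy hz => ?_⟩⟩
  by_cases hzx : z = x
  · rw [hzx]; exact (mem_Kr.1 g.2).1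
  · exact restrHom_eq_one.1 (h ⟨y, hy⟩) z ⟨hz, hzx⟩

theorem slack {p d m : ℕ} (hp : p.Prime) (hd : 4 ≤ d) (hm : PiNat {p} m)
    (h : m ∣ (d - 1).factorial ^ d) : m * 2 ^ d ≤ (d - 1).factorial ^ d := by
  have key : ∀ l : ℕ, l.Prime → l ≤ 3 → l ≠ p → m * 2 ^ d ≤ (d - 1).factorial ^ d := by
    intro l hl h3 hlp
    have h1 : l ^ d ∣ (d - 1).factorial ^ d :=
      pow_dvd_pow_of_dvd (Nat.dvd_factorial hl.pos (by omega)) d
    have h2 : m.Coprime (l ^ d) := hm.coprime ((piNat_pow_self hl d).of_single (by simpa using hlp))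
    exact (Nat.mul_le_mul_left m (Nat.pow_le_pow_left hl.two_le d)).trans
      (Nat.le_of_dvd (pow_pos (Nat.factorial_pos _) d) (h2.mul_dvd_of_dvd_of_dvd h h1))
  by_cases h2 : p = 2
  · exact key 3 Nat.prime_three le_rfl (by omega)
  · exact key 2 Nat.prime_two (by norm_num) (Ne.symm h2)

theorem hf_of (h : Orb G r) {g : G} (hg : r x (g • x)) {d p : ℕ} (hd : {z | r x z}.ncard = d)
    (h4 : 4 ≤ d) (hp : p.Prime) (hc : CharP p (stabilizer G x)) (hP : Pr G r x ≠ ⊥) :
    Hf (stabilizer G x) (𝐎 {p} (stabilizer G x)) g p d (𝐎 {p} (Pr G r x)) where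
  ne h1 := by
    have := hc.subN (h.Pr_normal x).subN
    rw [Sig.CharP, h1, cent_bot, inf_top_eq, le_bot_iff] at this
    exact hP this
  nrm := (h.Pr_normal x).O _
  le := O_le_O_of_normal (h.Pr_normal x) _
  le1 := by
    rw [cj_O, cj_stab]
    exact subN_le_O ((O_normal _ _).subN.trans (h.Pr_subN hg)) (O_pi _ _)
  le2 k hk := by
    rw [cj_stab]
    intro a ha
    refine (mem_Pr.1 (BG.O_le _ _ ha)).2 _ _ hg ?_
    simpa [mul_smul, show k • x = x from hk] using h.inv (g * k * g⁻¹) hg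
  idx := by rw [cj_stab, ← h.ncard_eq hg, hd]
  sl h1 h2 := by
    have h3 : PiGrp {p} (Kr G r x) := piGrp_of_isPGroup hp fun k => by
      obtain ⟨j, hj⟩ := h1 k (Kr_le k.2) fun a ha => by
        rw [cj_stab]
        refine (mem_Kr.1 k.2).2 _ ?_
        simpa [mul_smul, show a • x = x from ha] using h.inv a hg
      exact ⟨j, Subtype.ext hj⟩
    rw [O_of_pi (h3.le Pr_le)] at h2
    rw [← card_mul_relIndex (Kr_le (r := r)), ← card_mul_relIndex (Pr_le (r := r)), Bn, mul_comm]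
    refine Nat.mul_le_mul (Nat.le_of_dvd (Nat.factorial_pos _) (rix_K h x hd)) ?_
    rw [mul_comm]
    exact (Nat.mul_le_mul_left _ h2).trans (slack hp h4 (h3.relIndex _) (rix_P h x hd))

theorem tw_of {Ω : Type*} [MulAction G Ω] [FaithfulSMul G Ω] [Finite Ω] (N : Subgroup G)
    (hN : N.Normal) (h1 : N ≠ ⊥) (hprim : MulAction.IsPreprimitive G Ω) (a b : Ω) (d : ℕ)
    (hd : Nat.card (MulAction.orbit (MulAction.stabilizer G a) b) = d) (h4 : 4 ≤ d) :
    ♯(MulAction.stabilizer G a) ≤ Bn d ∨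
      ∃ Q g p P P', TW N (MulAction.stabilizer G a) Q g p d P P' := by
  obtain ⟨r, h, hab, hr, -⟩ := exists_orb hprim.toIsPretransitive hd (by omega)
  by_cases hP : Pr G r a = ⊥ ∨ Pr G (flip r) a = ⊥
  · exact .inl (Nat.le_of_dvd (mul_pos (Nat.factorial_pos _) (pow_pos (Nat.factorial_pos _) d))
      (h.card_dvd hab hr hP))
  push Not at hP
  obtain ⟨p, hp, hc⟩ := h.charP hprim hP.1 hP.2
  have tr : ∀ X : Subgroup G, X.Normal → X ≠ ⊥ → ∃ g ∈ X, g • a = b := fun X hX h1 => by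
    obtain ⟨n, hn, hn1⟩ := exists_mem_ne_one h1
    obtain ⟨y, hy⟩ := CF.Perm.exists_smul_ne_of_ne_one (α := Ω) hn1
    have := IsQuasiPreprimitive.isPretransitive_of_normal (G := G) (X := Ω) (N := X) fun h2 =>
      hy (by simpa using (h2.ge (Set.mem_univ y)) ⟨n, hn⟩)
    obtain ⟨g, hg⟩ := this.exists_smul_eq a b
    exact ⟨g, g.2, hg⟩
  obtain ⟨g, hg, rfl⟩ := tr N hN h1
  have hg' : flip r a (g⁻¹ • a) := by simpa [flip] using h.inv g⁻¹ hab
  have hr' : {z | flip r a z}.ncard = d := by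
    have h2 := h.ncard_flip (x := g⁻¹ • a) hg'
    rw [h.ncard_eq (x := g⁻¹ • a) hg', ← relIndex_cj g, cj_stab, cj_stab, smul_inv_smul,
      ← h.ncard_eq hab, hr] at h2
    exact h2
  have f1 := hf_of h hab hr h4 hp hc hP.1
  have : Nontrivial Ω := ⟨⟨_, _, h.ne hab⟩⟩
  refine .inr ⟨_, g, p, _, _, hp, ?_, h4, IsPreprimitive.isCoatom_stabilizer_of_isPreprimitive G a,
    fun X hX hl => ?_, hg, fun h2 => h.ne hab h2.symm, O_normal _ _, (O_pi _ _).isPGroup,
    fun X hX hX' => le_O hX (piGrp_of_isPGroup hp hX'),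
    fun k hk hk' => hc (mem_inf.2 ⟨hk, mem_cent.2 fun a ha => (hk' a ha).symm⟩), f1,
    hf_of h.flip hg' hr' h4 hp hc hP.2⟩
  · by_contra h2
    have h3 : 𝐎 {p} (stabilizer G a) ≤ Pr G r a := by
      refine (O_pi _ _).le_of_relIndex (BG.O_le _ _) (h.Pr_normal a).norm
        (PiNat.dvd ?_ (h.relIndex_Pr_dvd a hr))
      rw [piNat_compl_single hp, hp.dvd_mul, hp.dvd_factorial]
      rintro (h3 | h3)
      · exact h2 h3
      · have := hp.dvd_factorial.1 (hp.dvd_of_dvd_pow h3)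
        omega
    have h5 := O_eq_bot_of_le hprim (h.ne hab) (subN_le_O ((NormalIn.subN ⟨h3,
      (h.Pr_normal a).le.trans (O_normal _ _).norm⟩).trans (h.Pr_subN hab)) (O_pi _ _))
    exact f1.ne (eq_bot_mono h5 f1.le)
  · by_contra h2
    obtain ⟨k, hk, h3⟩ := tr X hX h2
    exact h.ne hab ((hl hk).symm.trans h3)

end CF.Wb
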