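import Cfsg.Agent.Wb.B1
import Cfsg.Agent.Wb.UN
import Cfsg.Agent.Wb.AB
import Cfsg.Agent.BG.B10

/-! A non-cyclic group of square-zero unipotent elements cannot act on the `p`-core. -/

set_option autoImplicit false
set_option linter.unusedSectionVars false

namespace CF.Wb

open Matrix Subgroup CF.BG Module

variable {F : Type} [Field F] [Fintype F] {n : ℕ} {T : Ty F} {G : Type*} [Group G] [Finite G]

namespace X2

variable {I J : Submodule F (V n F)} {a b : R n F}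

theorem mem : a ∈ Nn I J ↔ (∀ x, a *ᵥ x ∈ I) ∧ ∀ x ∈ J, a *ᵥ x = 0 :=
  and_congr ⟨fun h x => h (mem_rg.2 ⟨x, rfl⟩), fun h _ m => let ⟨x, r⟩ := mem_rg.1 m; r ▸ h x⟩
    ⟨fun h _ m => mem_kr.1 (h m), fun h x m => mem_kr.2 (h x m)⟩

theorem mul (l : I ≤ J) (h : a ∈ Nn I J) (k : b ∈ Nn I J) : a * b = 0 := ext_iff_mulVec.2 fun x => by
  rw [← mulVec_mulVec, (mem.1 h).2 _ (l ((mem.1 k).1 x)), zero_mulVec]

theorem om (h : a * b = 0) : (1 + a) * (1 + b) = 1 + (a + b) := by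
  rw [add_mul, mul_add a, h, one_mul, mul_one]; abel

theorem lin (h : a ∈ Nn I J) (k : b ∈ Nn I J) (y z : F) : y • a + z • b ∈ Nn I J :=
  mem.2 ⟨fun x => by
    rw [add_mulVec, smul_mulVec, smul_mulVec]
    exact add_mem (I.smul_mem _ ((mem.1 h).1 x)) (I.smul_mem _ ((mem.1 k).1 x)), fun x m => by
    simp [add_mulVec, smul_mulVec, (mem.1 h).2 x m, (mem.1 k).2 x m]⟩

theorem stab {s : GL (Fin n) F} (h : cn s a = a) : cn s ∈ stb (Nn (rg a) (kr a)) := mem_stb_of fun b k => by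
  rw [cn_apply, Units.mul_inv_eq_iff_eq_mul] at h
  refine mem.2 ⟨fun x => ?_, fun x m => ?_⟩
  · rw [cn_apply, ← mulVec_mulVec, ← mulVec_mulVec]
    obtain ⟨y, r⟩ := mem_rg.1 ((mem.1 k).1 ((s⁻¹ : GL (Fin n) F) *ᵥ x))
    exact mem_rg.2 ⟨s *ᵥ y, by rw [← r, mulVec_mulVec, mulVec_mulVec, h]⟩
  · rw [cn_apply, ← mulVec_mulVec, ← mulVec_mulVec, (mem.1 k).2, mulVec_zero]
    rw [mem_kr, mulVec_mulVec, ← one_mul (a * _), ← s.inv_mul, mul_assoc, ← mul_assoc (s : R n F), h,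
      Units.mul_inv_cancel_right, ← mulVec_mulVec, mem_kr.1 m, mulVec_zero]

theorem rk {ν : R n F} (h : IsUnit a) (c : ν * a = a * ν) : rg (a * ν) = rg ν ∧ kr (a * ν) = kr ν := by
  obtain ⟨a, rfl⟩ := h
  constructor <;> ext x
  · rw [mem_rg, mem_rg, ← c]
    exact ⟨fun ⟨w, r⟩ => ⟨_, (mulVec_mulVec ..).trans r⟩, fun ⟨w, r⟩ => ⟨(a⁻¹ : (R n F)ˣ) *ᵥ w, by
      rw [mulVec_mulVec, Units.mul_inv_cancel_right, r]⟩⟩
  · rw [mem_kr, mem_kr, ← mulVec_mulVec]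
    exact ⟨fun r => by rw [← one_mulVec (ν *ᵥ x), ← a.inv_mul, ← mulVec_mulVec, r, mulVec_zero],
      fun r => by rw [r, mulVec_zero]⟩

end X2

theorem Cx.x2 (c : Cx T n G) (hp : c.p ≠ T.r) {ν μ : R n F} {I J : Submodule F (V n F)}
    (hI : I ≠ ⊥) (hIJ : I ≤ J) (h : ∀ i j : ℕ, ¬ (T.r ∣ i ∧ T.r ∣ j) →
      rg (i • ν + j • μ) = I ∧ kr (i • ν + j • μ) = J)
    (h1 : ∃ A ∈ T.S n, A ∈ c.m.lift c.H ∧ (A : R n F) = 1 + ν)
    (h2 : ∃ A ∈ T.S n, A ∈ c.m.lift c.H ∧ (A : R n F) = 1 + μ) : False := by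
  have ch := T.char
  have r1 : ¬ T.r ∣ 1 := T.pr.not_dvd_one
  replace h : ∀ i j : ℕ, ¬ ((i : F) = 0 ∧ (j : F) = 0) →
      rg ((i : F) • ν + (j : F) • μ) = I ∧ kr ((i : F) • ν + (j : F) • μ) = J := fun i j k => by
    simpa only [Nat.cast_smul_eq_nsmul] using h i j (by simpa only [CharP.cast_eq_zero_iff F T.r] using k)
  have nz : ∀ i j : ℕ, (i : F) • ν + (j : F) • μ = 0 → (i : F) = 0 ∧ (j : F) = 0 := fun i j z => by_contra fun k =>
    hI (by rw [← (h i j k).1, z]; exact eq_bot_iff.2 fun x m => let ⟨y, r⟩ := mem_rg.1 m; by simp [← r])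
  have mν : ν ∈ Nn I J := by simpa [Nn] using (h 1 0 (by simp)).imp (·.le) (·.ge)
  have mμ : μ ∈ Nn I J := by simpa [Nn] using (h 0 1 (by simp)).imp (·.le) (·.ge)
  have sq := fun y z y' z' : F => X2.mul hIJ (X2.lin mν mμ y z) (X2.lin mν mμ y' z')
  have nl : ∀ y z : F, IsNilpotent (y • ν + z • μ) := fun y z => ⟨2, (_root_.sq _).trans (sq ..)⟩
  have rp := T.pr.pos
  let X : Subgroup G :=
    { carrier := {g | g ∈ c.H ∧ ∃ A ∈ T.S n, ∃ i j : ℕ, c.m.ρ g = cn A ∧ (A : R n F) = 1 + ((i : F) • ν + (j : F) • μ)}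
      one_mem' := ⟨one_mem _, 1, one_mem _, 0, 0, by simp, by simp⟩
      mul_mem' := by
        rintro a b ⟨a1, A, a2, i, j, a3, a4⟩ ⟨b1, B, b2, k, l, b3, b4⟩
        refine ⟨mul_mem a1 b1, A * B, mul_mem a2 b2, i + k, j + l, by rw [map_mul, map_mul, a3, b3], ?_⟩
        rw [Units.val_mul, a4, b4, X2.om (sq ..)]
        push_cast
        module
      inv_mem' := by
        rintro a ⟨a1, A, a2, i, j, a3, a4⟩
        refine ⟨inv_mem a1, A⁻¹, inv_mem a2, (T.r - 1) * i, (T.r - 1) * j, by rw [map_inv, map_inv, a3],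
          Units.inv_eq_of_mul_eq_one_right ?_⟩
        rw [a4, X2.om (sq ..)]
        push_cast [rp]
        simp only [CharP.cast_eq_zero]
        module }
  obtain ⟨A, A1, A2, A3⟩ := h1
  obtain ⟨B, B1, B2, B3⟩ := h2
  obtain ⟨-, k, kH, hk⟩ := c.m.mem_lift.1 A2
  obtain ⟨-, l, lH, hl⟩ := c.m.mem_lift.1 B2
  have kX : k ∈ X := ⟨kH, A, A1, 1, 0, hk, by simp [A3]⟩
  have lX : l ∈ X := ⟨lH, B, B1, 0, 1, hl, by simp [B3]⟩
  have pw : ∀ g ∈ X, g ^ T.r = 1 := by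
    rintro g ⟨-, C, -, i, j, a, b⟩
    refine c.m.inj ?_
    rw [map_pow, a, ← map_pow, map_one, show C ^ T.r = 1 from Units.ext (by
      rw [Units.val_pow_eq_pow_val, b, UN.one_add_pow (sq ..)]; simp), map_one]
  have nν : IsNilpotent ν := by simpa using nl 1 0
  have ab : Abel X := abel_of_forall (by
    rintro x ⟨-, C, -, i, j, a, b⟩ y ⟨-, D, -, i', j', a', b'⟩
    exact (c.m.comm_iff a a').2 ⟨1, by rw [b, b', X2.om (sq ..), X2.om (sq ..), add_comm (_ + _) (_ + _)]; simp⟩)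
  have nc : ¬ Cyc X := fun z => by
    obtain ⟨x, hx⟩ := z.exists_gen
    obtain ⟨-, C, -, i, j, a, b⟩ : x ∈ X := hx ▸ mem_zpowers x
    have e : ∀ g ∈ X, ∀ (D : GL (Fin n) F) (δ : R n F), c.m.ρ g = cn D → (D : R n F) = 1 + δ → IsNilpotent δ →
        ∃ t : ℕ, δ = (t : F) • ((i : F) • ν + (j : F) • μ) := fun g m D δ d1 d2 d3 => by
      obtain ⟨t, rfl⟩ := mem_powers_iff_mem_zpowers.2 (hx.ge m)
      obtain ⟨y, hy⟩ := cn_eq.1 (d1.symm.trans (by rw [map_pow, a, ← map_pow]))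
      rw [d2, Units.val_pow_eq_pow_val, b, UN.one_add_pow (sq ..)] at hy
      exact ⟨t, unip_eq d3 ((nl _ _).smul _) hy⟩
    obtain ⟨s, hs⟩ := e k kX A ν hk A3 nν
    obtain ⟨t, ht⟩ := e l lX B μ hl B3 (by simpa using nl 0 1)
    generalize (i : F) • ν + (j : F) • μ = δ at hs ht
    have := (nz t ((T.r - 1) * s) (by
      rw [hs, ht]
      push_cast [rp]
      simp only [CharP.cast_eq_zero]
      module)).1
    simpa using (nz 0 1 (by simp [ht, this])).2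
  have : Fact c.p.Prime := ⟨c.tw.pr⟩
  have : Fact T.r.Prime := ⟨T.pr⟩
  have hN := c.m.N_normal
  have le : c.Q ⊓ c.m.N ≤ c.m.St (Nn I J) := ab.le_of_cent1 nc
    (fun x m => norm_inf c.tw.Qn.norm (le_top.trans (normalizer_eq_top _).ge) m.1)
    (IsPGroup.coprime_card_of_ne _ _ hp.symm _ _ (fun g => ⟨1, Subtype.ext (by simpa using pw g g.2)⟩) c.tw.Qp.to_inf_left)
    (by
      rintro x ⟨-, C, -, i, j, a, b⟩ x1 y ⟨⟨-, m⟩, m'⟩
      obtain ⟨s, -, hs⟩ := c.m.mem_N.1 m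
      obtain ⟨e1, e2⟩ := h i j fun z => x1 (c.m.inj (by rw [a, map_one, cn_eq_one, b, z.1, z.2]; exact ⟨1, by simp⟩))
      have := ((c.m.comm_un (nl _ _) b a).1 (mem_cent1.1 m')).resolve_right
        fun z => c.m.not_lin_du (c.m.lin_of_M (c.m.N_le_M m)) z.1
      change c.m.ρ y ∈ stb _
      rw [← e1, ← e2, hs]
      exact X2.stab (hs ▸ this.2))
  have k1 : k = 1 := c.tw.c2 (L := c.m.N) kH
    (((Nat.coprime_primes T.pr c.tw.pr).2 hp.symm).coprime_dvd_left (orderOf_dvd_of_pow_eq_one (pw k kX)))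
    (fun a => have := c.m.mem_N.2 ⟨A, A1, hk⟩; mul_mem (hN.conj_mem' k this a) (inv_mem this)) fun a m => by
      obtain ⟨s, s1, hs⟩ := c.m.mem_N.1 m.2
      have m1 : cn s ν ∈ Nn I J := hs ▸ (c.m.mem_St.1 (le m) ν).2 mν
      have m2 : cn s ν - ν ∈ Nn I J := by simpa [sub_eq_add_neg] using X2.lin m1 mν 1 (-1)
      obtain ⟨j, hj⟩ := c.m.lift_pow c.tw.Qp (A := s * A * s⁻¹ * A⁻¹) (c.m.mem_lift.2 ⟨(T.comm_S s1.1 A1.1).1,
        a * (k * a⁻¹ * k⁻¹), mul_mem m.1 (c.tw.Qn.conj_mem kH (inv_mem m.1)), by simp [hs, hk, mul_assoc]⟩)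
      rw [show ((s * A * s⁻¹ * A⁻¹ : GL (Fin n) F) : R n F) = 1 + (cn s ν - ν) by
        rw [Units.val_mul, Units.mul_inv_eq_iff_eq_mul, Units.val_mul, Units.val_mul, A3,
          X2.om (X2.mul hIJ m2 mν), mul_add, add_mul, ← cn_apply s ν]
        simp] at hj
      exact ((c.m.comm_un nν A3 hk).2 (.inl ⟨c.m.lin_of_M (c.m.N_le_M m.2),
        hs ▸ sub_eq_zero.1 (T.pow_sc c.tw.pr hp (X2.mul hIJ m2 m2) hj)⟩)).symm
  rw [k1, map_one, eq_comm, cn_eq_one, A3] at hk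
  obtain ⟨z, hz⟩ := hk
  simpa using (nz 1 0 (by simpa using nil_sc nν ⟨z - 1, by rw [sub_smul, ← hz]; simp⟩)).1

/-- The form of `Cx.x2` with `μ = l * ν`. -/
theorem Cx.x3 (c : Cx T n G) (hp : c.p ≠ T.r) {ν l : R n F} (n0 : ν ≠ 0) (n2 : ν * ν = 0) (ns : T.u → T.st ν = -ν)
    (nc : ν * l = l * ν) (lt : T.u → T.st l = l)
    (un : ∀ i j : ℕ, ¬ ((i : F) = 0 ∧ (j : F) = 0) → IsUnit ((i : F) • 1 + (j : F) • l))
    (cen : ∀ s ∈ T.S n, (s : R n F) = 1 + ν ∨ (s : R n F) = 1 + l * ν → s ∈ c.m.lift c.H) : False := by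
  have := T.char
  obtain ⟨A, a, a'⟩ := Ty.skew_un n2 ns
  obtain ⟨B, b, b'⟩ := Ty.skew_un (ν := l * ν) (by rw [mul_assoc, ← mul_assoc ν, nc, mul_assoc, n2]; simp)
    fun hu => by rw [T.st_mul, ns hu, lt hu, neg_mul, nc]
  refine c.x2 hp (I := rg ν) (J := kr ν) (fun z => n0 (ext_iff_mulVec.2 fun x => ?_)) (fun x m => ?_) (fun i j k => ?_)
    ⟨A, a, cen A a (.inl a'), a'⟩ ⟨B, b, cen B b (.inr b'), b'⟩
  · simpa using z.le (mem_rg.2 ⟨x, rfl⟩)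
  · obtain ⟨w, rfl⟩ := mem_rg.1 m
    rw [mem_kr, mulVec_mulVec, n2, zero_mulVec]
  · rw [show i • ν + j • (l * ν) = ((i : F) • 1 + (j : F) • l) * ν by
      rw [add_mul, smul_mul_assoc, smul_mul_assoc, one_mul, Nat.cast_smul_eq_nsmul, Nat.cast_smul_eq_nsmul]]
    exact X2.rk (un i j (by simpa only [CharP.cast_eq_zero_iff F T.r] using k)) (by simp [mul_add, add_mul, nc])

end CF.Wb
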